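import Cfsg.Agent.LocalEven.JExistence
import Cfsg.Agent.Fusion.Basic

/-!
Maximal straddling 2-subgroups and their overgroups.
-/

set_option autoImplicit false

open Cfsg

namespace Cfsg.Agent.LocalEven

variable {G : Type*} [Group G] [Finite G] {T M L : Subgroup G}

theorem maxElemAbelianOrder_eq {A : Subgroup G} (hA : A ∈ Modules.maxElemAbIn 2 T) :
    maxElemAbelianOrder T = Nat.card A := by
  have hmem : A.subgroupOf T ∈ maxElementaryAbelianSubgroups 2 ↥T := by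
    rw [Modules.mem_maxElementaryAbelianSubgroups_iff, Subgroup.map_subgroupOf_eq_of_le hA.1]
    exact hA
  have hset : (fun B : Subgroup ↥T => Nat.card ↥B) '' maxElementaryAbelianSubgroups 2 ↥T =
      {Nat.card A} := by
    ext n
    constructor
    · rintro ⟨B, hB, rfl⟩
      rw [Modules.mem_maxElementaryAbelianSubgroups_iff] at hB
      show Nat.card B = Nat.card A
      rw [← Subgroup.card_map_of_injective (f := T.subtype) T.subtype_injective]
      exact Modules.maxElemAbIn_card_eq hB hA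
    · rintro rfl
      exact ⟨_, hmem, Nat.card_congr (Subgroup.subgroupOfEquivOfLe hA.1).toEquiv⟩
  rw [maxElemAbelianOrder, hset, csSup_singleton]

/-- A straddling subgroup containing `J(T)` of a maximal one has the same `J`, and is no larger. -/
theorem straddle_thompson_eq (hT : T ∈ maxStraddlingTwoSubgroups M) {R : Subgroup G}
    (hR : R ∈ straddlingTwoSubgroups M) (hJR : thompsonSubgroupOf 2 T ≤ R) :
    thompsonSubgroupOf 2 R = thompsonSubgroupOf 2 T ∧ Nat.card R ≤ Nat.card T := by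
  obtain ⟨A, hA⟩ := Modules.maxElemAbIn_nonempty 2 T
  obtain ⟨A', hA'⟩ := Modules.maxElemAbIn_nonempty 2 R
  obtain ⟨h1, h2⟩ := hT.2 R hR
  rw [maxElemAbelianOrder_eq hA', maxElemAbelianOrder_eq hA] at h1
  have hcard : Nat.card A' = Nat.card A :=
    le_antisymm h1 (hA'.2.2 A ((Modules.le_thompsonSubgroupOf hA).trans hJR) hA.2.1)
  obtain ⟨h3, h4⟩ := h2 (by rw [maxElemAbelianOrder_eq hA', maxElemAbelianOrder_eq hA, hcard])
  have hle : thompsonSubgroupOf 2 T ≤ thompsonSubgroupOf 2 R := by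
    rw [Modules.thompsonSubgroupOf_eq_sSup 2 T]
    refine sSup_le fun B hB => Modules.le_thompsonSubgroupOf
      ⟨(Modules.le_thompsonSubgroupOf hB).trans hJR, hB.2.1, fun D hD hDe => ?_⟩
    exact ((hA'.2.2 D hD hDe).trans hcard.le).trans (hB.2.2 A hA.1 hA.2.1)
  have heq := (Subgroup.eq_of_le_of_card_ge hle h3).symm
  exact ⟨heq, h4 (by rw [heq])⟩

/-- `O₂` of a 2-local subgroup contains its centralizer. -/
theorem centralizer_pCoreOf_le_of_twoLocal (hG : IsCharacteristicTwoType G) (hL : IsTwoLocal L) :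
    Subgroup.centralizer (pCoreOf 2 L : Set G) ≤ pCoreOf 2 L := by
  obtain ⟨U, hU2, hU1, hLU⟩ := hL
  subst hLU
  have hUQ : U ≤ pCoreOf 2 (Subgroup.normalizer (U : Set G)) :=
    LocalP.le_pCoreOf Subgroup.le_normalizer le_rfl hU2
  intro c hc
  have hcN : c ∈ Subgroup.normalizer (U : Set G) :=
    Subgroup.centralizer_le_normalizer _ (Subgroup.centralizer_le (SetLike.coe_subset_coe.2 hUQ) hc)
  refine ⟨⟨c, hcN⟩, hG.2 U hU2 hU1 ?_, rfl⟩
  rw [Subgroup.mem_centralizer_iff]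
  intro q hq
  exact Subtype.ext (Subgroup.mem_centralizer_iff.1 hc q ⟨q, hq, rfl⟩)

theorem thompson_ne_bot_of_ne_bot (hT2 : IsPGroup 2 T) (hT1 : T ≠ ⊥) :
    thompsonSubgroupOf 2 T ≠ ⊥ := by
  haveI : Fact (Nat.Prime 2) := ⟨Nat.prime_two⟩
  refine Modules.thompsonSubgroupOf_ne_bot ?_
  obtain ⟨n, hn⟩ := IsPGroup.iff_card.1 hT2
  rw [hn]
  refine dvd_pow_self 2 fun h0 => hT1 ?_
  rw [h0, pow_zero] at hn
  exact Subgroup.card_eq_one.1 hn

/-- For a maximal straddling `T`, `N_G(J(T)) ≤ M`. -/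
theorem normalizer_thompson_le (S : Sylow 2 G)
    (hMJ : Subgroup.normalizer (thompsonSubgroupOf 2 (S : Subgroup G) : Set G) ≤ M)
    (hT : T ∈ maxStraddlingTwoSubgroups M) :
    Subgroup.normalizer (thompsonSubgroupOf 2 T : Set G) ≤ M := by
  haveI : Fact (Nat.Prime 2) := ⟨Nat.prime_two⟩
  obtain ⟨hT2, hT1, hTM, -⟩ := hT.1
  obtain ⟨S', hS', hTS'⟩ := exists_isSylowTwoIn hT2 hTM
  have hSM : (S : Subgroup G) ≤ M := Subgroup.le_normalizer.trans
    ((Modules.normalizer_le_normalizer_thompsonSubgroupOf 2 _).trans hMJ)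
  have hSM' : IsSylowTwoIn (S : Subgroup G) M := by
    refine ⟨hSM, S.isPGroup', Nat.not_even_iff_odd.1 fun h => S.not_dvd_index ?_⟩
    exact (even_iff_two_dvd.1 h).trans (Dvd.intro _ (Subgroup.relIndex_mul_index hSM))
  obtain ⟨m, hm, hmS⟩ := exists_conj_of_isSylowTwoIn hSM' hS'
  have hNS' : Subgroup.normalizer (thompsonSubgroupOf 2 S' : Set G) ≤ M := by
    rw [← hmS, ← Modules.conj_thompsonSubgroupOf]
    intro n hn
    rw [← Subgroup.map_equiv_normalizer_eq] at hn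
    obtain ⟨n₀, hn₀, rfl⟩ := hn
    exact mul_mem (mul_mem hm (hMJ hn₀)) (inv_mem hm)
  by_cases hTeq : T = S'
  · rw [hTeq]; exact hNS'
  have hlt := Fusion.lt_normalizer_inf hS'.2.1 (lt_of_le_of_ne hTS' hTeq)
  by_contra hcon
  set T₁ := S' ⊓ Subgroup.normalizer (T : Set G)
  have hstr : T₁ ∈ straddlingTwoSubgroups M := by
    refine ⟨hS'.2.1.to_le inf_le_left, ne_bot_of_le_ne_bot hT1 hlt.le, inf_le_left.trans hS'.1,
      _, ⟨_, thompsonOf_isPGroup hT2, thompson_ne_bot_of_ne_bot hT2 hT1, rfl⟩,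
      inf_le_right.trans (Modules.normalizer_le_normalizer_thompsonSubgroupOf 2 T), hcon⟩
  have h := (straddle_thompson_eq hT hstr ((thompsonOf_le T).trans hlt.le)).2
  exact absurd (Subgroup.eq_of_le_of_card_ge hlt.le h) hlt.ne

/-- A 2-local subgroup not in `M` with a Sylow subgroup containing `J(T)`. -/
theorem straddle_overgroup (hz : ZNHyp G) (hT : T ∈ maxStraddlingTwoSubgroups M)
    (hNJ : Subgroup.normalizer (thompsonSubgroupOf 2 T : Set G) ≤ M) (hL : IsTwoLocal L)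
    (hLM : ¬ L ≤ M) {T₀ : Subgroup G} (hT₀ : IsSylowTwoIn T₀ L)
    (hJT₀ : thompsonSubgroupOf 2 T ≤ T₀) :
    thompsonSubgroupOf 2 T = thompsonSubgroupOf 2 T₀ ∧ T₀ ∈ straddlingTwoSubgroups M ∧
      L ∈ jOvergroups T₀ := by
  haveI : Fact (Nat.Prime 2) := ⟨Nat.prime_two⟩
  obtain ⟨hT2, hT1, hTM, -⟩ := hT.1
  have hJne := thompson_ne_bot_of_ne_bot hT2 hT1
  set R := T₀ ⊓ M with hR
  have hJM : thompsonSubgroupOf 2 T ≤ M := (thompsonOf_le T).trans hTM
  have hRs : R ∈ straddlingTwoSubgroups M :=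
    ⟨hT₀.2.1.to_le inf_le_left, ne_bot_of_le_ne_bot hJne (le_inf hJT₀ hJM), inf_le_right, L, hL,
      inf_le_left.trans hT₀.1, hLM⟩
  obtain ⟨hJR, -⟩ := straddle_thompson_eq hT hRs (le_inf hJT₀ hJM)
  have hRT : R = T₀ := by
    by_contra hne
    have hlt := Fusion.lt_normalizer_inf hT₀.2.1 (lt_of_le_of_ne inf_le_left hne)
    refine absurd (?_ : T₀ ⊓ Subgroup.normalizer (R : Set G) ≤ R) (not_le_of_gt hlt)
    refine le_inf inf_le_left ?_
    refine (inf_le_right.trans (Modules.normalizer_le_normalizer_thompsonSubgroupOf 2 R)).trans ?_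
    rw [hJR]; exact hNJ
  rw [hRT] at hJR hRs
  refine ⟨hJR.symm, hRs, hT₀, fun hle => hLM ?_, centralizer_pCoreOf_le_of_twoLocal hz.char2 hL⟩
  have h1 : thompsonSubgroupOf 2 (pCoreOf 2 L) = thompsonSubgroupOf 2 T₀ :=
    Modules.thompsonSubgroupOf_eq_of_le (pCoreOf_le_sylow hT₀) hle
  refine (le_normalizer_pCoreOf L 2).trans
    ((Modules.normalizer_le_normalizer_thompsonSubgroupOf 2 _).trans ?_)
  rw [h1, hJR]; exact hNJ

/-- If `T ≤ L` then `T` is Sylow in `L`. -/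
theorem straddle_sylow (hz : ZNHyp G) (hT : T ∈ maxStraddlingTwoSubgroups M)
    (hNJ : Subgroup.normalizer (thompsonSubgroupOf 2 T : Set G) ≤ M) (hL : IsTwoLocal L)
    (hLM : ¬ L ≤ M) (hTL : T ≤ L) : L ∈ jOvergroups T := by
  obtain ⟨T₁, hT₁, hTT₁⟩ := exists_isSylowTwoIn hT.1.1 hTL
  obtain ⟨-, hs, hj⟩ := straddle_overgroup hz hT hNJ hL hLM hT₁ ((thompsonOf_le T).trans hTT₁)
  have h := (straddle_thompson_eq hT hs ((thompsonOf_le T).trans hTT₁)).2
  rwa [← Subgroup.eq_of_le_of_card_ge hTT₁ h] at hj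

/-- A member of `𝒦₀` outside `M` with `O₂(⟨K, T⟩) ≠ 1`. -/
theorem jComponentsOutside_nonempty (hz : ZNHyp G) (S : Sylow 2 G)
    (hMJ : Subgroup.normalizer (thompsonSubgroupOf 2 (S : Subgroup G) : Set G) ≤ M)
    (hT : T ∈ maxStraddlingTwoSubgroups M) : (jComponentsOutside M T).Nonempty := by
  have hNJ := normalizer_thompson_le S hMJ hT
  obtain ⟨hT2, hT1, hTM, L, hL, hTL, hLM⟩ := hT.1
  have hover := straddle_sylow hz hT hNJ hL hLM hTL
  obtain ⟨K, hK, hKL, hKM⟩ := exists_component_not_le hz hover hT2 hLM (inf_le_right.trans hNJ)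
  refine ⟨K, ⟨hK, fun S₀ hJS hS₀ => ?_⟩, hKM, ?_⟩
  · have hWne : wOf K ≠ ⊥ := fun h => by
      have h4 := hK.2.2.2.2.1
      rw [h, Subgroup.card_bot] at h4
      omega
    exact (straddle_overgroup hz hT hNJ
      ⟨wOf K, Modules.elemAb_isPGroup (wOf_elemAb K), hWne, rfl⟩
      (fun h => hKM ((le_normalizer_wOf K).trans h)) hS₀ hJS).1.symm
  · have hle : K ⊔ T ≤ L := sup_le hKL hTL
    have hQle : pCoreOf 2 L ≤ pCoreOf 2 (K ⊔ T) :=
      LocalP.le_pCoreOf ((pCoreOf_le_sylow hover.1).trans le_sup_right)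
        (hle.trans (le_normalizer_pCoreOf L 2)) (LocalP.pCoreOf_isPGroup L)
    refine ne_bot_of_le_ne_bot (fun h => ?_) hQle
    have h1 := hover.2.2
    rw [h] at h1
    have hTb : (T : Subgroup G) ≤ ⊥ := fun g _ => h1 (by
      rw [Subgroup.mem_centralizer_iff]
      intro u hu
      rw [SetLike.mem_coe, Subgroup.mem_bot] at hu
      simp [hu])
    exact hT1 (le_bot_iff.1 hTb)

end Cfsg.Agent.LocalEven
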