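import Cfsg.Agent.S0215
import Cfsg.Agent.FusionSys.ZStarCenter
import Cfsg.Agent.Cores.Pi
import Cfsg.Agent.LocalEven.JStraddling

/-!
`G = QN` with a central commutator element of the 2-group `Q` having the centralizer of `Q` in `N`.
-/

set_option autoImplicit false

open Cfsg
open scoped commutatorElement

namespace Cfsg.Agent.LocalEven.CentralComm

variable {G : Type*} [Group G] [Finite G]

omit [Finite G] in
/-- A crossed map with values in an abelian group kills commutators. -/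
theorem eq_one_of_hom_abelian {Q D : Subgroup G} (f : ↥Q → G) (hf : ∀ a, f a ∈ D)
    (hmul : ∀ a b, f (a * b) = f a * f b) (hc : ∀ a b, f a * f b = f b * f a) {t : G}
    (ht : t ∈ ⁅Q, Q⁆) (htQ : t ∈ Q) : f ⟨t, htQ⟩ = 1 := by
  have h1 : f 1 = 1 := by simpa using hmul 1 1
  let φ : ↥Q →* G := ⟨⟨f, h1⟩, hmul⟩
  have hle : commutator ↥Q ≤ φ.ker := by
    rw [commutator_def, Subgroup.commutator_le]
    intro a _ b _
    rw [MonoidHom.mem_ker, map_commutatorElement]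
    exact commutatorElement_eq_one_iff_mul_comm.2 (hc a b)
  have hm : t ∈ (commutator ↥Q).map Q.subtype := by
    rwa [Subgroup.map_subtype_commutator]
  obtain ⟨s, hs, rfl⟩ := hm
  exact MonoidHom.mem_ker.1 (hle hs)

/-- `t` centralizes every `Q`-invariant 2-subgroup of `N`. -/
theorem centralizes_invariant (N Q R : Subgroup G) (hQ : IsPGroup 2 Q) (hR : IsPGroup 2 R)
    (hRN : R ≤ N) (hdisj : Q ⊓ N = ⊥) (hQR : Q ≤ Subgroup.normalizer (R : Set G)) {t : G}
    (htQ : t ∈ Q) (htc : t ∈ ⁅Q, Q⁆)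
    (hC : N ⊓ Subgroup.centralizer (Q : Set G) = N ⊓ Subgroup.centralizer ({t} : Set G)) :
    R ≤ Subgroup.centralizer ({t} : Set G) := by
  by_contra hcon
  haveI : Fact (Nat.Prime 2) := ⟨Nat.prime_two⟩
  set C := R ⊓ Subgroup.centralizer ({t} : Set G) with hCdef
  have hCQ : ∀ c ∈ C, ∀ q ∈ Q, q * c = c * q := by
    intro c hc q hq
    have : c ∈ N ⊓ Subgroup.centralizer (Q : Set G) := hC ▸ ⟨hRN hc.1, hc.2⟩
    exact Subgroup.mem_centralizer_iff.1 this.2 q hq
  have hQC : Q ≤ Subgroup.normalizer (C : Set G) := fun q hq => by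
    rw [Subgroup.mem_normalizer_iff_map_conj_eq]
    refine Subgroup.eq_of_le_of_card_ge ?_
      (Subgroup.card_map_of_injective (f := (MulAut.conj q).toMonoidHom)
        (MulAut.conj q).injective).ge
    rintro _ ⟨c, hc, rfl⟩
    change q * c * q⁻¹ ∈ C
    rw [hCQ c hc q hq, mul_inv_cancel_right]; exact hc
  have hP : IsPGroup 2 (Q ⊔ R : Subgroup G) := hQ.to_sup_of_normal_right' hR hQR
  -- an element of `N_R(C)` fixed by `Q` modulo `C`
  have hne : C ≠ R := fun e => hcon (e ▸ inf_le_right)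
  set D := Q ⊔ C
  have hDR : ∀ d ∈ D, d ∈ R → d ∈ C := by
    intro d hd hdR
    have hd' : d ∈ (↑(Q ⊔ C) : Set G) := hd
    rw [Subgroup.coe_mul_of_left_le_normalizer_right Q C hQC] at hd'
    obtain ⟨q, hq, c, hc, rfl⟩ := Set.mem_mul.1 hd'
    have : q ∈ Q ⊓ N := ⟨hq, hRN (by simpa using mul_mem hdR (inv_mem hc.1))⟩
    rw [hdisj, Subgroup.mem_bot] at this
    rw [this, one_mul]; exact hc
  have hltD : D < Q ⊔ R := by
    refine lt_of_le_of_ne (sup_le le_sup_left (inf_le_left.trans le_sup_right)) fun e => ?_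
    exact hne (le_antisymm inf_le_left fun r hr => hDR r (e ▸ Subgroup.mem_sup_right hr) hr)
  obtain ⟨y, ⟨hyP, hyN⟩, hyD⟩ := SetLike.exists_of_lt (Fusion.lt_normalizer_inf hP hltD)
  have hy' : y ∈ (↑(Q ⊔ R) : Set G) := hyP
  rw [Subgroup.coe_mul_of_left_le_normalizer_right Q R hQR] at hy'
  obtain ⟨q₀, hq₀, x, hxR, rfl⟩ := Set.mem_mul.1 hy'
  have hxN : x ∈ Subgroup.normalizer (D : Set G) := by
    have := mul_mem (inv_mem (Subgroup.le_normalizer (Subgroup.mem_sup_left hq₀ : q₀ ∈ D))) hyN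
    rwa [inv_mul_cancel_left] at this
  have hxC : x ∉ C := fun hc => hyD (Subgroup.mul_mem_sup hq₀ hc)
  have hxn : x ∈ Subgroup.normalizer (C : Set G) := by
    rw [Subgroup.mem_normalizer_iff_map_conj_eq]
    refine Subgroup.eq_of_le_of_card_ge ?_
      (Subgroup.card_map_of_injective (f := (MulAut.conj x).toMonoidHom)
        (MulAut.conj x).injective).ge
    rintro _ ⟨c, hc, rfl⟩
    exact hDR _ ((Subgroup.mem_normalizer_iff.1 hxN c).1 (Subgroup.mem_sup_right hc))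
      (mul_mem (mul_mem hxR hc.1) (inv_mem hxR))
  have hxq : ∀ q ∈ Q, q * x * q⁻¹ * x⁻¹ ∈ C := by
    intro q hq
    refine hDR _ ?_ (mul_mem ((Subgroup.mem_normalizer_iff.1 (hQR hq) x).1 hxR) (inv_mem hxR))
    rw [show q * x * q⁻¹ * x⁻¹ = q * (x * q⁻¹ * x⁻¹) by group]
    exact mul_mem (Subgroup.mem_sup_left hq)
      ((Subgroup.mem_normalizer_iff.1 hxN _).1 (Subgroup.mem_sup_left (inv_mem hq)))
  -- the commutator map
  have hfix : ∀ q ∈ Q, ∀ c ∈ C, (q * x * q⁻¹ * x⁻¹) * c = c * (q * x * q⁻¹ * x⁻¹) := by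
    intro q hq c hc
    have hc' : x⁻¹ * c * x ∈ C := by
      have := (Subgroup.mem_normalizer_iff.1 (inv_mem hxn) c).1 hc
      rwa [inv_inv] at this
    have e := hCQ _ hc' q hq
    have e2 := hCQ _ hc q hq
    calc (q * x * q⁻¹ * x⁻¹) * c = q * x * q⁻¹ * (x⁻¹ * c * x) * x⁻¹ := by group
      _ = q * x * ((x⁻¹ * c * x) * q⁻¹) * x⁻¹ := by
          congr 1
          rw [mul_assoc (q * x)]
          congr 1
          rw [← mul_left_inj q, inv_mul_cancel_right]
          rw [mul_assoc q⁻¹, ← e, inv_mul_cancel_left]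
      _ = q * c * (x * q⁻¹ * x⁻¹) := by group
      _ = c * (q * x * q⁻¹ * x⁻¹) := by rw [e2]; group
  refine hxC ⟨hxR, Subgroup.mem_centralizer_singleton_iff.2 ?_⟩
  have h1 := eq_one_of_hom_abelian (Q := Q) (D := C)
    (fun q => (q : G) * x * (q : G)⁻¹ * x⁻¹) (fun q => hxq q q.2) (fun a b => ?_)
    (fun a b => hfix a a.2 _ (hxq b b.2)) htc htQ
  · have h2 : t * x * t⁻¹ = x := mul_inv_eq_one.1 h1
    exact (mul_inv_eq_iff_eq_mul.1 h2).symm
  · have e := hCQ _ (hxq b b.2) a a.2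
    have e' := hfix a a.2 _ (hxq b b.2)
    simp only [Subgroup.coe_mul]
    calc (a : G) * b * x * ((a : G) * b)⁻¹ * x⁻¹
        = (a : G) * ((b : G) * x * (b : G)⁻¹ * x⁻¹) * (x * (a : G)⁻¹ * x⁻¹) := by group
      _ = ((b : G) * x * (b : G)⁻¹ * x⁻¹) * ((a : G) * x * (a : G)⁻¹ * x⁻¹) := by rw [e]; group
      _ = _ := e'.symm

/-- `t` commutes with no other conjugate under `N`. -/
theorem conj_eq_of_commute (N Q : Subgroup G) [N.Normal] {t n : G}
    (htQ : t ∈ Q) (htZ : ∀ q ∈ Q, q * t = t * q) (htc : t ∈ ⁅Q, Q⁆)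
    (hC : N ⊓ Subgroup.centralizer (Q : Set G) = N ⊓ Subgroup.centralizer ({t} : Set G))
    (hn : n ∈ N) (hcomm : Commute (n * t * n⁻¹) t) : n * t * n⁻¹ = t := by
  have hCC : ∀ c ∈ N, c * t = t * c → ∀ q ∈ Q, q * c = c * q := by
    intro c hc hct q hq
    have : c ∈ N ⊓ Subgroup.centralizer (Q : Set G) :=
      hC ▸ ⟨hc, Subgroup.mem_centralizer_singleton_iff.2 hct⟩
    exact Subgroup.mem_centralizer_iff.1 this.2 q hq
  set u := n * t * n⁻¹ with hu
  set D := N ⊓ Subgroup.centralizer ({t, u} : Set G) with hD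
  have hDmem : ∀ c, c ∈ D ↔ c ∈ N ∧ c * t = t * c ∧ c * u = u * c := by
    intro c
    simp only [hD, Subgroup.mem_inf, Subgroup.mem_centralizer_iff, Set.mem_insert_iff,
      Set.mem_singleton_iff, forall_eq_or_imp, forall_eq]
    tauto
  have hQD : ∀ q ∈ Q, ∀ c ∈ D, q * c = c * q := fun q hq c hc =>
    hCC c ((hDmem c).1 hc).1 ((hDmem c).1 hc).2.1 q hq
  have hQD' : ∀ q ∈ Q, ∀ c ∈ D, n * q * n⁻¹ * c = c * (n * q * n⁻¹) := by
    intro q hq c hc
    obtain ⟨hcN, -, hcu⟩ := (hDmem c).1 hc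
    have hc1 : n⁻¹ * c * n * t = t * (n⁻¹ * c * n) := by
      calc n⁻¹ * c * n * t = n⁻¹ * (c * (n * t * n⁻¹)) * n := by group
        _ = n⁻¹ * ((n * t * n⁻¹) * c) * n := by rw [← hu, hcu]
        _ = t * (n⁻¹ * c * n) := by group
    have e := hCC _ (mul_mem (mul_mem (inv_mem hn) hcN) hn) hc1 q hq
    calc n * q * n⁻¹ * c = n * (q * (n⁻¹ * c * n)) * n⁻¹ := by group
      _ = c * (n * q * n⁻¹) := by rw [e]; group
  -- `r = t⁻¹ u` lies in `D`
  have hr : t⁻¹ * u ∈ D := by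
    refine (hDmem _).2 ⟨?_, ?_, ?_⟩
    · have : t⁻¹ * u = (t⁻¹ * n * t) * n⁻¹ := by rw [hu]; group
      rw [this]
      exact mul_mem ((Subgroup.Normal.mem_comm_iff inferInstance).1
        (by simpa [mul_assoc] using hn)) (inv_mem hn)
    · rw [mul_assoc, hcomm.eq]; group
    · rw [← mul_assoc u, ← (hcomm.inv_right).eq.symm]
  have hmem : ∀ q ∈ Q, q⁻¹ * (n * q * n⁻¹) ∈ D := by
    intro q hq
    have e1 := hQD q hq _ hr
    have e2 := hQD' q hq _ hr
    refine (hDmem _).2 ⟨?_, ?_, ?_⟩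
    · rw [show q⁻¹ * (n * q * n⁻¹) = (q⁻¹ * n * q) * n⁻¹ by group]
      exact mul_mem ((Subgroup.Normal.mem_comm_iff inferInstance).1
        (by simpa [mul_assoc] using hn)) (inv_mem hn)
    · have a1 : Commute q t := htZ q hq
      have a2 : Commute (n * q * n⁻¹) t := by
        have h3 : Commute (n * q * n⁻¹) u := by
          show n * q * n⁻¹ * (n * t * n⁻¹) = n * t * n⁻¹ * (n * q * n⁻¹)
          calc n * q * n⁻¹ * (n * t * n⁻¹) = n * (q * t) * n⁻¹ := by group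
            _ = _ := by rw [htZ q hq]; group
        have h4 := h3.mul_right (show Commute (n * q * n⁻¹) (t⁻¹ * u) from e2).inv_right
        rwa [show u * (t⁻¹ * u)⁻¹ = t by group] at h4
      exact a1.inv_left.mul_left a2
    · have a1 : Commute q u := by
        have h4 := (show Commute q t from htZ q hq).mul_right (show Commute q (t⁻¹ * u) from e1)
        rwa [mul_inv_cancel_left] at h4
      have a2 : Commute (n * q * n⁻¹) u := by
        show n * q * n⁻¹ * (n * t * n⁻¹) = n * t * n⁻¹ * (n * q * n⁻¹)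
        calc n * q * n⁻¹ * (n * t * n⁻¹) = n * (q * t) * n⁻¹ := by group
          _ = _ := by rw [htZ q hq]; group
      exact a1.inv_left.mul_left a2
  have hcent : ∀ q ∈ Q, ∀ c ∈ D, q⁻¹ * (n * q * n⁻¹) * c = c * (q⁻¹ * (n * q * n⁻¹)) := by
    intro q hq c hc
    exact ((show Commute q c from hQD q hq c hc).inv_left.mul_left
      (show Commute (n * q * n⁻¹) c from hQD' q hq c hc)).eq
  have h1 := eq_one_of_hom_abelian (Q := Q) (D := D)
    (fun q => (q : G)⁻¹ * (n * (q : G) * n⁻¹)) (fun q => hmem q q.2) (fun a b => ?_)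
    (fun a b => hcent a a.2 _ (hmem b b.2)) htc htQ
  · exact (inv_mul_eq_one.1 h1).symm
  · have e := hQD b b.2 _ (hmem a a.2)
    simp only [Subgroup.coe_mul]
    calc ((a : G) * b)⁻¹ * (n * ((a : G) * b) * n⁻¹)
        = (b : G)⁻¹ * ((a : G)⁻¹ * (n * a * n⁻¹)) * (n * b * n⁻¹) := by group
      _ = _ := by
          rw [show (b : G)⁻¹ * ((a : G)⁻¹ * (n * a * n⁻¹)) =
              ((a : G)⁻¹ * (n * a * n⁻¹)) * (b : G)⁻¹ from
            ((show Commute (b : G) _ from e).inv_left).eq, mul_assoc]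

/-- Powers of an element weakly closed in a Sylow subgroup are weakly closed. -/
theorem pow_weakly_closed {p : ℕ} [Fact p.Prime] (P : Sylow p G) {x : G} (hx : x ∈ P)
    (hiso : ∀ g : G, g * x * g⁻¹ ∈ P → g * x * g⁻¹ = x) {y : G} (hy : y ∈ Subgroup.zpowers x)
    (g : G) (hg : g * y * g⁻¹ ∈ P) : g * y * g⁻¹ = y := by
  obtain ⟨i, rfl⟩ := hy
  change g * x ^ i * g⁻¹ = x ^ i
  change g * x ^ i * g⁻¹ ∈ P at hg
  have hxc : ∀ s ∈ P, s * x = x * s := fun s hs =>
    mul_inv_eq_iff_eq_mul.1 (hiso s (mul_mem (mul_mem hs hx) (inv_mem hs)))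
  set C := Subgroup.centralizer ({g * x ^ i * g⁻¹} : Set G)
  have h1 : x ∈ C := Subgroup.mem_centralizer_singleton_iff.2 (hxc _ hg).symm
  have h2 : g * x * g⁻¹ ∈ C := Subgroup.mem_centralizer_singleton_iff.2 (by
    rw [← conj_zpow]
    exact (((Commute.refl (g * x * g⁻¹)).zpow_right i)).eq)
  have hp : ∀ z, z ∈ C → (∃ k, orderOf z ∣ p ^ k) →
      ∃ P₁ : Sylow p ↥C, z ∈ (P₁ : Subgroup ↥C).map C.subtype := by
    intro z hz hk
    obtain ⟨k, hk⟩ := hk
    obtain ⟨j, -, hj⟩ := (Nat.dvd_prime_pow Fact.out).1 hk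
    have : IsPGroup p (Subgroup.zpowers (⟨z, hz⟩ : ↥C)) :=
      IsPGroup.of_card (n := j) (by rw [Nat.card_zpowers, Subgroup.orderOf_mk, hj])
    obtain ⟨P₁, hP₁⟩ := this.exists_le_sylow
    exact ⟨P₁, ⟨⟨z, hz⟩, hP₁ (Subgroup.mem_zpowers _), rfl⟩⟩
  obtain ⟨k, hk⟩ := P.isPGroup' ⟨x, hx⟩
  have hxk : x ^ p ^ k = 1 := congrArg Subtype.val hk
  obtain ⟨P₁, hP₁⟩ := hp x h1 ⟨k, orderOf_dvd_of_pow_eq_one hxk⟩
  obtain ⟨P₂, hP₂⟩ := hp (g * x * g⁻¹) h2 ⟨k, orderOf_dvd_of_pow_eq_one (by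
    rw [conj_pow, hxk]; group)⟩
  obtain ⟨c, hc⟩ := MulAction.exists_smul_eq ↥C P₂ P₁
  obtain ⟨z, hz, hzx⟩ := hP₂
  have hz' : c * z * c⁻¹ ∈ (P₁ : Subgroup ↥C) := by
    rw [← hc, PSolv.coe_sylow_smul]; exact ⟨z, hz, rfl⟩
  obtain ⟨Q, hQ⟩ := (P₁.isPGroup'.map C.subtype).exists_le_sylow
  obtain ⟨a, ha⟩ := MulAction.exists_smul_eq G Q P
  have hmem : ∀ v ∈ (P₁ : Subgroup ↥C).map C.subtype, a * v * a⁻¹ ∈ P := by
    intro v hv
    rw [← ha]
    show a * v * a⁻¹ ∈ ((a • Q : Sylow p G) : Subgroup G)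
    rw [PSolv.coe_sylow_smul]
    exact ⟨v, hQ hv, rfl⟩
  have e1 := hiso a (hmem x hP₁)
  have e2 := hiso (a * ((c : G) * g)) (by
    have := hmem _ ⟨_, hz', rfl⟩
    convert this using 1
    rw [Subgroup.coe_subtype, Subgroup.coe_mul, Subgroup.coe_mul, Subgroup.coe_inv,
      show (z : G) = g * x * g⁻¹ from hzx]
    group)
  have e3 : (c : G) * g * x * ((c : G) * g)⁻¹ = x := by
    have : a * ((c : G) * g * x * ((c : G) * g)⁻¹) * a⁻¹ = a * x * a⁻¹ := by
      rw [e1]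
      convert e2 using 1
      group
    exact mul_left_cancel (mul_right_cancel this)
  have e4 : (c : G) * g * x ^ i * ((c : G) * g)⁻¹ = x ^ i := by rw [← conj_zpow, e3]
  have e5 := Subgroup.mem_centralizer_singleton_iff.1 c.2
  rw [← mul_inv_eq_iff_eq_mul] at e5
  rw [← e5]
  convert e4 using 1
  group

/-- `[N, Q]` has odd order. -/
theorem odd_commutator (N Q : Subgroup G) [N.Normal] (hG : Q ⊔ N = ⊤) (hQ : IsPGroup 2 ↥Q)
    (hdisj : Q ⊓ N = ⊥) (t : G) (htZ : t ∈ Q ⊓ Subgroup.centralizer (Q : Set G))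
    (htQ : t ∈ ⁅Q, Q⁆)
    (hC : N ⊓ Subgroup.centralizer (Q : Set G) = N ⊓ Subgroup.centralizer ({t} : Set G)) :
    Odd (Nat.card ↥⁅N, Q⁆) := by
  haveI : Fact (Nat.Prime 2) := ⟨Nat.prime_two⟩
  have htc : ∀ q ∈ Q, q * t = t * q := fun q hq => Subgroup.mem_centralizer_iff.1 htZ.2 q hq
  have hdec : ∀ g : G, ∃ q ∈ Q, ∃ n ∈ N, g = n * q := by
    intro g
    have hg : g ∈ (↑(N ⊔ Q) : Set G) := by rw [sup_comm, hG]; trivial
    rw [Subgroup.normal_mul] at hg
    obtain ⟨n, hn, q, hq, rfl⟩ := Set.mem_mul.1 hg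
    exact ⟨q, hq, n, hn, rfl⟩
  obtain ⟨P, hP⟩ := hQ.exists_le_sylow
  have hPt : (P : Subgroup G) ≤ Subgroup.centralizer ({t} : Set G) := by
    intro g hg
    obtain ⟨q, hq, n, hn, rfl⟩ := hdec g
    have hnP : n ∈ (P : Subgroup G) := by simpa using mul_mem hg (inv_mem (hP hq))
    have hR : (P : Subgroup G) ⊓ N ≤ Subgroup.centralizer ({t} : Set G) :=
      centralizes_invariant N Q ((P : Subgroup G) ⊓ N) hQ (P.isPGroup'.to_le inf_le_left)
        inf_le_right hdisj (Modules.normalizes_inf (hP.trans Subgroup.le_normalizer)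
          (by rw [Subgroup.normalizer_eq_top_iff.2 (inferInstance : N.Normal)]; exact le_top)) htZ.1
        htQ hC
    exact mul_mem (hR ⟨hnP, hn⟩) (Subgroup.mem_centralizer_singleton_iff.2 (htc q hq))
  have hiso : ∀ g : G, g * t * g⁻¹ ∈ P → g * t * g⁻¹ = t := by
    intro g hg
    obtain ⟨q, hq, n, hn, rfl⟩ := hdec g
    have e : n * q * t * (n * q)⁻¹ = n * t * n⁻¹ := by
      calc n * q * t * (n * q)⁻¹ = n * (q * t) * q⁻¹ * n⁻¹ := by group
        _ = n * t * n⁻¹ := by rw [htc q hq]; group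
    rw [e] at hg ⊢
    exact conj_eq_of_commute N Q htZ.1 htc htQ hC hn
      (Subgroup.mem_centralizer_singleton_iff.1 (hPt hg))
  have hO : ∀ g, ⁅t, g⁆ ∈ oddCore G :=
    FusionSys.commutator_mem_oddCore_of_isolated (fun P z h1 h2 h3 => S0215.result P z h1 h2 h3)
      P (hP htZ.1) (fun y hy g hg => pow_weakly_closed P (hP htZ.1) hiso hy g hg)
  set O := oddCore G
  have hOodd : Odd (Nat.card O) := Cores.odd_card_oddCore
  have hON : O ≤ N := by
    intro o ho
    obtain ⟨q, hq, n, hn, rfl⟩ := hdec o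
    have hqO : Odd (orderOf (n * q)) := Odd.of_dvd_nat hOodd (Subgroup.orderOf_dvd_natCard O ho)
    obtain ⟨k, hk⟩ := hQ ⟨q, hq⟩
    have hmk : (QuotientGroup.mk' N) (n * q) = QuotientGroup.mk' N q := by
      rw [map_mul, show (QuotientGroup.mk' N) n = 1 from (QuotientGroup.eq_one_iff n).2 hn, one_mul]
    have h1 : orderOf (QuotientGroup.mk' N q) ∣ orderOf (n * q) := hmk ▸ orderOf_map_dvd _ _
    have h2 : orderOf (QuotientGroup.mk' N q) ∣ 2 ^ k := orderOf_dvd_of_pow_eq_one (by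
      rw [← map_pow, show q ^ 2 ^ k = 1 from congrArg Subtype.val hk, map_one])
    have hq1 : QuotientGroup.mk' N q = 1 := orderOf_eq_one_iff.1 (Nat.eq_one_of_dvd_coprimes
      (Nat.Coprime.pow_left k (Nat.coprime_two_left.2 hqO)) h2 h1)
    have hqN : q ∈ Q ⊓ N := ⟨hq, (QuotientGroup.eq_one_iff q).1 hq1⟩
    rw [hdisj, Subgroup.mem_bot] at hqN
    rw [hqN, mul_one]; exact hn
  -- `N = O C_N(t)`
  have hdecN : ∀ n ∈ N, ∃ o ∈ O, ∃ c ∈ N, c * t = t * c ∧ n = o * c := by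
    intro n hn
    set H := O ⊔ Subgroup.zpowers t
    have hOn : Subgroup.zpowers t ≤ Subgroup.normalizer (O : Set G) := by
      rw [Subgroup.normalizer_eq_top_iff.2 (inferInstance : (oddCore G).Normal)]; exact le_top
    have htH : t ∈ H := Subgroup.mem_sup_right (Subgroup.mem_zpowers t)
    have ht' : n * t * n⁻¹ ∈ H := by
      have h1 : ⁅n, t⁆ ∈ O := by
        rw [← commutatorElement_inv]
        exact inv_mem (hO n)
      have : n * t * n⁻¹ = ⁅n, t⁆ * t := by rw [commutatorElement_def]; group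
      rw [this]
      exact mul_mem (Subgroup.mem_sup_left h1) htH
    have hzP : Subgroup.zpowers t ≤ (P : Subgroup G) := Subgroup.zpowers_le.2 (hP htZ.1)
    have hodd : ¬ 2 ∣ ((Subgroup.zpowers t).subgroupOf H).index := by
      intro h2
      have h3 : (Subgroup.zpowers t).relIndex H ∣ Nat.card O := by
        have hcard := Modules.card_sup_mul_card_inf hOn
        rw [sup_comm] at hcard
        have hr := Subgroup.relIndex_mul_relIndex ⊥ (Subgroup.zpowers t) H bot_le le_sup_right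
        rw [Subgroup.relIndex_bot_left, Subgroup.relIndex_bot_left] at hr
        have h4 : Nat.card H ∣ Nat.card ↥(Subgroup.zpowers t) * Nat.card O := by
          rw [← hcard]; exact Dvd.intro _ rfl
        rw [← hr] at h4
        exact Nat.dvd_of_mul_dvd_mul_left Nat.card_pos h4
      exact Nat.not_even_iff_odd.2 hOodd (even_iff_two_dvd.2 (h2.trans h3))
    let T₀ : Sylow 2 ↥H := ((P.isPGroup'.to_le hzP).comap_subtype (K := H) :
      IsPGroup 2 ((Subgroup.zpowers t).subgroupOf H)).toSylow hodd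
    have hp' : IsPGroup 2 (Subgroup.zpowers (⟨_, ht'⟩ : ↥H)) := by
      obtain ⟨k, hk⟩ := hQ ⟨t, htZ.1⟩
      obtain ⟨j, -, hj⟩ := (Nat.dvd_prime_pow Nat.prime_two).1 (orderOf_dvd_of_pow_eq_one
        (show (n * t * n⁻¹) ^ 2 ^ k = 1 by
          rw [conj_pow, show t ^ 2 ^ k = 1 from congrArg Subtype.val hk]; group))
      exact IsPGroup.of_card (n := j) (by rw [Nat.card_zpowers, Subgroup.orderOf_mk, hj])
    obtain ⟨T₁, hT₁⟩ := hp'.exists_le_sylow
    obtain ⟨h, hh⟩ := MulAction.exists_smul_eq ↥H T₁ T₀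
    have hconj : (h : G) * (n * t * n⁻¹) * (h : G)⁻¹ ∈ Subgroup.zpowers t := by
      have h5 : h * ⟨_, ht'⟩ * h⁻¹ ∈ (T₀ : Subgroup ↥H) := by
        rw [← hh, PSolv.coe_sylow_smul]
        exact ⟨_, hT₁ (Subgroup.mem_zpowers _), rfl⟩
      exact h5
    have he := hiso ((h : G) * n) (hzP (by convert hconj using 1; group))
    have hh' : (h : G) ∈ (↑(O ⊔ Subgroup.zpowers t) : Set G) := h.2
    rw [Subgroup.normal_mul] at hh'
    obtain ⟨o, ho, s, ⟨i, rfl⟩, hhe⟩ := Set.mem_mul.1 hh'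
    refine ⟨t ^ (-i) * o⁻¹ * t ^ i, ?_, t ^ (-i) * (h : G) * n, ?_, ?_, ?_⟩
    · have := (inferInstance : (oddCore G).Normal).conj_mem _ (inv_mem ho) (t ^ (-i))
      simpa using this
    · rw [← hhe, show t ^ (-i) * (o * t ^ i) * n = (t ^ (-i) * o * t ^ i) * n by group]
      refine mul_mem (hON ?_) hn
      have := (inferInstance : (oddCore G).Normal).conj_mem _ ho (t ^ (-i))
      simpa using this
    · have a1 : Commute (t ^ (-i)) t := (Commute.refl t).zpow_left _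
      have a2 : Commute ((h : G) * n) t := mul_inv_eq_iff_eq_mul.1 he
      rw [mul_assoc (t ^ (-i))]
      exact (a1.mul_left a2).eq
    · rw [← hhe]; group
  have hle : ⁅N, Q⁆ ≤ O := by
    rw [Subgroup.commutator_le]
    intro n hn q hq
    obtain ⟨o, ho, c, hc, hct, rfl⟩ := hdecN n hn
    have hcq : q * c = c * q := by
      have : c ∈ N ⊓ Subgroup.centralizer (Q : Set G) :=
        hC ▸ ⟨hc, Subgroup.mem_centralizer_singleton_iff.2 hct⟩
      exact Subgroup.mem_centralizer_iff.1 this.2 q hq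
    rw [commutatorElement_def]
    have e : o * c * q * (o * c)⁻¹ * q⁻¹ = o * (q * o⁻¹ * q⁻¹) := by
      calc o * c * q * (o * c)⁻¹ * q⁻¹ = o * (c * q) * c⁻¹ * o⁻¹ * q⁻¹ := by group
        _ = o * (q * o⁻¹ * q⁻¹) := by rw [← hcq]; group
    rw [e]
    exact mul_mem ho ((inferInstance : (oddCore G).Normal).conj_mem _ (inv_mem ho) q)
  exact Odd.of_dvd_nat hOodd (Subgroup.card_dvd_of_le hle)

end Cfsg.Agent.LocalEven.CentralComm
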