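import Cfsg.Agent.LocalEven.CoprimeLemmas
import Cfsg.Agent.Coprime.Action

/-! `[P, B] ≤ [P, A]` forces `[P, B] = 1`. -/

open Subgroup
open scoped commutatorElement

namespace Cfsg.Agent.LocalEven

theorem commutator_eq_bot_of_le_commutator_coprime {G : Type*} [Group G] [Finite G] {p : ℕ}
    [Fact p.Prime] (P A B : Subgroup G) (hP : IsPGroup p P) (hA : IsPGroup p A)
    (hB : ¬ p ∣ Nat.card B) (hnA : A ≤ normalizer (P : Set G)) (hnB : B ≤ normalizer (P : Set G))
    (hAB : ⁅A, B⁆ = ⊥) (hcomm : ⁅P, B⁆ ≤ ⁅P, A⁆) : ⁅P, B⁆ = ⊥ := by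
  have hcop : (Nat.card B).Coprime (Nat.card P) := by
    obtain ⟨n, hn⟩ := IsPGroup.iff_card.1 hP
    rw [hn]
    exact ((Fact.out : p.Prime).coprime_iff_not_dvd.2 hB).symm.pow_right n
  have hAB' : A ≤ normalizer (B : Set G) :=
    (commutator_eq_bot_iff_le_centralizer.1 hAB).trans (Coprime.centralizer_le_normalizer' B)
  have hBA : B ≤ normalizer (A : Set G) :=
    (commutator_eq_bot_iff_le_centralizer.1 ((commutator_comm B A).trans hAB)).trans
      (Coprime.centralizer_le_normalizer' A)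
  set Q : Subgroup G := ⁅P, B⁆ with hQ
  have hQP : Q ≤ P := Coprime.commutator_le_of_le_normalizer hnB
  set D : Subgroup G := P ⊔ A with hD
  have hD_nil : Group.IsNilpotent D := (hP.to_sup_of_normal_left' hA hnA).isNilpotent
  set N : Subgroup G := ⁅Q, D⁆ with hN
  have hPQ : P ≤ normalizer (Q : Set G) := Coprime.le_normalizer_commutator_left P B
  have hBQ : B ≤ normalizer (Q : Set G) := Coprime.le_normalizer_commutator_right P B
  have hAQ : A ≤ normalizer (Q : Set G) := fun a ha =>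
    Coprime.normalizer_inf_le_normalizer_commutator P B ⟨hnA ha, hAB' ha⟩
  have hDN : D ≤ normalizer (N : Set G) := Coprime.le_normalizer_commutator_right Q D
  have hBN : B ≤ normalizer (N : Set G) := fun b hb =>
    Coprime.normalizer_inf_le_normalizer_commutator Q D ⟨hBQ hb,
      normalizer_inf_normalizer_le_normalizer_sup P A ⟨hnB hb, hBA hb⟩⟩
  have h1 : ⁅⁅P, A⁆, B⁆ ≤ N := by
    refine three_subgroup_le (le_sup_left.trans hDN) (le_sup_right.trans hDN) hBN ?_ ?_
    · rw [hAB, commutator_bot_left]; exact bot_le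
    · rw [commutator_comm B P]; exact commutator_mono le_rfl le_sup_right
  refine eq_bot_of_le_commutator (S := D) (hQP.trans le_sup_left) ?_
  calc Q = ⁅⁅P, B⁆, B⁆ := (Coprime.commutator_commutator_eq hnB hcop).symm
    _ ≤ ⁅⁅P, A⁆, B⁆ := commutator_mono hcomm le_rfl
    _ ≤ N := h1

theorem commutator_mem_of_mem_normalizer {G : Type*} [Group G] {N : Subgroup G} {a b : G}
    (ha : a ∈ N) (hb : b ∈ Subgroup.normalizer (N : Set G)) : ⁅a, b⁆ ∈ N := by
  rw [commutatorElement_def, mul_assoc, mul_assoc, ← mul_assoc b]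
  exact N.mul_mem ha ((Subgroup.mem_normalizer_iff.1 hb _).1 (N.inv_mem ha))

end Cfsg.Agent.LocalEven
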