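import Cfsg.Agent.LocalEven.SylowControl
import Cfsg.Agent.Cores.Basic
import Cfsg.Prelude.Def_SylowChains
import Mathlib.Logic.Relation

/-!
Families of normalizers attached to a normalizer functor and control of Sylow intersections.
-/

open Subgroup

namespace Cfsg.Agent.LocalEven.FunctorControl

open Cfsg.Agent.LocalEven.SylowControl

set_option linter.unusedSectionVars false

variable {G : Type*} [Group G] [Finite G] {p : ℕ} [Fact p.Prime]

/-- One link of a chain of Sylow subgroups keeping `D`. -/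
def Step (𝓕 : Set (Subgroup G)) (D : Subgroup G) (A B : Sylow p G) : Prop :=
  ∃ X : Subgroup G, X ∈ Cfsg.sylowMembers p 𝓕 (A : Subgroup G) ∧
    X ∈ Cfsg.sylowMembers p 𝓕 (B : Subgroup G) ∧
    (∃ x ∈ X, Cfsg.subgroupConjRight x (B : Subgroup G) = (A : Subgroup G)) ∧
    D ≤ (B : Subgroup G) ⊓ X

def Linked (𝓕 : Set (Subgroup G)) (D : Subgroup G) : Sylow p G → Sylow p G → Prop :=
  Relation.ReflTransGen (Step (p := p) 𝓕 D)

theorem Linked.mono_left {𝓕 : Set (Subgroup G)} {D D' : Subgroup G} (h : D ≤ D') {A B : Sylow p G}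
    (hl : Linked 𝓕 D' A B) : Linked 𝓕 D A B :=
  by
  induction hl with
  | refl => exact Relation.ReflTransGen.refl
  | tail _ hstep ih =>
    obtain ⟨X, h1, h2, h3, h4⟩ := hstep
    exact ih.tail ⟨X, h1, h2, h3, h.trans h4⟩

theorem controls_of_linked {𝓕 : Set (Subgroup G)}
    (h : ∀ S T : Sylow p G, (S : Subgroup G) ⊓ (T : Subgroup G) ≠ ⊥ →
      Linked 𝓕 ((S : Subgroup G) ⊓ (T : Subgroup G)) S T) :
    Cfsg.ControlsSylowIntersections p 𝓕 := by
  intro S T hST hne
  have h' := h S T hne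
  generalize hD : (S : Subgroup G) ⊓ (T : Subgroup G) = D at h' ⊢
  clear hD hne hST
  induction h' with
  | refl => exact ⟨0, fun _ => S, Fin.elim0, Fin.elim0, rfl, rfl, fun i => i.elim0⟩
  | @tail b c _ hstep ih =>
    obtain ⟨n, d, X, x, h0, hn, hall⟩ := ih
    obtain ⟨Y, hY1, hY2, ⟨y, hy, hyc⟩, hYD⟩ := hstep
    refine ⟨n + 1, Fin.snoc d c, Fin.snoc X Y, Fin.snoc x y, ?_, Fin.snoc_last _ _, fun i => ?_⟩
    · rw [show (0 : Fin (n + 1 + 1)) = Fin.castSucc 0 from rfl, Fin.snoc_castSucc, h0]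
    induction i using Fin.lastCases with
    | last =>
      simp only [Fin.snoc_last, Fin.snoc_castSucc, Fin.succ_last, hn]
      exact ⟨hY1, hY2, hy, hyc, hYD⟩
    | cast i =>
      simp only [Fin.snoc_castSucc, Fin.succ_castSucc]
      exact hall i

/-- Membership in `𝓕(S)` of a subgroup containing a full Sylow subgroup of `G`. -/
theorem mem_members_of_le {𝓕 : Set (Subgroup G)} {A : Sylow p G} {X : Subgroup G} (hX : X ∈ 𝓕)
    (hA : (A : Subgroup G) ≤ X) : X ∈ Cfsg.sylowMembers p 𝓕 (A : Subgroup G) :=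
  ⟨hX, A.subtype hA, by rw [Sylow.coe_subtype, map_subgroupOf_eq_of_le hA, inf_eq_left.2 hA]⟩

variable {f : Subgroup G → Set (Subgroup G)}

/-- The data of one link of a chain produced by regularity of `M`. -/
def LocalStep (f : Subgroup G → Set (Subgroup G)) (D M : Subgroup G) (a b : Sylow p ↥M) : Prop :=
  ∃ Q : Sylow p ↥M, ∃ F ∈ f ((Q : Subgroup ↥M).map M.subtype),
    (∃ x ∈ normalizer (F : Set G),
      Cfsg.subgroupConjRight x ((b : Subgroup ↥M).map M.subtype) = (a : Subgroup ↥M).map M.subtype) ∧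
    (a : Subgroup ↥M).map M.subtype ≤ normalizer (F : Set G) ∧
    (b : Subgroup ↥M).map M.subtype ≤ normalizer (F : Set G) ∧
    D ≤ (a : Subgroup ↥M).map M.subtype ∧ D ≤ (b : Subgroup ↥M).map M.subtype

theorem localStep_of_regular (hf : Cfsg.IsNormalizerFunctor p f) {M D : Subgroup G}
    (hM : Cfsg.IsFunctorRegular p f M) (hD : D ≠ ⊥) {P P' : Sylow p ↥M}
    (hP : D ≤ (P : Subgroup ↥M).map M.subtype) (hP' : D ≤ (P' : Subgroup ↥M).map M.subtype) :
    Relation.ReflTransGen (LocalStep f D M) P P' := by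
  by_cases hPP : P = P'
  · rw [hPP]
  have hDM : D ≤ M := hP.trans (map_subtype_le _)
  have hne : (P : Subgroup ↥M) ⊓ (P' : Subgroup ↥M) ≠ ⊥ := by
    intro h
    refine hD (le_bot_iff.1 ?_)
    calc D ≤ (P : Subgroup ↥M).map M.subtype ⊓ (P' : Subgroup ↥M).map M.subtype := le_inf hP hP'
      _ = ⊥ := by rw [← map_inf _ _ _ M.subtype_injective, h, Subgroup.map_bot]
  have hDle : D.subgroupOf M ≤ (P : Subgroup ↥M) ⊓ (P' : Subgroup ↥M) := by
    rw [← map_subtype_le_map_subtype, map_subgroupOf_eq_of_le hDM, map_inf _ _ _ M.subtype_injective]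
    exact le_inf hP hP'
  obtain ⟨n, c, X, x, hc0, hcn, hall⟩ := hM P P' hPP hne
  have hDc : ∀ k, D ≤ (c k : Subgroup ↥M).map M.subtype := by
    intro k
    induction k using Fin.induction with
    | zero => rw [hc0]; exact hP
    | succ i _ =>
      rw [← map_subgroupOf_eq_of_le hDM]
      exact map_mono ((hDle.trans (hall i).2.2.2.2).trans inf_le_left)
  suffices ∀ k, Relation.ReflTransGen (LocalStep f D M) P (c k) from hcn ▸ this _
  intro k
  induction k using Fin.induction with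
  | zero => rw [hc0]
  | succ i ih =>
    refine ih.tail ?_
    obtain ⟨h1, h2, h3, h4, -⟩ := hall i
    obtain ⟨⟨Y, ⟨Q, F, hF, rfl⟩, hY⟩, -⟩ := id h1
    have hQ : IsPGroup p ↥((Q : Subgroup ↥M).map M.subtype) := Q.2.map _
    have hQF : (Q : Subgroup ↥M).map M.subtype ≤ normalizer (F : Set G) :=
      le_normalizer.trans ((hf _ hQ).1 F hF).2
    have hQX : (Q : Subgroup ↥M) ≤ X i := by
      simp only [] at hY
      rw [← hY, ← map_subtype_le_map_subtype, map_subgroupOf_eq_of_le inf_le_left]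
      exact le_inf (map_subtype_le _) hQF
    -- members of `X i` contain full Sylow subgroups of `M`
    have hle : ∀ a : Sylow p ↥M, X i ∈ Cfsg.sylowMembers p
        ((fun Z : Subgroup G => Z.subgroupOf M) '' Cfsg.functorFamily p f M) (a : Subgroup ↥M) →
        (a : Subgroup ↥M).map M.subtype ≤ normalizer (F : Set G) := by
      intro a ha
      obtain ⟨-, hcard⟩ := mem_sylowMembers_iff.1 ha
      have hge : Nat.card ↥(a : Subgroup ↥M) ≤ Nat.card ↥((a : Subgroup ↥M) ⊓ X i) := by
        rw [hcard, Sylow.card_eq_multiplicity a, ← Sylow.card_eq_multiplicity Q]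
        refine Nat.le_of_dvd (pow_pos (Fact.out : p.Prime).pos _) ?_
        obtain ⟨j, hj⟩ := IsPGroup.iff_card.1 Q.2
        have hdvd := card_dvd_of_le hQX
        rw [hj] at hdvd ⊢
        exact pow_dvd_pow p (((Fact.out : p.Prime).pow_dvd_iff_le_factorization Nat.card_pos.ne').1 hdvd)
      have := eq_of_le_of_card_ge inf_le_left hge
      simp only [] at hY
      rw [← this, ← hY]
      refine (map_mono inf_le_right).trans ?_
      rw [map_subgroupOf_eq_of_le inf_le_left]
      exact inf_le_right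
    refine ⟨Q, F, hF, ⟨x i, ?_, ?_⟩, hle _ h1, hle _ h2, hDc _, hDc _⟩
    · simp only [] at hY
      rw [← hY] at h3
      exact h3.2
    · ext u
      simp only [mem_conjRight, Subgroup.mem_map, coe_subtype]
      constructor
      · rintro ⟨v, hv, hvu⟩
        refine ⟨(x i)⁻¹ * v * x i, ?_, by simp [hvu, mul_assoc]⟩
        rw [← h4, mem_conjRight]
        simpa [mul_assoc] using hv
      · rintro ⟨v, hv, rfl⟩
        refine ⟨x i * v * (x i)⁻¹, ?_, by simp⟩
        rw [← h4, mem_conjRight] at hv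
        exact hv

/-- The family of normalizers of members of `f` at Sylow subgroups of `G`. -/
theorem mem_functorFamily_top {X : Subgroup G} :
    X ∈ Cfsg.functorFamily p f ⊤ ↔
      ∃ S : Sylow p G, ∃ F ∈ f (S : Subgroup G), X = normalizer (F : Set G) := by
  constructor
  · rintro ⟨P, F, hF, rfl⟩
    have hcard : Nat.card ↥((P : Subgroup ↥(⊤ : Subgroup G)).map (⊤ : Subgroup G).subtype) =
        p ^ (Nat.card G).factorization p := by
      rw [card_map_of_injective (⊤ : Subgroup G).subtype_injective, Sylow.card_eq_multiplicity P,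
        card_top]
    exact ⟨Sylow.ofCard _ hcard, F, by rwa [Sylow.coe_ofCard], top_inf_eq _⟩
  · rintro ⟨S, F, hF, rfl⟩
    refine ⟨S.subtype le_top, F, ?_, (top_inf_eq _).symm⟩
    rwa [Sylow.coe_subtype, map_subgroupOf_eq_of_le le_top]

theorem controls_top_of_controls {𝓕 : Set (Subgroup G)}
    (h : Cfsg.ControlsSylowIntersections p 𝓕) :
    Cfsg.ControlsSylowIntersections p ((fun X : Subgroup G => X.subgroupOf ⊤) '' 𝓕) := by
  have key : ∀ a : Sylow p ↥(⊤ : Subgroup G), ∃ A : Sylow p G,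
      (a : Subgroup ↥(⊤ : Subgroup G)) = (A : Subgroup G).subgroupOf ⊤ := by
    intro a
    have hcard : Nat.card ↥((a : Subgroup ↥(⊤ : Subgroup G)).map (⊤ : Subgroup G).subtype) =
        p ^ (Nat.card G).factorization p := by
      rw [card_map_of_injective (⊤ : Subgroup G).subtype_injective, Sylow.card_eq_multiplicity a,
        card_top]
    exact ⟨Sylow.ofCard _ hcard, by
      rw [Sylow.coe_ofCard, subgroupOf, comap_map_eq_self_of_injective (subtype_injective _)]⟩
  intro S T hne hint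
  obtain ⟨A, hA⟩ := key S
  obtain ⟨B, hB⟩ := key T
  have hAB : A ≠ B := fun he => hne (Sylow.ext (by rw [hA, hB, he]))
  have hint' : (A : Subgroup G) ⊓ (B : Subgroup G) ≠ ⊥ := by
    intro he
    apply hint
    rw [hA, hB, subgroupOf, subgroupOf, ← comap_inf, he]
    exact MonoidHom.comap_bot (f := (⊤ : Subgroup G).subtype) |>.trans
      ((MonoidHom.ker_eq_bot_iff _).2 (subtype_injective _))
  obtain ⟨n, c, X, x, h0, hn, hall⟩ := h A B hAB hint'
  refine ⟨n, fun k => (c k).subtype le_top, fun i => (X i).subgroupOf ⊤, fun i => ⟨x i, mem_top _⟩,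
    ?_, ?_, fun i => ?_⟩
  · exact Sylow.ext (by rw [Sylow.coe_subtype, h0, hA])
  · exact Sylow.ext (by rw [Sylow.coe_subtype, hn, hB])
  obtain ⟨h1, h2, h3, h4, h5⟩ := hall i
  have hmem : ∀ A : Sylow p G, X i ∈ Cfsg.sylowMembers p 𝓕 (A : Subgroup G) →
      (X i).subgroupOf ⊤ ∈ Cfsg.sylowMembers p ((fun X : Subgroup G => X.subgroupOf ⊤) '' 𝓕)
        ((A.subtype (le_top : (A : Subgroup G) ≤ ⊤) : Sylow p ↥(⊤ : Subgroup G)) : Subgroup ↥(⊤ : Subgroup G)) := by
    intro A hA
    rw [mem_sylowMembers_iff] at hA ⊢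
    refine ⟨⟨_, hA.1, rfl⟩, ?_⟩
    rw [Sylow.coe_subtype, subgroupOf, subgroupOf, ← comap_inf]
    change Nat.card ↥(((A : Subgroup G) ⊓ X i).subgroupOf ⊤) =
      p ^ (Nat.card ↥((X i).subgroupOf ⊤)).factorization p
    rw [Nat.card_congr (subgroupOfEquivOfLe le_top).toEquiv,
      Nat.card_congr (subgroupOfEquivOfLe (le_top : X i ≤ ⊤)).toEquiv, hA.2]
  refine ⟨hmem _ h1, hmem _ h2, h3, ?_, ?_⟩
  · rw [Sylow.coe_subtype, Sylow.coe_subtype, ← h4]
    ext u
    simp [mem_conjRight, mem_subgroupOf]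
  · rw [hA, hB, Sylow.coe_subtype]
    exact fun u hu => h5 hu

/-- Every `p`-local subgroup lies in a maximal one. -/
theorem exists_maximal_pLocal {L : Subgroup G} (hL : Cfsg.IsPLocal p L) :
    ∃ M, Cfsg.IsMaximalPLocal p M ∧ L ≤ M := by
  obtain ⟨M, hLM, hM⟩ := Set.Finite.exists_le_maximal
    (Set.toFinite {N : Subgroup G | Cfsg.IsPLocal p N}) hL
  exact ⟨M, ⟨hM.1, fun N hN hMN => le_antisymm (hM.2 hN hMN) hMN⟩, hLM⟩

/-- A `p`-subgroup of `M` lies in `R ⊓ M` for a Sylow `R` meeting `M` in a Sylow subgroup of `M`. -/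
theorem exists_sylow_over {E M : Subgroup G} (hE : IsPGroup p E) (hEM : E ≤ M) :
    ∃ (R : Sylow p G) (P : Sylow p ↥M),
      (P : Subgroup ↥M).map M.subtype = (R : Subgroup G) ⊓ M ∧ E ≤ (R : Subgroup G) ⊓ M := by
  obtain ⟨P, hP⟩ := (hE.comap_of_injective M.subtype M.subtype_injective).exists_le_sylow
  obtain ⟨R, hR⟩ := (P.2.map M.subtype).exists_le_sylow
  have hle : (P : Subgroup ↥M) ≤ (R : Subgroup G).subgroupOf M := map_le_iff_le_comap.1 hR
  have heq := P.is_maximal' (R.2.comap_of_injective M.subtype M.subtype_injective) hle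
  refine ⟨R, P, ?_, ?_⟩
  · rw [← heq]
    exact subgroupOf_map_subtype _ _
  · refine le_inf (fun e he => ?_) hEM
    exact heq.symm.le (hP (show (⟨e, hEM he⟩ : ↥M) ∈ E.comap M.subtype from he))

/-- Normalizers grow: a proper subgroup of a Sylow subgroup. -/
theorem lt_inf_normalizer {D : Subgroup G} (R : Sylow p G) (hDR : D ≤ (R : Subgroup G))
    (hne : D ≠ (R : Subgroup G)) : D < (R : Subgroup G) ⊓ normalizer (D : Set G) := by
  have := R.2.isNilpotent
  have hlt : D.subgroupOf (R : Subgroup G) < ⊤ :=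
    lt_top_iff_ne_top.2 fun h => hne (le_antisymm hDR (subgroupOf_eq_top.1 h))
  obtain ⟨u, hu, hu'⟩ := SetLike.exists_of_lt (Group.normalizerCondition_of_isNilpotent _ hlt)
  refine lt_of_le_not_ge (le_inf hDR le_normalizer) fun h => hu' (h ⟨u.2, ?_⟩)
  rw [Subgroup.mem_normalizer_iff] at hu
  refine Subgroup.mem_normalizer_iff.2 fun d => ?_
  constructor
  · intro hd
    exact (hu ⟨d, hDR hd⟩).1 hd
  · intro hd
    have hdR : d ∈ (R : Subgroup G) := by
      have := mul_mem (mul_mem (inv_mem u.2) (hDR hd)) u.2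
      simpa [mul_assoc] using this
    exact (hu ⟨d, hdR⟩).2 hd

theorem linked_of_ih (hf : Cfsg.IsNormalizerFunctor p f)
    (hf1 : ∀ P : Subgroup G, IsPGroup p ↥P → P ≠ ⊥ → ∀ F ∈ f P, F ≠ ⊥)
    {𝓕 : Set (Subgroup G)}
    (h𝓕 : ∀ (S : Sylow p G), ∀ F ∈ f (S : Subgroup G), normalizer (F : Set G) ∈ 𝓕)
    (h𝓕' : ∀ M, Cfsg.IsMaximalPLocal p M → ¬ Cfsg.IsFunctorRegular p f M → M ∈ 𝓕)
    {D : Subgroup G} (hD : D ≠ ⊥)
    (IH : ∀ E : Subgroup G, D < E → ∀ A B : Sylow p G, E ≤ (A : Subgroup G) → E ≤ (B : Subgroup G) →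
      Linked 𝓕 E A B) :
    ∀ k : ℕ, ∀ M : Subgroup G, Cfsg.IsMaximalPLocal p M →
      (Nat.card G).factorization p ≤ (Nat.card M).factorization p + k →
      ∀ (R R' : Sylow p G) (P P' : Sylow p ↥M),
        (P : Subgroup ↥M).map M.subtype ≤ (R : Subgroup G) →
        (P' : Subgroup ↥M).map M.subtype ≤ (R' : Subgroup G) →
        D < (P : Subgroup ↥M).map M.subtype → D < (P' : Subgroup ↥M).map M.subtype →
        Linked 𝓕 D R R' := by
  intro k
  induction k using Nat.strong_induction_on with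
  | _ k ihk =>
  intro M hM hk R R' P P' hPR hP'R hDP hDP'
  have hcardP : ∀ a : Sylow p ↥M, Nat.card ↥((a : Subgroup ↥M).map M.subtype) =
      p ^ (Nat.card M).factorization p := fun a => by
    rw [card_map_of_injective M.subtype_injective, Sylow.card_eq_multiplicity a]
  by_cases hreg : Cfsg.IsFunctorRegular p f M
  · have hchain := localStep_of_regular hf hreg hD hDP.le hDP'.le
    have hlt : ∀ a : Sylow p ↥M, D ≤ (a : Subgroup ↥M).map M.subtype →
        D < (a : Subgroup ↥M).map M.subtype := by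
      refine fun a ha => lt_of_le_of_ne ha fun he => ?_
      have h1 := Set.ncard_lt_ncard (s := (D : Set G))
        (t := ((P : Subgroup ↥M).map M.subtype : Set G)) hDP
      rw [← Nat.card_coe_set_eq, ← Nat.card_coe_set_eq] at h1
      have : Nat.card ↥D < Nat.card ↥((P : Subgroup ↥M).map M.subtype) := h1
      rw [he, hcardP, hcardP] at this
      exact lt_irrefl _ this
    suffices ∀ a : Sylow p ↥M, Relation.ReflTransGen (LocalStep f D M) P a →
        ∀ A : Sylow p G, (a : Subgroup ↥M).map M.subtype ≤ (A : Subgroup G) → Linked 𝓕 D R A from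
      this P' hchain R' hP'R
    intro a ha
    induction ha with
    | refl => exact fun A hA => (IH _ hDP R A hPR hA).mono_left hDP.le
    | @tail a b _ hstep ih =>
      intro B hB
      obtain ⟨A, hA⟩ := (a.2.map M.subtype).exists_le_sylow
      refine (ih A hA).trans ?_
      obtain ⟨Q, F, hF, ⟨x, hx, hconj⟩, haF, hbF, hDa, hDb⟩ := hstep
      set Qm := (Q : Subgroup ↥M).map M.subtype with hQm
      have hQp : IsPGroup p Qm := Q.2.map _
      have hFQ := (hf Qm hQp).1 F hF
      by_cases hfull : (Nat.card G).factorization p ≤ (Nat.card M).factorization p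
      · -- full Sylow subgroups
        have hfac : (Nat.card M).factorization p = (Nat.card G).factorization p :=
          le_antisymm ((Nat.factorization_le_iff_dvd Nat.card_pos.ne' Nat.card_pos.ne').2
            (card_subgroup_dvd_card M) p) hfull
        have hfullEq : ∀ (c : Sylow p ↥M) (C : Sylow p G),
            (c : Subgroup ↥M).map M.subtype ≤ (C : Subgroup G) →
            (C : Subgroup G) = (c : Subgroup ↥M).map M.subtype := fun c C hc =>
          (eq_of_le_of_card_ge hc (by rw [hcardP, Sylow.card_eq_multiplicity C, hfac])).symm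
        obtain ⟨S₀, hS₀⟩ := hQp.exists_le_sylow
        have hX : normalizer (F : Set G) ∈ 𝓕 := h𝓕 S₀ F (by rwa [hfullEq Q S₀ hS₀])
        refine Relation.ReflTransGen.single ⟨_, mem_members_of_le hX (by rwa [hfullEq a A hA]),
          mem_members_of_le hX (by rwa [hfullEq b B hB]), ⟨x, hx, ?_⟩, ?_⟩
        · rw [hfullEq a A hA, hfullEq b B hB, hconj]
        · rw [hfullEq b B hB]
          exact le_inf hDb (hDb.trans hbF)
      · -- move to a bigger local subgroup
        have hQne : Qm ≠ ⊥ := fun he => by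
          have h1 := (hlt a hDa)
          have h2 : Nat.card ↥((a : Subgroup ↥M).map M.subtype) = 1 := by
            rw [hcardP, ← hcardP Q, ← hQm, he, card_bot]
          rw [eq_bot_of_card_eq _ h2] at h1
          exact not_lt_bot h1
        obtain ⟨M₂, hM₂, hFM₂⟩ := exists_maximal_pLocal (p := p)
          ⟨F, hQp.to_le hFQ.1, hf1 Qm hQp hQne F hF, rfl⟩
        obtain ⟨S₀, hS₀⟩ := hQp.exists_le_sylow
        have hgrow : Qm < (S₀ : Subgroup G) ⊓ normalizer (Qm : Set G) := by
          refine lt_inf_normalizer S₀ hS₀ fun he => hfull (le_of_eq ?_)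
          have : Nat.card ↥Qm = Nat.card ↥(S₀ : Subgroup G) := by rw [he]
          rw [hQm, hcardP, Sylow.card_eq_multiplicity S₀] at this
          exact (Nat.pow_right_injective (Fact.out : p.Prime).two_le this).symm
        have hbig : (Nat.card M).factorization p < (Nat.card M₂).factorization p := by
          obtain ⟨j, hj⟩ := IsPGroup.iff_card.1
            (S₀.2.to_le (inf_le_left : (S₀ : Subgroup G) ⊓ normalizer (Qm : Set G) ≤ _))
          have h1 : Nat.card ↥Qm < Nat.card ↥((S₀ : Subgroup G) ⊓ normalizer (Qm : Set G)) :=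
            Set.ncard_lt_ncard (s := (Qm : Set G))
              (t := (((S₀ : Subgroup G) ⊓ normalizer (Qm : Set G) : Subgroup G) : Set G)) hgrow
          have h2 := card_dvd_of_le ((inf_le_right.trans hFQ.2).trans hFM₂ :
            (S₀ : Subgroup G) ⊓ normalizer (Qm : Set G) ≤ M₂)
          rw [hj] at h1 h2
          rw [hQm, hcardP, Nat.pow_lt_pow_iff_right (Fact.out : p.Prime).one_lt] at h1
          exact h1.trans_le
            (((Fact.out : p.Prime).pow_dvd_iff_le_factorization Nat.card_pos.ne').1 h2)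
        obtain ⟨R₁, P₁, hP₁, haP₁⟩ := exists_sylow_over (a.2.map M.subtype) (haF.trans hFM₂)
        obtain ⟨R₂, P₂, hP₂, hbP₂⟩ := exists_sylow_over (b.2.map M.subtype) (hbF.trans hFM₂)
        refine (((IH _ (hlt a hDa) A R₁ hA (haP₁.trans inf_le_left)).mono_left hDa).trans ?_).trans
          ((IH _ (hlt b hDb) R₂ B (hbP₂.trans inf_le_left) hB).mono_left hDb)
        refine ihk (k - 1) (by omega) M₂ hM₂ (by omega) R₁ R₂ P₁ P₂ (hP₁.le.trans inf_le_left)
          (hP₂.le.trans inf_le_left) ?_ ?_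
        · exact (hlt a hDa).trans_le (haP₁.trans hP₁.ge)
        · exact (hlt b hDb).trans_le (hbP₂.trans hP₂.ge)
  · -- singular case: `M` is itself in the family
    have hMF := h𝓕' M hM hreg
    obtain ⟨m, hm⟩ := MulAction.exists_smul_eq ↥M P P'
    have hmem : ∀ (c : Sylow p ↥M) (C : Sylow p G),
        (c : Subgroup ↥M).map M.subtype ≤ (C : Subgroup G) →
        (C : Subgroup G) ⊓ M = (c : Subgroup ↥M).map M.subtype := by
      intro c C hc
      have hle : (c : Subgroup ↥M) ≤ (C : Subgroup G).subgroupOf M := map_le_iff_le_comap.1 hc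
      have heq := c.is_maximal' (C.2.comap_of_injective M.subtype M.subtype_injective) hle
      rw [← heq, ← subgroupOf_map_subtype]
      rfl
    have hmemC : ∀ (c : Sylow p ↥M) (C : Sylow p G),
        (c : Subgroup ↥M).map M.subtype ≤ (C : Subgroup G) →
        M ∈ Cfsg.sylowMembers p 𝓕 (C : Subgroup G) := fun c C hc => by
      rw [mem_sylowMembers_iff, hmem c C hc, hcardP]
      exact ⟨hMF, rfl⟩
    have hmR : (P' : Subgroup ↥M).map M.subtype ≤ (((m : G) • R : Sylow p G) : Subgroup G) := by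
      rw [← hm]
      rintro _ ⟨v, hv, rfl⟩
      have hv' : v ∈ ((m • P : Sylow p ↥M) : Subgroup ↥M) := hv
      show M.subtype v ∈ (((m : G) • R : Sylow p G) : Subgroup G)
      rw [coe_smul_eq, mem_conjRight, inv_inv] at hv' ⊢
      exact hPR ⟨m⁻¹ * v * m, hv', by simp⟩
    refine Relation.ReflTransGen.head ?_ ((IH _ hDP' _ R' hmR hP'R).mono_left hDP'.le)
    refine ⟨M, hmemC P R hPR, hmemC P' _ hmR, ⟨m, m.2, ?_⟩, ?_⟩
    · rw [coe_smul_eq, conjRight_conjRight, inv_mul_cancel, conjRight_one]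
    · rw [hmem P' _ hmR]
      exact hDP'.le

theorem linked_union (hf : Cfsg.IsNormalizerFunctor p f)
    (hf1 : ∀ P : Subgroup G, IsPGroup p ↥P → P ≠ ⊥ → ∀ F ∈ f P, F ≠ ⊥)
    {𝓕 : Set (Subgroup G)}
    (h𝓕 : ∀ (S : Sylow p G), ∀ F ∈ f (S : Subgroup G), normalizer (F : Set G) ∈ 𝓕)
    (h𝓕' : ∀ M, Cfsg.IsMaximalPLocal p M → ¬ Cfsg.IsFunctorRegular p f M → M ∈ 𝓕) :
    ∀ D : Subgroup G, D ≠ ⊥ → ∀ A B : Sylow p G, D ≤ (A : Subgroup G) → D ≤ (B : Subgroup G) →
      Linked 𝓕 D A B := by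
  suffices ∀ n, ∀ D : Subgroup G, Nat.card G ≤ Nat.card D + n → D ≠ ⊥ → ∀ A B : Sylow p G,
      D ≤ (A : Subgroup G) → D ≤ (B : Subgroup G) → Linked 𝓕 D A B from
    fun D => this (Nat.card G) D (Nat.le_add_left _ _)
  intro n
  induction n using Nat.strong_induction_on with
  | _ n ih =>
  intro D hn hD A B hA hB
  by_cases hAB : A = B
  · rw [hAB]
    exact Relation.ReflTransGen.refl
  have hne : ∀ {A B : Sylow p G}, A ≠ B → D ≤ (B : Subgroup G) → D ≠ (A : Subgroup G) := by
    intro A B hAB hB he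
    exact hAB (Sylow.ext (A.is_maximal' B.2 (he ▸ hB)).symm)
  have IH : ∀ E : Subgroup G, D < E → ∀ A B : Sylow p G, E ≤ (A : Subgroup G) →
      E ≤ (B : Subgroup G) → Linked 𝓕 E A B := by
    intro E hE
    have h1 : Nat.card ↥D < Nat.card ↥E := Set.ncard_lt_ncard (s := (D : Set G)) (t := (E : Set G)) hE
    have h2 : Nat.card ↥E ≤ Nat.card G := card_le_card_group E
    exact ih (n - 1) (by omega) E (by omega) fun he => not_lt_bot (he ▸ hE)
  have hDp : IsPGroup p D := A.2.to_le hA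
  obtain ⟨M, hM, hNM⟩ := exists_maximal_pLocal (p := p) ⟨D, hDp, hD, rfl⟩
  have hAN := lt_inf_normalizer A hA (hne hAB hB)
  have hBN := lt_inf_normalizer B hB (hne (Ne.symm hAB) hA)
  obtain ⟨R, P, hP, hAP⟩ := exists_sylow_over (A.2.to_le inf_le_left) (inf_le_right.trans hNM :
    (A : Subgroup G) ⊓ normalizer (D : Set G) ≤ M)
  obtain ⟨R', P', hP', hBP⟩ := exists_sylow_over (B.2.to_le inf_le_left) (inf_le_right.trans hNM :
    (B : Subgroup G) ⊓ normalizer (D : Set G) ≤ M)
  refine (((IH _ hAN A R inf_le_left (hAP.trans inf_le_left)).mono_left hAN.le).trans ?_).trans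
    ((IH _ hBN R' B (hBP.trans inf_le_left) inf_le_left).mono_left hBN.le)
  exact linked_of_ih hf hf1 h𝓕 h𝓕' hD IH ((Nat.card G).factorization p) M hM (Nat.le_add_left _ _)
    R R' P P' (hP.le.trans inf_le_left) (hP'.le.trans inf_le_left)
    (hAN.trans_le (hAP.trans hP.ge)) (hBN.trans_le (hBP.trans hP'.ge))

theorem linked_of_regular (hf : Cfsg.IsNormalizerFunctor p f) {M D : Subgroup G} (hD : D ≠ ⊥)
    (hM : Cfsg.IsFunctorRegular p f M) {A B : Sylow p G} (hA : (A : Subgroup G) ≤ M)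
    (hB : (B : Subgroup G) ≤ M) (hDA : D ≤ (A : Subgroup G)) (hDB : D ≤ (B : Subgroup G)) :
    Linked (Cfsg.functorFamily p f ⊤) D A B := by
  have hfac : ∀ a : Sylow p ↥M,
      Nat.card ↥((a : Subgroup ↥M).map M.subtype) = p ^ (Nat.card G).factorization p := fun a => by
    rw [card_map_of_injective M.subtype_injective, Sylow.card_eq_multiplicity a,
      ← Sylow.card_eq_multiplicity (A.subtype hA), Sylow.coe_subtype,
      Nat.card_congr (subgroupOfEquivOfLe hA).toEquiv, Sylow.card_eq_multiplicity A]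
  have hmap : ∀ {C : Sylow p G} (h : (C : Subgroup G) ≤ M),
      ((C.subtype h : Sylow p ↥M) : Subgroup ↥M).map M.subtype = (C : Subgroup G) := fun {C} h => by
    rw [Sylow.coe_subtype, map_subgroupOf_eq_of_le h]
  have hchain := localStep_of_regular hf hM hD (P := A.subtype hA) (P' := B.subtype hB)
    (hDA.trans (hmap hA).ge) (hDB.trans (hmap hB).ge)
  suffices ∀ a : Sylow p ↥M, Relation.ReflTransGen (LocalStep f D M) (A.subtype hA) a →
      Linked (Cfsg.functorFamily p f ⊤) D A (Sylow.ofCard _ (hfac a)) by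
    have h1 := this _ hchain
    have e : Sylow.ofCard _ (hfac (B.subtype hB)) = B :=
      Sylow.ext (by rw [Sylow.coe_ofCard, hmap])
    rwa [e] at h1
  intro a ha
  induction ha with
  | refl =>
    have e : Sylow.ofCard _ (hfac (A.subtype hA)) = A :=
      Sylow.ext (by rw [Sylow.coe_ofCard, hmap])
    rw [e]
    exact Relation.ReflTransGen.refl
  | @tail a b _ hstep ih =>
    refine ih.tail ?_
    obtain ⟨Q, F, hF, hx, haF, hbF, -, hDb⟩ := hstep
    have hX : normalizer (F : Set G) ∈ Cfsg.functorFamily p f ⊤ :=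
      mem_functorFamily_top.2 ⟨Sylow.ofCard _ (hfac Q), F, by rwa [Sylow.coe_ofCard], rfl⟩
    exact ⟨_, mem_members_of_le hX (by rwa [Sylow.coe_ofCard]),
      mem_members_of_le hX (by rwa [Sylow.coe_ofCard]), by simpa only [Sylow.coe_ofCard] using hx,
      by rw [Sylow.coe_ofCard]; exact le_inf hDb (hDb.trans hbF)⟩

theorem normalSet_functorFamily (hf : Cfsg.IsNormalizerFunctor p f) :
    Cfsg.IsNormalSet (Cfsg.functorFamily p f (⊤ : Subgroup G)) := by
  intro X hX g
  obtain ⟨S, F, hF, rfl⟩ := mem_functorFamily_top.1 hX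
  refine mem_functorFamily_top.2 ⟨g⁻¹ • S, F.map (MulAut.conj g⁻¹).toMonoidHom, ?_, ?_⟩
  · have h := (hf (S : Subgroup G) S.2).2 g⁻¹
    have e : ((g⁻¹ • S : Sylow p G) : Subgroup G) = (S : Subgroup G).map (MulAut.conj g⁻¹).toMonoidHom := by
      rw [coe_smul_eq, Cfsg.subgroupConjRight, inv_inv]
    rw [e, h]
    exact ⟨F, hF, rfl⟩
  · exact Subgroup.map_equiv_normalizer_eq F (MulAut.conj g⁻¹)

theorem linked_conj {𝓕 : Set (Subgroup G)} (h𝓕 : Cfsg.IsNormalSet 𝓕) {D : Subgroup G}
    {A B : Sylow p G} (h : Linked 𝓕 D A B) (g : G) :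
    Linked 𝓕 (Cfsg.subgroupConjRight g D) (g⁻¹ • A) (g⁻¹ • B) := by
  induction h with
  | refl => exact Relation.ReflTransGen.refl
  | @tail b c _ hstep ih =>
    refine ih.tail ?_
    obtain ⟨X, h1, h2, ⟨x, hx, hxc⟩, hD⟩ := hstep
    refine ⟨Cfsg.subgroupConjRight g X, ?_, ?_, ⟨g⁻¹ * x * g, ?_, ?_⟩, ?_⟩
    · rw [coe_smul_eq, inv_inv]; exact conjRight_mem_members h𝓕 g h1
    · rw [coe_smul_eq, inv_inv]; exact conjRight_mem_members h𝓕 g h2
    · rw [mem_conjRight]; simpa [mul_assoc] using hx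
    · rw [coe_smul_eq, coe_smul_eq, inv_inv, conjRight_conjRight, ← hxc, conjRight_conjRight]
      congr 1
      group
    · rw [coe_smul_eq, inv_inv, ← conjRight_inf]
      exact conjRight_mono hD

end Cfsg.Agent.LocalEven.FunctorControl
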