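import Cfsg.Prelude.Def_JComponents
import Cfsg.Agent.LocalEven.CoprimeLemmas

/-!
Basic facts about `J(T)`-components.
-/

namespace Cfsg.Agent.LocalEven

open Subgroup
open scoped commutatorElement

variable {G : Type*} [Group G]

/-- If `K = [K, J]` then `J` normalizes `K`. -/
theorem le_normalizer_of_commutator_le {K J : Subgroup G} (h : ⁅K, J⁆ ≤ K) :
    J ≤ normalizer (K : Set G) := by
  rw [commutator_comm] at h
  exact le_normalizer_iff_commutator_le_right.2 h

/-- An element of odd order in `K ⊔ J`, with `J` a `2`-group normalizing `K`, lies in `K`. -/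
theorem mem_of_odd_sup {K J : Subgroup G} [Finite G] (hJ : IsPGroup 2 J)
    (hn : J ≤ normalizer (K : Set G)) {g : G} (hg : g ∈ K ⊔ J) (ho : Odd (orderOf g)) : g ∈ K := by
  obtain ⟨k, hk, j, hj, rfl⟩ : ∃ k ∈ K, ∃ j ∈ J, k * j = g := by
    rw [← SetLike.mem_coe, coe_mul_of_right_le_normalizer_left K J hn] at hg
    exact Set.mem_mul.1 hg
  have hH : K ⊔ J ≤ normalizer (K : Set G) := sup_le le_normalizer hn
  let H := normalizer (K : Set G)
  let f : ↥H →* ↥H ⧸ K.subgroupOf H := QuotientGroup.mk' _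
  let x : ↥H := ⟨k * j, hH hg⟩
  have h1 : f x = f ⟨j, hn hj⟩ := by
    apply QuotientGroup.eq.2
    rw [mem_subgroupOf]
    have : (k * j)⁻¹ * j = j⁻¹ * k⁻¹ * j := by group
    simp only [x, Subgroup.coe_mul, InvMemClass.coe_inv, this]
    have h2 := (mem_normalizer_iff.1 ((normalizer (K : Set G)).inv_mem (hn hj)) k⁻¹).1 (K.inv_mem hk)
    simpa using h2
  have h2 : orderOf (f x) ∣ orderOf (k * j) := by
    have := orderOf_map_dvd f x
    rwa [orderOf_mk] at this
  obtain ⟨n, hn2⟩ := hJ ⟨j, hj⟩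
  have h3 : orderOf (f x) ∣ 2 ^ n := by
    rw [h1, orderOf_dvd_iff_pow_eq_one, ← map_pow]
    have : (⟨j, hn hj⟩ : ↥H) ^ 2 ^ n = 1 := Subtype.ext (by simpa using congrArg Subtype.val hn2)
    rw [this, map_one]
  have h4 : orderOf (f x) = 1 := by
    have hc : Nat.Coprime (orderOf (k * j)) (2 ^ n) :=
      Nat.Coprime.pow_right _ (Nat.coprime_two_right.2 ho)
    exact Nat.eq_one_of_dvd_coprimes hc h2 h3
  rw [orderOf_eq_one_iff, QuotientGroup.mk'_apply, QuotientGroup.eq_one_iff] at h4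
  simpa [mem_subgroupOf, x] using h4

theorem thompsonOf_le {p : ℕ} (T : Subgroup G) : thompsonSubgroupOf p T ≤ T := map_subtype_le _

theorem thompsonOf_isPGroup {p : ℕ} {T : Subgroup G} (hT : IsPGroup p T) :
    IsPGroup p (thompsonSubgroupOf p T) := hT.to_le (thompsonOf_le T)

/-- A subgroup `Q` normalized by `K ⊔ J` and normalizing the 2-group `J` normalizes `K`, provided
`K` is generated by odd-order elements and `[K, J] = K`. -/
theorem normalizes_component [Finite G] {K J Q : Subgroup G} (hJ : IsPGroup 2 J)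
    (hgen : closure {g : G | g ∈ K ∧ Odd (orderOf g)} = K) (hKJ : ⁅K, J⁆ = K)
    (hQ1 : K ⊔ J ≤ normalizer (Q : Set G)) (hQ2 : Q ≤ normalizer (J : Set G)) :
    Q ≤ normalizer (K : Set G) := by
  have hn := le_normalizer_of_commutator_le hKJ.le
  have hKQ : K ≤ normalizer (Q : Set G) := le_sup_left.trans hQ1
  have hJQ : J ≤ normalizer (Q : Set G) := le_sup_right.trans hQ1
  -- the normal closure of `Q ⊓ J` under `K ⊔ J`
  let S : Set G := {x | ∃ l ∈ K ⊔ J, ∃ d ∈ Q ⊓ J, l * d * l⁻¹ = x}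
  let N := closure S
  have hNL : N ≤ K ⊔ J := by
    refine (closure_le _).2 ?_
    rintro x ⟨l, hl, d, hd, rfl⟩
    exact (K ⊔ J).mul_mem ((K ⊔ J).mul_mem hl (le_sup_right (a := K) hd.2)) ((K ⊔ J).inv_mem hl)
  have hDN : Q ⊓ J ≤ N := fun d hd => subset_closure ⟨1, one_mem _, d, hd, by group⟩
  have hnormS : ∀ g : G, (∀ x ∈ S, g * x * g⁻¹ ∈ N) → (∀ x ∈ S, g⁻¹ * x * g ∈ N) →
      g ∈ normalizer (N : Set G) := by
    intro g hg hg'
    rw [mem_normalizer_iff]
    intro y
    constructor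
    · intro hy
      induction hy using closure_induction with
      | mem x hx => exact hg x hx
      | one => simp
      | mul a b _ _ ha hb =>
        have : g * (a * b) * g⁻¹ = g * a * g⁻¹ * (g * b * g⁻¹) := by group
        rw [this]; exact mul_mem ha hb
      | inv a _ ha =>
        have : g * a⁻¹ * g⁻¹ = (g * a * g⁻¹)⁻¹ := by group
        rw [this]; exact inv_mem ha
    · intro hy
      have key : ∀ z ∈ N, g⁻¹ * z * g ∈ N := by
        intro z hz
        induction hz using closure_induction with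
        | mem x hx => exact hg' x hx
        | one => simp
        | mul a b _ _ ha hb =>
          have : g⁻¹ * (a * b) * g = g⁻¹ * a * g * (g⁻¹ * b * g) := by group
          rw [this]; exact mul_mem ha hb
        | inv a _ ha =>
          have : g⁻¹ * a⁻¹ * g = (g⁻¹ * a * g)⁻¹ := by group
          rw [this]; exact inv_mem ha
      have := key _ hy
      simpa [mul_assoc] using this
  have hLN : K ⊔ J ≤ normalizer (N : Set G) := by
    intro g hg
    refine hnormS g ?_ ?_
    · rintro x ⟨l, hl, d, hd, rfl⟩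
      exact subset_closure ⟨g * l, mul_mem hg hl, d, hd, by group⟩
    · rintro x ⟨l, hl, d, hd, rfl⟩
      exact subset_closure ⟨g⁻¹ * l, mul_mem (inv_mem hg) hl, d, hd, by group⟩
  have hQD : ∀ q ∈ Q, ∀ d ∈ Q ⊓ J, q * d * q⁻¹ ∈ Q ⊓ J := fun q hq d hd =>
    ⟨Q.mul_mem (Q.mul_mem hq hd.1) (Q.inv_mem hq), (mem_normalizer_iff.1 (hQ2 hq) d).1 hd.2⟩
  have hQN : Q ≤ normalizer (N : Set G) := by
    intro q hq
    have main : ∀ q ∈ Q, ∀ x ∈ S, q * x * q⁻¹ ∈ N := by
      rintro q hq x ⟨l, hl, d, hd, rfl⟩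
      have hq' : l⁻¹ * q * l ∈ Q := by
        have := (mem_normalizer_iff.1 ((normalizer (Q : Set G)).inv_mem (hQ1 hl)) q).1 hq
        simpa using this
      refine subset_closure ⟨l, hl, _, hQD _ hq' d hd, ?_⟩
      group
    refine hnormS q (main q hq) fun x hx => ?_
    simpa using main q⁻¹ (Q.inv_mem hq) x hx
  have h1 : ⁅⁅J, Q⁆, K⁆ ≤ N := by
    have hd : ⁅J, Q⁆ ≤ Q ⊓ J := le_inf (le_normalizer_iff_commutator_le_right.1 hJQ)
      (le_normalizer_iff_commutator_le_left.1 hQ2)
    rw [commutator_le]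
    intro x hx k hk
    have hxN := hDN (hd hx)
    have hkN : k * x⁻¹ * k⁻¹ ∈ N :=
      (mem_normalizer_iff.1 (hLN (mem_sup_left hk)) _).1 (N.inv_mem hxN)
    have : ⁅x, k⁆ = x * (k * x⁻¹ * k⁻¹) := by rw [commutatorElement_def]; group
    rw [this]; exact N.mul_mem hxN hkN
  have h2 : ⁅⁅Q, K⁆, J⁆ ≤ N := by
    refine le_trans ?_ hDN
    have hQK : ⁅Q, K⁆ ≤ Q := le_normalizer_iff_commutator_le_left.1 hKQ
    refine le_inf ?_ ?_
    · exact (commutator_mono hQK le_rfl).trans (le_normalizer_iff_commutator_le_left.1 hJQ)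
    · exact (commutator_mono hQK le_rfl).trans (le_normalizer_iff_commutator_le_right.1 hQ2)
  have h3 : ⁅K, Q⁆ ≤ N := by
    have := three_subgroup_le (A := K) (B := J) (C := Q) (N := N) (le_sup_left.trans hLN)
      (le_sup_right.trans hLN) hQN h1 h2
    rwa [hKJ] at this
  intro q hq
  have key : ∀ q ∈ Q, ∀ k ∈ K, q * k * q⁻¹ ∈ K := by
    intro q hq k hk
    rw [← hgen] at hk
    induction hk using closure_induction with
    | mem x hx =>
      refine mem_of_odd_sup hJ hn ?_ ?_
      · have hc : ⁅x, q⁆ ∈ K ⊔ J := hNL (h3 (commutator_mem_commutator hx.1 hq))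
        have : q * x * q⁻¹ = ⁅x, q⁆⁻¹ * x := by rw [commutatorElement_def]; group
        rw [this]
        exact mul_mem (inv_mem hc) (mem_sup_left hx.1)
      · have : q * x * q⁻¹ = MulAut.conj q x := by simp
        rw [this, MulEquiv.orderOf_eq]; exact hx.2
    | one => simp
    | mul a b _ _ ha hb =>
      have : q * (a * b) * q⁻¹ = q * a * q⁻¹ * (q * b * q⁻¹) := by group
      rw [this]; exact mul_mem ha hb
    | inv a _ ha =>
      have : q * a⁻¹ * q⁻¹ = (q * a * q⁻¹)⁻¹ := by group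
      rw [this]; exact inv_mem ha
  rw [mem_normalizer_iff]
  refine fun k => ⟨key q hq k, fun h => ?_⟩
  have := key q⁻¹ (Q.inv_mem hq) _ h
  simpa [mul_assoc] using this

end Cfsg.Agent.LocalEven
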