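import Cfsg.Agent.LocalEven.JNormalizer

/-!
A member of `𝒦₀` for a conjugate of `T`, subnormal in `⟨K, J(T)⟩`, is a `J(T)`-component.
-/

set_option autoImplicit false

open Cfsg
open scoped commutatorElement

namespace Cfsg.Agent.LocalEven

variable {G : Type*} [Group G] [Finite G] {T L K : Subgroup G}

/-- If `J(T)` lies in a 2-subgroup `S` of an overgroup in which `T` is Sylow, then it is `J(S)`. -/
theorem thompson_eq_of_le (hTL : IsSylowTwoIn T L) {S : Subgroup G} (hS : IsPGroup 2 S)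
    (hSL : S ≤ L) (hJS : thompsonSubgroupOf 2 T ≤ S) :
    thompsonSubgroupOf 2 S = thompsonSubgroupOf 2 T := by
  obtain ⟨S₁, hS₁, hSS₁⟩ := exists_isSylowTwoIn hS hSL
  obtain ⟨l, hl, hlS⟩ := exists_conj_of_isSylowTwoIn hTL hS₁
  have hJ1 : thompsonSubgroupOf 2 T ≤ thompsonSubgroupOf 2 S₁ := by
    obtain ⟨A₀, hA₀⟩ := Modules.maxElemAbIn_nonempty 2 T
    rw [Modules.thompsonSubgroupOf_eq_sSup 2 T]
    refine sSup_le fun A hA => Modules.le_thompsonSubgroupOf ?_
    refine ⟨(Modules.le_thompsonSubgroupOf hA).trans (hJS.trans hSS₁), hA.2.1, fun B hB hBe => ?_⟩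
    obtain ⟨B', hB'⟩ := Modules.maxElemAbIn_nonempty 2 S₁
    refine (hB'.2.2 B hB hBe).trans ?_
    have h' := hB'
    rw [← hlS, Modules.maxElemAbIn_map (MulAut.conj l).injective] at h'
    obtain ⟨A'', hA'', rfl⟩ := h'
    rw [Subgroup.card_map_of_injective (MulAut.conj l).injective]
    exact hA.2.2 A'' hA''.1 hA''.2.1
  have hcard : thompsonSubgroupOf 2 S₁ = thompsonSubgroupOf 2 T := by
    refine (Subgroup.eq_of_le_of_card_ge hJ1 ?_).symm
    rw [← hlS, ← Modules.conj_thompsonSubgroupOf,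
      Subgroup.card_map_of_injective (MulAut.conj l).injective]
  rw [Modules.thompsonSubgroupOf_eq_of_le hSS₁ (hcard.le.trans hJS), hcard]

/-- A subnormal subgroup contains every element of order coprime to its index. -/
theorem mem_of_isSubnormal_coprime {X : Type*} [Group X] [Finite X] {H : Subgroup X}
    (hH : H.IsSubnormal) {x : X} (hx : Nat.Coprime (orderOf x) H.index) : x ∈ H := by
  induction hH with
  | top => exact Subgroup.mem_top x
  | step H' K' hle hK hN ih =>
    have hmul := Subgroup.relIndex_mul_index hle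
    have hxK : x ∈ K' := ih (Nat.Coprime.coprime_dvd_right (Dvd.intro_left _ hmul) hx)
    have hco : Nat.Coprime (orderOf x) (H'.relIndex K') :=
      Nat.Coprime.coprime_dvd_right (Dvd.intro _ hmul) hx
    have h1 := (H'.subgroupOf K').pow_index_mem ⟨x, hxK⟩
    rw [Subgroup.mem_subgroupOf] at h1
    change x ^ (H'.relIndex K') ∈ H' at h1
    obtain ⟨m, hm⟩ := exists_pow_eq_self_of_coprime hco.symm
    rw [← hm]
    exact pow_mem h1 m

/-- A normal 2-subgroup normalizes a subnormal subgroup generated by elements of odd order. -/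
theorem normalizes_of_isSubnormal {X P : Subgroup G} (hKX : K ≤ X)
    (hsn : (K.subgroupOf X).IsSubnormal)
    (hgen : Subgroup.closure {g : G | g ∈ K ∧ Odd (orderOf g)} = K)
    (hP : IsPGroup 2 P) (hPX : P ≤ X) (hn : X ≤ Subgroup.normalizer (P : Set G)) :
    P ≤ Subgroup.normalizer (K : Set G) := by
  set M := K ⊔ P with hM
  have hKM : K ≤ M := le_sup_left
  have hsn' : (K.subgroupOf M).IsSubnormal := by
    have := hsn.comap (Subgroup.inclusion (sup_le hKX hPX))
    exact this
  have hidx : ∃ n, (K.subgroupOf M).index = 2 ^ n := by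
    have h := Modules.card_sup_mul_card_inf (hKX.trans hn)
    rw [← hM] at h
    have h2 := Subgroup.relIndex_mul_relIndex ⊥ K M bot_le hKM
    rw [Subgroup.relIndex_bot_left, Subgroup.relIndex_bot_left] at h2
    rw [← h2, mul_assoc] at h
    have h3 : K.relIndex M * Nat.card ↥(K ⊓ P : Subgroup G) = Nat.card P :=
      Nat.eq_of_mul_eq_mul_left Nat.card_pos h
    obtain ⟨n, hn⟩ := IsPGroup.iff_card.1 hP
    obtain ⟨i, -, hi⟩ := (Nat.dvd_prime_pow Nat.prime_two).1 (hn ▸ Dvd.intro _ h3)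
    exact ⟨i, hi⟩
  obtain ⟨n, hn'⟩ := hidx
  have key : ∀ x ∈ M, Odd (orderOf x) → x ∈ K := by
    intro x hx ho
    refine Subgroup.mem_subgroupOf.1 (mem_of_isSubnormal_coprime hsn' (x := ⟨x, hx⟩) ?_)
    rw [hn', Subgroup.orderOf_mk]
    exact Nat.Coprime.pow_right _ (Nat.coprime_two_right.2 ho)
  intro p hp
  rw [Subgroup.mem_normalizer_iff_map_conj_eq]
  refine Subgroup.eq_of_le_of_card_ge ?_
    (Subgroup.card_map_of_injective (f := (MulAut.conj p).toMonoidHom) (MulAut.conj p).injective).ge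
  rw [Subgroup.map_le_iff_le_comap]
  refine hgen.ge.trans ((Subgroup.closure_le _).2 fun g hg => ?_)
  refine key _ ?_ (by change Odd (orderOf (MulAut.conj p g)); rw [MulEquiv.orderOf_eq]; exact hg.2)
  exact mul_mem (mul_mem (Subgroup.mem_sup_right hp) (hKM hg.1))
    (inv_mem (Subgroup.mem_sup_right hp))

/-- A 2-group normalized by `K` and normalizing it centralizes `W_K`. -/
theorem centralizes_wOf_of_normalized {P : Subgroup G} (h3 : (pCoreOf 2 K).relIndex K = 3)
    (h4 : Nat.card ↥(wOf K) = 4) (hP : IsPGroup 2 P)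
    (hKP : K ≤ Subgroup.normalizer (P : Set G)) (hPK : P ≤ Subgroup.normalizer (K : Set G)) :
    P ≤ Subgroup.centralizer (wOf K : Set G) := by
  intro g hg
  obtain ⟨x, hx, hxQ⟩ := exists_not_mem_pCoreOf h3
  obtain ⟨n, hn⟩ := two_pow_pow_eq_one hP hg
  refine centralizes_wOf_of_two h3 h4 hx hxQ (normalizer_le_normalizer_wOf K (hPK hg)) (n := n)
    (fun w _ => by rw [hn]; group) fun w hw => ?_
  have hq : g * x * g⁻¹ * x⁻¹ ∈ pCoreOf 2 K := by
    refine LocalP.le_pCoreOf (X := P ⊓ K) inf_le_right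
      (Modules.normalizes_inf hKP Subgroup.le_normalizer) (hP.to_le inf_le_left)
      ⟨?_, K.mul_mem ((Subgroup.mem_normalizer_iff.1 (hPK hg) x).1 hx) (K.inv_mem hx)⟩
    have h2 := (Subgroup.mem_normalizer_iff.1 (hKP hx) g⁻¹).1 (inv_mem hg)
    have e : g * x * g⁻¹ * x⁻¹ = g * (x * g⁻¹ * x⁻¹) := by group
    rw [e]; exact mul_mem hg h2
  have hgw : x * (g * w * g⁻¹) * x⁻¹ ∈ wOf K :=
    (Subgroup.mem_normalizer_iff.1 (le_normalizer_wOf K hx) _).1
      ((Subgroup.mem_normalizer_iff.1 (normalizer_le_normalizer_wOf K (hPK hg)) w).1 hw)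
  conv_rhs => rw [← commute_wOf hq hgw]
  group

/-- Conjugates of `K ∈ 𝒦₀` that are subnormal in `⟨K, J(T)⟩`. -/
theorem isJComponent_of_conjugate (hz : ZNHyp G) (hT : IsPGroup 2 T) (hL : L ∈ jOvergroups T)
    (hKL : K ≤ L) (hsn : (K.subgroupOf (K ⊔ thompsonSubgroupOf 2 T)).IsSubnormal)
    (g : G) (hKg : K ∈ jComponentsZero (T.map (MulAut.conj g).toMonoidHom)) :
    IsJComponent T K := by
  obtain ⟨hgen, -, h3, -, h4, -⟩ := id hKg.1
  set J := thompsonSubgroupOf 2 T with hJdef
  set X := K ⊔ J with hXdef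
  have hXL : X ≤ L := sup_le hKL (thompson_le_of_jOvergroup hL)
  obtain ⟨S, hS, hJS⟩ := exists_isSylowTwoIn (thompsonOf_isPGroup hT) (le_sup_right : J ≤ X)
  have hJS' := thompson_eq_of_le hL.1 hS.2.1 (hS.1.trans hXL) hJS
  set P := pCoreOf 2 X with hPdef
  have hPX : X ≤ Subgroup.normalizer (P : Set G) := le_normalizer_pCoreOf X 2
  have hP2 : IsPGroup 2 P := LocalP.pCoreOf_isPGroup X
  have hKX : K ≤ X := le_sup_left
  have hPK : P ≤ Subgroup.normalizer (K : Set G) :=
    normalizes_of_isSubnormal hKX hsn hgen hP2 (LocalP.pCoreOf_le X) hPX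
  have hQP : pCoreOf 2 K ≤ P := pCoreOf_le_of_isSubnormal hKX hsn
  have hPW : P ≤ Subgroup.centralizer (wOf K : Set G) :=
    centralizes_wOf_of_normalized h3 h4 hP2 (hKX.trans hPX) hPK
  set Y := omegaCenterOf P with hYdef
  have hWY : wOf K ≤ Y := fun w hw => Modules.mem_omegaOne_of_pow
    ⟨hQP (wOf_le_pCoreOf K hw), Subgroup.le_centralizer_iff.1 hPW hw⟩ ((wOf_elemAb K).2 w hw)
  -- the normal closure `U` of `W_K` in `X`
  set gens : Set G := {u | ∃ h ∈ X, ∃ w ∈ wOf K, h * w * h⁻¹ = u} with hgens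
  set U := Subgroup.closure gens with hUdef
  have hUY : U ≤ Y := (Subgroup.closure_le _).2 (by
    rintro u ⟨h, hh, w, hw, rfl⟩
    exact (Subgroup.mem_normalizer_iff.1
      ((hPX.trans (normalizer_le_normalizer_omegaCenterOf P)) hh) w).1 (hWY hw))
  have hUe : IsElementaryAbelian 2 U := Modules.elemAb_mono hUY (omegaCenterOf_elemAb P)
  have hWU : wOf K ≤ U := fun w hw => Subgroup.subset_closure ⟨1, one_mem _, w, hw, by group⟩
  have hUP : U ≤ P := hUY.trans ((omegaCenterOf_le P).trans inf_le_left)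
  have hUX : U ≤ X := hUP.trans (LocalP.pCoreOf_le X)
  have hXU : X ≤ Subgroup.normalizer (U : Set G) := by
    intro h hh
    rw [Subgroup.mem_normalizer_iff_map_conj_eq]
    refine Subgroup.eq_of_le_of_card_ge ?_
      (Subgroup.card_map_of_injective (f := (MulAut.conj h).toMonoidHom)
        (MulAut.conj h).injective).ge
    rw [Subgroup.map_le_iff_le_comap, hUdef, Subgroup.closure_le]
    rintro u ⟨h', hh', w, hw, rfl⟩
    refine Subgroup.subset_closure ⟨h * h', mul_mem hh hh', w, hw, ?_⟩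
    change h * h' * w * (h * h')⁻¹ = h * (h' * w * h'⁻¹) * h⁻¹
    group
  have hQU : pCoreOf 2 K ≤ Subgroup.centralizer (U : Set G) :=
    hQP.trans ((Subgroup.le_centralizer_iff.1 ((omegaCenterOf_le P).trans inf_le_right)).trans
      (Subgroup.centralizer_le (SetLike.coe_subset_coe.2 hUY)))
  have hcoset : ∀ {y x : G}, y ∈ U → x ∈ K → y⁻¹ * (x * y * x⁻¹) ∈ wOf K := fun hy hx =>
    conj_mem_coset h3 hUe (hKX.trans hXU) (hUP.trans hPK) hQU
      ((inf_le_inf_right _ hUP).trans (LocalP.le_pCoreOf inf_le_right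
        (Modules.normalizes_inf (hKX.trans hPX) Subgroup.le_normalizer) (hP2.to_le inf_le_left)))
      hy hx
  -- the quotient `X / C_X(U)`
  haveI : (U.subgroupOf X).Normal :=
    (Subgroup.normal_subgroupOf_iff_le_normalizer hUX).2 hXU
  set C := Subgroup.centralizer (U.subgroupOf X : Set ↥X) with hC
  set π := QuotientGroup.mk' C with hπ
  have hπ1 : ∀ c : ↥X, π c = 1 ↔ (c : G) ∈ Subgroup.centralizer (U : Set G) := fun c =>
    (QuotientGroup.eq_one_iff c).trans (mem_centralizer_subgroupOf_iff hUX c)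
  have hK3 : (K.subgroupOf X).map π ≤ pCore 3 (↥X ⧸ C) := by
    refine Cores.le_pCore_of_isSubnormal hsn.quotient ?_
    rintro ⟨_, ⟨m, hm, rfl⟩⟩
    refine ⟨1, Subtype.ext ?_⟩
    simp only [pow_one, Subgroup.coe_pow, Subgroup.coe_one]
    rw [← map_pow]
    exact (hπ1 _).2 (hQU (pow_three_mem_pCoreOf h3 hm))
  obtain ⟨x, hx, hxQ⟩ := exists_not_mem_pCoreOf h3
  have hxX : x ∈ X := hKX hx
  have hWn : ∀ v ∈ wOf K, x * v * x⁻¹ ∈ wOf K := fun v hv =>
    (Subgroup.mem_normalizer_iff.1 (le_normalizer_wOf K hx) v).1 hv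
  -- `O₂(X / C) = 1`
  have hO : pCore 2 (↥X ⧸ C) = ⊥ := by
    rw [eq_bot_iff]
    intro z hz'
    obtain ⟨m, rfl⟩ := QuotientGroup.mk'_surjective C z
    have key : ∀ m : ↥X, π m ∈ pCore 2 (↥X ⧸ C) →
        (m : G) ∈ Subgroup.centralizer (wOf K : Set G) := by
      intro m hm
      have hx3 : π ⟨x, hxX⟩ ∈ pCore 3 (↥X ⧸ C) := hK3 ⟨⟨x, hxX⟩, hx, rfl⟩
      have hcomm : π m * π ⟨x, hxX⟩ = π ⟨x, hxX⟩ * π m := by
        have h1 : ⁅π m, π ⟨x, hxX⟩⁆ ∈ pCore 2 (↥X ⧸ C) ⊓ pCore 3 (↥X ⧸ C) := by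
          refine ⟨?_, ?_⟩
          · exact (Subgroup.commutator_le_left (pCore 2 (↥X ⧸ C)) ⊤)
              (Subgroup.commutator_mem_commutator hm (Subgroup.mem_top _))
          · exact (Subgroup.commutator_le_right ⊤ (pCore 3 (↥X ⧸ C)))
              (Subgroup.commutator_mem_commutator (Subgroup.mem_top _) hx3)
        obtain ⟨a, ha⟩ := Cores.pCore_isPGroup (p := 2) ⟨_, h1.1⟩
        obtain ⟨b, hb⟩ := Cores.pCore_isPGroup (p := 3) ⟨_, h1.2⟩
        have ha' := orderOf_dvd_of_pow_eq_one (congrArg Subtype.val ha)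
        have hb' := orderOf_dvd_of_pow_eq_one (congrArg Subtype.val hb)
        have := Nat.eq_one_of_dvd_coprimes (Nat.Coprime.pow a b (by norm_num)) ha' hb'
        exact (commutatorElement_eq_one_iff_mul_comm.1 (orderOf_eq_one_iff.1 this))
      have hact : ∀ v ∈ U, (m : G) * (x * v * x⁻¹) * (m : G)⁻¹ =
          x * ((m : G) * v * (m : G)⁻¹) * x⁻¹ := by
        intro v hv
        have h2 : π ((⟨x, hxX⟩ * m)⁻¹ * (m * ⟨x, hxX⟩)) = 1 := by
          rw [map_mul, map_inv, map_mul, map_mul, hcomm, inv_mul_cancel]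
        have h3' := Subgroup.mem_centralizer_iff.1 ((hπ1 _).1 h2) v hv
        simp only [Subgroup.coe_mul, InvMemClass.coe_inv] at h3'
        calc (m : G) * (x * v * x⁻¹) * (m : G)⁻¹
            = x * m * (((x * m)⁻¹ * (m * x)) * v) * ((m : G) * x)⁻¹ := by group
          _ = x * m * (v * ((x * m)⁻¹ * (m * x))) * ((m : G) * x)⁻¹ := by rw [h3']
          _ = _ := by group
      have hmW : (m : G) ∈ Subgroup.normalizer (wOf K : Set G) := by
        rw [Subgroup.mem_normalizer_iff_map_conj_eq]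
        refine Subgroup.eq_of_le_of_card_ge ?_
          (Subgroup.card_map_of_injective (f := (MulAut.conj (m : G)).toMonoidHom)
            (MulAut.conj (m : G)).injective).ge
        rintro _ ⟨w, hw, rfl⟩
        -- `w = v⁻¹ x v x⁻¹` for `v = x w x⁻¹`
        have hsq : ∀ v ∈ wOf K, v⁻¹ = v := fun v hv => inv_eq_of_mul_eq_one_right
          (by simpa [pow_two] using (wOf_elemAb K).2 v hv)
        set a := x * w * x⁻¹ with ha
        have haW : a ∈ wOf K := hWn w hw
        have hbW : x * a * x⁻¹ ∈ wOf K := hWn a haW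
        have hwab : a⁻¹ * (x * a * x⁻¹) = w := by
          have h3w : x * (x * a * x⁻¹) * x⁻¹ = w := by
            have h := commute_wOf (pow_three_mem_pCoreOf h3 hx) hw
            conv_rhs => rw [← h]
            rw [ha, pow_three x]; group
          have hc : ∀ u ∈ wOf K, ∀ v ∈ wOf K, u * v = v * u := fun u hu v hv =>
            Modules.elemAb_comm (wOf_elemAb K) hu hv
          have hfx : w * a * (x * a * x⁻¹) = 1 := by
            refine wOf_fixed_eq_one h3 hx hxQ (mul_mem (mul_mem hw haW) hbW) ?_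
            rw [conj_mul_conj, conj_mul_conj, ← ha, h3w]
            rw [hc _ (mul_mem haW hbW) w hw, ← mul_assoc]
          rw [hsq a haW]
          have h' := hfx
          rw [mul_assoc] at h'
          rw [eq_inv_of_mul_eq_one_right h', hsq w hw]
        have hv' : (m : G) * a * (m : G)⁻¹ ∈ U :=
          (Subgroup.mem_normalizer_iff.1 (hXU m.2) a).1 (hWU haW)
        have h := hcoset hv' hx
        rw [← hact a (hWU haW)] at h
        change (m : G) * w * (m : G)⁻¹ ∈ wOf K
        convert h using 1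
        conv_lhs => rw [← hwab]
        group
      obtain ⟨n, hn⟩ := Cores.pCore_isPGroup (p := 2) ⟨_, hm⟩
      refine centralizes_wOf_of_two h3 h4 hx hxQ hmW (n := n) (fun w hw => ?_)
        (fun w hw => hact w (hWU hw))
      have h1 : π (m ^ 2 ^ n) = 1 := by rw [map_pow]; exact congrArg Subtype.val hn
      have h2 := Subgroup.mem_centralizer_iff.1 ((hπ1 _).1 h1) w (hWU hw)
      simp only [Subgroup.coe_pow] at h2
      rw [← h2, mul_inv_cancel_right]
    have hmU : (m : G) ∈ Subgroup.centralizer (U : Set G) := by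
      rw [hUdef, Subgroup.centralizer_closure, Subgroup.mem_centralizer_iff]
      rintro u ⟨h, hh, w, hw, rfl⟩
      have hconj : π (⟨h, hh⟩⁻¹ * m * ⟨h, hh⟩) ∈ pCore 2 (↥X ⧸ C) := by
        have := (inferInstance : (pCore 2 (↥X ⧸ C)).Normal).conj_mem _ hz' (π ⟨h, hh⟩)⁻¹
        rw [inv_inv] at this
        rw [map_mul, map_mul, map_inv]
        exact this
      have h' := Subgroup.mem_centralizer_iff.1 (key _ hconj) w hw
      simp only [Subgroup.coe_mul, InvMemClass.coe_inv] at h'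
      calc h * w * h⁻¹ * (m : G) = h * (w * (h⁻¹ * (m : G) * h)) * h⁻¹ := by group
        _ = h * ((h⁻¹ * (m : G) * h) * w) * h⁻¹ := by rw [h']
        _ = (m : G) * (h * w * h⁻¹) := by group
    rw [Subgroup.mem_bot]
    exact (hπ1 m).2 hmU
  -- `J(T)` normalizes `W_K`
  have hsolv : Group.IsSolvable ↥X := by
    haveI := isSolvable_of_jOvergroup hz.char2 hz.solv hL
    exact Group.isSolvable_of_isSolvable_injective (f := Subgroup.inclusion hXL)
      (Subgroup.inclusion_injective _)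
  have himg := (thompson_image rfl (PSolv.isPSolvable_of_isSolvable hsolv) (U.subgroupOf X)
    (Modules.elemAb_subgroupOf hUe) hO).1
  have hJW : J ≤ Subgroup.normalizer (wOf K : Set G) := by
    rw [hJdef, Modules.thompsonSubgroupOf_eq_sSup 2 T]
    refine sSup_le fun A hA => ?_
    have hAS : A ∈ Modules.maxElemAbIn 2 S := by
      refine ⟨(Modules.le_thompsonSubgroupOf hA).trans hJS, hA.2.1, fun B hB hBe => ?_⟩
      obtain ⟨A', hA'⟩ := Modules.maxElemAbIn_nonempty 2 S
      exact (hA'.2.2 B hB hBe).trans (hA.2.2 A'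
        ((Modules.le_thompsonSubgroupOf hA').trans (hJS'.le.trans (thompsonOf_le T))) hA'.2.1)
    have hAX : A ≤ X := (Modules.le_thompsonSubgroupOf hA).trans le_sup_right
    have hle := himg _ (subgroupOf_mem_max hS hAS)
    suffices h : A.subgroupOf X ≤ (Subgroup.normalizer (wOf K : Set G)).subgroupOf X from
      fun a ha => h (show (⟨a, hAX ha⟩ : ↥X) ∈ A.subgroupOf X from ha)
    refine hle.trans (sup_le ((Subgroup.closure_le _).2 ?_) fun c hc => ?_)
    swap
    · exact Subgroup.centralizer_le_normalizer _ (Subgroup.centralizer_le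
        (SetLike.coe_subset_coe.2 hWU) ((mem_centralizer_subgroupOf_iff hUX c).1 hc))
    rintro b ⟨-, z, hz'⟩
    show (b : G) ∈ Subgroup.normalizer (wOf K : Set G)
    have hdev : ∀ v ∈ U,
        v⁻¹ * ((b : G) * v * (b : G)⁻¹) = 1 ∨ v⁻¹ * ((b : G) * v * (b : G)⁻¹) = z := by
      intro v hv
      rcases hz' ⟨v, hUX hv⟩ hv with h | h
      · left; exact congrArg Subtype.val h
      · right; exact congrArg Subtype.val h
    set K' := K.map (MulAut.conj (b : G)).toMonoidHom with hK'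
    have hW' : wOf K' = (wOf K).map (MulAut.conj (b : G)).toMonoidHom := (map_conj_wOf K b).symm
    -- a common nontrivial point
    obtain ⟨w, hw, hbw, hw1⟩ : ∃ w ∈ wOf K, (b : G) * w * (b : G)⁻¹ ∈ wOf K ∧ w ≠ 1 := by
      by_contra hcon
      push Not at hcon
      have hne : ∀ v ∈ wOf K, v ≠ 1 → v⁻¹ * ((b : G) * v * (b : G)⁻¹) = z := by
        intro v hv hv1
        refine (hdev v (hWU hv)).resolve_left fun h => hv1 (hcon v hv ?_)
        rw [(inv_mul_eq_one.1 h).symm]; exact hv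
      obtain ⟨w, hw, hw1⟩ : ∃ w ∈ wOf K, w ≠ 1 := by
        by_contra h
        push Not at h
        rw [(Subgroup.eq_bot_iff_forall _).2 h, Subgroup.card_bot] at h4
        omega
      have haW := hWn w hw
      have ha1 : x * w * x⁻¹ ≠ 1 := fun h => hw1 (conj_eq_one_iff.1 h)
      have hwa : w * (x * w * x⁻¹) ≠ 1 := by
        intro h
        refine hw1 (wOf_fixed_eq_one h3 hx hxQ hw ?_)
        rw [eq_inv_of_mul_eq_one_right h]
        exact inv_eq_of_mul_eq_one_right (by simpa [pow_two] using (wOf_elemAb K).2 w hw)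
      have e1 := hne w hw hw1
      have e2 := hne _ haW ha1
      have e3 := hne _ (mul_mem hw haW) hwa
      have hcU : ∀ u ∈ U, ∀ v ∈ U, u * v = v * u := fun u hu v hv =>
        Modules.elemAb_comm hUe hu hv
      have hbU : ∀ v ∈ U, (b : G) * v * (b : G)⁻¹ ∈ U := fun v hv =>
        (Subgroup.mem_normalizer_iff.1 (hXU b.2) v).1 hv
      have hz1 : (z : G) = 1 := by
        have e4 : (w * (x * w * x⁻¹))⁻¹ * ((b : G) * (w * (x * w * x⁻¹)) * (b : G)⁻¹) =
            (w⁻¹ * ((b : G) * w * (b : G)⁻¹)) *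
              ((x * w * x⁻¹)⁻¹ * ((b : G) * (x * w * x⁻¹) * (b : G)⁻¹)) := by
          rw [conj_mul_conj, mul_inv_rev,
            hcU _ (inv_mem (hWU haW)) _ (inv_mem (hWU hw))]
          rw [show w⁻¹ * ((b : G) * w * (b : G)⁻¹) *
              ((x * w * x⁻¹)⁻¹ * ((b : G) * (x * w * x⁻¹) * (b : G)⁻¹)) =
              w⁻¹ * (((b : G) * w * (b : G)⁻¹) * (x * w * x⁻¹)⁻¹) *
                ((b : G) * (x * w * x⁻¹) * (b : G)⁻¹) by group,
            hcU _ (hbU w (hWU hw)) _ (inv_mem (hWU haW))]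
          group
        rw [e1, e2, e3] at e4
        exact mul_eq_left.1 e4.symm
      refine hw1 (hcon w hw ?_)
      rw [(inv_mul_eq_one.1 (e1.trans hz1)).symm]; exact hw
    have hw'W' : (b : G) * w * (b : G)⁻¹ ∈ wOf K' := hW' ▸ ⟨w, hw, rfl⟩
    set x' := (b : G) * x * (b : G)⁻¹ with hx'
    have h3' : (pCoreOf 2 K').relIndex K' = 3 := by
      rw [hK', ← map_conj_pCoreOf,
        Subgroup.relIndex_map_map_of_injective _ _ (MulAut.conj (b : G)).injective, h3]
    have hxQ' : x' ∉ pCoreOf 2 K' := by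
      rw [hK', ← map_conj_pCoreOf]
      rintro ⟨q, hq, he⟩
      exact hxQ ((MulAut.conj (b : G)).injective he ▸ hq)
    have hx'X : x' ∈ X := mul_mem (mul_mem b.2 hxX) (inv_mem b.2)
    have hcl : Subgroup.closure {x, x'} ≤ X := (Subgroup.closure_le _).2 (by
      rintro z (rfl | rfl)
      · exact hxX
      · exact hx'X)
    have heq : wOf K = wOf K' := by
      refine plane_eq U hUe h3 h3' h4 ?_ hWU ?_ hx hxQ ⟨x, hx, rfl⟩ hxQ'
        (fun y hy => hcoset hy hx) ?_ (hcl.trans hXU) ?_ hbw hw'W'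
        (fun h => hw1 (conj_eq_one_iff.1 h))
      · rw [hW', Subgroup.card_map_of_injective (MulAut.conj (b : G)).injective, h4]
      · rw [hW']
        rintro _ ⟨v, hv, rfl⟩
        exact (Subgroup.mem_normalizer_iff.1 (hXU b.2) v).1 (hWU hv)
      · intro y hy
        have hy' : (b : G)⁻¹ * y * b ∈ U := by
          simpa using (Subgroup.mem_normalizer_iff.1 (hXU (inv_mem b.2)) y).1 hy
        rw [hW']
        refine ⟨_, hcoset hy' hx, ?_⟩
        change _ = y⁻¹ * ((b : G) * x * (b : G)⁻¹ * y * ((b : G) * x * (b : G)⁻¹)⁻¹)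
        change (b : G) * _ * (b : G)⁻¹ = _
        group
      · intro e he
        have heX := hcl he
        have hmem : π ⟨e, heX⟩ ∈ pCore 3 (↥X ⧸ C) := by
          have hsub : (Subgroup.closure {x, x'}).subgroupOf X ≤ (pCore 3 (↥X ⧸ C)).comap π := by
            intro u hu
            have : (Subgroup.closure {x, x'}) ≤ ((pCore 3 (↥X ⧸ C)).comap π).map X.subtype := by
              rw [Subgroup.closure_le]
              rintro z' (rfl | rfl)
              · exact ⟨⟨_, hxX⟩, hK3 ⟨⟨_, hxX⟩, hx, rfl⟩, rfl⟩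
              · refine ⟨⟨_, hx'X⟩, ?_, rfl⟩
                have hc := (inferInstance : (pCore 3 (↥X ⧸ C)).Normal).conj_mem _
                  (hK3 ⟨⟨x, hxX⟩, hx, rfl⟩) (π b)
                rw [← map_mul, ← map_inv, ← map_mul] at hc
                exact hc
            obtain ⟨u', hu', he'⟩ := this hu
            exact (Subtype.ext he' : u' = u) ▸ hu'
          exact hsub (show (⟨e, heX⟩ : ↥X) ∈ (Subgroup.closure {x, x'}).subgroupOf X from he)
        obtain ⟨n, hn⟩ := Cores.pCore_isPGroup (p := 3) ⟨_, hmem⟩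
        refine ⟨n, ?_⟩
        have h1 : π (⟨e, heX⟩ ^ 3 ^ n) = 1 := by rw [map_pow]; exact congrArg Subtype.val hn
        exact (hπ1 _).1 h1
    rw [Subgroup.mem_normalizer_iff_map_conj_eq]
    exact (heq.trans hW').symm
  have hTg : (T.map (MulAut.conj g).toMonoidHom).map (MulAut.conj g⁻¹).toMonoidHom = T := by
    rw [Subgroup.map_map]
    convert T.map_id using 2
    ext y; simp [mul_assoc]
  have := (jComponentsZero_normalizer hz (hT.map _) hKg).2 g⁻¹ (by rw [hTg]; exact hJW)
  rwa [hTg] at this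

end Cfsg.Agent.LocalEven
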