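import Cfsg.Agent.LocalEven.PlaneFour
import Cfsg.Agent.LocalEven.JConjugate

/-!
Existence of `J(T)`-components.
-/

set_option autoImplicit false

open Cfsg
open scoped commutatorElement

namespace Cfsg.Agent.LocalEven

variable {G : Type*} [Group G] [Finite G] {T L : Subgroup G}

theorem mem_of_pow_two_three {H : Subgroup G} {g : G} {m : ℕ} (h2 : g ^ 2 ^ m ∈ H)
    (h3 : g ^ 3 ∈ H) : g ∈ H := by
  have hc : Nat.Coprime (2 ^ m) 3 := Nat.Coprime.pow_left m (by norm_num)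
  obtain ⟨a, b, hab⟩ : ∃ a b : ℤ, (1 : ℤ) = (2 ^ m : ℕ) * a + (3 : ℕ) * b :=
    ⟨Nat.gcdA (2 ^ m) 3, Nat.gcdB (2 ^ m) 3, by rw [← Nat.gcd_eq_gcd_ab, hc]; rfl⟩
  rw [← zpow_one g, hab, zpow_add, zpow_mul, zpow_mul, zpow_natCast, zpow_natCast]
  exact mul_mem (zpow_mem h2 _) (zpow_mem h3 _)

/-- The normalizer of `U` normalizes the subgroup generated by the odd elements of `U`. -/
theorem normalizer_le_normalizer_oddClosure (U : Subgroup G) :
    Subgroup.normalizer (U : Set G) ≤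
      Subgroup.normalizer (Subgroup.closure {g : G | g ∈ U ∧ Odd (orderOf g)} : Set G) := by
  intro h hh
  rw [Subgroup.mem_normalizer_iff_map_conj_eq]
  refine Subgroup.eq_of_le_of_card_ge ?_
    (Subgroup.card_map_of_injective (f := (MulAut.conj h).toMonoidHom) (MulAut.conj h).injective).ge
  rw [Subgroup.map_le_iff_le_comap, Subgroup.closure_le]
  intro g hg
  refine Subgroup.subset_closure ⟨(Subgroup.mem_normalizer_iff.1 hh g).1 hg.1, ?_⟩
  change Odd (orderOf (MulAut.conj h g))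
  rw [MulEquiv.orderOf_eq]; exact hg.2

/-- A component of `L` from an element of order three on `L / O₂(L)` inverted by `J(T)`. -/
theorem exists_component_of_inverted (hz : ZNHyp G) (hL : L ∈ jOvergroups T) (hT : IsPGroup 2 T)
    {M : Subgroup G} (hCM : cOf L ≤ M) {g : G} (hgL : g ∈ L) (hgM : g ∉ M)
    (hg3 : g ^ 3 ∈ pCoreOf 2 L)
    (hj : ∀ j ∈ thompsonSubgroupOf 2 T, (j * g * j⁻¹) * g⁻¹ ∈ pCoreOf 2 L ∨
      (j * g * j⁻¹) * g ∈ pCoreOf 2 L)
    {j₀ : G} (hj₀ : j₀ ∈ thompsonSubgroupOf 2 T) (hinv : (j₀ * g * j₀⁻¹) * g ∈ pCoreOf 2 L) :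
    ∃ K : Subgroup G, IsJComponent T K ∧ K ≤ L ∧ ¬ K ≤ M := by
  set Q := pCoreOf 2 L with hQdef
  set J := thompsonSubgroupOf 2 T with hJdef
  have hQ2 : IsPGroup 2 Q := LocalP.pCoreOf_isPGroup L
  have hQM : Q ≤ M := (pCoreOf_le_cOf L).trans hCM
  have hLQ : L ≤ Subgroup.normalizer (Q : Set G) := le_normalizer_pCoreOf L 2
  have hJL : J ≤ L := thompson_le_of_jOvergroup hL
  obtain ⟨m, hm⟩ := two_pow_pow_eq_one hQ2 hg3
  set o := g ^ 2 ^ m with ho
  have ho3 : o ^ 3 = 1 := by rw [ho, ← pow_mul, mul_comm, pow_mul, hm]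
  have hoM : o ∉ M := fun h => hgM (mem_of_pow_two_three h (hQM hg3))
  have hoQ : o ∉ Q := fun h => hoM (hQM h)
  have hoL : o ∈ L := pow_mem hgL _
  have ho1 : o ≠ 1 := fun h => hoQ (h ▸ one_mem _)
  have hord : orderOf o = 3 := orderOf_eq_prime (hp := ⟨Nat.prime_three⟩) ho3 ho1
  set U := Q ⊔ Subgroup.zpowers g with hUdef
  have hUL : U ≤ L := sup_le (LocalP.pCoreOf_le L) (Subgroup.zpowers_le.2 hgL)
  have hUQ : U = Q ⊔ Subgroup.zpowers o := by
    refine le_antisymm (sup_le le_sup_left (Subgroup.zpowers_le.2 ?_)) (sup_le le_sup_left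
      (Subgroup.zpowers_le.2 (pow_mem (Subgroup.mem_sup_right (Subgroup.mem_zpowers g)) _)))
    exact mem_of_pow_two_three (H := Q ⊔ Subgroup.zpowers o) (m := m)
      (Subgroup.mem_sup_right (Subgroup.mem_zpowers o)) (Subgroup.mem_sup_left hg3)
  set K := Subgroup.closure {x : G | x ∈ U ∧ Odd (orderOf x)} with hKdef
  have hKU : K ≤ U := (Subgroup.closure_le _).2 fun x hx => hx.1
  have hKL : K ≤ L := hKU.trans hUL
  have hoK : o ∈ K := Subgroup.subset_closure ⟨hUQ ▸ Subgroup.mem_sup_right (Subgroup.mem_zpowers o),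
    by rw [hord]; decide⟩
  have hKM : ¬ K ≤ M := fun h => hoM (h hoK)
  have hQK : Q ≤ Subgroup.normalizer (K : Set G) :=
    (le_sup_left.trans (Subgroup.le_normalizer (H := U))).trans
      (normalizer_le_normalizer_oddClosure U)
  have hJU : J ≤ Subgroup.normalizer (U : Set G) := by
    intro j hjJ
    rw [Subgroup.mem_normalizer_iff_map_conj_eq]
    refine Subgroup.eq_of_le_of_card_ge ?_
      (Subgroup.card_map_of_injective (f := (MulAut.conj j).toMonoidHom)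
        (MulAut.conj j).injective).ge
    rw [Subgroup.map_le_iff_le_comap, hUdef, sup_le_iff]
    refine ⟨fun q hq => Subgroup.mem_sup_left ((Subgroup.mem_normalizer_iff.1
      (hLQ (hJL hjJ)) q).1 hq), Subgroup.zpowers_le.2 ?_⟩
    change j * g * j⁻¹ ∈ Q ⊔ Subgroup.zpowers g
    rcases hj j hjJ with h | h
    · have := Subgroup.mul_mem_sup h (Subgroup.mem_zpowers g)
      rwa [inv_mul_cancel_right] at this
    · have := Subgroup.mul_mem_sup h (inv_mem (Subgroup.mem_zpowers g))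
      rwa [mul_inv_cancel_right] at this
  have hJK : J ≤ Subgroup.normalizer (K : Set G) :=
    hJU.trans (normalizer_le_normalizer_oddClosure U)
  -- `|K : K ∩ Q| = 3`
  have hKQU : Q ⊔ K = U := le_antisymm (sup_le le_sup_left hKU)
    (hUQ.le.trans (sup_le le_sup_left ((Subgroup.zpowers_le.2 hoK).trans le_sup_right)))
  have hcardU : Nat.card U = 3 * Nat.card Q := by
    have h := Modules.card_sup_mul_card_inf (B := Subgroup.zpowers o) (V := Q)
      ((Subgroup.zpowers_le.2 hoL).trans hLQ)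
    rw [sup_comm, ← hUQ, Nat.card_zpowers, hord] at h
    have hbot : Subgroup.zpowers o ⊓ Q = ⊥ := by
      rw [Subgroup.eq_bot_iff_forall]
      intro x hx
      obtain ⟨n, hn⟩ := two_pow_pow_eq_one hQ2 hx.2
      have h1 : orderOf x ∣ 2 ^ n := orderOf_dvd_of_pow_eq_one hn
      have h2 : orderOf x ∣ 3 := hord ▸ orderOf_dvd_of_mem_zpowers hx.1
      exact orderOf_eq_one_iff.1
        (Nat.eq_one_of_dvd_coprimes (Nat.Coprime.pow_left n (by norm_num : Nat.Coprime 2 3)) h1 h2)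
    rw [hbot, Subgroup.card_bot, mul_one] at h
    exact h
  have hidx : (K ⊓ Q).relIndex K = 3 := by
    have h := Modules.card_sup_mul_card_inf (B := K) (V := Q) (hKL.trans hLQ)
    rw [sup_comm, hKQU, hcardU] at h
    have h1 := Subgroup.relIndex_mul_relIndex ⊥ (K ⊓ Q) K bot_le inf_le_left
    rw [Subgroup.relIndex_bot_left, Subgroup.relIndex_bot_left] at h1
    have hK3 : Nat.card K = Nat.card ↥(K ⊓ Q : Subgroup G) * 3 := by
      have h0 : 0 < Nat.card Q := Nat.card_pos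
      nlinarith
    rw [hK3] at h1
    exact Nat.eq_of_mul_eq_mul_left Nat.card_pos h1
  have hle : K ⊓ Q ≤ pCoreOf 2 K := LocalP.le_pCoreOf inf_le_left
    (Modules.normalizes_inf Subgroup.le_normalizer (hKL.trans hLQ)) (hQ2.to_le inf_le_right)
  have hoQK : o ∉ pCoreOf 2 K := by
    intro h
    obtain ⟨n, hn⟩ := two_pow_pow_eq_one (LocalP.pCoreOf_isPGroup K) h
    have h1 := orderOf_dvd_of_pow_eq_one hn
    rw [hord] at h1
    exact absurd (Nat.Prime.dvd_of_dvd_pow Nat.prime_three h1) (by norm_num)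
  have hQKeq : pCoreOf 2 K = K ⊓ Q := by
    have h1 := Subgroup.relIndex_mul_relIndex (K ⊓ Q) (pCoreOf 2 K) K hle (LocalP.pCoreOf_le K)
    rw [hidx] at h1
    rcases (Nat.dvd_prime Nat.prime_three).1 (Dvd.intro _ h1) with h | h
    · exact le_antisymm (Subgroup.relIndex_eq_one.1 h) hle
    · exfalso
      rw [h, Nat.mul_eq_left (by norm_num)] at h1
      exact hoQK (Subgroup.relIndex_eq_one.1 h1 hoK)
  have h3 : (pCoreOf 2 K).relIndex K = 3 := hQKeq ▸ hidx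
  have hgen : Subgroup.closure {x : G | x ∈ K ∧ Odd (orderOf x)} = K := by
    refine le_antisymm ((Subgroup.closure_le _).2 fun x hx => hx.1) ?_
    conv_lhs => rw [hKdef]
    exact (Subgroup.closure_le _).2 fun x hx =>
      Subgroup.subset_closure ⟨Subgroup.subset_closure hx, hx.2⟩
  -- `[K, J] = K`
  have hKJ : ⁅K, J⁆ = K := by
    have hle1 : ⁅K, J⁆ ≤ K := Subgroup.le_normalizer_iff_commutator_le_left.1 hJK
    refine le_antisymm hle1 ?_
    set H := Subgroup.normalizer (Q : Set G)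
    let f : ↥H →* ↥H ⧸ Q.subgroupOf H := QuotientGroup.mk' _
    have hf : ∀ u : ↥H, f u = 1 ↔ (u : G) ∈ Q := fun u =>
      (QuotientGroup.eq_one_iff (N := Q.subgroupOf H) u).trans Subgroup.mem_subgroupOf
    set o' : ↥H := ⟨o, hLQ hoL⟩
    set j' : ↥H := ⟨j₀, hLQ (hJL hj₀)⟩
    set g' : ↥H := ⟨g, hLQ hgL⟩
    have hnotQ : ⁅o, j₀⁆ ∉ Q := by
      intro h
      have h1 : f ⁅o', j'⁆ = 1 := (hf _).2 h
      have h2 : f j' * f g' * (f j')⁻¹ = (f g')⁻¹ := by
        rw [eq_inv_iff_mul_eq_one, ← map_inv, ← map_mul, ← map_mul, ← map_mul]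
        exact (hf _).2 hinv
      have hog : f o' = f g' ^ 2 ^ m := by rw [← map_pow]; rfl
      have h4 : f j' * f o' * (f j')⁻¹ = (f o')⁻¹ := by rw [hog, ← conj_pow, h2, inv_pow]
      rw [map_commutatorElement, commutatorElement_eq_one_iff_mul_comm] at h1
      rw [← h1, mul_inv_cancel_right] at h4
      have h5 : f o' ^ 3 = 1 := by
        rw [← map_pow, show o' ^ 3 = 1 from Subtype.ext ho3, map_one]
      have h6 : f o' ^ 2 = 1 := by rw [pow_two]; nth_rewrite 1 [h4]; exact inv_mul_cancel _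
      have h7 : f o' = 1 := by
        have := h5
        rwa [pow_succ, h6, one_mul] at this
      exact hoQ ((hf o').1 h7)
    have hc : ⁅o, j₀⁆ ∈ ⁅K, J⁆ := Subgroup.commutator_mem_commutator hoK hj₀
    have hcQ : ⁅o, j₀⁆ ∉ pCoreOf 2 K := fun h => hnotQ (hQKeq ▸ h).2
    have hKn : K ≤ Subgroup.normalizer ((⁅K, J⁆ : Subgroup G) : Set G) :=
      Subgroup.normalizer_commutator_ge_left K J
    have hKle : K ≤ ⁅K, J⁆ ⊔ pCoreOf 2 K := by
      conv_lhs => rw [← sup_zpowers_eq h3 (hle1 hc) hcQ]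
      exact sup_le le_sup_right ((Subgroup.zpowers_le.2 hc).trans le_sup_left)
    conv_lhs => rw [← hgen]
    exact (Subgroup.closure_le _).2 fun x hx => mem_of_odd_sup (LocalP.pCoreOf_isPGroup K)
      ((LocalP.pCoreOf_le K).trans hKn) (hKle hx.1) hx.2
  have hcond : ∀ S : Subgroup G, IsSylowTwoIn S (K ⊔ J) → J ≤ S → thompsonSubgroupOf 2 S = J :=
    fun S hS hJS => thompson_eq_of_le hL.1 hS.2.1 (hS.1.trans (sup_le hKL hJL)) hJS
  have hWne : wOf K ≠ ⊥ := by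
    intro hW
    refine hoM (hCM ⟨hoL, Subgroup.mem_centralizer_iff.2 fun v hv => ?_⟩)
    obtain ⟨c, -, hfix, u, hu, hvu⟩ := exists_fixed_mul h3 (omegaCenterOf_elemAb _)
      (hKL.trans (le_normalizer_vOf L)) ((vOf_le_pCoreOf L).trans hQK)
      ((hQKeq.le.trans inf_le_right).trans ((pCoreOf_le_cOf L).trans inf_le_right))
      ((inf_le_inf_right _ (vOf_le_pCoreOf L)).trans (by rw [hQKeq, inf_comm])) hv
    rw [hW, Subgroup.mem_bot] at hu
    rw [hvu, hu, mul_one]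
    exact (mul_inv_eq_iff_eq_mul.1 (hfix o hoK)).symm
  refine ⟨K, ⟨hgen, hKJ, h3, hcond, wOf_card_eq_four hKJ h3 hT hcond hWne, fun w hw => ?_⟩, hKL,
    hKM⟩
  simpa [pow_two] using (wOf_elemAb K).2 w hw

/-- A member of the family has a component outside `M` when it is not contained in `M` but
`N_L(J(T))` is. -/
theorem exists_component_not_le (hz : ZNHyp G) (hL : L ∈ jOvergroups T) (hT : IsPGroup 2 T)
    {M : Subgroup G} (hLM : ¬ L ≤ M)
    (hNM : L ⊓ Subgroup.normalizer (thompsonSubgroupOf 2 T : Set G) ≤ M) :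
    ∃ K : Subgroup G, IsJComponent T K ∧ K ≤ L ∧ ¬ K ≤ M := by
  classical
  haveI : Fact (Nat.Prime 2) := ⟨Nat.prime_two⟩
  have hNT : L ⊓ Subgroup.normalizer (T : Set G) ≤ M :=
    (inf_le_inf_left _ (Modules.normalizer_le_normalizer_thompsonSubgroupOf 2 T)).trans hNM
  have hCM : cOf L ≤ M := (le_inf inf_le_left (cOf_le_normalizer_sylow hz hL)).trans hNT
  haveI := vOf_subgroupOf_normal L
  set Cs := Subgroup.centralizer ((vOf L).subgroupOf L : Set ↥L) with hCs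
  set π := QuotientGroup.mk' Cs with hπ
  have hπs : Function.Surjective π := QuotientGroup.mk'_surjective Cs
  have hmemC : ∀ c : ↥L, c ∈ Cs ↔ (c : G) ∈ cOf L := fun c =>
    (mem_centralizer_subgroupOf_iff (vOf_le L) c).trans ⟨fun h => ⟨c.2, h⟩, fun h => h.2⟩
  have hπ1 : ∀ u : ↥L, π u = 1 ↔ u ∈ Cs := fun u => QuotientGroup.eq_one_iff u
  set Tn := sylowOfIn hL.1 with hTn
  set J' := thompsonSubgroupOf 2 (Tn : Subgroup ↥L) with hJ'
  have hJ'map : J'.map L.subtype = thompsonSubgroupOf 2 T := by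
    rw [hJ', Modules.map_thompsonSubgroupOf L.subtype_injective, coe_sylowOfIn,
      Subgroup.subgroupOf_map_subtype, inf_eq_left.2 hL.1.1]
  have hJ'mem : ∀ j : ↥L, j ∈ J' ↔ (j : G) ∈ thompsonSubgroupOf 2 T := fun j => by
    rw [← hJ'map]
    exact ⟨fun h => ⟨j, h, rfl⟩, fun ⟨j', h, e⟩ => (Subtype.ext e : j' = j) ▸ h⟩
  set Mn := M.subgroupOf L with hMn
  have hCsM : Cs ≤ Mn := fun c hc => hCM ((hmemC c).1 hc)
  have hNJ : Subgroup.normalizer (J' : Set ↥L) ≤ Mn := by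
    intro n hn
    refine hNM ⟨n.2, Subgroup.mem_normalizer_iff.2 fun z => ?_⟩
    constructor
    · intro hz'
      obtain ⟨zz, hzz, rfl⟩ : z ∈ J'.map L.subtype := hJ'map ▸ hz'
      exact (hJ'mem _).1 ((Subgroup.mem_normalizer_iff.1 hn zz).1 hzz)
    · intro hz'
      have hzL : z ∈ L := by
        have h1 : (n : G) * z * (n : G)⁻¹ ∈ L := thompson_le_of_jOvergroup hL hz'
        have := L.mul_mem (L.mul_mem (L.inv_mem n.2) h1) n.2
        simpa [mul_assoc] using this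
      exact (hJ'mem ⟨z, hzL⟩).1 ((Subgroup.mem_normalizer_iff.1 hn ⟨z, hzL⟩).2
        ((hJ'mem _).2 hz'))
  set Jg := thompsonSubgroup 2 ↥L with hJg
  haveI hJgn : Jg.Normal := by
    have := Modules.thompsonSubgroup_characteristic 2 ↥L
    exact inferInstance
  set H0 := Jg.map π with hH0
  haveI hH0n : H0.Normal := hJgn.map π hπs
  set R0 := Subgroup.closure {x : ↥L ⧸ Cs | x ∈ H0 ∧ Odd (orderOf x)} with hR0
  haveI hR0n : R0.Normal := by
    refine ⟨fun n hn h => ?_⟩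
    induction hn using Subgroup.closure_induction with
    | mem x hx =>
      refine Subgroup.subset_closure ⟨hH0n.conj_mem x hx.1 h, ?_⟩
      rw [← MulAut.conj_apply, MulEquiv.orderOf_eq]; exact hx.2
    | one => simp
    | mul a b _ _ ha hb => rw [conj_mul_conj]; exact mul_mem ha hb
    | inv a _ ha =>
      rw [show h * a⁻¹ * h⁻¹ = (h * a * h⁻¹)⁻¹ by group]
      exact inv_mem ha
  set Rp := R0.comap π with hRp
  set M1 := H0.comap π with hM1
  haveI hM1n : M1.Normal := hH0n.comap π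
  set T1 := (Tn : Subgroup ↥L) ⊓ M1 with hT1
  have hT1p : IsPGroup 2 T1 := Tn.isPGroup'.to_le inf_le_left
  have hdvd : T1.relIndex M1 ∣ (Tn : Subgroup ↥L).index := by
    rw [hT1, Subgroup.inf_relIndex_right]
    exact PSolv.relIndex_dvd_index_of_normal_right _ _
  have hodd : ¬ 2 ∣ T1.relIndex M1 := fun h => Tn.not_dvd_index (h.trans hdvd)
  let P1 : Sylow 2 ↥M1 :=
    (hT1p.comap_subtype (K := M1) : IsPGroup 2 (T1.subgroupOf M1)).toSylow hodd
  have hfr : Subgroup.normalizer (T1 : Set ↥L) ⊔ M1 = ⊤ := by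
    have h := Sylow.normalizer_sup_eq_top P1
    have e : (P1 : Subgroup ↥M1).map M1.subtype = T1 := by
      show (T1.subgroupOf M1).map M1.subtype = T1
      rw [Subgroup.subgroupOf_map_subtype, inf_eq_left.2 (inf_le_right : T1 ≤ M1)]
    rwa [e] at h
  have hJT1 : J' ≤ T1 := le_inf (thompsonOf_le _)
    ((PSolv.thompsonSubgroupOf_sylow_le Tn).trans (Subgroup.le_comap_map _ _))
  have hNT1 : Subgroup.normalizer (T1 : Set ↥L) ≤ Subgroup.normalizer (J' : Set ↥L) := by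
    have h := Modules.normalizer_le_normalizer_thompsonSubgroupOf 2 T1
    rwa [Modules.thompsonSubgroupOf_eq_of_le inf_le_left hJT1] at h
  -- `M1 = Rp T1`
  have hM1le : M1 ≤ Rp ⊔ T1 := by
    have hRH : R0 ≤ H0 := (Subgroup.closure_le _).2 fun x hx => hx.1
    have hW : Rp ⊔ T1 ≤ M1 := sup_le (Subgroup.comap_mono hRH) inf_le_right
    have h1 : (Rp ⊔ T1).relIndex M1 ∣ T1.relIndex M1 :=
      Subgroup.relIndex_dvd_of_le_left M1 le_sup_right
    have h2 : (Rp ⊔ T1).relIndex M1 ∣ Rp.relIndex M1 :=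
      Subgroup.relIndex_dvd_of_le_left M1 le_sup_left
    have h3 : ∃ n, Rp.relIndex M1 = 2 ^ n := by
      rw [hRp, Subgroup.relIndex_comap, hM1, Subgroup.map_comap_eq_self_of_surjective hπs,
        Subgroup.relIndex, Subgroup.index_eq_card]
      refine IsPGroup.iff_card.1 ?_
      intro q
      obtain ⟨x, rfl⟩ := QuotientGroup.mk'_surjective _ q
      obtain ⟨n, o, ho, he⟩ := Nat.exists_eq_two_pow_mul_odd (orderOf_pos (x : ↥L ⧸ Cs)).ne'
      refine ⟨n, ?_⟩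
      rw [← map_pow]
      refine (QuotientGroup.eq_one_iff _).2 (Subgroup.subset_closure ⟨(x ^ 2 ^ n).2, ?_⟩)
      change Odd (orderOf ((x : ↥L ⧸ Cs) ^ 2 ^ n))
      rw [orderOf_pow' _ (pow_ne_zero n two_ne_zero), he,
        Nat.gcd_eq_right (Dvd.intro o rfl), Nat.mul_div_cancel_left _ (pow_pos two_pos n)]
      exact ho
    obtain ⟨n, hn⟩ := h3
    obtain ⟨i, -, hi⟩ := (Nat.dvd_prime_pow Nat.prime_two).1 (hn ▸ h2)
    have hi0 : i = 0 := by
      by_contra hne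
      exact hodd ((dvd_pow_self 2 hne).trans (hi ▸ h1))
    rw [hi0, pow_zero] at hi
    exact Subgroup.relIndex_eq_one.1 hi
  set D : Set (↥L ⧸ Cs) := {d | d ∈ H0 ∧ d ^ 3 = 1 ∧
      ∀ g ∈ H0, g * d * g⁻¹ = d ∨ g * d * g⁻¹ = d⁻¹} with hD
  obtain ⟨d, hdD, hdM⟩ : ∃ d ∈ D, d ∉ Mn.map π := by
    by_contra hcon
    push Not at hcon
    have hR : Rp ≤ Mn := by
      intro r hr
      have hle : R0 ≤ Mn.map π := (Subgroup.closure_le _).2 fun x hx =>
        (Subgroup.closure_le _).2 hcon ((overgroup_image hz hL).2 x hx.1 hx.2)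
      obtain ⟨mm, hmm, hmr⟩ := hle hr
      rw [← mul_inv_cancel_left mm r]
      exact mul_mem hmm (hCsM (QuotientGroup.eq.1 hmr))
    have htop : (⊤ : Subgroup ↥L) ≤ Mn := by
      rw [← hfr]
      exact sup_le (hNT1.trans hNJ) (hM1le.trans (sup_le hR
        ((Subgroup.le_normalizer.trans hNT1).trans hNJ)))
    exact hLM fun x hx => htop (Subgroup.mem_top (⟨x, hx⟩ : ↥L))
  obtain ⟨hdH, hd3, hdn⟩ := hdD
  obtain ⟨y, hy, hyd⟩ := hdH
  have hyM : y ∉ Mn := fun h => hdM ⟨y, h, hyd⟩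
  -- `[C, J(L)] ≤ O₂(L)`
  set Qn := pCore 2 ↥L with hQn
  set ψ := QuotientGroup.mk' Qn with hψ
  have hψ1 : ∀ u : ↥L, ψ u = 1 ↔ u ∈ Qn := fun u => QuotientGroup.eq_one_iff u
  have hQnmem : ∀ u : ↥L, u ∈ Qn ↔ (u : G) ∈ pCoreOf 2 L := fun u =>
    ⟨fun h => ⟨u, h, rfl⟩, fun ⟨u', h, e⟩ => (Subtype.ext e : u' = u) ▸ h⟩
  set Z := (Subgroup.centralizer ((Cs.map ψ : Subgroup (↥L ⧸ Qn)) : Set (↥L ⧸ Qn))).comap ψ with hZ
  have hTZ : (Tn : Subgroup ↥L) ≤ Z := by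
    intro t ht
    rw [hZ, Subgroup.mem_comap, Subgroup.mem_centralizer_iff]
    rintro _ ⟨c, hc, rfl⟩
    refine commutatorElement_eq_one_iff_mul_comm.1 ?_
    rw [← map_commutatorElement, hψ1, hQnmem]
    exact cOf_commutator_core hz hL ((hmemC c).1 hc) ht
  have hJgZ : Jg ≤ Z := by
    have hCn : (Cs.map ψ).Normal :=
      (inferInstance : Cs.Normal).map ψ (QuotientGroup.mk'_surjective Qn)
    have hZn : Z.Normal :=
      (inferInstance : (Subgroup.centralizer ((Cs.map ψ : Subgroup (↥L ⧸ Qn)) :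
        Set (↥L ⧸ Qn))).Normal).comap ψ
    rw [hJg, thompsonSubgroup]
    refine sSup_le fun A hA => ?_
    obtain ⟨P, hP⟩ := PSolv.exists_sylow_le_of_mem_max hA
    obtain ⟨l, hl⟩ := MulAction.exists_smul_eq ↥L Tn P
    refine (hP.trans (thompsonOf_le _)).trans ?_
    rw [← hl, PSolv.coe_sylow_smul]
    rintro _ ⟨t, ht, rfl⟩
    exact hZn.conj_mem t (hTZ ht) l
  have hcomm : ∀ c ∈ Cs, ∀ u ∈ Jg, ψ c * ψ u = ψ u * ψ c := fun c hc u hu =>
    Subgroup.mem_centralizer_iff.1 (hJgZ hu) _ ⟨c, hc, rfl⟩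
  have hcoreC : ∀ c ∈ Cs, (∃ n : ℕ, c ^ 2 ^ n ∈ Qn) → c ∈ Qn := by
    rintro c hc ⟨n, hn⟩
    obtain ⟨k, hk⟩ := two_pow_pow_eq_one (LocalP.pCoreOf_isPGroup (p := 2) L) ((hQnmem _).1 hn)
    refine (hQnmem c).2 (two_element_mem_core hz hL ((hmemC c).1 hc) (n := n + k) ?_)
    rw [pow_add, pow_mul]
    simpa using hk
  have hJJg : J' ≤ Jg := PSolv.thompsonSubgroupOf_sylow_le Tn
  -- elements of `J'` centralizing a class mod `C` centralize it mod `O₂(L)`
  have hfix : ∀ j ∈ J', ∀ u ∈ Jg, π (j * u * j⁻¹ * u⁻¹) = 1 → ψ (j * u * j⁻¹) = ψ u := by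
    intro j hj u hu h
    set c := j * u * j⁻¹ * u⁻¹ with hcdef
    have hc := (hπ1 _).1 h
    have hpow : ∀ k : ℕ, ψ (j ^ k * u * (j ^ k)⁻¹) = ψ c ^ k * ψ u := by
      intro k
      induction k with
      | zero => simp
      | succ k ih =>
        have hjc : ψ j * ψ c ^ k = ψ c ^ k * ψ j :=
          ((Commute.pow_left (hcomm c hc j (hJJg hj) : Commute (ψ c) (ψ j)) k).eq).symm
        calc ψ (j ^ (k + 1) * u * (j ^ (k + 1))⁻¹)
            = ψ j * ψ (j ^ k * u * (j ^ k)⁻¹) * (ψ j)⁻¹ := by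
              rw [← map_inv, ← map_mul, ← map_mul, pow_succ']; congr 1; group
          _ = ψ c ^ k * (ψ j * ψ u * (ψ j)⁻¹) := by
              rw [ih, ← mul_assoc (ψ j), hjc]; simp only [mul_assoc]
          _ = ψ c ^ k * (ψ c * ψ u) := by
              rw [← map_inv, ← map_mul, ← map_mul, ← map_mul, hcdef, inv_mul_cancel_right]
          _ = _ := by rw [pow_succ, mul_assoc]
    obtain ⟨n, hn⟩ := two_pow_pow_eq_one (Tn.isPGroup'.to_le (thompsonOf_le _)) hj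
    have h1 := hpow (2 ^ n)
    rw [hn] at h1
    simp only [one_mul, inv_one, mul_one] at h1
    have h2 : ψ (c ^ 2 ^ n) = 1 := by rw [map_pow]; exact mul_eq_right.1 h1.symm
    have h3 : ψ c = 1 := (hψ1 c).2 (hcoreC c hc ⟨n, (hψ1 _).1 h2⟩)
    rw [hcdef, map_mul, map_inv, mul_inv_eq_one] at h3
    exact h3
  have hH0J : ∀ j ∈ J', π j ∈ H0 := fun j hj => ⟨j, hJJg hj, rfl⟩
  obtain ⟨j₀, hj₀, hj₀d⟩ : ∃ j ∈ J', π j * d * (π j)⁻¹ = d⁻¹ := by
    by_contra hcon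
    push Not at hcon
    have hfixd : ∀ j ∈ J', π j * d * (π j)⁻¹ = d := fun j hj =>
      (hdn _ (hH0J j hj)).resolve_right (hcon j hj)
    apply hyM
    refine hNJ ?_
    have hyT : J'.map (MulAut.conj y).toMonoidHom ≤ (Tn : Subgroup ↥L) := by
      rintro _ ⟨j, hj, rfl⟩
      have hjT : j ∈ (Tn : Subgroup ↥L) := thompsonOf_le _ hj
      change y * j * y⁻¹ ∈ (Tn : Subgroup ↥L)
      set v := y * j * y⁻¹ with hv
      have hc : v * j⁻¹ ∈ Cs := by
        rw [← hπ1, map_mul, hv, map_mul, map_mul, map_inv, map_inv, hyd]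
        have := hfixd j hj
        calc d * π j * d⁻¹ * (π j)⁻¹ = d * (π j * d * (π j)⁻¹)⁻¹ := by group
          _ = 1 := by rw [this, mul_inv_cancel]
      have hvn : v ∈ Subgroup.normalizer ((Tn : Subgroup ↥L) : Set ↥L) := by
        rw [← inv_mul_cancel_right v j]
        refine mul_mem ?_ (Subgroup.le_normalizer hjT)
        have h1 := cOf_le_normalizer_sylow hz hL ((hmemC _).1 hc)
        rw [hTn, coe_sylowOfIn, Subgroup.mem_normalizer_iff]
        exact fun x => Subgroup.mem_normalizer_iff.1 h1 (x : G)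
      obtain ⟨n, hn⟩ := two_pow_pow_eq_one Tn.isPGroup' hjT
      have hv2 : v ^ 2 ^ n = 1 := by
        rw [hv, ← MulAut.conj_apply, ← map_pow, hn, map_one]
      have hz' : IsPGroup 2 (Subgroup.zpowers v) := by
        obtain ⟨i, -, hi⟩ := (Nat.dvd_prime_pow Nat.prime_two).1 (orderOf_dvd_of_pow_eq_one hv2)
        exact IsPGroup.of_card (n := i) (by rw [Nat.card_zpowers, hi])
      have h1 := hz'.to_sup_of_normal_right' Tn.isPGroup' (Subgroup.zpowers_le.2 hvn)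
      rw [← Tn.is_maximal' h1 le_sup_right]
      exact Subgroup.mem_sup_left (Subgroup.mem_zpowers v)
    rw [Subgroup.mem_normalizer_iff_map_conj_eq]
    refine Subgroup.eq_of_le_of_card_ge ?_
      (Subgroup.card_map_of_injective (f := (MulAut.conj y).toMonoidHom)
        (MulAut.conj y).injective).ge
    conv_lhs => rw [hJ', Modules.thompsonSubgroupOf_eq_sSup]
    rw [Subgroup.map_le_iff_le_comap]
    refine sSup_le fun A hA => ?_
    rw [← Subgroup.map_le_iff_le_comap]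
    refine Modules.le_thompsonSubgroupOf ⟨(Subgroup.map_mono
      (Modules.le_thompsonSubgroupOf hA)).trans hyT, Modules.elemAb_map _ hA.2.1,
      fun B hB hBe => ?_⟩
    refine (hA.2.2 B hB hBe).trans (le_of_eq ?_)
    rw [Subgroup.card_map_of_injective (MulAut.conj y).injective]
  -- the element `z = [j₀, y]`
  set z := j₀ * y * j₀⁻¹ * y⁻¹ with hzdef
  have hzJg : z ∈ Jg := mul_mem (hJgn.conj_mem y hy j₀) (inv_mem hy)
  have hd3' : d * d * d = 1 := by rw [← hd3, pow_succ, pow_two]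
  have hzd : π z = d := by
    rw [hzdef, map_mul, map_mul, map_mul, map_inv, map_inv, hyd, hj₀d]
    exact inv_mul_eq_of_eq_mul (a := d) (by rw [eq_comm, ← mul_inv_eq_one, inv_inv] ; exact hd3')
  set c₀ := j₀ * y * j₀⁻¹ * y with hc₀def
  have hc₀ : c₀ ∈ Cs := by
    rw [← hπ1, hc₀def, map_mul, map_mul, map_mul, map_inv, hyd, hj₀d, inv_mul_cancel]
  have hc₀j : ψ c₀ * ψ j₀ = ψ j₀ * ψ c₀ := hcomm c₀ hc₀ j₀ (hJJg hj₀)
  have hc₀y : ψ c₀ * ψ y = ψ y * ψ c₀ := hcomm c₀ hc₀ y hy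
  have hψz : ψ z = ψ c₀ * (ψ y)⁻¹ * (ψ y)⁻¹ := by
    rw [← map_inv, ← map_mul, ← map_mul]
    congr 1
    rw [hzdef, hc₀def]; group
  have hzinv : ψ (j₀ * z * j₀⁻¹) = (ψ z)⁻¹ := by
    have hjy : ψ j₀ * ψ y * (ψ j₀)⁻¹ = ψ c₀ * (ψ y)⁻¹ := by
      rw [← map_inv, ← map_mul, ← map_mul, ← map_inv ψ y, ← map_mul]
      congr 1
      rw [hc₀def]; group
    rw [map_mul, map_mul, map_inv, hψz]
    calc ψ j₀ * (ψ c₀ * (ψ y)⁻¹ * (ψ y)⁻¹) * (ψ j₀)⁻¹
        = (ψ j₀ * ψ c₀ * (ψ j₀)⁻¹) * (ψ j₀ * ψ y * (ψ j₀)⁻¹)⁻¹ * (ψ j₀ * ψ y * (ψ j₀)⁻¹)⁻¹ := by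
          group
      _ = ψ c₀ * (ψ c₀ * (ψ y)⁻¹)⁻¹ * (ψ c₀ * (ψ y)⁻¹)⁻¹ := by
          rw [← hc₀j, mul_inv_cancel_right, hjy]
      _ = (ψ c₀ * ψ y) * (ψ c₀)⁻¹ * ψ y * (ψ c₀)⁻¹ := by group
      _ = ψ y * ψ y * (ψ c₀)⁻¹ := by rw [hc₀y, mul_inv_cancel_right]
      _ = (ψ c₀ * (ψ y)⁻¹ * (ψ y)⁻¹)⁻¹ := by rw [mul_inv_rev, mul_inv_rev, inv_inv, mul_assoc]
  have hz3C : z ^ 3 ∈ Cs := (hπ1 _).1 (by rw [map_pow, hzd, hd3])
  have hz3 : z ^ 3 ∈ Qn := by
    have h1 : ψ (j₀ * z ^ 3 * j₀⁻¹) = (ψ (z ^ 3))⁻¹ := by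
      rw [map_mul, map_mul, map_inv, map_pow, ← conj_pow, ← map_inv, ← map_mul, ← map_mul,
        hzinv, inv_pow]
    rw [map_mul, map_mul, map_inv, ← hcomm _ hz3C j₀ (hJJg hj₀), mul_inv_cancel_right,
      eq_inv_iff_mul_eq_one, ← map_mul] at h1
    refine hcoreC _ hz3C ⟨1, ?_⟩
    rw [pow_one, pow_two]
    exact (hψ1 _).1 h1
  have hzM : z ∉ Mn := fun h => hdM ⟨z, h, hzd⟩
  have key : ∀ j ∈ J', π j * d * (π j)⁻¹ = d → ψ (j * z * j⁻¹) = ψ z := fun j hj h =>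
    hfix j hj z hzJg (by rw [map_mul, map_mul, map_mul, map_inv, map_inv, hzd, h, mul_inv_cancel])
  have hjz : ∀ j ∈ J', ψ (j * z * j⁻¹) = ψ z ∨ ψ (j * z * j⁻¹) = (ψ z)⁻¹ := by
    intro j hj
    rcases hdn _ (hH0J j hj) with h | h
    · exact Or.inl (key j hj h)
    · right
      have hd' : π (j * j₀) * d * (π (j * j₀))⁻¹ = d := by
        calc π (j * j₀) * d * (π (j * j₀))⁻¹ = π j * (π j₀ * d * (π j₀)⁻¹) * (π j)⁻¹ := by
              rw [map_mul]; group
          _ = (π j * d * (π j)⁻¹)⁻¹ := by rw [hj₀d]; group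
          _ = d := by rw [h, inv_inv]
      have h1 := key _ (mul_mem hj hj₀) hd'
      have h2 : ψ (j * j₀ * z * (j * j₀)⁻¹) = (ψ (j * z * j⁻¹))⁻¹ := by
        calc ψ (j * j₀ * z * (j * j₀)⁻¹) = ψ j * ψ (j₀ * z * j₀⁻¹) * (ψ j)⁻¹ := by
              rw [← map_inv, ← map_mul, ← map_mul]; congr 1; group
          _ = _ := by rw [hzinv, map_mul ψ (j * z), map_mul ψ j, map_inv ψ j]; group
      exact inv_eq_iff_eq_inv.1 (h2.symm.trans h1)
  have toQ : ∀ u v : ↥L, ψ u = ψ v → ((u * v⁻¹ : ↥L) : G) ∈ pCoreOf 2 L := fun u v h =>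
    (hQnmem _).1 ((hψ1 _).1 (by rw [map_mul, map_inv, h, mul_inv_cancel]))
  refine exists_component_of_inverted hz hL hT hCM z.2 hzM (g := (z : G)) ?_ ?_
    (j₀ := (j₀ : G)) ((hJ'mem _).1 hj₀) ?_
  · exact (hQnmem (z ^ 3)).1 hz3
  · intro j hj
    rcases hjz ⟨j, thompson_le_of_jOvergroup hL hj⟩ ((hJ'mem _).2 hj) with h | h
    · exact Or.inl (toQ _ _ h)
    · right
      rw [← map_inv] at h
      simpa using toQ _ _ h
  · rw [← map_inv] at hzinv
    simpa using toQ _ _ hzinv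

end Cfsg.Agent.LocalEven
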