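import Cfsg.Agent.FF.Realize

/-!
The odd part of the group induced by `J(G)` on a module with failure of factorization (`p = 2`).
-/

set_option autoImplicit false

open Cfsg
open scoped commutatorElement

namespace Cfsg.Agent.LocalEven

open Cfsg.Agent.FF

section

variable {G : Type*} [Group G] [Finite G] {V H : Subgroup G}

omit [Finite G] in
/-- Commutators lie in every subgroup of index two. -/
theorem commutatorElement_mem_of_relIndex_two {X Y : Subgroup G}
    (h : (X.subgroupOf Y).index = 2) {x y : G} (hx : x ∈ Y) (hy : y ∈ Y) : ⁅x, y⁆ ∈ X := by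
  have key : ⁅(⟨x, hx⟩ : ↥Y), ⟨y, hy⟩⁆ ∈ X.subgroupOf Y := by
    simp only [commutatorElement_def, Subgroup.mul_mem_iff_of_index_two h, inv_mem_iff]
    tauto
  exact key

omit [Finite G] in
/-- If a group is generated by involution-sized, pairwise commuting images, its squares vanish. -/
theorem sq_mem_of_pairwise {ι : Type*} (E : ι → Subgroup G) (R : Subgroup G)
    (hR : ∀ i, E i ≤ Subgroup.normalizer (R : Set G))
    (hcomm : ∀ i j, ∀ a ∈ E i, ∀ b ∈ E j, ⁅a, b⁆ ∈ R) (hsq : ∀ i, ∀ a ∈ E i, a * a ∈ R)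
    {x : G} (hx : x ∈ ⨆ i, E i) : x * x ∈ R := by
  set N := Subgroup.normalizer (R : Set G) with hN
  have hle : (⨆ i, E i) ≤ N := iSup_le hR
  set π := QuotientGroup.mk' (R.subgroupOf N) with hπ
  have hker : ∀ y : ↥N, π y = 1 ↔ (y : G) ∈ R := fun y => by
    rw [hπ, QuotientGroup.mk'_apply, QuotientGroup.eq_one_iff, Subgroup.mem_subgroupOf]
  have hpair : ∀ i j, ∀ a, ∀ ha : a ∈ E i, ∀ b, ∀ hb : b ∈ E j,
      Commute (π ⟨a, hR i ha⟩) (π ⟨b, hR j hb⟩) := by
    intro i j a ha b hb
    refine commutatorElement_eq_one_iff_commute.1 ?_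
    rw [← map_commutatorElement, hker]
    exact hcomm i j a ha b hb
  have h1 : ∀ x, ∀ hx : x ∈ ⨆ i, E i, ∀ j b, ∀ hb : b ∈ E j,
      Commute (π ⟨x, hle hx⟩) (π ⟨b, hR j hb⟩) := by
    intro x hx
    refine Subgroup.iSup_induction' E
      (C := fun x hx => ∀ j b, ∀ hb : b ∈ E j,
        Commute (π ⟨x, hle hx⟩) (π ⟨b, hR j hb⟩)) ?_ ?_ ?_ hx
    · exact fun i a ha j b hb => hpair i j a ha b hb
    · intro j b hb
      rw [show (⟨1, hle (one_mem _)⟩ : ↥N) = 1 from rfl, map_one]
      exact Commute.one_left _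
    · intro a b ha hb iha ihb j c hc
      rw [show (⟨a * b, hle (mul_mem ha hb)⟩ : ↥N) = ⟨a, hle ha⟩ * ⟨b, hle hb⟩ from rfl, map_mul]
      exact (iha j c hc).mul_left (ihb j c hc)
  suffices h : ∀ x, ∀ hx : x ∈ ⨆ i, E i,
      π ⟨x, hle hx⟩ * π ⟨x, hle hx⟩ = 1 ∧
        ∀ y, ∀ hy : y ∈ ⨆ i, E i, Commute (π ⟨x, hle hx⟩) (π ⟨y, hle hy⟩) by
    have := (h x hx).1
    rwa [← map_mul, hker] at this
  intro x hx
  refine Subgroup.iSup_induction' E
    (C := fun x hx => π ⟨x, hle hx⟩ * π ⟨x, hle hx⟩ = 1 ∧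
        ∀ y, ∀ hy : y ∈ ⨆ i, E i, Commute (π ⟨x, hle hx⟩) (π ⟨y, hle hy⟩)) ?_ ?_ ?_ hx
  · intro i a ha
    refine ⟨?_, fun y hy => (h1 y hy i a ha).symm⟩
    rw [← map_mul, hker]
    exact hsq i a ha
  · rw [show (⟨1, hle (one_mem _)⟩ : ↥N) = 1 from rfl, map_one]
    exact ⟨one_mul _, fun y hy => Commute.one_left _⟩
  · intro a b ha hb iha ihb
    rw [show (⟨a * b, hle (mul_mem ha hb)⟩ : ↥N) = ⟨a, hle ha⟩ * ⟨b, hle hb⟩ from rfl, map_mul]
    refine ⟨?_, fun y hy => (iha.2 y hy).mul_left (ihb.2 y hy)⟩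
    rw [mul_assoc, ← mul_assoc (π ⟨b, _⟩), ← (iha.2 b hb).eq, ← mul_assoc, ← mul_assoc,
      iha.1, one_mul, ihb.1]

set_option maxHeartbeats 800000 in
/-- For `p = 2` the elements of odd order of a group generated by best offenders commute. -/
theorem genHyp_odd_commute (h : GenHyp 2 V H) {a b : G} (ha : a ∈ H) (hb : b ∈ H)
    (hao : Odd (orderOf a)) (hbo : Odd (orderOf b)) : Commute a b := by
  let ι := {L : Subgroup G // IsLine 2 V H L}
  let E : ι → Subgroup G := fun L => eblock 2 H L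
  let D : ι → Subgroup G := fun L => ⁅qcore 2 H, (L : Subgroup G)⁆
  let R := ⨆ L, D L
  have hDE : ∀ L : ι, D L ≤ E L := fun L => (eblock_commutator_le_inf L.2).trans inf_le_right
  have hcard : ∀ L : ι, Nat.card ↥(D L) = 3 ∧ Nat.card ↥(E L) = 6 := fun L => by
    have h1 := (h.toHyp.card_commutator_qcore L.2).1
    have h2 := h.toHyp.card_eblock L.2
    simp only [E, D]
    omega
  have hDeq : ∀ L M : ι, E L = E M → D L = D M := by
    intro L M he
    refine Subgroup.eq_of_le_of_card_ge ?_ (by rw [(hcard M).1, (hcard L).1])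
    intro x hx
    by_contra hxM
    have hsup : D L ⊔ D M ≤ qcore 2 H :=
      sup_le (commutator_qcore_le L.2) (commutator_qcore_le M.2)
    have hco : (Nat.card ↥(D L ⊔ D M)).Coprime 2 :=
      Nat.Coprime.coprime_dvd_left (Subgroup.card_dvd_of_le hsup) qcore_coprime
    have hd6 : Nat.card ↥(D L ⊔ D M) ∣ 6 :=
      (hcard M).2 ▸ Subgroup.card_dvd_of_le (sup_le (he ▸ hDE L) (hDE M))
    have hd3 : Nat.card ↥(D L ⊔ D M) ∣ 3 := hco.dvd_of_dvd_mul_left (by simpa using hd6)
    exact hxM ((Subgroup.eq_of_le_of_card_ge (le_sup_right : D M ≤ D L ⊔ D M)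
      ((Nat.le_of_dvd (by norm_num) hd3).trans (hcard M).1.ge)).ge (Subgroup.mem_sup_left hx))
  have hDn : ∀ L M : ι, E M ≤ Subgroup.normalizer (D L : Set G) := by
    intro L M
    by_cases he : E L = E M
    · rw [hDeq L M he]; exact eblock_le_normalizer_commutator M.2
    · refine le_trans ?_ ((Subgroup.centralizer_le (SetLike.coe_subset_coe.2 (hDE L))).trans
        (Subgroup.centralizer_le_normalizer _))
      exact Subgroup.commutator_eq_bot_iff_le_centralizer.1
        (h.toHyp.eblock_commute M.2 L.2 (Ne.symm he))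
  have hRn : ∀ M : ι, E M ≤ Subgroup.normalizer (R : Set G) := by
    intro M g hg
    rw [Subgroup.mem_normalizer_iff_map_conj_eq]
    change R.map (MulAut.conj g).toMonoidHom = _
    simp only [R]
    rw [Subgroup.map_iSup]
    exact iSup_congr fun L => map_conj_eq (hDn L M hg)
  have habel : ∀ L M : ι, ∀ x ∈ D L, ∀ y ∈ D M, Commute x y := by
    intro L M x hx y hy
    by_cases he : E L = E M
    · have hp : Fact (Nat.Prime 3) := ⟨Nat.prime_three⟩
      have hc := isCyclic_of_prime_card (hcard M).1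
      have := (IsCyclic.isMulCommutative (α := ↥(D M))).is_comm.comm ⟨x, hDeq L M he ▸ hx⟩ ⟨y, hy⟩
      exact congrArg Subtype.val this
    · exact (Subgroup.mem_centralizer_iff.1
        (Subgroup.commutator_eq_bot_iff_le_centralizer.1
          (h.toHyp.eblock_commute L.2 M.2 he) (hDE L hx)) y (hDE M hy)).symm
  have hHsup : H ≤ ⨆ L, E L :=
    h.le_of_lines fun L hL => le_sup_right.trans (le_iSup E ⟨L, hL⟩)
  have hsq : ∀ L : ι, ∀ x ∈ E L, x * x ∈ R := by
    intro L x hx
    refine le_iSup D L ?_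
    have hrel : (D L).relIndex (E L) = 2 := by
      have h1 := Subgroup.relIndex_mul_relIndex ⊥ (D L) (E L) bot_le (hDE L)
      rw [Subgroup.relIndex_bot_left, Subgroup.relIndex_bot_left, (hcard L).1, (hcard L).2] at h1
      omega
    exact Subgroup.mul_self_mem_of_index_two (H := (D L).subgroupOf (E L)) hrel ⟨x, hx⟩
  have hcm : ∀ L M : ι, ∀ x ∈ E L, ∀ y ∈ E M, ⁅x, y⁆ ∈ R := by
    intro L M x hx y hy
    by_cases he : E L = E M
    · refine le_iSup D M ?_
      have hrel : ((D M).subgroupOf (E M)).index = 2 := by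
        have h1 := Subgroup.relIndex_mul_relIndex ⊥ (D M) (E M) bot_le (hDE M)
        rw [Subgroup.relIndex_bot_left, Subgroup.relIndex_bot_left, (hcard M).1, (hcard M).2] at h1
        change (D M).relIndex (E M) = 2
        omega
      have hxM : x ∈ E M := he ▸ hx
      exact commutatorElement_mem_of_relIndex_two hrel hxM hy
    · rw [commutatorElement_eq_one_iff_commute.2]
      · exact one_mem _
      · exact (Subgroup.mem_centralizer_iff.1
          (Subgroup.commutator_eq_bot_iff_le_centralizer.1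
            (h.toHyp.eblock_commute L.2 M.2 he) hx) y hy).symm
  have hodd : ∀ x ∈ H, Odd (orderOf x) → x ∈ R := by
    intro x hx ho
    have h2 := sq_mem_of_pairwise E R hRn hcm hsq (hHsup hx)
    obtain ⟨k, hk⟩ := ho
    have : x = ((x * x) ^ k)⁻¹ := by
      rw [eq_inv_iff_mul_eq_one, ← pow_two, ← pow_mul, ← pow_succ', ← hk, pow_orderOf_eq_one]
    rw [this]
    exact inv_mem (pow_mem h2 k)
  have hRc : ∀ x ∈ R, ∀ y ∈ R, Commute x y := by
    intro x hx
    refine Subgroup.iSup_induction D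
      (C := fun x => ∀ y ∈ R, Commute x y) hx ?_ ?_ ?_
    · intro L x hx y hy
      refine Subgroup.iSup_induction D (C := fun y => Commute x y) hy
        (fun M y hy => habel L M x hx y hy) (Commute.one_right _) (fun u v hu hv => hu.mul_right hv)
    · exact fun y _ => Commute.one_left _
    · exact fun u v hu hv y hy => (hu y hy).mul_left (hv y hy)
  exact hRc a (hodd a ha hao) b (hodd b hb hbo)

end

variable {p : ℕ} {G : Type*} [Group G]

/-- Inside a `p`-soluble group: two elements of `J(G) C_G(V)` of odd order modulo `C_G(V)` commute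
modulo `C_G(V)` (`p = 2`). -/
theorem thompson_odd_commute [Finite G] (hp2 : p = 2) [hp : Fact p.Prime] (hsep : IsPSolvable p G)
    (V : Subgroup G) [V.Normal] (hV : IsElementaryAbelian p V)
    (hOp : pCore p (G ⧸ Subgroup.centralizer (V : Set G)) = ⊥)
    {a b : G ⧸ Subgroup.centralizer (V : Set G)}
    (ha : a ∈ (thompsonSubgroup p G).map (QuotientGroup.mk' (Subgroup.centralizer (V : Set G))))
    (hb : b ∈ (thompsonSubgroup p G).map (QuotientGroup.mk' (Subgroup.centralizer (V : Set G))))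
    (hao : Odd (orderOf a)) (hbo : Odd (orderOf b)) : Commute a b := by
  set C := Subgroup.centralizer (V : Set G) with hC
  set π := QuotientGroup.mk' C
  set J := thompsonSubgroup p G with hJdef
  haveI hJn : J.Normal := by
    have := Modules.thompsonSubgroup_characteristic p G
    exact inferInstance
  let S := SemidirectProduct V (G ⧸ C) (quotAct V)
  let iV : V →* S := SemidirectProduct.inl
  let iQ : G ⧸ C →* S := SemidirectProduct.inr
  have hiV : Function.Injective iV := SemidirectProduct.inl_injective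
  have hiQ : Function.Injective iQ := SemidirectProduct.inr_injective
  haveI : Finite S := Finite.of_equiv _ SemidirectProduct.equivProd.symm
  set V' : Subgroup S := iV.range with hV'
  set H0 := J.map π with hH0
  set H : Subgroup S := H0.map iQ with hH
  haveI hH0n : H0.Normal := hJn.map _ (QuotientGroup.mk'_surjective C)
  have hconj : ∀ (g : G) (v : V), iQ (π g) * iV v * (iQ (π g))⁻¹ = iV (quotAct V (π g) v) :=
    fun g v => by rw [← map_inv]; exact (SemidirectProduct.inl_aut (φ := quotAct V) (π g) v).symm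
  have hfixmem : ∀ (g : G) (v : V),
      iQ (π g) * iV v = iV v * iQ (π g) ↔ g * (v : G) = v * g := by
    intro g v
    rw [← mul_inv_eq_iff_eq_mul, hconj, hiV.eq_iff, ← Subtype.coe_inj]
    rw [show (quotAct V (π g) v : G) = g * v * g⁻¹ from quotAct_mk V g v]
    exact mul_inv_eq_iff_eq_mul
  -- fixed points correspond
  have hfix : ∀ X : Subgroup G, Nat.card ↥(V' ⊓ Subgroup.centralizer ((X.map π).map iQ : Set S)) =
      Nat.card ↥(V ⊓ Subgroup.centralizer (X : Set G)) := by
    intro X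
    have e : V' ⊓ Subgroup.centralizer ((X.map π).map iQ : Set S) =
        ((Subgroup.centralizer (X : Set G)).subgroupOf V).map iV := by
      ext z
      constructor
      · intro hz
        obtain ⟨⟨v, rfl⟩, hz2⟩ := Subgroup.mem_inf.1 hz
        refine ⟨v, Subgroup.mem_centralizer_iff.2 fun x hx => ?_, rfl⟩
        exact (hfixmem x v).1 (Subgroup.mem_centralizer_iff.1 hz2 _ ⟨π x, ⟨x, hx, rfl⟩, rfl⟩)
      · rintro ⟨v, hv, rfl⟩
        refine Subgroup.mem_inf.2 ⟨⟨v, rfl⟩, Subgroup.mem_centralizer_iff.2 ?_⟩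
        rintro _ ⟨_, ⟨x, hx, rfl⟩, rfl⟩
        exact (hfixmem x v).2 (Subgroup.mem_centralizer_iff.1 hv x hx)
    rw [e, Subgroup.card_map_of_injective hiV,
      ← Subgroup.card_map_of_injective (f := V.subtype) V.subtype_injective,
      Subgroup.subgroupOf_map_subtype, inf_comm]
  have hV'e : IsElementaryAbelian p V' := by
    refine ⟨Modules.comm_iff.2 ?_, ?_⟩
    · rintro _ ⟨a, rfl⟩ _ ⟨b, rfl⟩
      rw [← map_mul, ← map_mul, show a * b = b * a from
        Subtype.ext (Modules.elemAb_comm hV a.2 b.2)]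
    · rintro _ ⟨a, rfl⟩
      rw [← map_pow, show a ^ p = 1 from Subtype.ext (by simpa using hV.2 a a.2), map_one]
  have hnorm : H ≤ Subgroup.normalizer (V' : Set S) := by
    rw [Subgroup.le_normalizer_iff]
    rintro _ ⟨_, ⟨g, -, rfl⟩, rfl⟩ _ ⟨v, rfl⟩
    exact ⟨_, (hconj g v).symm⟩
  have hfaith : H ⊓ Subgroup.centralizer (V' : Set S) = ⊥ := by
    rw [eq_bot_iff]
    intro z hz
    obtain ⟨⟨_, ⟨g, -, rfl⟩, rfl⟩, hz2⟩ := Subgroup.mem_inf.1 hz
    have hg : g ∈ C := Subgroup.mem_centralizer_iff.2 fun v hv =>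
      ((hfixmem g ⟨v, hv⟩).1 (Subgroup.mem_centralizer_iff.1 hz2 _ ⟨⟨v, hv⟩, rfl⟩).symm).symm
    rw [Subgroup.mem_bot, show π g = 1 from (QuotientGroup.eq_one_iff g).2 hg, map_one]
  have hself : Subgroup.centralizer (pPrimeCore p ↥H : Set ↥H) ≤ pPrimeCore p ↥H := by
    let e := H0.equivMapOfInjective iQ hiQ
    refine PSolv.centralizer_pPrimeCore_le (PSolv.isPSolvable_of_equiv e
      (PSolv.isPSolvable_subgroup (PSolv.isPSolvable_quotient hsep C) H0)) ?_
    have h1 : (pCore p H0).map H0.subtype ≤ ⊥ := hOp ▸ PSolv.map_pCore_subtype_le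
    rw [le_bot_iff, Subgroup.map_eq_bot_iff_of_injective _ H0.subtype_injective] at h1
    rw [← PSolv.map_pCore_equiv e, h1, Subgroup.map_bot]
  have hoff : ∀ A ∈ maxElementaryAbelianSubgroups p G,
      IsBestOffenderOn p V' ((A.map π).map iQ) := by
    intro A hA
    have hbest := Modules.maxElemAbIn_bestOffender (P := ⊤) (V := V)
      ⟨le_top, hA.1, fun B _ hB => hA.2 B hB⟩ hV le_top
    have hAe := Modules.elemAb_map iQ (Modules.elemAb_map π hA.1)
    refine ⟨fun B' hB' => ?_, ?_, fun a ha => ?_⟩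
    · set B := A ⊓ (B'.comap (iQ.comp π)) with hB
      have hBmap : (B.map π).map iQ = B' := by
        refine le_antisymm ?_ fun z hz => ?_
        · rw [Subgroup.map_map]
          exact (Subgroup.map_mono inf_le_right).trans (Subgroup.map_comap_le _ _)
        · obtain ⟨_, ⟨a, ha, rfl⟩, rfl⟩ := hB' hz
          exact ⟨π a, ⟨a, Subgroup.mem_inf.2 ⟨ha, hz⟩, rfl⟩, rfl⟩
      have key : ∀ X : Subgroup G,
          Nat.card ↥((X.map π).map iQ) * Nat.card ↥(X ⊓ C) = Nat.card X := by
        intro X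
        rw [Subgroup.card_map_of_injective hiQ, PSolv.card_map_mk_eq_relIndex, mul_comm]
        conv_rhs => rw [card_eq_card_mul_relIndex (inf_le_left : X ⊓ C ≤ X),
          Subgroup.inf_relIndex_left]
      have hint : B ⊓ C = A ⊓ C := by
        refine le_antisymm (inf_le_inf_right _ inf_le_left) fun x hx => ?_
        obtain ⟨hxA, hxC⟩ := Subgroup.mem_inf.1 hx
        refine Subgroup.mem_inf.2 ⟨Subgroup.mem_inf.2 ⟨hxA, ?_⟩, hxC⟩
        change iQ (π x) ∈ B'
        rw [show π x = 1 from (QuotientGroup.eq_one_iff x).2 hxC, map_one]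
        exact one_mem _
      have h1 := hbest.1 B inf_le_left
      rw [← key B, ← key A, hint, ← hfix B, ← hfix A, hBmap] at h1
      refine Nat.le_of_mul_le_mul_left ?_ (Nat.card_pos (α := ↥(A ⊓ C)))
      calc _ = _ := by ring
        _ ≤ _ := h1
        _ = _ := by ring
    · rw [Subgroup.commutator_eq_bot_iff_le_centralizer.2 (Modules.elemAb_le_centralizer hAe)]
      exact bot_le
    · rw [hAe.2 a ha]; exact one_mem _
  have hgen : H = ⨆ A : {A : Subgroup S // A ≤ H ∧ IsBestOffenderOn p V' A}, (A : Subgroup S) := by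
    refine le_antisymm ?_ (iSup_le fun A => A.2.1)
    conv_lhs =>
      rw [hH, hH0, hJdef, thompsonSubgroup, sSup_eq_iSup, Subgroup.map_iSup, Subgroup.map_iSup]
    refine iSup_le fun A => ?_
    rw [Subgroup.map_iSup, Subgroup.map_iSup]
    refine iSup_le fun hA => ?_
    refine le_iSup_of_le ⟨(A.map π).map iQ, ?_, hoff A hA⟩ le_rfl
    exact Subgroup.map_mono (Subgroup.map_mono (le_sSup hA))
  have h : GenHyp p V' H := ⟨⟨hV'e, hnorm, hfaith, hself⟩, hgen⟩
  subst hp2
  have hinj := hiQ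
  have hc := genHyp_odd_commute h (Subgroup.mem_map_of_mem iQ ha) (Subgroup.mem_map_of_mem iQ hb)
    (by rwa [orderOf_injective iQ hiQ]) (by rwa [orderOf_injective iQ hiQ])
  exact hiQ (by rw [map_mul, map_mul]; exact hc)

end Cfsg.Agent.LocalEven
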