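import Cfsg.Prelude.Def_JComponents
import Cfsg.Agent.LocalEven.JComponent
import Cfsg.Agent.LocalEven.OffenderOdd
import Cfsg.Agent.PSolv.OmegaCenter
import Cfsg.Agent.Cores.Basic
import Cfsg.Agent.Modules.Thompson

/-!
`J(T)`-components are subnormal.
-/

set_option autoImplicit false

open Cfsg
open scoped commutatorElement

namespace Cfsg.Agent.LocalEven

variable {X : Type*} [Group X] [Finite X]

/-- If `C_X(V)` normalizes a Sylow 2-subgroup and contains `O₂(X)`, then `O₂(X / C_X(V)) = 1`. -/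
theorem pCore_quotient_eq_bot (T : Sylow 2 X) (C : Subgroup X) [C.Normal]
    (hC : C ≤ Subgroup.normalizer ((T : Subgroup X) : Set X)) (hQC : pCore 2 X ≤ C) :
    pCore 2 (X ⧸ C) = ⊥ := by
  set π := QuotientGroup.mk' C with hπ
  have hπs : Function.Surjective π := QuotientGroup.mk'_surjective C
  set N := pCore 2 (X ⧸ C) with hN
  have hNn : N.Normal := inferInstance
  set D := N.comap π with hD
  have hDn : D.Normal := hNn.comap π
  have hNT : N ≤ (T : Subgroup X).map π := Cores.pCore_le_sylow (T.mapSurjective hπs)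
  set P := (T : Subgroup X) ⊓ D with hP
  have hdec : ∀ d ∈ D, ∃ t ∈ P, ∃ c ∈ C, d = t * c := by
    intro d hd
    obtain ⟨t, ht, htd⟩ := hNT hd
    refine ⟨t, ⟨ht, ?_⟩, t⁻¹ * d, (QuotientGroup.eq).1 htd, by group⟩
    show π t ∈ N
    rw [htd]; exact hd
  have hCD : C ≤ D := QuotientGroup.le_comap_mk' C N
  have hCT : ∀ c ∈ C, ∀ k : ℕ, c ^ 2 ^ k = 1 → c ∈ (T : Subgroup X) := by
    intro c hc k hk
    have hz : IsPGroup 2 (Subgroup.zpowers c) := by
      obtain ⟨i, -, hi⟩ := (Nat.dvd_prime_pow Nat.prime_two).1 (orderOf_dvd_of_pow_eq_one hk)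
      exact IsPGroup.of_card (n := i) (by rw [Nat.card_zpowers, hi])
    have h1 : IsPGroup 2 (Subgroup.zpowers c ⊔ (T : Subgroup X) : Subgroup X) :=
      hz.to_sup_of_normal_right' T.isPGroup' (Subgroup.zpowers_le.2 (hC hc))
    rw [← T.is_maximal' h1 le_sup_right]
    exact Subgroup.mem_sup_left (Subgroup.mem_zpowers c)
  have hP2 : IsPGroup 2 P := T.isPGroup'.to_le inf_le_left
  have hDP : D ≤ Subgroup.normalizer (P : Set X) := by
    intro d hd
    obtain ⟨t, ht, c, hc, rfl⟩ := hdec d hd
    refine mul_mem (Subgroup.le_normalizer ht) ?_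
    rw [Subgroup.mem_normalizer_iff]
    intro x
    simp only [hP, Subgroup.mem_inf]
    rw [Subgroup.mem_normalizer_iff.1 (hC hc) x,
      Subgroup.mem_normalizer_iff.1 (Subgroup.le_normalizer (hCD hc)) x]
  have hPn : P.Normal := by
    refine ⟨fun x hx g => ?_⟩
    set y := g * x * g⁻¹ with hy
    have hyD : y ∈ D := hDn.conj_mem x hx.2 g
    obtain ⟨k, hk⟩ := hP2 ⟨x, hx⟩
    have hk' : x ^ 2 ^ k = 1 := by simpa using congrArg Subtype.val hk
    have hy2 : y ^ 2 ^ k = 1 := by
      rw [hy, ← MulAut.conj_apply, ← map_pow, hk', map_one]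
    have hz : IsPGroup 2 (Subgroup.zpowers y) := by
      obtain ⟨i, -, hi⟩ := (Nat.dvd_prime_pow Nat.prime_two).1 (orderOf_dvd_of_pow_eq_one hy2)
      exact IsPGroup.of_card (n := i) (by rw [Nat.card_zpowers, hi])
    have hU : IsPGroup 2 (Subgroup.zpowers y ⊔ P : Subgroup X) :=
      hz.to_sup_of_normal_right' hP2 (Subgroup.zpowers_le.2 (hDP hyD))
    obtain ⟨t, ht, c, hc, hyc⟩ := hdec y hyD
    have hcU : c ∈ Subgroup.zpowers y ⊔ P := by
      have : c = t⁻¹ * y := by rw [hyc]; group
      rw [this]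
      exact mul_mem (inv_mem (Subgroup.mem_sup_right ht))
        (Subgroup.mem_sup_left (Subgroup.mem_zpowers y))
    obtain ⟨m, hm⟩ := hU ⟨c, hcU⟩
    have hcP : c ∈ P := ⟨hCT c hc m (by simpa using congrArg Subtype.val hm), hCD hc⟩
    rw [hyc]; exact mul_mem ht hcP
  rw [eq_bot_iff]
  intro z hz
  obtain ⟨d, rfl⟩ := hπs z
  obtain ⟨t, ht, c, hc, rfl⟩ := hdec d hz
  rw [Subgroup.mem_bot]
  exact (QuotientGroup.eq_one_iff _).2 (mul_mem ((Cores.le_pCore hPn hP2).trans hQC ht) hc)

/-- A `[K, J(T)] = K` subgroup generated by elements of odd order is subnormal, when there is a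
normal elementary abelian 2-subgroup `V`, centralized by `O₂(X)`, whose centralizer normalizes
`T`, and `X` is solvable. -/
theorem thompson_component_isSubnormal (hs : Group.IsSolvable X) (T : Sylow 2 X)
    (V : Subgroup X) [V.Normal] (hV : IsElementaryAbelian 2 V)
    (hC : Subgroup.centralizer (V : Set X) ≤ Subgroup.normalizer ((T : Subgroup X) : Set X))
    (hQ : pCore 2 X ≤ Subgroup.centralizer (V : Set X))
    (K : Subgroup X) (hgen : Subgroup.closure {g : X | g ∈ K ∧ Odd (orderOf g)} = K)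
    (hKJ : ⁅K, thompsonSubgroupOf 2 (T : Subgroup X)⁆ = K) : K.IsSubnormal := by
  set C := Subgroup.centralizer (V : Set X) with hCdef
  set J := thompsonSubgroupOf 2 (T : Subgroup X) with hJ
  have hJJ : J ≤ thompsonSubgroup 2 X := PSolv.thompsonSubgroupOf_sylow_le T
  have hJXn : (thompsonSubgroup 2 X).Normal := by
    have := Modules.thompsonSubgroup_characteristic 2 X
    exact inferInstance
  have hKX : K ≤ thompsonSubgroup 2 X := by
    rw [← hKJ]
    exact (Subgroup.commutator_mono le_top hJJ).trans (Subgroup.commutator_le_right ⊤ _)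
  have hCK : C ≤ Subgroup.normalizer (K : Set X) := by
    refine normalizes_component (T.isPGroup'.to_le (thompsonOf_le _)) hgen hKJ ?_
      (hC.trans (Modules.normalizer_le_normalizer_thompsonSubgroupOf 2 _))
    rw [Subgroup.normalizer_eq_top_iff.2 (inferInstance : C.Normal)]
    exact le_top
  set π := QuotientGroup.mk' C with hπ
  have hπs : Function.Surjective π := QuotientGroup.mk'_surjective C
  set H0 := (thompsonSubgroup 2 X).map π with hH0
  have hH0n : H0.Normal := hJXn.map π hπs
  have hcomm : ∀ a b, a ∈ H0 → b ∈ H0 → Odd (orderOf a) → Odd (orderOf b) → Commute a b :=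
    fun a b ha hb hao hbo => thompson_odd_commute rfl (PSolv.isPSolvable_of_isSolvable hs) V hV
      (pCore_quotient_eq_bot T C hC hQ) ha hb hao hbo
  set R0 := Subgroup.closure {x : X ⧸ C | x ∈ H0 ∧ Odd (orderOf x)} with hR0
  have hR0c : R0 ≤ Subgroup.centralizer (R0 : Set (X ⧸ C)) := by
    rw [hR0, Subgroup.closure_le]
    intro x hx
    rw [SetLike.mem_coe, Subgroup.mem_centralizer_iff]
    intro y hy
    have h1 : Subgroup.closure {x : X ⧸ C | x ∈ H0 ∧ Odd (orderOf x)} ≤
        Subgroup.centralizer {x} := by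
      rw [Subgroup.closure_le]
      intro z hz
      exact Subgroup.mem_centralizer_singleton_iff.2 (hcomm z x hz.1 hx.1 hz.2 hx.2).eq
    exact (Subgroup.mem_centralizer_singleton_iff.1 (h1 hy))
  have hR0n : R0.Normal := by
    refine ⟨fun n hn g => ?_⟩
    induction hn using Subgroup.closure_induction with
    | mem x hx =>
      refine Subgroup.subset_closure ⟨hH0n.conj_mem x hx.1 g, ?_⟩
      rw [← MulAut.conj_apply, MulEquiv.orderOf_eq]; exact hx.2
    | one => simp
    | mul a b _ _ ha hb =>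
      rw [show g * (a * b) * g⁻¹ = g * a * g⁻¹ * (g * b * g⁻¹) by group]
      exact mul_mem ha hb
    | inv a _ ha =>
      rw [show g * a⁻¹ * g⁻¹ = (g * a * g⁻¹)⁻¹ by group]
      exact inv_mem ha
  have hKR : K.map π ≤ R0 := by
    rw [Subgroup.map_le_iff_le_comap]
    refine hgen.ge.trans ((Subgroup.closure_le _).2 fun g hg => Subgroup.subset_closure ⟨?_, ?_⟩)
    · exact Subgroup.mem_map_of_mem π (hKX hg.1)
    · exact Odd.of_dvd_nat hg.2 (orderOf_map_dvd π g)
  set KC := (K.map π).comap π with hKC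
  have hKCeq : KC = K ⊔ C := by rw [hKC, Subgroup.comap_map_eq, QuotientGroup.ker_mk']
  have hM : (R0.comap π).IsSubnormal := (hR0n.comap π).isSubnormal
  have hKCsn : KC.IsSubnormal := by
    refine Subgroup.IsSubnormal.step KC _ (Subgroup.comap_mono hKR) hM ?_
    rw [Subgroup.normal_subgroupOf_iff_le_normalizer (Subgroup.comap_mono hKR)]
    refine le_trans (Subgroup.comap_mono ?_) (Subgroup.le_normalizer_comap π)
    exact (hR0c.trans (Subgroup.centralizer_le (SetLike.coe_subset_coe.2 hKR))).trans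
      (Subgroup.centralizer_le_normalizer _)
  have hle : K ≤ KC := hKCeq ▸ le_sup_left
  refine Subgroup.IsSubnormal.step K KC hle hKCsn ?_
  rw [Subgroup.normal_subgroupOf_iff_le_normalizer hle, hKCeq]
  exact sup_le Subgroup.le_normalizer hCK

end Cfsg.Agent.LocalEven
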