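import Cfsg.Prelude.Def_JComponents
import Cfsg.Agent.LocalEven.JSubnormal

/-!
The overgroups of `T` in the family attached to `J(T)`.
-/

set_option autoImplicit false

open Cfsg

namespace Cfsg.Agent.LocalEven

variable {G : Type*} [Group G] [Finite G]

/-- `T` as a Sylow subgroup of the type `↥L`. -/
noncomputable def sylowOfIn {T L : Subgroup G} (h : IsSylowTwoIn T L) : Sylow 2 ↥L :=
  (h.2.1.comap_subtype (K := L) : IsPGroup 2 (T.subgroupOf L)).toSylow fun h2 =>
    Nat.not_even_iff_odd.2 h.2.2 (even_iff_two_dvd.2 h2)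

theorem coe_sylowOfIn {T L : Subgroup G} (h : IsSylowTwoIn T L) :
    ((sylowOfIn h : Sylow 2 ↥L) : Subgroup ↥L) = T.subgroupOf L := rfl

/-- A `2`-group between `T` and `L` equals `T`. -/
theorem eq_of_sylowTwoIn {T L P : Subgroup G} (h : IsSylowTwoIn T L) (hP : IsPGroup 2 P)
    (hTP : T ≤ P) (hPL : P ≤ L) : P = T := by
  have h1 := (sylowOfIn h).is_maximal' (hP.comap_subtype (K := L))
    (Subgroup.comap_mono (f := L.subtype) hTP)
  rw [coe_sylowOfIn] at h1
  have h2 := congrArg (Subgroup.map L.subtype) h1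
  rw [Subgroup.map_comap_eq, L.range_subtype, Subgroup.subgroupOf_map_subtype,
    inf_eq_right.2 hPL, inf_eq_left.2 h.1] at h2
  exact h2

theorem pCoreOf_le_sylow {T L : Subgroup G} (h : IsSylowTwoIn T L) : pCoreOf 2 L ≤ T := by
  have h1 := Subgroup.map_mono (f := L.subtype) (Cores.pCore_le_sylow (sylowOfIn h))
  rw [coe_sylowOfIn, Subgroup.subgroupOf_map_subtype, inf_eq_left.2 h.1] at h1
  exact h1

theorem le_normalizer_pCoreOf (L : Subgroup G) (p : ℕ) :
    L ≤ Subgroup.normalizer (pCoreOf p L : Set G) := by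
  intro g hg
  rw [Subgroup.mem_normalizer_iff]
  intro x
  constructor
  · rintro ⟨y, hy, rfl⟩
    exact ⟨_, (inferInstance : (pCore p ↥L).Normal).conj_mem y hy ⟨g, hg⟩, by simp⟩
  · rintro ⟨y, hy, hyx⟩
    refine ⟨_, (inferInstance : (pCore p ↥L).Normal).conj_mem y hy ⟨g, hg⟩⁻¹, ?_⟩
    simp only [Subgroup.coe_subtype] at hyx
    simp [hyx, mul_assoc]

/-- `Ω₁(Z(X))` of a subgroup consists of the elements of `X` of order dividing 2 centralizing it. -/
theorem omegaCenterOf_le (X : Subgroup G) :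
    omegaCenterOf X ≤ X ⊓ Subgroup.centralizer (X : Set G) := Modules.omegaOne_le 2 _

theorem comm_inf_centralizer (X : Subgroup G) :
    IsMulCommutative ↥(X ⊓ Subgroup.centralizer (X : Set G)) :=
  Modules.comm_iff.2 fun _ ha _ hb => Subgroup.mem_centralizer_iff.1 hb.2 _ ha.1

theorem omegaCenterOf_elemAb (X : Subgroup G) : IsElementaryAbelian 2 (omegaCenterOf X) :=
  Modules.elemAb_omegaOne (comm_inf_centralizer X)

theorem normalizer_le_normalizer_omegaCenterOf (X : Subgroup G) :
    Subgroup.normalizer (X : Set G) ≤ Subgroup.normalizer (omegaCenterOf X : Set G) :=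
  (Modules.normalizes_inf le_rfl (Modules.normalizes_centralizer le_rfl)).trans
    (Modules.normalizer_le_normalizer_omegaOne 2 _)

/-- In an overgroup of the family, `C_L(Ω₁Z(O₂ L))` normalizes `T`. -/
theorem centralizer_omega_le_normalizer
    (hZ : ∀ S : Sylow 2 G, Subgroup.centralizer (omegaCenterOf (S : Subgroup G) : Set G) ≤
      Subgroup.normalizer ((S : Subgroup G) : Set G))
    {T L : Subgroup G} (hL : L ∈ jOvergroups T) :
    L ⊓ Subgroup.centralizer (omegaCenterOf (pCoreOf 2 L) : Set G) ≤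
      Subgroup.normalizer (T : Set G) := by
  obtain ⟨hTL, -, hcen⟩ := hL
  obtain ⟨S, hS⟩ := hTL.2.1.exists_le_sylow
  have hQS : pCoreOf 2 L ≤ (S : Subgroup G) := (pCoreOf_le_sylow hTL).trans hS
  have hle : omegaCenterOf (S : Subgroup G) ≤ omegaCenterOf (pCoreOf 2 L) := by
    intro x hx
    have hxc := omegaCenterOf_le _ hx
    have hx2 : x ^ 2 = 1 := (omegaCenterOf_elemAb _).2 x hx
    have h1 : x ∈ Subgroup.centralizer (pCoreOf 2 L : Set G) :=
      Subgroup.centralizer_le (SetLike.coe_subset_coe.2 hQS) hxc.2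
    exact Modules.mem_omegaOne_of_pow ⟨hcen h1, h1⟩ hx2
  intro c hc
  have hcS : c ∈ Subgroup.normalizer ((S : Subgroup G) : Set G) :=
    hZ S (Subgroup.centralizer_le (SetLike.coe_subset_coe.2 hle) hc.2)
  have hTS : T = (S : Subgroup G) ⊓ L :=
    (eq_of_sylowTwoIn hTL (S.isPGroup'.to_le inf_le_left) (le_inf hS hTL.1) inf_le_right).symm
  rw [hTS, Subgroup.mem_normalizer_iff]
  intro x
  simp only [Subgroup.mem_inf]
  rw [Subgroup.mem_normalizer_iff.1 hcS x,
    Subgroup.mem_normalizer_iff.1 (Subgroup.le_normalizer hc.1) x]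

theorem isSolvable_of_jOvergroup (hG : IsCharacteristicTwoType G)
    (hN : ∀ N : Subgroup G, IsTwoLocal N → Group.IsSolvable ↥N)
    {T L : Subgroup G} (hL : L ∈ jOvergroups T) : Group.IsSolvable ↥L := by
  have hQ : pCoreOf 2 L ≠ ⊥ := by
    intro h0
    have h1 := hL.2.2
    rw [h0] at h1
    have h2 : (⊤ : Subgroup G) ≤ ⊥ := le_trans (fun g _ => by
      rw [Subgroup.mem_centralizer_iff]; intro h hh
      rw [SetLike.mem_coe, Subgroup.mem_bot] at hh
      simp [hh]) h1
    have h3 : Nat.card G = 1 := by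
      rw [← Subgroup.card_top (G := G), le_bot_iff.1 h2, Subgroup.card_bot]
    have h4 := hG.1
    rw [h3] at h4
    exact Nat.not_even_one h4
  have hp : IsPGroup 2 (pCoreOf 2 L) := (Cores.pCore_isPGroup).map _
  have := hN _ ⟨_, hp, hQ, rfl⟩
  exact Group.isSolvable_of_isSolvable_injective (f := Subgroup.inclusion (le_normalizer_pCoreOf L 2))
    (Subgroup.inclusion_injective _)

/-- `J(T)`-components in an overgroup are subnormal. -/
theorem jComponent_isSubnormal (hG : IsCharacteristicTwoType G)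
    (hN : ∀ N : Subgroup G, IsTwoLocal N → Group.IsSolvable ↥N)
    (hZ : ∀ S : Sylow 2 G, Subgroup.centralizer (omegaCenterOf (S : Subgroup G) : Set G) ≤
      Subgroup.normalizer ((S : Subgroup G) : Set G))
    {T L K : Subgroup G} (hL : L ∈ jOvergroups T) (hKL : K ≤ L)
    (hgen : Subgroup.closure {g : G | g ∈ K ∧ Odd (orderOf g)} = K)
    (hKJ : ⁅K, thompsonSubgroupOf 2 T⁆ = K) : (K.subgroupOf L).IsSubnormal := by
  have hinj := L.subtype_injective
  have hs := isSolvable_of_jOvergroup hG hN hL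
  have hCT := centralizer_omega_le_normalizer hZ hL
  have hTL := hL.1
  set V := omegaCenterOf (pCoreOf 2 L) with hV
  have hVL : V ≤ L := (omegaCenterOf_le _).trans (inf_le_left.trans (Subgroup.map_subtype_le _))
  have hLV : L ≤ Subgroup.normalizer (V : Set G) :=
    (le_normalizer_pCoreOf L 2).trans (normalizer_le_normalizer_omegaCenterOf _)
  have : (V.subgroupOf L).Normal := (Subgroup.normal_subgroupOf_iff_le_normalizer hVL).2 hLV
  have hcen : ∀ c : ↥L, c ∈ Subgroup.centralizer (V.subgroupOf L : Set ↥L) →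
      (c : G) ∈ Subgroup.centralizer (V : Set G) := fun c hc =>
    Subgroup.mem_centralizer_iff.2 fun v hv =>
      congrArg Subtype.val (Subgroup.mem_centralizer_iff.1 hc ⟨v, hVL hv⟩ hv)
  refine thompson_component_isSubnormal hs (sylowOfIn hTL) (V.subgroupOf L)
    (Modules.elemAb_subgroupOf (omegaCenterOf_elemAb _)) ?_ ?_ _ ?_ ?_
  · intro c hc
    have h1 := hCT ⟨c.2, hcen c hc⟩
    rw [coe_sylowOfIn, Subgroup.mem_normalizer_iff]
    intro x
    exact Subgroup.mem_normalizer_iff.1 h1 (x : G)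
  · intro q hq
    rw [Subgroup.mem_centralizer_iff]
    intro v hv
    exact Subtype.ext (Subgroup.mem_centralizer_iff.1 (omegaCenterOf_le _ hv).2 _
      (Subgroup.mem_map_of_mem L.subtype hq)).symm
  · refine Subgroup.map_injective hinj ?_
    rw [MonoidHom.map_closure, Subgroup.subgroupOf_map_subtype, inf_eq_left.2 hKL]
    conv_rhs => rw [← hgen]
    congr 1
    ext g
    simp only [Set.mem_image, Set.mem_setOf_eq, Subgroup.coe_subtype]
    constructor
    · rintro ⟨y, ⟨hy1, hy2⟩, rfl⟩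
      exact ⟨hy1, by rwa [Subgroup.orderOf_coe]⟩
    · rintro ⟨hg1, hg2⟩
      exact ⟨⟨g, hKL hg1⟩, ⟨hg1, by rwa [Subgroup.orderOf_mk]⟩, rfl⟩
  · refine Subgroup.map_injective hinj ?_
    rw [Subgroup.map_commutator, Subgroup.subgroupOf_map_subtype, inf_eq_left.2 hKL,
      Modules.map_thompsonSubgroupOf hinj, coe_sylowOfIn, Subgroup.subgroupOf_map_subtype,
      inf_eq_left.2 hTL.1, hKJ]

end Cfsg.Agent.LocalEven
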