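import Cfsg.Prelude.Def_JComponents
import Cfsg.Agent.LocalEven.JOvergroup
import Cfsg.Agent.LocalP.Basic

/-!
A subgroup `K` generated by odd elements with `|K : O₂(K)| = 3` and its module `W_K`.
-/

set_option autoImplicit false

open Cfsg
open scoped commutatorElement

namespace Cfsg.Agent.LocalEven

variable {G : Type*} [Group G] [Finite G]

/-- Conjugation distributes over products. -/
theorem conj_mul_conj (g a b : G) : g * (a * b) * g⁻¹ = (g * a * g⁻¹) * (g * b * g⁻¹) := by group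

theorem pow_three_mem_pCoreOf {K : Subgroup G} (h3 : (pCoreOf 2 K).relIndex K = 3) {x : G}
    (hx : x ∈ K) : x ^ 3 ∈ pCoreOf 2 K := by
  have h := (pCore 2 ↥K).pow_index_mem (⟨x, hx⟩ : ↥K)
  have hi : (pCore 2 ↥K).index = 3 := by
    rw [← h3, Subgroup.relIndex, pCoreOf, Subgroup.subgroupOf,
      Subgroup.comap_map_eq_self_of_injective K.subtype_injective]
  rw [hi] at h
  exact ⟨_, h, by simp⟩

theorem sup_zpowers_eq {K : Subgroup G} (h3 : (pCoreOf 2 K).relIndex K = 3) {x : G} (hx : x ∈ K)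
    (hxQ : x ∉ pCoreOf 2 K) : pCoreOf 2 K ⊔ Subgroup.zpowers x = K := by
  have hle : pCoreOf 2 K ⊔ Subgroup.zpowers x ≤ K :=
    sup_le (Subgroup.map_subtype_le _) (Subgroup.zpowers_le.2 hx)
  have h1 := Subgroup.relIndex_mul_relIndex (pCoreOf 2 K) _ K le_sup_left hle
  rw [h3] at h1
  rcases (Nat.dvd_prime Nat.prime_three).1 (Dvd.intro_left _ h1) with h | h
  · exact le_antisymm hle (Subgroup.relIndex_eq_one.1 h)
  · rw [h, Nat.mul_eq_right (by norm_num), Subgroup.relIndex_eq_one] at h1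
    exact absurd (h1 (Subgroup.mem_sup_right (Subgroup.mem_zpowers x))) hxQ

theorem exists_not_mem_pCoreOf {K : Subgroup G} (h3 : (pCoreOf 2 K).relIndex K = 3) :
    ∃ x ∈ K, x ∉ pCoreOf 2 K := by
  by_contra h
  push Not at h
  rw [Subgroup.relIndex_eq_one.2 h] at h3
  omega

theorem normalizer_le_normalizer_omega_core (K : Subgroup G) :
    Subgroup.normalizer (K : Set G) ≤
      Subgroup.normalizer (omegaCenterOf (pCoreOf 2 K) : Set G) :=
  (LocalP.normalizer_le_normalizer_pCoreOf K).trans (normalizer_le_normalizer_omegaCenterOf _)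

theorem wOf_le_omega (K : Subgroup G) : wOf K ≤ omegaCenterOf (pCoreOf 2 K) :=
  Subgroup.le_normalizer_iff_commutator_le_left.1
    (Subgroup.le_normalizer.trans (normalizer_le_normalizer_omega_core K))

theorem wOf_le_pCoreOf (K : Subgroup G) : wOf K ≤ pCoreOf 2 K :=
  (wOf_le_omega K).trans ((omegaCenterOf_le _).trans inf_le_left)

theorem wOf_le (K : Subgroup G) : wOf K ≤ K := (wOf_le_pCoreOf K).trans (Subgroup.map_subtype_le _)

theorem wOf_elemAb (K : Subgroup G) : IsElementaryAbelian 2 (wOf K) :=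
  Modules.elemAb_mono (wOf_le_omega K) (omegaCenterOf_elemAb _)

theorem commute_omega {K : Subgroup G} {q v : G} (hq : q ∈ pCoreOf 2 K)
    (hv : v ∈ omegaCenterOf (pCoreOf 2 K)) : q * v * q⁻¹ = v := by
  rw [Subgroup.mem_centralizer_iff.1 (omegaCenterOf_le _ hv).2 q hq, mul_inv_cancel_right]

theorem commute_wOf {K : Subgroup G} {q v : G} (hq : q ∈ pCoreOf 2 K)
    (hv : v ∈ wOf K) : q * v * q⁻¹ = v := commute_omega hq (wOf_le_omega K hv)

theorem map_conj_wOf (K : Subgroup G) (g : G) :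
    (wOf K).map (MulAut.conj g).toMonoidHom = wOf (K.map (MulAut.conj g).toMonoidHom) := by
  have hp : ∀ H : Subgroup G, (pCoreOf 2 H).map (MulAut.conj g).toMonoidHom =
      pCoreOf 2 (H.map (MulAut.conj g).toMonoidHom) := by
    intro H
    have e := Cores.map_pCore_equiv (p := 2) ((MulAut.conj g).subgroupMap H)
    rw [pCoreOf, pCoreOf, Subgroup.map_map]
    erw [← e]
    erw [Subgroup.map_map]
    rfl
  rw [wOf, wOf, Subgroup.map_commutator, omegaCenterOf, omegaCenterOf, ← hp,
    Modules.map_omegaOne (MulAut.conj g).injective,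
    Modules.map_inf_centralizer (MulAut.conj g).injective]

theorem normalizer_le_normalizer_wOf (K : Subgroup G) :
    Subgroup.normalizer (K : Set G) ≤ Subgroup.normalizer (wOf K : Set G) := by
  intro g hg
  rw [Subgroup.mem_normalizer_iff_map_conj_eq]
  change (wOf K).map (MulAut.conj g).toMonoidHom = _
  rw [map_conj_wOf]
  congr 1
  exact FF.map_conj_eq hg

theorem le_normalizer_wOf (K : Subgroup G) : K ≤ Subgroup.normalizer (wOf K : Set G) :=
  Subgroup.le_normalizer.trans (normalizer_le_normalizer_wOf K)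

/-- An element outside `O₂(K)` fixes no nontrivial element of `W_K`. -/
theorem wOf_fixed_eq_one {K : Subgroup G} (h3 : (pCoreOf 2 K).relIndex K = 3) {x : G} (hx : x ∈ K)
    (hxQ : x ∉ pCoreOf 2 K) {w : G} (hw : w ∈ wOf K) (hfix : x * w * x⁻¹ = w) : w = 1 := by
  set V := omegaCenterOf (pCoreOf 2 K) with hV
  have hVn : ∀ g ∈ K, ∀ v ∈ V, g * v * g⁻¹ ∈ V := fun g hg v hv =>
    (Subgroup.mem_normalizer_iff.1
      (normalizer_le_normalizer_omega_core K (Subgroup.le_normalizer hg)) v).1 hv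
  have hVc : ∀ u ∈ V, ∀ v ∈ V, u * v = v * u := fun u hu v hv =>
    Modules.elemAb_comm (omegaCenterOf_elemAb _) hu hv
  let S : Subgroup G :=
    { carrier := {u | ∃ v ∈ V, x * v * x⁻¹ * v⁻¹ = u}
      one_mem' := ⟨1, V.one_mem, by group⟩
      mul_mem' := by
        rintro _ _ ⟨v, hv, rfl⟩ ⟨v', hv', rfl⟩
        refine ⟨v * v', mul_mem hv hv', ?_⟩
        have hc := hVc _ (mul_mem (hVn x hx v' hv') (inv_mem hv')) _ (inv_mem hv)
        calc x * (v * v') * x⁻¹ * (v * v')⁻¹
            = x * v * x⁻¹ * ((x * v' * x⁻¹ * v'⁻¹) * v⁻¹) := by group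
          _ = x * v * x⁻¹ * (v⁻¹ * (x * v' * x⁻¹ * v'⁻¹)) := by rw [hc]
          _ = _ := by group
      inv_mem' := by
        rintro _ ⟨v, hv, rfl⟩
        refine ⟨v⁻¹, inv_mem hv, ?_⟩
        have hc := hVc _ (hVn x hx _ (inv_mem hv)) _ hv
        calc x * v⁻¹ * x⁻¹ * v⁻¹⁻¹ = x * v⁻¹ * x⁻¹ * v := by group
          _ = v * (x * v⁻¹ * x⁻¹) := hc
          _ = _ := by group }
  have hSV : ∀ u ∈ S, u ∈ V := by
    rintro _ ⟨v, hv, rfl⟩
    exact mul_mem (hVn x hx v hv) (inv_mem hv)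
  have hSx : ∀ u ∈ S, x * u * x⁻¹ ∈ S := by
    rintro _ ⟨v, hv, rfl⟩
    exact ⟨x * v * x⁻¹, hVn x hx v hv, by group⟩
  have hSx' : ∀ u ∈ S, x⁻¹ * u * x ∈ S := by
    rintro _ ⟨v, hv, rfl⟩
    refine ⟨x⁻¹ * v * x, by simpa using hVn x⁻¹ (inv_mem hx) v hv, by group⟩
  have key : ∀ k ∈ K, (∀ u ∈ S, k * u * k⁻¹ ∈ S) ∧ ∀ v ∈ V, k * v * k⁻¹ * v⁻¹ ∈ S := by
    intro k hk
    rw [← sup_zpowers_eq h3 hx hxQ, Subgroup.sup_eq_closure] at hk
    induction hk using Subgroup.closure_induction'' with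
    | mem y hy =>
      rcases hy with hy | hy
      · exact ⟨fun u hu => by rwa [commute_omega hy (hSV u hu)], fun v hv => by
          rw [commute_omega hy hv, mul_inv_cancel]; exact S.one_mem⟩
      · obtain ⟨i, rfl⟩ := hy
        induction i using Int.induction_on with
        | zero => simp
        | succ n ih =>
          refine ⟨fun u hu => ?_, fun v hv => ?_⟩
          · have := hSx _ (ih.1 u hu)
            convert this using 1
            simp only [zpow_add, zpow_one]
            group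
          · have hxn : x ^ (n : ℤ) ∈ K := zpow_mem hx _
            have h1 : x * ((x ^ (n : ℤ)) * v * (x ^ (n : ℤ))⁻¹) * x⁻¹ *
                ((x ^ (n : ℤ)) * v * (x ^ (n : ℤ))⁻¹)⁻¹ ∈ S := ⟨_, hVn _ hxn v hv, rfl⟩
            have := mul_mem h1 (ih.2 v hv)
            convert this using 1
            group
        | pred n ih =>
          refine ⟨fun u hu => ?_, fun v hv => ?_⟩
          · have := hSx' _ (ih.1 u hu)
            convert this using 1
            group
          · have hxn : x ^ (-(n : ℤ)) ∈ K := zpow_mem hx _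
            set v' := (x ^ (-(n : ℤ))) * v * (x ^ (-(n : ℤ)))⁻¹ with hv'
            have hxv : x⁻¹ * v' * x ∈ V := by simpa using hVn x⁻¹ (inv_mem hx) v' (hVn _ hxn v hv)
            have h1 : x * (x⁻¹ * v' * x) * x⁻¹ * (x⁻¹ * v' * x)⁻¹ ∈ S := ⟨_, hxv, rfl⟩
            have := mul_mem (inv_mem h1) (ih.2 v hv)
            convert this using 1
            rw [hv']; group
    | inv_mem y hy =>
      rcases hy with hy | hy
      · exact ⟨fun u hu => by rwa [commute_omega (inv_mem hy) (hSV u hu)], fun v hv => by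
          rw [commute_omega (inv_mem hy) hv, mul_inv_cancel]; exact S.one_mem⟩
      · obtain ⟨i, rfl⟩ := hy
        induction i using Int.induction_on with
        | zero => simp
        | succ n ih =>
          refine ⟨fun u hu => ?_, fun v hv => ?_⟩
          · have := hSx' _ (ih.1 u hu)
            convert this using 1
            group
          · have hxn : (x ^ (n : ℤ))⁻¹ ∈ K := inv_mem (zpow_mem hx _)
            set v' := (x ^ (n : ℤ))⁻¹ * v * (x ^ (n : ℤ))⁻¹⁻¹ with hv'
            have hxv : x⁻¹ * v' * x ∈ V := by simpa using hVn x⁻¹ (inv_mem hx) v' (hVn _ hxn v hv)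
            have h1 : x * (x⁻¹ * v' * x) * x⁻¹ * (x⁻¹ * v' * x)⁻¹ ∈ S := ⟨_, hxv, rfl⟩
            have := mul_mem (inv_mem h1) (ih.2 v hv)
            convert this using 1
            rw [hv']; group
        | pred n ih =>
          refine ⟨fun u hu => ?_, fun v hv => ?_⟩
          · have := hSx _ (ih.1 u hu)
            convert this using 1
            group
          · have hxn : (x ^ (-(n : ℤ)))⁻¹ ∈ K := inv_mem (zpow_mem hx _)
            have h1 : x * ((x ^ (-(n : ℤ)))⁻¹ * v * (x ^ (-(n : ℤ)))⁻¹⁻¹) * x⁻¹ *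
                ((x ^ (-(n : ℤ)))⁻¹ * v * (x ^ (-(n : ℤ)))⁻¹⁻¹)⁻¹ ∈ S := ⟨_, hVn _ hxn v hv, rfl⟩
            have := mul_mem h1 (ih.2 v hv)
            convert this using 1
            group
    | one => simp
    | mul a b hca hcb ha hb =>
      refine ⟨fun u hu => ?_, fun v hv => ?_⟩
      · have := ha.1 _ (hb.1 u hu)
        convert this using 1
        group
      · have := mul_mem (ha.1 _ (hb.2 v hv)) (ha.2 v hv)
        convert this using 1
        group
  have hle : wOf K ≤ S := by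
    rw [wOf, Subgroup.commutator_le]
    intro v hv k hk
    have : ⁅v, k⁆ = (k * v * k⁻¹ * v⁻¹)⁻¹ := by rw [commutatorElement_def]; group
    rw [this]
    exact inv_mem ((key k hk).2 v hv)
  obtain ⟨v, hv, hvw⟩ := hle hw
  have h3v : x ^ 3 * v * (x ^ 3)⁻¹ = v := commute_omega (pow_three_mem_pCoreOf h3 hx) hv
  have hw3 : w * w * w * v = v := by
    have e1 : x * v * x⁻¹ = w * v := by rw [← hvw]; group
    have e2 : x * (w * v) * x⁻¹ = w * (w * v) := by rw [conj_mul_conj, hfix, e1]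
    calc w * w * w * v = x * (w * (w * v)) * x⁻¹ := by
          rw [conj_mul_conj, hfix, e2]; group
      _ = x * (x * (x * v * x⁻¹) * x⁻¹) * x⁻¹ := by rw [e1, e2]
      _ = x ^ 3 * v * (x ^ 3)⁻¹ := by rw [pow_three x]; group
      _ = v := h3v
  have hsq : w * w = 1 := by
    have := (wOf_elemAb K).2 w hw
    rwa [pow_two] at this
  rw [hsq, one_mul] at hw3
  exact mul_eq_right.1 hw3

/-- If `W_K` has order four, every element outside `O₂(K)` permutes its involutions cyclically. -/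
theorem wOf_cases {K : Subgroup G} (h3 : (pCoreOf 2 K).relIndex K = 3)
    (h4 : Nat.card ↥(wOf K) = 4) {x : G} (hx : x ∈ K) (hxQ : x ∉ pCoreOf 2 K) {w : G}
    (hw : w ∈ wOf K) (hw1 : w ≠ 1) {u : G} (hu : u ∈ wOf K) :
    u = 1 ∨ u = w ∨ u = x * w * x⁻¹ ∨ u = x * (x * w * x⁻¹) * x⁻¹ := by
  classical
  have hn : ∀ v ∈ wOf K, x * v * x⁻¹ ∈ wOf K := fun v hv =>
    (Subgroup.mem_normalizer_iff.1 (le_normalizer_wOf K hx) v).1 hv
  set a := x * w * x⁻¹ with ha
  set b := x * a * x⁻¹ with hb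
  have hne : ∀ v ∈ wOf K, v ≠ 1 → x * v * x⁻¹ ≠ v := fun v hv h1 he =>
    h1 (wOf_fixed_eq_one h3 hx hxQ hv he)
  have ha1 : a ≠ 1 := fun h => hw1 (by simpa [ha] using h)
  have hb1 : b ≠ 1 := fun h => ha1 (by simpa [hb] using h)
  have hwa : w ≠ a := fun h => hne w hw hw1 h.symm
  have hab : a ≠ b := fun h => hne a (hn w hw) ha1 h.symm
  have hwb : w ≠ b := by
    intro h
    have h' : x ^ 3 * w * (x ^ 3)⁻¹ = a := by
      have e : x ^ 3 * w * (x ^ 3)⁻¹ = x * (x * (x * w * x⁻¹) * x⁻¹) * x⁻¹ := by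
        rw [pow_three x]; group
      rw [e, ← ha, ← hb, ← h]
    rw [commute_wOf (pow_three_mem_pCoreOf h3 hx) hw] at h'
    exact hwa h'
  have := Set.eq_of_subset_of_ncard_le (s := ({1, w, a, b} : Set G)) (t := (wOf K : Set G)) ?_ ?_
  · rw [← SetLike.mem_coe, ← this] at hu
    simpa using hu
  · intro z hz
    rcases hz with rfl | rfl | rfl | rfl
    · exact one_mem _
    · exact hw
    · exact hn w hw
    · exact hn _ (hn w hw)
  · rw [← Nat.card_coe_set_eq]
    refine h4.le.trans (le_of_eq ?_)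
    rw [Set.ncard_insert_of_notMem (by simp [hw1.symm, ha1.symm, hb1.symm]),
      Set.ncard_insert_of_notMem (by simp [hwa, hwb]), Set.ncard_pair hab]

end Cfsg.Agent.LocalEven
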