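import Cfsg.Agent.LocalEven.JTransvection

/-!
`N_L(W_K)` normalizes `K`, and the components of `𝒦₀`.
-/

set_option autoImplicit false

open Cfsg
open scoped commutatorElement

namespace Cfsg.Agent.LocalEven

variable {G : Type*} [Group G] [Finite G] {T L K : Subgroup G}

theorem isSylowTwoIn_conj (h : IsSylowTwoIn T L) (g : G) :
    IsSylowTwoIn (T.map (MulAut.conj g).toMonoidHom) (L.map (MulAut.conj g).toMonoidHom) :=
  ⟨Subgroup.map_mono h.1, h.2.1.map _, by
    rw [Subgroup.relIndex_map_map_of_injective _ _ (MulAut.conj g).injective]; exact h.2.2⟩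

theorem jOvergroups_conj (h : L ∈ jOvergroups T) (g : G) :
    L.map (MulAut.conj g).toMonoidHom ∈ jOvergroups (T.map (MulAut.conj g).toMonoidHom) := by
  refine ⟨isSylowTwoIn_conj h.1 g, fun hle => h.2.1 ?_, ?_⟩
  · rwa [← Modules.conj_thompsonSubgroupOf, ← map_conj_pCoreOf,
      Subgroup.map_le_map_iff_of_injective (MulAut.conj g).injective] at hle
  · rw [← map_conj_pCoreOf, ← PSolv.map_centralizer_equiv]
    exact Subgroup.map_mono h.2.2

/-- A 2-subgroup of `X` lies in a Sylow subgroup of `X`. -/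
theorem exists_isSylowTwoIn {P X : Subgroup G} (hP : IsPGroup 2 P) (hPX : P ≤ X) :
    ∃ S : Subgroup G, IsSylowTwoIn S X ∧ P ≤ S := by
  obtain ⟨S, hS⟩ := (hP.comap_subtype (K := X)).exists_le_sylow
  refine ⟨(S : Subgroup ↥X).map X.subtype, ⟨Subgroup.map_subtype_le _, S.isPGroup'.map _, ?_⟩, ?_⟩
  · rw [Subgroup.relIndex, Subgroup.subgroupOf,
      Subgroup.comap_map_eq_self_of_injective X.subtype_injective]
    exact Nat.not_even_iff_odd.1 fun h => S.not_dvd_index (even_iff_two_dvd.1 h)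
  · exact fun z hz => ⟨⟨z, hPX hz⟩, hS hz, rfl⟩

/-- Sylow subgroups of `X` are conjugate in `X`. -/
theorem exists_conj_of_isSylowTwoIn {S S' X : Subgroup G} (h : IsSylowTwoIn S X)
    (h' : IsSylowTwoIn S' X) : ∃ x ∈ X, S.map (MulAut.conj x).toMonoidHom = S' := by
  obtain ⟨m, hm⟩ := MulAction.exists_smul_eq ↥X (sylowOfIn h) (sylowOfIn h')
  refine ⟨m, m.2, ?_⟩
  have h1 := congrArg (fun P : Sylow 2 ↥X => (P : Subgroup ↥X).map X.subtype) hm
  simp only [PSolv.coe_sylow_smul, coe_sylowOfIn, Subgroup.subgroupOf_map_subtype,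
    inf_eq_left.2 h'.1] at h1
  rw [← h1]
  conv_lhs => rw [← inf_eq_left.2 h.1, ← Subgroup.subgroupOf_map_subtype]
  rw [Subgroup.map_map, Subgroup.map_map]
  rfl

/-- Elements of `L` normalizing `W_K` normalize `K`. -/
theorem CompData.normalizer_wOf_le (hz : ZNHyp G) (hL : L ∈ jOvergroups T) (hK : CompData T L K)
    {n : G} (hnL : n ∈ L) (hnW : n ∈ Subgroup.normalizer (wOf K : Set G)) :
    n ∈ Subgroup.normalizer (K : Set G) := by
  classical
  set cn := (MulAut.conj n).toMonoidHom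
  have hcn : ∀ g : G, cn g = n * g * n⁻¹ := fun g => rfl
  have hLn : L.map cn = L := FF.map_conj_eq (Subgroup.le_normalizer hnL)
  set K' := K.map cn with hK'def
  have hK' : CompData (T.map cn) L K' := by
    have := hK.conj n
    rwa [hLn] at this
  have hL' : L ∈ jOvergroups (T.map cn) := by
    have := jOvergroups_conj hL n
    rwa [hLn] at this
  have hW' : wOf K' = wOf K := by rw [hK'def, ← map_conj_wOf]; exact FF.map_conj_eq hnW
  obtain ⟨x, hx, hxQ⟩ := exists_not_mem_pCoreOf hK.idx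
  obtain ⟨b, hbJ, hb2, hbW, hbdev⟩ := hK.exists_transvection hz hL
  have hbT : b ∈ T := thompsonOf_le T hbJ
  have hbK : b ∈ Subgroup.normalizer (K : Set G) := le_normalizer_of_commutator_le hK.comm.le hbJ
  -- fixed point of `b`
  obtain ⟨w₁, hw₁, hw₁b⟩ : ∃ w ∈ wOf K, b * w * b⁻¹ ≠ w := by
    by_contra h
    push Not at h
    exact hbW (Subgroup.mem_centralizer_iff.2 fun w hw => (mul_inv_eq_iff_eq_mul.1 (h w hw)).symm)
  have hw₁1 : w₁ ≠ 1 := fun h => hw₁b (by rw [h]; group)
  have hWn : ∀ g ∈ Subgroup.normalizer (wOf K : Set G), ∀ v ∈ wOf K, g * v * g⁻¹ ∈ wOf K :=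
    fun g hg v hv => (Subgroup.mem_normalizer_iff.1 hg v).1 hv
  have hWsq : ∀ v ∈ wOf K, v * v = 1 := fun v hv => by
    simpa [pow_two] using (wOf_elemAb K).2 v hv
  have hWc : ∀ u ∈ wOf K, ∀ v ∈ wOf K, u * v = v * u := fun u hu v hv =>
    Modules.elemAb_comm (wOf_elemAb K) hu hv
  have hbWn := normalizer_le_normalizer_wOf K hbK
  set w₀ := w₁ * (b * w₁ * b⁻¹) with hw₀def
  have hw₀ : w₀ ∈ wOf K := mul_mem hw₁ (hWn b hbWn w₁ hw₁)
  have hw₀1 : w₀ ≠ 1 := by
    intro h
    refine hw₁b ?_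
    rw [eq_inv_of_mul_eq_one_right h]
    exact inv_eq_of_mul_eq_one_right (hWsq w₁ hw₁)
  have hbw₀ : b * w₀ * b⁻¹ = w₀ := by
    rw [hw₀def, conj_mul_conj, hWc w₁ hw₁ _ (hWn b hbWn w₁ hw₁)]
    congr 1
    calc b * (b * w₁ * b⁻¹) * b⁻¹ = (b * b) * w₁ * (b * b)⁻¹ := by group
      _ = w₁ := by rw [hb2]; group
  -- `K' ≤ K C_L(V)`
  have hK'le : K' ≤ K ⊔ cOf L :=
    (hK.plane_unique hz hL hL' hK' hw₀ (hW'.symm ▸ hw₀) hw₀1).2
  -- choose `k` carrying the fixed point of `b` to that of `n b n⁻¹`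
  obtain ⟨k, hk, hkw⟩ : ∃ k ∈ K, k * w₀ * k⁻¹ = n * w₀ * n⁻¹ := by
    rcases wOf_cases hK.idx hK.card hx hxQ hw₀ hw₀1 (hWn n hnW w₀ hw₀) with h | h | h | h
    · exact absurd (conj_eq_one_iff.1 h) hw₀1
    · exact ⟨1, one_mem _, by rw [h]; group⟩
    · exact ⟨x, hx, h.symm⟩
    · exact ⟨x * x, mul_mem hx hx, by rw [h]; group⟩
  set w' := n * w₀ * n⁻¹ with hw'def
  have hw' : w' ∈ wOf K := hWn n hnW w₀ hw₀
  have hw'1 : w' ≠ 1 := fun h => hw₀1 (conj_eq_one_iff.1 h)
  -- two involutions moving `w₀`'s complement act alike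
  have alike : ∀ g : G, g ∈ Subgroup.normalizer (wOf K : Set G) →
      g ∉ Subgroup.centralizer (wOf K : Set G) → g * w' * g⁻¹ = w' →
      ∀ v ∈ wOf K, g * v * g⁻¹ = v * (if v = 1 ∨ v = w' then 1 else w') := by
    intro g hg hgc hgw v hv
    by_cases h1 : v = 1 ∨ v = w'
    · rw [if_pos h1, mul_one]
      rcases h1 with rfl | rfl
      · group
      · exact hgw
    · rw [if_neg h1]
      push Not at h1
      have hmov : g * v * g⁻¹ ≠ v := by
        intro hv'
        apply hgc
        rw [Subgroup.mem_centralizer_iff]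
        intro u hu
        refine (mul_inv_eq_iff_eq_mul.1 ?_).symm
        rcases wOf_cases hK.idx hK.card hx hxQ hw' hw'1 hv with h | h | h | h
        · exact absurd h h1.1
        · exact absurd h h1.2
        all_goals
          have hprod : ∀ u ∈ wOf K, u = 1 ∨ u = w' ∨ u = v ∨ u = w' * v := by
            intro u hu
            have hs : ({1, w', v, w' * v} : Set G) = (wOf K : Set G) := by
              refine Set.eq_of_subset_of_ncard_le ?_ ?_
              · rintro z (rfl | rfl | rfl | rfl)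
                · exact one_mem _
                · exact hw'
                · exact hv
                · exact mul_mem hw' hv
              · rw [← Nat.card_coe_set_eq]
                refine hK.card.le.trans (le_of_eq ?_)
                have e1 : (1 : G) ≠ w' * v := fun h => h1.2 (by
                  rw [eq_inv_of_mul_eq_one_right h.symm,
                    inv_eq_of_mul_eq_one_right (hWsq w' hw')])
                have e2 : w' ≠ w' * v := fun h => h1.1 (mul_eq_left.1 h.symm)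
                have e3 : v ≠ w' * v := fun h => hw'1 (mul_eq_right.1 h.symm)
                rw [Set.ncard_insert_of_notMem (by simp [hw'1.symm, Ne.symm h1.1, e1]),
                  Set.ncard_insert_of_notMem (by simp [Ne.symm h1.2, e2]), Set.ncard_pair e3]
            rw [← SetLike.mem_coe, ← hs] at hu
            simpa using hu
          rcases hprod u hu with rfl | rfl | rfl | rfl
          · group
          · exact hgw
          · exact hv'
          · rw [conj_mul_conj, hgw, hv']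
      have hgv := hWn g hg v hv
      have hs : ({1, w', v, v * w'} : Set G) = (wOf K : Set G) := by
        refine Set.eq_of_subset_of_ncard_le ?_ ?_
        · rintro z (rfl | rfl | rfl | rfl)
          · exact one_mem _
          · exact hw'
          · exact hv
          · exact mul_mem hv hw'
        · rw [← Nat.card_coe_set_eq]
          refine hK.card.le.trans (le_of_eq ?_)
          have e1 : (1 : G) ≠ v * w' := fun h => h1.2 (by
            rw [eq_inv_of_mul_eq_one_left h.symm, inv_eq_of_mul_eq_one_right (hWsq w' hw')])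
          have e2 : w' ≠ v * w' := fun h => h1.1 (mul_eq_right.1 h.symm)
          have e3 : v ≠ v * w' := fun h => hw'1 (mul_eq_left.1 h.symm)
          rw [Set.ncard_insert_of_notMem (by simp [hw'1.symm, Ne.symm h1.1, e1]),
            Set.ncard_insert_of_notMem (by simp [Ne.symm h1.2, e2]), Set.ncard_pair e3]
      rw [← SetLike.mem_coe, ← hs] at hgv
      simp only [Set.mem_insert_iff, Set.mem_singleton_iff] at hgv
      rcases hgv with h | h | h | h
      · exact absurd (conj_eq_one_iff.1 h) h1.1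
      · exact absurd (mul_left_cancel (mul_right_cancel (h.trans hgw.symm))) h1.2
      · exact absurd h hmov
      · exact h
  set b₁ := k * b * k⁻¹ with hb₁
  set b' := n * b * n⁻¹ with hb'
  have hkW := le_normalizer_wOf K hk
  have hb₁W : b₁ ∈ Subgroup.normalizer (wOf K : Set G) :=
    mul_mem (mul_mem hkW hbWn) (inv_mem hkW)
  have hb'W : b' ∈ Subgroup.normalizer (wOf K : Set G) :=
    mul_mem (mul_mem hnW hbWn) (inv_mem hnW)
  have hb₁c : b₁ ∉ Subgroup.centralizer (wOf K : Set G) := by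
    intro h
    refine hbW ?_
    have h2 := (Subgroup.mem_normalizer_iff.1
      (Modules.normalizes_centralizer le_rfl (inv_mem hkW)) b₁).1 h
    have e : k⁻¹ * b₁ * k⁻¹⁻¹ = b := by rw [hb₁]; group
    rwa [e] at h2
  have hb'c : b' ∉ Subgroup.centralizer (wOf K : Set G) := by
    intro h
    refine hbW ?_
    have h2 := (Subgroup.mem_normalizer_iff.1
      (Modules.normalizes_centralizer le_rfl (inv_mem hnW)) b').1 h
    have e : n⁻¹ * b' * n⁻¹⁻¹ = b := by rw [hb']; group
    rwa [e] at h2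
  have hb'w : b' * w' * b'⁻¹ = w' := by
    calc b' * w' * b'⁻¹ = n * (b * w₀ * b⁻¹) * n⁻¹ := by rw [hb', hw'def]; group
      _ = w' := by rw [hbw₀]
  have hb₁w : b₁ * w' * b₁⁻¹ = w' := by
    rw [← hkw]
    calc b₁ * (k * w₀ * k⁻¹) * b₁⁻¹ = k * (b * w₀ * b⁻¹) * k⁻¹ := by rw [hb₁]; group
      _ = _ := by rw [hbw₀]
  -- agreement on `V`
  have hagree : ∀ y ∈ vOf L, b' * y * b'⁻¹ = b₁ * y * b₁⁻¹ := by
    intro y hy
    obtain ⟨c, hc, hcfix, u, hu, rfl⟩ := hK.fixed_mul hz hL hy
    have h1 : b₁ * c * b₁⁻¹ = c := by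
      have hck : ∀ g ∈ K, g * c * g⁻¹ = c := hcfix
      have hbc := hK.transvection_fix hbK (hbdev c hc) hck
      have hk1 := hck k hk
      have hk2 : k⁻¹ * c * k = c := by simpa using hck k⁻¹ (inv_mem hk)
      calc b₁ * c * b₁⁻¹ = k * (b * (k⁻¹ * c * k) * b⁻¹) * k⁻¹ := by rw [hb₁]; group
        _ = c := by rw [hk2, hbc, hk1]
    have h2 : b' * c * b'⁻¹ = c := by
      have hc' : ∀ g ∈ K', g * c * g⁻¹ = c := by
        intro g hg
        have : K ⊔ cOf L ≤ Subgroup.centralizer {c} := by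
          refine sup_le (fun h hh => ?_) (fun h hh => ?_)
          · exact Subgroup.mem_centralizer_singleton_iff.2 (mul_inv_eq_iff_eq_mul.1 (hcfix h hh))
          · exact Subgroup.mem_centralizer_singleton_iff.2
              (Subgroup.mem_centralizer_iff.1 hh.2 c hc).symm
        rw [Subgroup.mem_centralizer_singleton_iff.1 (this (hK'le hg)), mul_inv_cancel_right]
      have hcin : n⁻¹ * c * n ∈ vOf L := by
        simpa using (Subgroup.mem_normalizer_iff.1
          (le_normalizer_vOf L (L.inv_mem hnL)) c).1 hc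
      have hfix' : ∀ g ∈ K, g * (n⁻¹ * c * n) * g⁻¹ = n⁻¹ * c * n := by
        intro g hg
        have h := hc' (n * g * n⁻¹) ⟨g, hg, rfl⟩
        calc g * (n⁻¹ * c * n) * g⁻¹ = n⁻¹ * ((n * g * n⁻¹) * c * (n * g * n⁻¹)⁻¹) * n := by group
          _ = _ := by rw [h]
      have hbc := hK.transvection_fix hbK (hbdev _ hcin) hfix'
      calc b' * c * b'⁻¹ = n * (b * (n⁻¹ * c * n) * b⁻¹) * n⁻¹ := by rw [hb']; group
        _ = c := by rw [hbc]; group
    rw [conj_mul_conj, conj_mul_conj, h1, h2,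
      alike b' hb'W hb'c hb'w u hu, alike b₁ hb₁W hb₁c hb₁w u hu]
  -- `b' ∈ b₁ O₂(L)`
  have hkL : k ∈ L := hK.le hk
  have hbL : b ∈ L := hL.1.1 hbT
  set e := b₁⁻¹ * b' with he
  have heC : e ∈ cOf L := by
    refine ⟨L.mul_mem (L.inv_mem (mul_mem (mul_mem hkL hbL) (inv_mem hkL)))
      (mul_mem (mul_mem hnL hbL) (inv_mem hnL)), Subgroup.mem_centralizer_iff.2 fun y hy => ?_⟩
    have h := hagree y hy
    refine (mul_inv_eq_iff_eq_mul.1 ?_).symm
    calc e * y * e⁻¹ = b₁⁻¹ * (b' * y * b'⁻¹) * b₁ := by rw [he]; group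
      _ = y := by rw [h]; group
  have hb₁2 : b₁ * b₁ = 1 := by
    calc b₁ * b₁ = k * (b * b) * k⁻¹ := by rw [hb₁]; group
      _ = 1 := by rw [hb2]; group
  have hb'2 : b' * b' = 1 := by
    calc b' * b' = n * (b * b) * n⁻¹ := by rw [hb']; group
      _ = 1 := by rw [hb2]; group
  have hCb₁ : ∀ c ∈ cOf L, ⁅c, b₁⁆ ∈ pCoreOf 2 L := by
    intro c hc
    have hc' : k⁻¹ * c * k ∈ cOf L := by
      simpa using (Subgroup.mem_normalizer_iff.1 (le_normalizer_cOf L (L.inv_mem hkL)) c).1 hc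
    have h1 := (Subgroup.mem_normalizer_iff.1 (le_normalizer_pCoreOf L 2 hkL) _).1
      (cOf_commutator_core hz hL hc' hbT)
    have e' : ⁅c, b₁⁆ = k * ⁅k⁻¹ * c * k, b⁆ * k⁻¹ := by
      rw [hb₁, commutatorElement_def, commutatorElement_def]; group
    rw [e']; exact h1
  have heQ : e ∈ pCoreOf 2 L := by
    have h1 : b₁ * e * b₁⁻¹ = e⁻¹ := by
      rw [eq_inv_iff_mul_eq_one]
      calc b₁ * e * b₁⁻¹ * e = b' * (b₁ * b₁)⁻¹ * b' := by rw [he]; group
        _ = 1 := by rw [hb₁2, inv_one, mul_one, hb'2]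
    have h2 : e * e ∈ pCoreOf 2 L := by
      have h3 := hCb₁ e heC
      have e' : ⁅e, b₁⁆ = e * (b₁ * e * b₁⁻¹)⁻¹ := by rw [commutatorElement_def]; group
      rw [e', h1, inv_inv] at h3
      exact h3
    obtain ⟨m, hm⟩ := two_pow_pow_eq_one (LocalP.pCoreOf_isPGroup L) h2
    refine two_element_mem_core hz hL heC (n := m + 1) ?_
    rwa [pow_succ', pow_mul, pow_two]
  have hb'eq : b' = b₁ * e := by rw [he]; group
  have hb₁K : b₁ ∈ Subgroup.normalizer (K : Set G) :=
    mul_mem (mul_mem (Subgroup.le_normalizer hk) hbK) (inv_mem (Subgroup.le_normalizer hk))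
  have hb'K : b' ∈ Subgroup.normalizer (K : Set G) :=
    hb'eq ▸ mul_mem hb₁K (hK.core_le_normalizer hL heQ)
  -- the commutators with `b'` fall into `K O₂(L)`
  have hcomm : ∀ g ∈ K ⊔ cOf L, ⁅g, b'⁆ ∈ K ⊔ pCoreOf 2 L := by
    intro g hg
    obtain ⟨h, hh, c, hc, rfl⟩ : ∃ h ∈ K, ∃ c ∈ cOf L, h * c = g := by
      rw [← SetLike.mem_coe, Subgroup.coe_mul_of_right_le_normalizer_left K (cOf L)
        (hK.cOf_le_normalizer hz hL)] at hg
      exact Set.mem_mul.1 hg
    have hcb : ⁅c, b'⁆ ∈ pCoreOf 2 L := by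
      have h1 : ⁅c, e⁆ ∈ pCoreOf 2 L := by
        rw [commutatorElement_def]
        exact mul_mem ((Subgroup.mem_normalizer_iff.1 (le_normalizer_pCoreOf L 2 hc.1) e).1 heQ)
          (inv_mem heQ)
      have h2 := (Subgroup.mem_normalizer_iff.1 (le_normalizer_pCoreOf L 2
        (mul_mem (mul_mem hkL hbL) (inv_mem hkL))) _).1 h1
      have e' : ⁅c, b'⁆ = ⁅c, b₁⁆ * (b₁ * ⁅c, e⁆ * b₁⁻¹) := by
        rw [hb'eq, commutatorElement_def, commutatorElement_def, commutatorElement_def]; group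
      rw [e']
      exact mul_mem (hCb₁ c hc) h2
    have hhb : ⁅h, b'⁆ ∈ K := by
      rw [commutatorElement_def, mul_assoc h b', mul_assoc h]
      refine mul_mem hh ?_
      exact (Subgroup.mem_normalizer_iff.1 hb'K h⁻¹).1 (inv_mem hh)
    rw [Modules.commutatorElement_mul_left]
    exact mul_mem (Subgroup.mem_sup_right
      ((Subgroup.mem_normalizer_iff.1 (le_normalizer_pCoreOf L 2 (hK.le hh)) _).1 hcb))
      (Subgroup.mem_sup_left hhb)
  have hb'K' : b' ∈ Subgroup.normalizer (K' : Set G) := by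
    rw [Subgroup.mem_normalizer_iff_map_conj_eq]
    change K'.map (MulAut.conj b').toMonoidHom = K'
    have he' : (MulAut.conj b').toMonoidHom.comp cn = cn.comp (MulAut.conj b).toMonoidHom := by
      ext g; simp [cn, hb']; group
    rw [hK'def, Subgroup.map_map, he', ← Subgroup.map_map, FF.map_conj_eq hbK]
  obtain ⟨y, hy, hyQ⟩ := exists_not_mem_pCoreOf hK'.idx
  have hzK' : ⁅y, b'⁆ ∈ K' := by
    rw [commutatorElement_def, mul_assoc y b', mul_assoc y]
    exact mul_mem hy ((Subgroup.mem_normalizer_iff.1 hb'K' y⁻¹).1 (inv_mem hy))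
  have hzQ : ⁅y, b'⁆ ∉ pCoreOf 2 K' := by
    intro hq
    refine hb'c (hW' ▸ centralizes_wOf_of_two hK'.idx hK'.card hy hyQ (hW'.symm ▸ hb'W) (n := 1)
      (fun w _ => by rw [pow_one, pow_two, hb'2]; group) fun w hw => ?_)
    have hm : b' * (y * w * y⁻¹) * b'⁻¹ ∈ wOf K' :=
      hW'.symm ▸ hWn b' hb'W _ (hW' ▸ (Subgroup.mem_normalizer_iff.1
        (le_normalizer_wOf K' hy) w).1 hw)
    conv_lhs => rw [← commute_wOf hq hm]
    rw [commutatorElement_def]; group
  have hle : K' ≤ K := by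
    refine hK.le_of_le_sup_core hL hK'.gen ?_
    rw [← sup_zpowers_eq hK'.idx hzK' hzQ]
    exact sup_le ((hK'.core_le hz hL').trans le_sup_right)
      (Subgroup.zpowers_le.2 (hcomm y (hK'le hy)))
  rw [Subgroup.mem_normalizer_iff_map_conj_eq]
  exact Subgroup.eq_of_le_of_card_ge hle
    (Subgroup.card_map_of_injective (f := cn) (MulAut.conj n).injective).ge

/-- `N_G(W_K)` is an overgroup of the family for a Sylow subgroup `S` with `J(S) = J(T)`. -/
theorem normalizer_wOf_mem_jOvergroups (hz : ZNHyp G) {S : Subgroup G}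
    (hKJ : ⁅K, thompsonSubgroupOf 2 T⁆ = K)
    (h3 : (pCoreOf 2 K).relIndex K = 3) (h4 : Nat.card ↥(wOf K) = 4) (hT : IsPGroup 2 T)
    (hS : IsSylowTwoIn S (Subgroup.normalizer (wOf K : Set G)))
    (hJ : thompsonSubgroupOf 2 S = thompsonSubgroupOf 2 T) :
    Subgroup.normalizer (wOf K : Set G) ∈ jOvergroups S := by
  set N := Subgroup.normalizer (wOf K : Set G) with hN
  have hW2 : IsPGroup 2 (wOf K) := Modules.elemAb_isPGroup (wOf_elemAb K)
  refine ⟨hS, fun hle => ?_, ?_⟩
  · obtain ⟨A, hA, a, haA, haW⟩ := exists_moving hKJ h3 h4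
    obtain ⟨x, hx, hxQ⟩ := exists_not_mem_pCoreOf h3
    have haJ : a ∈ thompsonSubgroupOf 2 T := Modules.le_thompsonSubgroupOf hA haA
    have haQ : a ∈ pCoreOf 2 N := hle (hJ ▸ haJ)
    have haK := le_normalizer_of_commutator_le hKJ.le haJ
    obtain ⟨m, hm⟩ := two_pow_pow_eq_one hT (thompsonOf_le T haJ)
    refine haW (centralizes_wOf_of_two h3 h4 hx hxQ (normalizer_le_normalizer_wOf K haK) (n := m)
      (fun w _ => by rw [hm]; group) fun w hw => ?_)
    have hq : a * x * a⁻¹ * x⁻¹ ∈ pCoreOf 2 K := by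
      have h1 : pCoreOf 2 N ⊓ K ≤ pCoreOf 2 K := LocalP.le_pCoreOf inf_le_right
        (Modules.normalizes_inf ((le_normalizer_wOf K).trans (le_normalizer_pCoreOf N 2))
          Subgroup.le_normalizer) ((LocalP.pCoreOf_isPGroup N).to_le inf_le_left)
      refine h1 ⟨?_, K.mul_mem ((Subgroup.mem_normalizer_iff.1 haK x).1 hx) (K.inv_mem hx)⟩
      have h2 := (Subgroup.mem_normalizer_iff.1
        (le_normalizer_pCoreOf N 2 (le_normalizer_wOf K hx)) a⁻¹).1 (inv_mem haQ)
      have e : a * x * a⁻¹ * x⁻¹ = a * (x * a⁻¹ * x⁻¹) := by group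
      rw [e]; exact mul_mem haQ h2
    have hgw : x * (a * w * a⁻¹) * x⁻¹ ∈ wOf K :=
      (Subgroup.mem_normalizer_iff.1 (le_normalizer_wOf K hx) _).1
        ((Subgroup.mem_normalizer_iff.1 (normalizer_le_normalizer_wOf K haK) w).1 hw)
    conv_rhs => rw [← commute_wOf hq hgw]
    group
  · have hWN : wOf K ≤ N := Subgroup.le_normalizer
    have hWQ : wOf K ≤ pCoreOf 2 N := LocalP.le_pCoreOf hWN le_rfl hW2
    intro c hc
    have hcN : c ∈ N :=
      Subgroup.centralizer_le_normalizer _ (Subgroup.centralizer_le (SetLike.coe_subset_coe.2 hWQ) hc)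
    have hne : wOf K ≠ ⊥ := fun h => by rw [h, Subgroup.card_bot] at h4; omega
    have h := hz.char2.2 (wOf K) hW2 hne
    refine ⟨⟨c, hcN⟩, h ?_, rfl⟩
    rw [Subgroup.mem_centralizer_iff]
    intro q hq
    exact Subtype.ext (Subgroup.mem_centralizer_iff.1 hc q ⟨q, hq, rfl⟩)

/-- Being a component only depends on `J(T)`. -/
theorem isJComponent_congr {T' : Subgroup G}
    (hJ : thompsonSubgroupOf 2 T' = thompsonSubgroupOf 2 T) (h : IsJComponent T K) :
    IsJComponent T' K := by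
  obtain ⟨h1, h2, h3, h4, h5⟩ := h
  exact ⟨h1, by rw [hJ]; exact h2, h3, by rw [hJ]; exact h4, h5⟩

/-- Conjugation of components. -/
theorem isJComponent_conj (h : IsJComponent T K) (g : G) :
    IsJComponent (T.map (MulAut.conj g).toMonoidHom) (K.map (MulAut.conj g).toMonoidHom) := by
  obtain ⟨h1, h2, h3, h4, h5, h6⟩ := h
  have hinj := (MulAut.conj g).injective
  refine ⟨map_conj_oddGen g h1, ?_, ?_, ?_, ?_, ?_⟩
  · rw [← Modules.conj_thompsonSubgroupOf, ← Subgroup.map_commutator, h2]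
  · rw [← map_conj_pCoreOf, Subgroup.relIndex_map_map_of_injective _ _ hinj, h3]
  · intro S hS hJS
    rw [← Modules.conj_thompsonSubgroupOf, ← Subgroup.map_sup] at hS
    rw [← Modules.conj_thompsonSubgroupOf] at hJS
    have e : ∀ X : Subgroup G, (X.map (MulAut.conj g).toMonoidHom).map
        (MulAut.conj g⁻¹).toMonoidHom = X := by
      intro X
      rw [Subgroup.map_map]
      convert X.map_id using 2
      ext y; simp [mul_assoc]
    have hS' := isSylowTwoIn_conj hS g⁻¹
    rw [e] at hS'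
    have hJS' := Subgroup.map_mono (f := (MulAut.conj g⁻¹).toMonoidHom) hJS
    rw [e] at hJS'
    have h := h4 _ hS' hJS'
    rw [← Modules.conj_thompsonSubgroupOf] at h ⊢
    rw [← h, Subgroup.map_map]
    convert (thompsonSubgroupOf 2 S).map_id.symm using 2
    ext y; simp [mul_assoc]
  · rw [← map_conj_wOf, Subgroup.card_map_of_injective hinj, h5]
  · rw [← map_conj_wOf]
    rintro _ ⟨w, hw, rfl⟩
    rw [← map_mul, h6 w hw, map_one]

/-- `N_G(K) = N_G(W_K)` for `K ∈ 𝒦₀`, and conjugates of `J(T)` in it give the same components. -/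
theorem jComponentsZero_normalizer (hz : ZNHyp G) (hT : IsPGroup 2 T)
    (hK : K ∈ jComponentsZero T) :
    Subgroup.normalizer (K : Set G) = Subgroup.normalizer (wOf K : Set G) ∧
      ∀ g : G, thompsonSubgroupOf 2 (T.map (MulAut.conj g).toMonoidHom) ≤
          Subgroup.normalizer (wOf K : Set G) →
        IsJComponent (T.map (MulAut.conj g).toMonoidHom) K := by
  obtain ⟨hKc, hS0⟩ := hK
  obtain ⟨hgen, hKJ, h3, h4', h4, h6⟩ := id hKc
  set N := Subgroup.normalizer (wOf K : Set G) with hN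
  have hJN : thompsonSubgroupOf 2 T ≤ N :=
    (le_normalizer_of_commutator_le hKJ.le).trans (normalizer_le_normalizer_wOf K)
  obtain ⟨S₀, hS₀, hJS₀⟩ := exists_isSylowTwoIn (thompsonOf_isPGroup hT) hJN
  have hJ₀ := hS0 S₀ hJS₀ hS₀
  have hover := normalizer_wOf_mem_jOvergroups hz hKJ h3 h4 hT hS₀ hJ₀
  have hcd : CompData S₀ N K := ⟨le_normalizer_wOf K, hgen, by rw [hJ₀]; exact hKJ, h3, h4⟩
  have hNK : ∀ n ∈ N, n ∈ Subgroup.normalizer (K : Set G) := fun n hn =>
    hcd.normalizer_wOf_le hz hover hn hn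
  refine ⟨le_antisymm (normalizer_le_normalizer_wOf K) hNK, fun g hg => ?_⟩
  set T' := T.map (MulAut.conj g).toMonoidHom with hT'
  obtain ⟨S', hS', hJS'⟩ := exists_isSylowTwoIn (thompsonOf_isPGroup (hT.map _)) hg
  obtain ⟨n, hn, hnS⟩ := exists_conj_of_isSylowTwoIn hS₀ hS'
  have hJS'eq : thompsonSubgroupOf 2 S' =
      (thompsonSubgroupOf 2 T).map (MulAut.conj n).toMonoidHom := by
    rw [← hnS, ← Modules.conj_thompsonSubgroupOf, hJ₀]
  have hle : thompsonSubgroupOf 2 T' ≤ thompsonSubgroupOf 2 S' := by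
    obtain ⟨A₀, hA₀⟩ := Modules.maxElemAbIn_nonempty 2 T
    rw [Modules.thompsonSubgroupOf_eq_sSup 2 T']
    refine sSup_le fun A hA => Modules.le_thompsonSubgroupOf ?_
    refine ⟨(Modules.le_thompsonSubgroupOf hA).trans hJS', hA.2.1, fun B hB hBe => ?_⟩
    -- `|A| = a(T) = a(S₀) = a(S')`
    obtain ⟨A', hA'⟩ := Modules.maxElemAbIn_nonempty 2 S'
    have h1 := Modules.le_thompsonSubgroupOf hA'
    rw [hJS'eq, ← hnS] at *
    have hA'2 := hA'
    rw [Modules.maxElemAbIn_map (MulAut.conj n).injective] at hA'2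
    obtain ⟨A'', hA'', rfl⟩ := hA'2
    refine (hA'.2.2 B hB hBe).trans ?_
    rw [Subgroup.card_map_of_injective (MulAut.conj n).injective]
    have hA''T : A'' ≤ T := (Modules.le_thompsonSubgroupOf hA'').trans (hJ₀.le.trans (thompsonOf_le T))
    refine (hA₀.2.2 A'' hA''T hA''.2.1).trans ?_
    have := hA.2.2 (A₀.map (MulAut.conj g).toMonoidHom) (Subgroup.map_mono hA₀.1)
      (Modules.elemAb_map _ hA₀.2.1)
    rwa [Subgroup.card_map_of_injective (MulAut.conj g).injective] at this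
  have heq : thompsonSubgroupOf 2 T' =
      thompsonSubgroupOf 2 (T.map (MulAut.conj n).toMonoidHom) := by
    rw [← Modules.conj_thompsonSubgroupOf n T, ← hJS'eq]
    refine Subgroup.eq_of_le_of_card_ge hle ?_
    rw [hJS'eq, hT', ← Modules.conj_thompsonSubgroupOf,
      Subgroup.card_map_of_injective (MulAut.conj n).injective,
      Subgroup.card_map_of_injective (MulAut.conj g).injective]
  have hKn := isJComponent_conj hKc n
  rw [FF.map_conj_eq (hNK n hn)] at hKn
  exact isJComponent_congr heq hKn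

end Cfsg.Agent.LocalEven
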