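import Cfsg.Agent.LocalEven.JModule

/-!
Two groups with four-group modules acting on an elementary abelian 2-group.
-/

set_option autoImplicit false

open Cfsg
open scoped commutatorElement

namespace Cfsg.Agent.LocalEven

variable {G : Type*} [Group G] [Finite G]

/-- Decomposition `Y = C_Y(K) W_K`. -/
theorem exists_fixed_mul {K Y : Subgroup G} (h3 : (pCoreOf 2 K).relIndex K = 3)
    (hY : IsElementaryAbelian 2 Y) (hKY : K ≤ Subgroup.normalizer (Y : Set G))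
    (hYK : Y ≤ Subgroup.normalizer (K : Set G)) (hQY : pCoreOf 2 K ≤ Subgroup.centralizer (Y : Set G))
    (hint : Y ⊓ K ≤ pCoreOf 2 K) {y : G} (hy : y ∈ Y) :
    ∃ c ∈ Y, (∀ k ∈ K, k * c * k⁻¹ = c) ∧ ∃ u ∈ wOf K, y = c * u := by
  obtain ⟨x, hx, hxQ⟩ := exists_not_mem_pCoreOf h3
  have hn : ∀ z ∈ Y, x * z * x⁻¹ ∈ Y := fun z hz => (Subgroup.mem_normalizer_iff.1 (hKY hx) z).1 hz
  have hm : ∀ a ∈ Y, ∀ b ∈ Y, a * b = b * a := fun a ha b hb => Modules.elemAb_comm hY ha hb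
  have hsq : ∀ a ∈ Y, a * a = 1 := fun a ha => by simpa [pow_two] using hY.2 a ha
  have hinv : ∀ a ∈ Y, a⁻¹ = a := fun a ha => inv_eq_of_mul_eq_one_right (hsq a ha)
  set a := x * y * x⁻¹ with ha
  set b := x * a * x⁻¹ with hb
  have haY : a ∈ Y := hn y hy
  have hbY : b ∈ Y := hn a haY
  have h3y : x * b * x⁻¹ = y := by
    have h1 : x * b * x⁻¹ = x ^ 3 * y * (x ^ 3)⁻¹ := by rw [hb, ha, pow_three x]; group
    rw [h1]
    have h2 := Subgroup.mem_centralizer_iff.1 (hQY (pow_three_mem_pCoreOf h3 hx)) y hy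
    rw [← h2, mul_inv_cancel_right]
  -- `u = [x, y]`
  set u := a * y with hu
  have huY : u ∈ Y := mul_mem haY hy
  have huK : u ∈ K := by
    have h1 : u = x * (y * x⁻¹ * y⁻¹) := by rw [hu, ha, hinv y hy]; group
    rw [h1]
    exact K.mul_mem hx ((Subgroup.mem_normalizer_iff.1 (hYK hy) _).1 (K.inv_mem hx))
  have huV : u ∈ omegaCenterOf (pCoreOf 2 K) := by
    refine Modules.mem_omegaOne_of_pow ⟨hint ⟨huY, huK⟩, ?_⟩ (hY.2 u huY)
    exact Subgroup.mem_centralizer_iff.2 fun q hq =>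
      (Subgroup.mem_centralizer_iff.1 (hQY hq) u huY).symm
  have hxu : x * u * x⁻¹ = b * a := by rw [hu, conj_mul_conj]
  have hW1 : x * u * x⁻¹ * u⁻¹ ∈ wOf K := by
    have h1 : ⁅u, x⁆ ∈ wOf K := Subgroup.commutator_mem_commutator huV hx
    have h2 : x * u * x⁻¹ * u⁻¹ = ⁅u, x⁆⁻¹ := by rw [commutatorElement_def]; group
    rw [h2]; exact inv_mem h1
  have hby : b * y ∈ wOf K := by
    have h1 : x * u * x⁻¹ * u⁻¹ = b * y := by
      rw [hxu, hinv u huY, hu, ← mul_assoc, mul_assoc b, hsq a haY, mul_one]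
    rwa [← h1]
  have huW : x * u * x⁻¹ ∈ wOf K := by
    have hnW : ∀ z ∈ wOf K, x * z * x⁻¹ ∈ wOf K := fun z hz =>
      (Subgroup.mem_normalizer_iff.1 (le_normalizer_wOf K hx) z).1 hz
    have h1 : x * (x * (b * y) * x⁻¹) * x⁻¹ = b * a := by
      rw [conj_mul_conj x b y, h3y, conj_mul_conj x y, ← ha, ← hb, hm a haY b hbY]
    rw [hxu, ← h1]
    exact hnW _ (hnW _ hby)
  refine ⟨y * a * b, mul_mem (mul_mem hy haY) hbY, ?_, x * u * x⁻¹, huW, ?_⟩
  · have hfx : x * (y * a * b) * x⁻¹ = y * a * b := by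
      rw [conj_mul_conj, conj_mul_conj, ← ha, ← hb, h3y, mul_assoc,
        hm b hbY y hy, ← mul_assoc, hm a haY y hy]
    intro k hk
    rw [← sup_zpowers_eq h3 hx hxQ] at hk
    have : pCoreOf 2 K ⊔ Subgroup.zpowers x ≤ Subgroup.centralizer {y * a * b} := by
      refine sup_le (fun q hq => ?_) (Subgroup.zpowers_le.2 ?_)
      · exact Subgroup.mem_centralizer_singleton_iff.2
          (Subgroup.mem_centralizer_iff.1 (hQY hq) _ (mul_mem (mul_mem hy haY) hbY)).symm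
      · exact Subgroup.mem_centralizer_singleton_iff.2 (mul_inv_eq_iff_eq_mul.1 hfx)
    rw [Subgroup.mem_centralizer_singleton_iff.1 (this hk), mul_inv_cancel_right]
  · rw [hxu, mul_assoc, ← mul_assoc b, hsq b hbY, one_mul, mul_assoc, hsq a haY, mul_one]

/-- `x y x⁻¹ ∈ y W_K` for `y` in such a module. -/
theorem conj_mem_coset {K Y : Subgroup G} (h3 : (pCoreOf 2 K).relIndex K = 3)
    (hY : IsElementaryAbelian 2 Y) (hKY : K ≤ Subgroup.normalizer (Y : Set G))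
    (hYK : Y ≤ Subgroup.normalizer (K : Set G)) (hQY : pCoreOf 2 K ≤ Subgroup.centralizer (Y : Set G))
    (hint : Y ⊓ K ≤ pCoreOf 2 K) {y x : G} (hy : y ∈ Y) (hx : x ∈ K) :
    y⁻¹ * (x * y * x⁻¹) ∈ wOf K := by
  obtain ⟨c, -, hfix, u, hu, rfl⟩ := exists_fixed_mul h3 hY hKY hYK hQY hint hy
  have h1 : (c * u)⁻¹ * (x * (c * u) * x⁻¹) = u⁻¹ * (x * u * x⁻¹) := by
    rw [conj_mul_conj, hfix x hx]; group
  rw [h1]
  exact mul_mem (inv_mem hu) ((Subgroup.mem_normalizer_iff.1 (le_normalizer_wOf K hx) u).1 hu)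

/-- An element stabilizing `1 ≤ W ≤ Y` squares into `C(Y)`. -/
theorem sq_mem_centralizer_of_chain {W Y : Subgroup G} (hW : IsElementaryAbelian 2 W) {d : G}
    (h1 : ∀ y ∈ Y, y⁻¹ * (d * y * d⁻¹) ∈ W) (h2 : ∀ w ∈ W, d * w * d⁻¹ = w) :
    d * d ∈ Subgroup.centralizer (Y : Set G) := by
  rw [Subgroup.mem_centralizer_iff]
  intro y hy
  set w := y⁻¹ * (d * y * d⁻¹) with hw
  have e1 : d * y * d⁻¹ = y * w := by rw [hw]; group
  have hww : w * w = 1 := by simpa [pow_two] using hW.2 w (h1 y hy)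
  have h : d * d * y * (d * d)⁻¹ = y := by
    calc d * d * y * (d * d)⁻¹ = d * (d * y * d⁻¹) * d⁻¹ := by group
      _ = (d * y * d⁻¹) * (d * w * d⁻¹) := by
          conv_lhs => rw [e1, conj_mul_conj]
      _ = y * (w * w) := by rw [h2 w (h1 y hy), e1, mul_assoc]
      _ = y := by rw [hww, mul_one]
  exact (mul_inv_eq_iff_eq_mul.1 h).symm

/-- A 2-element commuting with `K` on `W_K` centralizes it. -/
theorem centralizes_wOf_of_two {K : Subgroup G} (h3 : (pCoreOf 2 K).relIndex K = 3)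
    (h4 : Nat.card ↥(wOf K) = 4) {x : G} (hx : x ∈ K) (hxQ : x ∉ pCoreOf 2 K)
    {g : G} (hg : g ∈ Subgroup.normalizer (wOf K : Set G)) {n : ℕ}
    (hn : ∀ w ∈ wOf K, g ^ 2 ^ n * w * (g ^ 2 ^ n)⁻¹ = w)
    (hcomm : ∀ w ∈ wOf K, g * (x * w * x⁻¹) * g⁻¹ = x * (g * w * g⁻¹) * x⁻¹) :
    g ∈ Subgroup.centralizer (wOf K : Set G) := by
  obtain ⟨w, hw, hw1⟩ : ∃ w ∈ wOf K, w ≠ 1 := by
    by_contra h
    push Not at h
    rw [(Subgroup.eq_bot_iff_forall _).2 h, Subgroup.card_bot] at h4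
    omega
  have hnx : ∀ v ∈ wOf K, x * v * x⁻¹ ∈ wOf K := fun v hv =>
    (Subgroup.mem_normalizer_iff.1 (le_normalizer_wOf K hx) v).1 hv
  have hgW : ∀ v ∈ wOf K, g * v * g⁻¹ ∈ wOf K := fun v hv =>
    (Subgroup.mem_normalizer_iff.1 hg v).1 hv
  have key : ∀ e ∈ K, e ∉ pCoreOf 2 K →
      (∀ v ∈ wOf K, g * (e * v * e⁻¹) * g⁻¹ = e * (g * v * g⁻¹) * e⁻¹) →
      g * w * g⁻¹ ≠ e * w * e⁻¹ := by
    intro e he heQ hce hge
    have hen : ∀ m : ℕ, ∀ v ∈ wOf K, g * (e ^ m * v * (e ^ m)⁻¹) * g⁻¹ =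
        e ^ m * (g * v * g⁻¹) * (e ^ m)⁻¹ := by
      intro m
      induction m with
      | zero => simp
      | succ m ih =>
        intro v hv
        have hev : e * v * e⁻¹ ∈ wOf K :=
          (Subgroup.mem_normalizer_iff.1 (le_normalizer_wOf K he) v).1 hv
        calc g * (e ^ (m + 1) * v * (e ^ (m + 1))⁻¹) * g⁻¹
            = g * (e ^ m * (e * v * e⁻¹) * (e ^ m)⁻¹) * g⁻¹ := by rw [pow_succ]; group
          _ = e ^ m * (e * (g * v * g⁻¹) * e⁻¹) * (e ^ m)⁻¹ := by rw [ih _ hev, hce v hv]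
          _ = _ := by rw [pow_succ]; group
    have hgm : ∀ m : ℕ, g ^ m * w * (g ^ m)⁻¹ = e ^ m * w * (e ^ m)⁻¹ := by
      intro m
      induction m with
      | zero => simp
      | succ m ih =>
        calc g ^ (m + 1) * w * (g ^ (m + 1))⁻¹ = g * (g ^ m * w * (g ^ m)⁻¹) * g⁻¹ := by
              rw [pow_succ']; group
          _ = e ^ m * (e * w * e⁻¹) * (e ^ m)⁻¹ := by rw [ih, hen m w hw, hge]
          _ = _ := by rw [pow_succ]; group
    have h2n : e ^ 2 ^ n ∉ pCoreOf 2 K := by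
      intro h
      apply heQ
      have h' := pow_three_mem_pCoreOf h3 he
      have hc : Nat.Coprime (2 ^ n) 3 := Nat.Coprime.pow_left n (by norm_num)
      obtain ⟨a, b, hab⟩ : ∃ a b : ℤ, (1 : ℤ) = (2 ^ n : ℕ) * a + (3 : ℕ) * b :=
        ⟨Nat.gcdA (2 ^ n) 3, Nat.gcdB (2 ^ n) 3, by rw [← Nat.gcd_eq_gcd_ab, hc]; rfl⟩
      rw [← zpow_one e, hab, zpow_add, zpow_mul, zpow_mul, zpow_natCast, zpow_natCast]
      exact mul_mem (zpow_mem h _) (zpow_mem h' _)
    exact hw1 (wOf_fixed_eq_one h3 (pow_mem he _) h2n hw ((hgm _).symm.trans (hn w hw)))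
  rcases wOf_cases h3 h4 hx hxQ hw hw1 (hgW w hw) with h | h | h | h
  · exact absurd (by simpa using h) hw1
  · rw [Subgroup.mem_centralizer_iff]
    intro v hv
    refine (mul_inv_eq_iff_eq_mul.1 ?_).symm
    rcases wOf_cases h3 h4 hx hxQ hw hw1 hv with rfl | rfl | rfl | rfl
    · simp
    · exact h
    · rw [hcomm w hw, h]
    · rw [hcomm _ (hnx w hw), hcomm w hw, h]
  · exact absurd h (key x hx hxQ hcomm)
  · refine absurd h ?_
    have e1 : x * (x * w * x⁻¹) * x⁻¹ = x⁻¹ * w * x := by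
      have h' := commute_wOf (pow_three_mem_pCoreOf h3 hx) hw
      conv_rhs => rw [← h']
      rw [pow_three x]; group
    rw [e1]
    have k' := key x⁻¹ (inv_mem hx) (fun h' => hxQ (by simpa using inv_mem h')) (by
      intro v hv
      have hxv : x⁻¹ * v * x ∈ wOf K := by
        simpa using (Subgroup.mem_normalizer_iff.1 (le_normalizer_wOf K (inv_mem hx)) v).1 hv
      have h' := hcomm _ hxv
      have e2 : x * (x⁻¹ * v * x) * x⁻¹ = v := by group
      rw [e2] at h'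
      rw [inv_inv, h']; group)
    rwa [inv_inv] at k'

/-- If two cyclic actions of order three agree on one plane, they agree modulo `C(Y)`. -/
theorem plane_element {K Y : Subgroup G} (h3 : (pCoreOf 2 K).relIndex K = 3)
    (h4 : Nat.card ↥(wOf K) = 4)
    {x x' w : G} (hx : x ∈ K) (hxQ : x ∉ pCoreOf 2 K) (hw : w ∈ wOf K) (hw1 : w ≠ 1)
    (hWY : wOf K ≤ Y)
    (hYx : ∀ y ∈ Y, y⁻¹ * (x * y * x⁻¹) ∈ wOf K) (hYx' : ∀ y ∈ Y, y⁻¹ * (x' * y * x'⁻¹) ∈ wOf K)
    (hfix : ∀ v ∈ wOf K, v ≠ 1 → x' * v * x'⁻¹ ≠ v)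
    (hcube : ∀ v ∈ wOf K, x' * (x' * (x' * v * x'⁻¹) * x'⁻¹) * x'⁻¹ = v)
    (hxY : x ∈ Subgroup.normalizer (Y : Set G))
    (h3n : ∃ n, (x⁻¹ * x') ^ 3 ^ n ∈ Subgroup.centralizer (Y : Set G))
    (heq : x' * w * x'⁻¹ = x * w * x⁻¹) :
    x⁻¹ * x' ∈ Subgroup.centralizer (Y : Set G) := by
  have hnx' : ∀ v ∈ wOf K, x' * v * x'⁻¹ ∈ wOf K := fun v hv => by
    have := mul_mem hv (hYx' v (hWY hv))
    rwa [mul_inv_cancel_left] at this
  have hnx : ∀ v ∈ wOf K, x * v * x⁻¹ ∈ wOf K := fun v hv =>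
    (Subgroup.mem_normalizer_iff.1 (le_normalizer_wOf K hx) v).1 hv
  have hne : x * w * x⁻¹ ≠ 1 := by simp [hw1]
  have h2 : x' * (x * w * x⁻¹) * x'⁻¹ = x * (x * w * x⁻¹) * x⁻¹ := by
    rcases wOf_cases h3 h4 hx hxQ hw hw1 (hnx' _ (hnx w hw)) with h | h | h | h
    · exact absurd (by simpa using h) hne
    · exfalso
      have h' := hcube w hw
      rw [heq, h, heq] at h'
      exact hw1 (wOf_fixed_eq_one h3 hx hxQ hw h')
    · exact absurd h (hfix _ (hnx w hw) hne)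
    · exact h
  set d := x⁻¹ * x' with hd
  have hdc : ∀ v, d * v * d⁻¹ = x⁻¹ * (x' * v * x'⁻¹) * x := fun v => by rw [hd]; group
  have hdW : ∀ v ∈ wOf K, d * v * d⁻¹ = v := by
    have e : ∀ v, x' * v * x'⁻¹ = x * v * x⁻¹ → d * v * d⁻¹ = v := fun v hv => by
      rw [hdc, hv]; group
    have hxw := e _ h2
    intro v hv
    rcases wOf_cases h3 h4 hx hxQ hw hw1 hv with rfl | rfl | rfl | hv'
    · simp
    · exact e _ heq
    · exact hxw
    · have hmul : v = w * (x * w * x⁻¹) := by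
        rcases wOf_cases h3 h4 hx hxQ hw hw1 (mul_mem hw (hnx w hw)) with h | h | h | h
        · exfalso
          have hwi : w⁻¹ = w := inv_eq_of_mul_eq_one_right
            (by simpa [pow_two] using (wOf_elemAb K).2 w hw)
          have h1 := eq_inv_of_mul_eq_one_right h
          rw [hwi] at h1
          exact hw1 (wOf_fixed_eq_one h3 hx hxQ hw h1)
        · exact absurd (mul_eq_left.1 h) hne
        · exact absurd (mul_eq_right.1 h) hw1
        · rw [hv', h]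
      rw [hmul, conj_mul_conj, e _ heq, hxw]
  have hxi : ∀ v ∈ wOf K, x⁻¹ * v * x ∈ wOf K := fun v hv => by
    simpa using (Subgroup.mem_normalizer_iff.1 (le_normalizer_wOf K (inv_mem hx)) v).1 hv
  have hdd : d * d ∈ Subgroup.centralizer (Y : Set G) := by
    refine sq_mem_centralizer_of_chain (wOf_elemAb K) (fun y hy => ?_) hdW
    have hz : x⁻¹ * y * x ∈ Y := by
      simpa using (Subgroup.mem_normalizer_iff.1 ((Subgroup.normalizer (Y : Set G)).inv_mem hxY) y).1 hy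
    have h1 := hYx _ hz
    have e1 : (x⁻¹ * y * x)⁻¹ * (x * (x⁻¹ * y * x) * x⁻¹) = x⁻¹ * y⁻¹ * x * y := by group
    rw [e1] at h1
    have h2' := hxi _ (hYx' y hy)
    rw [hdc]
    have e2 : y⁻¹ * (x⁻¹ * (x' * y * x'⁻¹) * x) =
        (x⁻¹ * y⁻¹ * x * y)⁻¹ * (x⁻¹ * (y⁻¹ * (x' * y * x'⁻¹)) * x) := by group
    rw [e2]
    exact mul_mem (inv_mem h1) h2'
  obtain ⟨n, hn⟩ := h3n
  obtain ⟨k, hk⟩ : Odd (3 ^ n) := Odd.pow (by decide)
  rw [hk, pow_succ, pow_mul, pow_two] at hn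
  exact (Subgroup.mul_mem_cancel_left _ (pow_mem hdd k)).1 hn

/-- A `3`-element orbit argument: two planes through a common point coincide. -/
theorem plane_eq {X : Type*} [Group X] [Finite X] (Y : Subgroup X)
    (hY : IsElementaryAbelian 2 Y) {K K' : Subgroup X} (hK : (pCoreOf 2 K).relIndex K = 3)
    (hK' : (pCoreOf 2 K').relIndex K' = 3) (h4 : Nat.card ↥(wOf K) = 4)
    (h4' : Nat.card ↥(wOf K') = 4) (hWY : wOf K ≤ Y) (hWY' : wOf K' ≤ Y)
    {x x' : X} (hx : x ∈ K) (hxQ : x ∉ pCoreOf 2 K) (hx' : x' ∈ K') (hxQ' : x' ∉ pCoreOf 2 K')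
    (hYx : ∀ y ∈ Y, y⁻¹ * (x * y * x⁻¹) ∈ wOf K)
    (hYx' : ∀ y ∈ Y, y⁻¹ * (x' * y * x'⁻¹) ∈ wOf K')
    (hnY : Subgroup.closure {x, x'} ≤ Subgroup.normalizer (Y : Set X))
    (hp : ∀ e ∈ Subgroup.closure {x, x'}, ∃ n, e ^ 3 ^ n ∈ Subgroup.centralizer (Y : Set X))
    {w : X} (hw : w ∈ wOf K) (hw' : w ∈ wOf K') (hw1 : w ≠ 1) : wOf K = wOf K' := by
  haveI : Fact (Nat.Prime 3) := ⟨Nat.prime_three⟩
  set W := wOf K with hW
  set W' := wOf K' with hW'
  set M := W ⊔ W' with hM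
  have hMY : M ≤ Y := sup_le hWY hWY'
  have hMn : ∀ e ∈ Subgroup.closure {x, x'}, ∀ m ∈ M, e * m * e⁻¹ ∈ M := by
    have gen : ∀ e : X, (∀ y ∈ Y, y⁻¹ * (e * y * e⁻¹) ∈ M) →
        e ∈ Subgroup.normalizer (M : Set X) := by
      intro e he
      rw [Subgroup.mem_normalizer_iff_map_conj_eq]
      refine Subgroup.eq_of_le_of_card_ge ?_
        (Subgroup.card_map_of_injective (f := (MulAut.conj e).toMonoidHom)
          (MulAut.conj e).injective).ge
      rintro _ ⟨m, hm, rfl⟩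
      have := mul_mem hm (he m (hMY hm))
      rwa [mul_inv_cancel_left] at this
    have hle : Subgroup.closure {x, x'} ≤ Subgroup.normalizer (M : Set X) := by
      rw [Subgroup.closure_le]
      rintro e (rfl | rfl)
      · exact gen _ fun y hy => Subgroup.mem_sup_left (hYx y hy)
      · exact gen _ fun y hy => Subgroup.mem_sup_right (hYx' y hy)
    exact fun e he m hm => (Subgroup.mem_normalizer_iff.1 (hle he) m).1 hm
  let φ : ↥(Subgroup.closure {x, x'}) →* MulAut Y :=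
    Y.normalizerMonoidHom.comp (Subgroup.inclusion hnY)
  have happ : ∀ e, ∀ v : Y, (φ e v : X) = e * v * (e : X)⁻¹ := fun e v => rfl
  have hφ : IsPGroup 3 φ.range := by
    rintro ⟨_, ⟨e, rfl⟩⟩
    obtain ⟨n, hn⟩ := hp e e.2
    refine ⟨n, Subtype.ext ?_⟩
    show φ e ^ 3 ^ n = 1
    rw [← map_pow]
    refine MulEquiv.ext fun v => Subtype.ext ?_
    rw [happ, MulAut.one_apply, Subgroup.coe_pow,
      ← Subgroup.mem_centralizer_iff.1 hn v v.2, mul_inv_cancel_right]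
  let w0 : Y := ⟨w, hWY hw⟩
  obtain ⟨i, hi⟩ := hφ.card_orbit w0
  set O : Set X := Subtype.val '' (MulAction.orbit φ.range w0) with hO
  have hOcard : O.ncard = 3 ^ i := by
    rw [hO, Set.ncard_image_of_injective _ Subtype.val_injective, ← Nat.card_coe_set_eq, hi]
  have hmem : ∀ e, ∀ he : e ∈ Subgroup.closure {x, x'}, e * w * e⁻¹ ∈ O := by
    intro e he
    refine ⟨(⟨φ ⟨e, he⟩, ⟨_, rfl⟩⟩ : φ.range) • w0, MulAction.mem_orbit _ _, ?_⟩
    exact happ ⟨e, he⟩ w0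
  have hOsub : O ⊆ (M : Set X) \ {1} := by
    rintro _ ⟨_, ⟨⟨_, ⟨⟨e, he⟩, rfl⟩⟩, rfl⟩, rfl⟩
    have h' : ((φ ⟨e, he⟩ w0 : Y) : X) = e * w * e⁻¹ := happ ⟨e, he⟩ w0
    refine ⟨?_, ?_⟩
    · exact h' ▸ hMn e he w (Subgroup.mem_sup_left hw)
    · intro h
      rw [Set.mem_singleton_iff] at h
      have h1 : e * w * e⁻¹ = 1 := h'.symm.trans h
      exact hw1 (conj_eq_one_iff.1 h1)
  have hMcard : Nat.card ↥M ≤ 8 := by
    have hWW : W ≤ Subgroup.normalizer (W' : Set X) := fun a ha => by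
      refine (Subgroup.centralizer_le_normalizer _) (Subgroup.mem_centralizer_iff.2 fun b hb => ?_)
      exact Modules.elemAb_comm hY (hWY' hb) (hWY ha)
    have h := Modules.card_sup_mul_card_inf hWW
    rw [h4, h4', ← hM] at h
    have h2 : 2 ≤ Nat.card ↥(W ⊓ W' : Subgroup X) := by
      haveI : Nontrivial ↥(W ⊓ W' : Subgroup X) :=
        ⟨⟨⟨w, hw, hw'⟩, 1, fun h => hw1 (congrArg Subtype.val h)⟩⟩
      exact Finite.one_lt_card
    nlinarith
  have h7 : O.ncard ≤ 7 := by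
    refine (Set.ncard_le_ncard hOsub).trans ?_
    rw [Set.ncard_sdiff_singleton_of_mem M.one_mem]
    have : (M : Set X).ncard = Nat.card ↥M := (Nat.card_coe_set_eq _).symm
    omega
  have h3le : O.ncard ≤ 3 := by
    rw [hOcard] at h7 ⊢
    rcases i with _ | _ | i
    · norm_num
    · norm_num
    · exfalso
      have := Nat.pow_le_pow_right (show 0 < 3 by norm_num) (show 2 ≤ i + 1 + 1 by omega)
      norm_num at this h7
      omega
  have sub : ∀ (L : Subgroup X) (z : X), (pCoreOf 2 L).relIndex L = 3 → Nat.card ↥(wOf L) = 4 →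
      z ∈ L → z ∉ pCoreOf 2 L → z ∈ Subgroup.closure {x, x'} → w ∈ wOf L →
      (wOf L : Set X) = insert 1 O := by
    intro L z h3 h4L hz hzQ hzc hwL
    refine Set.eq_of_subset_of_ncard_le ?_ ?_
    · intro v hv
      rcases wOf_cases h3 h4L hz hzQ hwL hw1 hv with rfl | rfl | rfl | rfl
      · exact Set.mem_insert _ _
      · refine Set.mem_insert_of_mem _ ?_
        simpa using hmem 1 (one_mem _)
      · exact Set.mem_insert_of_mem _ (hmem z hzc)
      · refine Set.mem_insert_of_mem _ ?_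
        have := hmem (z * z) (mul_mem hzc hzc)
        simpa [mul_assoc] using this
    · refine (Set.ncard_insert_le _ _).trans ?_
      rw [← Nat.card_coe_set_eq (wOf L : Set X)]
      exact le_trans (by omega) h4L.ge
  apply SetLike.coe_injective
  rw [sub K x hK h4 hx hxQ (Subgroup.subset_closure (by simp)) hw,
    sub K' x' hK' h4' hx' hxQ' (Subgroup.subset_closure (by simp)) hw']

end Cfsg.Agent.LocalEven
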