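import Cfsg.Agent.LocalEven.JStructure

/-!
`Ω₁Z(J(T))` and the plane of a component.
-/

set_option autoImplicit false

open Cfsg
open scoped commutatorElement

namespace Cfsg.Agent.LocalEven

variable {G : Type*} [Group G] [Finite G] {T K : Subgroup G}

theorem two_pow_pow_eq_one {P : Subgroup G} (hP : IsPGroup 2 P) {g : G} (hg : g ∈ P) :
    ∃ n : ℕ, g ^ 2 ^ n = 1 := by
  obtain ⟨n, hn⟩ := hP ⟨g, hg⟩
  exact ⟨n, by simpa using congrArg Subtype.val hn⟩

theorem isPGroup_of_pow {P : Subgroup G} (h : ∀ g ∈ P, ∃ n : ℕ, g ^ 2 ^ n = 1) : IsPGroup 2 P := by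
  rintro ⟨g, hg⟩
  obtain ⟨n, hn⟩ := h g hg
  exact ⟨n, Subtype.ext (by simpa using hn)⟩

/-- Some member of a maximal elementary abelian subgroup moves `W_K`. -/
theorem exists_moving (hKJ : ⁅K, thompsonSubgroupOf 2 T⁆ = K)
    (h3 : (pCoreOf 2 K).relIndex K = 3) (h4 : Nat.card ↥(wOf K) = 4) :
    ∃ A ∈ Modules.maxElemAbIn 2 T, ∃ a ∈ A, a ∉ Subgroup.centralizer (wOf K : Set G) := by
  by_contra hcon
  push Not at hcon
  have hJ : thompsonSubgroupOf 2 T ≤ Subgroup.centralizer (wOf K : Set G) := by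
    rw [Modules.thompsonSubgroupOf_eq_sSup]
    exact sSup_le fun A hA a ha => hcon A hA a ha
  have hK : K ≤ Subgroup.centralizer (wOf K : Set G) := by
    conv_lhs => rw [← hKJ]
    rw [Subgroup.commutator_le]
    intro k hk j hj
    have hn : k ∈ Subgroup.normalizer ((Subgroup.centralizer (wOf K : Set G) : Subgroup G) : Set G) :=
      Modules.normalizes_centralizer le_rfl (le_normalizer_wOf K hk)
    rw [commutatorElement_def]
    exact mul_mem ((Subgroup.mem_normalizer_iff.1 hn j).1 (hJ hj)) (inv_mem (hJ hj))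
  obtain ⟨x, hx, hxQ⟩ := exists_not_mem_pCoreOf h3
  have hb : wOf K = ⊥ := (Subgroup.eq_bot_iff_forall _).2 fun w hw =>
    wOf_fixed_eq_one h3 hx hxQ hw (by
      rw [← Subgroup.mem_centralizer_iff.1 (hK hx) w hw, mul_inv_cancel_right])
  rw [hb, Subgroup.card_bot] at h4
  omega

/-- `Ω₁(Z(J)) ∩ W_K` has order two and `Ω₁(Z(J))` splits. -/
theorem omega_thompson_split
    (hgen : Subgroup.closure {g : G | g ∈ K ∧ Odd (orderOf g)} = K)
    (hKJ : ⁅K, thompsonSubgroupOf 2 T⁆ = K) (h3 : (pCoreOf 2 K).relIndex K = 3)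
    (h4 : Nat.card ↥(wOf K) = 4) (hT : IsPGroup 2 T)
    (hS : ∀ S : Subgroup G, IsSylowTwoIn S (K ⊔ thompsonSubgroupOf 2 T) →
      thompsonSubgroupOf 2 T ≤ S → thompsonSubgroupOf 2 S = thompsonSubgroupOf 2 T) :
    Nat.card ↥(omegaCenterOf (thompsonSubgroupOf 2 T) ⊓ wOf K) = 2 ∧
      (omegaCenterOf (thompsonSubgroupOf 2 T) ⊓ ((K ⊔ thompsonSubgroupOf 2 T) ⊓
        Subgroup.centralizer ((K ⊔ thompsonSubgroupOf 2 T : Subgroup G) : Set G))) ⊔
        (omegaCenterOf (thompsonSubgroupOf 2 T) ⊓ wOf K) =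
      omegaCenterOf (thompsonSubgroupOf 2 T) := by
  classical
  set J := thompsonSubgroupOf 2 T with hJdef
  set X := K ⊔ J with hX
  set W := wOf K with hWdef
  set Q := pCoreOf 2 K with hQdef
  set Z₀ := omegaCenterOf J with hZ₀
  have hJ2 : IsPGroup 2 J := thompsonOf_isPGroup hT
  have hJK : J ≤ Subgroup.normalizer (K : Set G) := le_normalizer_of_commutator_le hKJ.le
  have hXW : X ≤ Subgroup.normalizer (W : Set G) :=
    sup_le (le_normalizer_wOf K) (hJK.trans (normalizer_le_normalizer_wOf K))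
  have hconjW : ∀ g ∈ X, ∀ w ∈ W, g * w * g⁻¹ ∈ W := fun g hg w hw =>
    (Subgroup.mem_normalizer_iff.1 (hXW hg) w).1 hw
  have hWsq : ∀ w ∈ W, w * w = 1 := fun w hw => by
    simpa [pow_two] using (wOf_elemAb K).2 w hw
  have hWc : ∀ u ∈ W, ∀ v ∈ W, u * v = v * u := fun u hu v hv =>
    Modules.elemAb_comm (wOf_elemAb K) hu hv
  -- the 2-group `P = C_X(W)`
  set P := X ⊓ Subgroup.centralizer (W : Set G) with hPdef
  have hQP : Q ≤ P := le_inf ((LocalP.pCoreOf_le K).trans le_sup_left) (fun q hq =>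
    Subgroup.mem_centralizer_iff.2 fun w hw =>
      (mul_inv_eq_iff_eq_mul.1 (commute_wOf hq hw)).symm)
  have hPn : X ≤ Subgroup.normalizer (P : Set G) :=
    Modules.normalizes_inf Subgroup.le_normalizer (Modules.normalizes_centralizer hXW)
  have hKC : ∀ k ∈ K, k ∈ Subgroup.centralizer (W : Set G) → k ∈ Q := by
    intro k hk hkc
    by_contra hkQ
    obtain ⟨w, hw, hw1⟩ : ∃ w ∈ W, w ≠ 1 := by
      by_contra h
      push Not at h
      rw [(Subgroup.eq_bot_iff_forall _).2 h, Subgroup.card_bot] at h4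
      omega
    exact hw1 (wOf_fixed_eq_one h3 hk hkQ hw (by
      rw [← Subgroup.mem_centralizer_iff.1 hkc w hw, mul_inv_cancel_right]))
  have hP2 : IsPGroup 2 P := by
    refine isPGroup_of_pow fun g hg => ?_
    let H := Subgroup.normalizer (K : Set G)
    have hXH : X ≤ H := sup_le Subgroup.le_normalizer hJK
    let f : ↥H →* ↥H ⧸ K.subgroupOf H := QuotientGroup.mk' _
    have himg : f ⟨g, hXH hg.1⟩ ∈ (J.subgroupOf H).map f := by
      obtain ⟨k, hk, j, hj, hkj⟩ : ∃ k ∈ K, ∃ j ∈ J, k * j = g := by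
        have : g ∈ (↑(K ⊔ J) : Set G) := hg.1
        rw [Subgroup.coe_mul_of_right_le_normalizer_left K J hJK] at this
        exact Set.mem_mul.1 this
      refine ⟨⟨j, hJK hj⟩, hj, ?_⟩
      apply QuotientGroup.eq.2
      rw [Subgroup.mem_subgroupOf]
      simp only [Subgroup.coe_mul, InvMemClass.coe_inv, ← hkj]
      have := (Subgroup.mem_normalizer_iff.1 (H.inv_mem (hJK hj)) k).1 hk
      simpa [mul_assoc] using this
    obtain ⟨n, hn⟩ := (hJ2.comap_subtype (K := H)).map f ⟨_, himg⟩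
    have hn' : f (⟨g, hXH hg.1⟩ ^ 2 ^ n) = 1 := by
      rw [map_pow]; exact congrArg Subtype.val hn
    have hgn : g ^ 2 ^ n ∈ Q :=
      hKC _ (((QuotientGroup.eq_one_iff (N := K.subgroupOf H) _).1 hn' :) ) (pow_mem hg.2 _)
    obtain ⟨m, hm⟩ := two_pow_pow_eq_one (LocalP.pCoreOf_isPGroup K) hgn
    exact ⟨n + m, by rwa [pow_add, pow_mul]⟩
  -- a Sylow subgroup of `X` containing `J` and `P`
  obtain ⟨S, hSX, hS2, hJS, hPS, hSyl⟩ : ∃ S : Subgroup G, S ≤ X ∧ IsPGroup 2 S ∧ J ≤ S ∧ P ≤ S ∧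
      IsSylowTwoIn S X := by
    have hU : IsPGroup 2 (J ⊔ P : Subgroup G) :=
      hJ2.to_sup_of_normal_right' hP2 (le_sup_right.trans hPn)
    have hUX : J ⊔ P ≤ X := sup_le le_sup_right inf_le_left
    obtain ⟨S, hS'⟩ := (hU.comap_subtype (K := X)).exists_le_sylow
    refine ⟨(S : Subgroup ↥X).map X.subtype, Subgroup.map_subtype_le _, S.isPGroup'.map _,
      ?_, ?_, Subgroup.map_subtype_le _, S.isPGroup'.map _, ?_⟩
    · exact fun z hz => ⟨⟨z, hUX (Subgroup.mem_sup_left hz)⟩, hS' (Subgroup.mem_sup_left hz), rfl⟩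
    · exact fun z hz => ⟨⟨z, hUX (Subgroup.mem_sup_right hz)⟩, hS' (Subgroup.mem_sup_right hz), rfl⟩
    · rw [Subgroup.relIndex, Subgroup.subgroupOf,
        Subgroup.comap_map_eq_self_of_injective X.subtype_injective]
      exact Nat.not_even_iff_odd.1 fun h => S.not_dvd_index (even_iff_two_dvd.1 h)
  have hJS' : thompsonSubgroupOf 2 S = J := hS S hSyl hJS
  obtain ⟨A, hA, a, haA, haW⟩ := exists_moving hKJ h3 h4
  have hAJ : A ≤ J := Modules.le_thompsonSubgroupOf hA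
  have hAS : A ∈ Modules.maxElemAbIn 2 S := by
    refine ⟨hAJ.trans hJS, hA.2.1, fun B hB hBe => ?_⟩
    obtain ⟨A', hA'⟩ := Modules.maxElemAbIn_nonempty 2 S
    exact (hA'.2.2 B hB hBe).trans
      (hA.2.2 A' ((Modules.le_thompsonSubgroupOf hA').trans (hJS'.le.trans (thompsonOf_le T)))
        hA'.2.1)
  have hin : ∀ {A' : Subgroup G}, A' ∈ Modules.maxElemAbIn 2 S → ∀ {z : G}, z ∈ S →
      z * z = 1 → (∀ b ∈ A', b * z = z * b) → z ∈ A' := fun hA' z hz hz2 hzc =>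
    Modules.mem_maxElemAbIn_of_centralizing hA' hz (Subgroup.mem_centralizer_iff.2 hzc)
      (by rwa [pow_two])
  have haX : a ∈ X := Subgroup.mem_sup_right (hAJ haA)
  have haa : a * a = 1 := by simpa [pow_two] using hA.2.1.2 a haA
  have hai : a⁻¹ = a := inv_eq_of_mul_eq_one_right haa
  -- `w₁` moved by `a`, `w₀` fixed by `a`
  obtain ⟨w₁, hw₁, hw₁a⟩ : ∃ w ∈ W, a * w * a⁻¹ ≠ w := by
    by_contra h
    push Not at h
    exact haW (Subgroup.mem_centralizer_iff.2 fun w hw => (mul_inv_eq_iff_eq_mul.1 (h w hw)).symm)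
  set w₀ := w₁ * (a * w₁ * a⁻¹) with hw₀def
  have hw₀ : w₀ ∈ W := mul_mem hw₁ (hconjW a haX w₁ hw₁)
  have hw₀1 : w₀ ≠ 1 := by
    intro h
    refine hw₁a ?_
    have := eq_inv_of_mul_eq_one_right h
    rw [this]
    exact inv_eq_of_mul_eq_one_right (hWsq w₁ hw₁)
  have haw₀ : a * w₀ * a⁻¹ = w₀ := by
    rw [hw₀def, conj_mul_conj, hWc w₁ hw₁ _ (hconjW a haX w₁ hw₁)]
    congr 1
    calc a * (a * w₁ * a⁻¹) * a⁻¹ = (a * a) * w₁ * (a * a)⁻¹ := by group
      _ = w₁ := by rw [haa]; group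
  -- every element of `W` is `1, w₀, w₁` or `w₁ w₀`
  have hW4 : ∀ u ∈ W, u = 1 ∨ u = w₀ ∨ u = w₁ ∨ u = w₁ * w₀ := by
    have hw₁1 : w₁ ≠ 1 := fun h => hw₁a (by rw [h]; group)
    have h01 : w₀ ≠ w₁ := fun h => hw₁a (by rw [← h]; exact haw₀)
    have h3' : w₁ * w₀ ≠ w₀ := fun h => hw₁1 (mul_eq_right.1 h)
    have h2' : w₁ * w₀ ≠ w₁ := fun h => hw₀1 (mul_eq_left.1 h)
    have h1' : w₁ * w₀ ≠ 1 := fun h => h01 (by
      rw [eq_inv_of_mul_eq_one_right h, inv_eq_of_mul_eq_one_right (hWsq w₁ hw₁)])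
    have hs : ({1, w₀, w₁, w₁ * w₀} : Set G) = (W : Set G) := by
      refine Set.eq_of_subset_of_ncard_le ?_ ?_
      · rintro z (rfl | rfl | rfl | rfl)
        · exact one_mem _
        · exact hw₀
        · exact hw₁
        · exact mul_mem hw₁ hw₀
      · rw [← Nat.card_coe_set_eq]
        refine h4.le.trans (le_of_eq ?_)
        rw [Set.ncard_insert_of_notMem (by simp [hw₀1.symm, hw₁1.symm, h1'.symm]),
          Set.ncard_insert_of_notMem (by simp [h01, h3'.symm]), Set.ncard_pair h2'.symm]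
    intro u hu
    rw [← SetLike.mem_coe, ← hs] at hu
    simpa using hu
  have hfixa : ∀ u ∈ W, a * u * a⁻¹ = u → u = 1 ∨ u = w₀ := by
    intro u hu hfu
    rcases hW4 u hu with h | h | h | h
    · exact Or.inl h
    · exact Or.inr h
    · exact absurd (h ▸ hfu) hw₁a
    · refine absurd ?_ hw₁a
      rw [h, conj_mul_conj, haw₀] at hfu
      exact mul_right_cancel hfu
  have hbfix : ∀ b ∈ A, b * w₀ * b⁻¹ = w₀ := by
    intro b hb
    have hbX : b ∈ X := Subgroup.mem_sup_right (hAJ hb)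
    have hab := Modules.elemAb_comm hA.2.1 haA hb
    have h : a * (b * w₀ * b⁻¹) * a⁻¹ = b * w₀ * b⁻¹ := by
      calc a * (b * w₀ * b⁻¹) * a⁻¹ = (a * b) * w₀ * (a * b)⁻¹ := by group
        _ = (b * a) * w₀ * (b * a)⁻¹ := by rw [hab]
        _ = b * (a * w₀ * a⁻¹) * b⁻¹ := by group
        _ = b * w₀ * b⁻¹ := by rw [haw₀]
    rcases hfixa _ (hconjW b hbX w₀ hw₀) h with h' | h'
    · exact absurd (conj_eq_one_iff.1 h') hw₀1
    · exact h'
  have hbcase : ∀ b ∈ A, b ∈ P ∨ a * b ∈ P := by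
    intro b hb
    have hbX : b ∈ X := Subgroup.mem_sup_right (hAJ hb)
    have hmk : ∀ c ∈ A, c * w₁ * c⁻¹ = w₁ → c ∈ P := by
      intro c hc hc1
      refine ⟨Subgroup.mem_sup_right (hAJ hc),
        Subgroup.mem_centralizer_iff.2 fun u hu => (mul_inv_eq_iff_eq_mul.1 ?_).symm⟩
      rcases hW4 u hu with rfl | rfl | rfl | rfl
      · group
      · exact hbfix c hc
      · exact hc1
      · rw [conj_mul_conj, hc1, hbfix c hc]
    rcases hW4 _ (hconjW b hbX w₁ hw₁) with h | h | h | h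
    · exact absurd (conj_eq_one_iff.1 h) fun h1 => hw₁a (by rw [h1]; group)
    · refine absurd (?_ : w₁ = w₀) fun h1 => hw₁a (by rw [h1]; exact haw₀)
      have h2 := hbfix b hb
      exact mul_left_cancel (mul_right_cancel (h.trans h2.symm))
    · exact Or.inl (hmk b hb h)
    · refine Or.inr (hmk (a * b) (mul_mem haA hb) ?_)
      have e : a * w₁ * a⁻¹ = w₁ * w₀ := by
        rw [hw₀def, ← mul_assoc, hWsq w₁ hw₁, one_mul]
      calc a * b * w₁ * (a * b)⁻¹ = a * (b * w₁ * b⁻¹) * a⁻¹ := by group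
        _ = w₁ * w₀ * w₀ := by rw [h, conj_mul_conj, haw₀, e]
        _ = w₁ := by rw [mul_assoc, hWsq w₀ hw₀, mul_one]
  have hWP : W ≤ P := le_inf ((wOf_le K).trans le_sup_left)
    (Modules.comm_le_centralizer (wOf_elemAb K).1)
  have hw₀A : w₀ ∈ A := hin hAS (hPS (hWP hw₀)) (hWsq w₀ hw₀)
    fun b hb => mul_inv_eq_iff_eq_mul.1 (hbfix b hb)
  -- `A' = C_A(W) W` is of largest order
  set B := A ⊓ P with hBdef
  have hBW : IsElementaryAbelian 2 (B ⊔ W : Subgroup G) :=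
    Modules.elemAb_sup (Modules.elemAb_mono inf_le_left hA.2.1) (wOf_elemAb K)
      (Subgroup.le_centralizer_iff.1 (inf_le_right.trans inf_le_right))
  have hAB : Nat.card A ≤ 2 * Nat.card B := by
    have hsub : (A : Set G) ⊆ (B : Set G) ∪ (fun x => a * x) '' (B : Set G) := by
      intro b hb
      rcases hbcase b hb with h | h
      · exact Or.inl ⟨hb, h⟩
      · exact Or.inr ⟨a * b, ⟨mul_mem haA hb, h⟩, by simp [← mul_assoc, haa]⟩
    have e : ∀ H : Subgroup G, (H : Set G).ncard = Nat.card H := fun H =>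
      (Nat.card_coe_set_eq _).symm
    calc Nat.card A = (A : Set G).ncard := (e A).symm
      _ ≤ ((B : Set G) ∪ (fun x => a * x) '' (B : Set G)).ncard := Set.ncard_le_ncard hsub
      _ ≤ _ := Set.ncard_union_le _ _
      _ ≤ (B : Set G).ncard + (B : Set G).ncard := Nat.add_le_add_left (Set.ncard_image_le) _
      _ = 2 * Nat.card B := by rw [e, two_mul]
  have hBWS : B ⊔ W ≤ P := sup_le inf_le_right hWP
  have hA' : (B ⊔ W : Subgroup G) ∈ Modules.maxElemAbIn 2 S := by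
    refine ⟨hBWS.trans hPS, hBW, fun D hD hDe => (hAS.2.2 D hD hDe).trans ?_⟩
    have hn : B ≤ Subgroup.normalizer (W : Set G) := (inf_le_right.trans inf_le_left).trans hXW
    have h := Modules.card_sup_mul_card_inf hn
    rw [h4] at h
    have h2 : Nat.card ↥(B ⊓ W : Subgroup G) ≤ 2 := by
      have hsub : ((B ⊓ W : Subgroup G) : Set G) ⊆ {1, w₀} := by
        intro u hu
        rcases hfixa u hu.2 (mul_inv_eq_iff_eq_mul.2 (Modules.elemAb_comm hA.2.1 haA hu.1.1)) with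
          h | h <;> simp [h]
      rw [← SetLike.coe_sort_coe, Nat.card_coe_set_eq]
      exact (Set.ncard_le_ncard hsub).trans (Set.ncard_pair hw₀1.symm).le
    have h5 := Nat.mul_le_mul_left (Nat.card ↥(B ⊔ W : Subgroup G)) h2
    omega
  have hA'J : B ⊔ W ≤ J := hJS' ▸ Modules.le_thompsonSubgroupOf hA'
  have hWJ : W ≤ J := le_sup_right.trans hA'J
  -- `w₀` is central in `J`
  have hw₀J : ∀ j ∈ J, j * w₀ * j⁻¹ = w₀ := by
    have hne : W ⊓ Subgroup.centralizer (J : Set G) ≠ ⊥ := by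
      refine Modules.inf_centralizer_ne_bot_of_isPGroup (p := 2)
        (Modules.elemAb_isPGroup (wOf_elemAb K)) (fun h => ?_) (le_sup_right.trans hXW) fun j hj => ?_
      · rw [h, Subgroup.card_bot] at h4; omega
      · obtain ⟨n, hn⟩ := two_pow_pow_eq_one hJ2 hj
        exact ⟨n, by rw [hn]; exact one_mem _⟩
    obtain ⟨u, hu, hu1⟩ : ∃ u ∈ W ⊓ Subgroup.centralizer (J : Set G), u ≠ 1 := by
      by_contra h
      push Not at h
      exact hne ((Subgroup.eq_bot_iff_forall _).2 h)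
    have hju : ∀ j ∈ J, j * u * j⁻¹ = u := fun j hj => by
      rw [Subgroup.mem_centralizer_iff.1 hu.2 j hj, mul_inv_cancel_right]
    rcases hfixa u hu.1 (hju a (hAJ haA)) with h | h
    · exact absurd h hu1
    · exact h ▸ hju
  have hZmem : ∀ z ∈ J, z * z = 1 → (∀ j ∈ J, j * z * j⁻¹ = z) → z ∈ Z₀ := fun z hz hz2 hzc =>
    Modules.mem_omegaOne_of_pow ⟨hz, Subgroup.mem_centralizer_iff.2 fun j hj =>
      mul_inv_eq_iff_eq_mul.1 (hzc j hj)⟩ (by rwa [pow_two])
  have hw₀Z : w₀ ∈ Z₀ := hZmem w₀ (hWJ hw₀) (hWsq w₀ hw₀) hw₀J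
  have hZfix : ∀ z ∈ Z₀, ∀ j ∈ J, j * z * j⁻¹ = z := fun z hz j hj => by
    rw [Subgroup.mem_centralizer_iff.1 (omegaCenterOf_le _ hz).2 j hj, mul_inv_cancel_right]
  have hset : ((Z₀ ⊓ W : Subgroup G) : Set G) = {1, w₀} := by
    ext u
    constructor
    · intro hu
      rcases hfixa u hu.2 (hZfix u hu.1 a (hAJ haA)) with h | h <;> simp [h]
    · rintro (rfl | rfl)
      · exact one_mem _
      · exact ⟨hw₀Z, hw₀⟩
  refine ⟨?_, ?_⟩
  · rw [← SetLike.coe_sort_coe, Nat.card_coe_set_eq, hset, Set.ncard_pair hw₀1.symm]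
  refine le_antisymm (sup_le inf_le_left inf_le_left) fun z hz => ?_
  -- the module `Y`
  set Y := sInf (Modules.maxElemAbIn 2 P) with hYdef
  have hmaxP : ∀ D : Subgroup G, D ∈ Modules.maxElemAbIn 2 P ↔
      D ∈ Modules.maxElemAbIn 2 S ∧ D ≤ P := fun D =>
    Modules.maxElemAbIn_of_le hPS hA' hBWS D
  have hA'P : (B ⊔ W : Subgroup G) ∈ Modules.maxElemAbIn 2 P := (hmaxP _).2 ⟨hA', hBWS⟩
  have hYA : Y ≤ B ⊔ W := sInf_le hA'P
  have hWY : W ≤ Y := le_sInf fun D hD w hw =>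
    hin ((hmaxP D).1 hD).1 (hPS (hWP hw)) (hWsq w hw) fun b hb =>
      (Subgroup.mem_centralizer_iff.1 (hD.1 hb).2 w hw).symm
  have hzY : z ∈ Y := by
    refine Subgroup.mem_sInf.2 fun D hD => ?_
    have hzJ := (omegaCenterOf_le _ hz).1
    refine hin ((hmaxP D).1 hD).1 (hJS hzJ)
      (by simpa [pow_two] using (omegaCenterOf_elemAb J).2 z hz) fun b hb => ?_
    exact Subgroup.mem_centralizer_iff.1 (omegaCenterOf_le _ hz).2 b
      (hJS' ▸ Modules.le_thompsonSubgroupOf ((hmaxP D).1 hD).1 hb)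
  have hYX : ∀ g ∈ X, ∀ y ∈ Y, g * y * g⁻¹ ∈ Y := by
    intro g hg y hy
    refine Subgroup.mem_sInf.2 fun D hD => ?_
    have hgP : P.map (MulAut.conj g⁻¹).toMonoidHom = P := FF.map_conj_eq (hPn (inv_mem hg))
    have hD' : D.map (MulAut.conj g⁻¹).toMonoidHom ∈ Modules.maxElemAbIn 2 P := by
      rw [← hgP, Modules.maxElemAbIn_map (MulAut.conj g⁻¹).injective]
      exact ⟨D, hD, rfl⟩
    obtain ⟨d, hd, hdy⟩ := Subgroup.mem_sInf.1 hy _ hD'
    rw [← hdy]
    simpa [mul_assoc] using hd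
  have hdec : ∀ y ∈ Y, ∃ w ∈ W, a * (y * w) * a⁻¹ = y * w := by
    intro y hy
    obtain ⟨b, hb, w, hw, rfl⟩ : ∃ b ∈ B, ∃ w ∈ W, b * w = y := by
      have := hYA hy
      rw [← SetLike.mem_coe, Subgroup.coe_mul_of_left_le_normalizer_right B W
        ((inf_le_right.trans inf_le_left).trans hXW)] at this
      exact Set.mem_mul.1 this
    refine ⟨w, hw, ?_⟩
    rw [show b * w * w = b by rw [mul_assoc, hWsq w hw, mul_one]]
    exact mul_inv_eq_iff_eq_mul.2 (Modules.elemAb_comm hA.2.1 haA hb.1)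
  -- the conjugate involution
  obtain ⟨x, hx, hxQ⟩ := exists_not_mem_pCoreOf h3
  have hxX : x ∈ X := Subgroup.mem_sup_left hx
  set a' := x * a * x⁻¹ with ha'
  have ha'X : a' ∈ X := mul_mem (mul_mem hxX haX) (inv_mem hxX)
  have hdec' : ∀ y ∈ Y, ∃ w ∈ W, a' * (y * w) * a'⁻¹ = y * w := by
    intro y hy
    have hy' : x⁻¹ * y * x ∈ Y := by simpa using hYX x⁻¹ (inv_mem hxX) y hy
    obtain ⟨w, hw, hfw⟩ := hdec _ hy'
    refine ⟨x * w * x⁻¹, hconjW x hxX w hw, ?_⟩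
    calc a' * (y * (x * w * x⁻¹)) * a'⁻¹
        = x * (a * (x⁻¹ * y * x * w) * a⁻¹) * x⁻¹ := by rw [ha']; group
      _ = y * (x * w * x⁻¹) := by rw [hfw]; group
  have hmove : a' * w₀ * a'⁻¹ ≠ w₀ := by
    intro h
    have h' : a * (x⁻¹ * w₀ * x) * a⁻¹ = x⁻¹ * w₀ * x := by
      calc a * (x⁻¹ * w₀ * x) * a⁻¹ = x⁻¹ * (a' * w₀ * a'⁻¹) * x := by rw [ha']; group
        _ = x⁻¹ * w₀ * x := by rw [h]
    have hm : x⁻¹ * w₀ * x ∈ W := by simpa using hconjW x⁻¹ (inv_mem hxX) w₀ hw₀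
    rcases hfixa _ hm h' with h1 | h1
    · have h1' : x⁻¹ * w₀ * x⁻¹⁻¹ = 1 := by rwa [inv_inv]
      exact hw₀1 (conj_eq_one_iff.1 h1')
    · refine hw₀1 (wOf_fixed_eq_one h3 hx hxQ hw₀ ?_)
      conv_lhs => rw [← h1]
      group
  -- correct `z` to an element fixed by `a` and `a'`
  obtain ⟨w, hw, hfix⟩ := hdec' z hzY
  obtain ⟨c, hcZ, hcw, hca'⟩ : ∃ c ∈ Z₀, z * c ∈ Z₀ ⊓ W ∧ a' * c * a'⁻¹ = c := by
    -- `z w` is fixed by `a'`; its deviation under `a` is in `W`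
    have haz : a * z * a⁻¹ = z := hZfix z hz a (hAJ haA)
    by_cases hw0 : a * w * a⁻¹ = w
    · refine ⟨z * w, ?_, ?_, hfix⟩
      · rcases hfixa w hw hw0 with h | h
        · rw [h, mul_one]; exact hz
        · rw [h]; exact mul_mem hz hw₀Z
      · rw [← mul_assoc, show z * z = 1 by
          simpa [pow_two] using (omegaCenterOf_elemAb J).2 z hz, one_mul]
        rcases hfixa w hw hw0 with h | h
        · rw [h]; exact one_mem _
        · rw [h]; exact ⟨hw₀Z, hw₀⟩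
    · -- `w ∈ {w₁, w₁ w₀}`; multiply by the point fixed by `a'`
      obtain ⟨u, hu, hua', hwu⟩ : ∃ u ∈ W, a' * u * a'⁻¹ = u ∧ (w * u = 1 ∨ w * u = w₀) := by
        have hw0' : x * w₀ * x⁻¹ ∈ W := hconjW x hxX w₀ hw₀
        have hfa' : a' * (x * w₀ * x⁻¹) * a'⁻¹ = x * w₀ * x⁻¹ := by
          calc a' * (x * w₀ * x⁻¹) * a'⁻¹ = x * (a * w₀ * a⁻¹) * x⁻¹ := by rw [ha']; group
            _ = _ := by rw [haw₀]
        refine ⟨x * w₀ * x⁻¹, hw0', hfa', ?_⟩
        have hmv : x * w₀ * x⁻¹ = w₁ ∨ x * w₀ * x⁻¹ = w₁ * w₀ := by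
          rcases hW4 _ hw0' with h | h | h | h
          · exact absurd (conj_eq_one_iff.1 h) hw₀1
          · exact absurd (wOf_fixed_eq_one h3 hx hxQ hw₀ h) hw₀1
          · exact Or.inl h
          · exact Or.inr h
        rcases hW4 w hw with h | h | h | h
        · exact absurd (by rw [h]; group) hw0
        · exact absurd (by rw [h]; exact haw₀) hw0
        · rcases hmv with h' | h' <;> rw [h, h']
          · exact Or.inl (hWsq w₁ hw₁)
          · right; rw [← mul_assoc, hWsq w₁ hw₁, one_mul]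
        · rcases hmv with h' | h' <;> rw [h, h']
          · right; rw [hWc w₁ hw₁ w₀ hw₀, mul_assoc, hWsq w₁ hw₁, mul_one]
          · exact Or.inl (hWsq _ (mul_mem hw₁ hw₀))
      refine ⟨z * (w * u), ?_, ?_, ?_⟩
      · rcases hwu with h | h <;> rw [h]
        · rw [mul_one]; exact hz
        · exact mul_mem hz hw₀Z
      · rw [← mul_assoc, show z * z = 1 by
          simpa [pow_two] using (omegaCenterOf_elemAb J).2 z hz, one_mul]
        rcases hwu with h | h <;> rw [h]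
        · exact one_mem _
        · exact ⟨hw₀Z, hw₀⟩
      · rw [show z * (w * u) = z * w * u by group, conj_mul_conj, hfix, hua']
  -- `c` is central in `X`
  set H := Subgroup.closure ((J : Set G) ∪ {a'}) with hH
  have hJH : J ≤ H := fun j hj => Subgroup.subset_closure (Or.inl hj)
  have ha'H : a' ∈ H := Subgroup.subset_closure (Or.inr rfl)
  have hHX : H ≤ X := (Subgroup.closure_le _).2 (by
    rintro g (hg | rfl)
    · exact Subgroup.mem_sup_right hg
    · exact ha'X)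
  have hHc : H ≤ Subgroup.centralizer {c} := by
    rw [hH, Subgroup.closure_le]
    rintro g (hg | rfl)
    · exact Subgroup.mem_centralizer_singleton_iff.2
        (mul_inv_eq_iff_eq_mul.1 (hZfix c hcZ g hg))
    · exact Subgroup.mem_centralizer_singleton_iff.2 (mul_inv_eq_iff_eq_mul.1 hca')
  have hKP : K ≤ H ⊔ P := by
    have hk0 : a * a' ∈ K := by
      have hn := (Subgroup.mem_normalizer_iff.1 (hJK (hAJ haA)) x).1 hx
      have e : a * a' = (a * x * a⁻¹) * (a * a) * x⁻¹ := by rw [ha']; group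
      rw [e, haa, mul_one]
      exact mul_mem hn (inv_mem hx)
    have hk1 : a * a' ∉ Q := by
      intro h
      refine hmove ?_
      have h1 := commute_wOf h hw₀
      calc a' * w₀ * a'⁻¹ = a⁻¹ * ((a * a') * w₀ * (a * a')⁻¹) * a := by group
        _ = a * w₀ * a⁻¹ := by rw [h1, hai]
        _ = w₀ := haw₀
    rw [← sup_zpowers_eq h3 hk0 hk1]
    exact sup_le (hQP.trans le_sup_right) (Subgroup.zpowers_le.2
      (Subgroup.mem_sup_left (H.mul_mem (hJH (hAJ haA)) ha'H)))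
  have hPJ : P ≤ Subgroup.normalizer (J : Set G) := by
    rw [← hJS']
    exact (hPS.trans Subgroup.le_normalizer).trans
      (Modules.normalizer_le_normalizer_thompsonSubgroupOf 2 S)
  have hKH : K ≤ H := by
    conv_lhs => rw [← hKJ]
    rw [Subgroup.commutator_le]
    intro k hk j hj
    obtain ⟨h, hh, p, hp, rfl⟩ : ∃ h ∈ H, ∃ p ∈ P, h * p = k := by
      have := hKP hk
      rw [← SetLike.mem_coe, Subgroup.coe_mul_of_left_le_normalizer_right H P (hHX.trans hPn)]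
        at this
      exact Set.mem_mul.1 this
    have hjp : p * j * p⁻¹ ∈ J := (Subgroup.mem_normalizer_iff.1 (hPJ hp) j).1 hj
    have e : ⁅h * p, j⁆ = h * (p * j * p⁻¹) * h⁻¹ * j⁻¹ := by rw [commutatorElement_def]; group
    rw [e]
    exact mul_mem (mul_mem (mul_mem hh (hJH hjp)) (inv_mem hh)) (inv_mem (hJH hj))
  have hcX : c ∈ X ⊓ Subgroup.centralizer (X : Set G) := by
    refine ⟨Subgroup.mem_sup_right (omegaCenterOf_le _ hcZ).1,
      Subgroup.mem_centralizer_iff.2 fun g hg => ?_⟩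
    exact Subgroup.mem_centralizer_singleton_iff.1 (hHc ((sup_le hKH hJH : X ≤ H) hg))
  have hzc : z = c * (z * c) := by
    have hcc : c * c = 1 := by simpa [pow_two] using (omegaCenterOf_elemAb J).2 c hcZ
    rw [Modules.elemAb_comm (omegaCenterOf_elemAb J) hz hcZ, ← mul_assoc, hcc, one_mul]
  rw [hzc]
  exact mul_mem (Subgroup.mem_sup_left ⟨hcZ, hcX⟩) (Subgroup.mem_sup_right hcw)

end Cfsg.Agent.LocalEven
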