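import Cfsg.Agent.LocalEven.JPlanes
import Cfsg.Agent.Cores.Fitting

/-!
`J(T)`-components inside an overgroup: the action on `V = Ω₁Z(O₂(L))` and uniqueness.
-/

set_option autoImplicit false

open Cfsg
open scoped commutatorElement

namespace Cfsg.Agent.LocalEven

variable {G : Type*} [Group G]

/-- The standing hypotheses on `G`. -/
structure ZNHyp (G : Type*) [Group G] : Prop where
  char2 : IsCharacteristicTwoType G
  solv : ∀ N : Subgroup G, IsTwoLocal N → Group.IsSolvable ↥N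
  cent : ∀ S : Sylow 2 G, Subgroup.centralizer (omegaCenterOf (S : Subgroup G) : Set G) ≤
    Subgroup.normalizer ((S : Subgroup G) : Set G)

/-- The facts about a component in `L` that are used. -/
structure CompData (T L K : Subgroup G) : Prop where
  le : K ≤ L
  gen : Subgroup.closure {g : G | g ∈ K ∧ Odd (orderOf g)} = K
  comm : ⁅K, thompsonSubgroupOf 2 T⁆ = K
  idx : (pCoreOf 2 K).relIndex K = 3
  card : Nat.card ↥(wOf K) = 4

theorem CompData.of_isJComponent {T L K : Subgroup G} (hK : IsJComponent T K) (hKL : K ≤ L) :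
    CompData T L K := ⟨hKL, hK.1, hK.2.1, hK.2.2.1, hK.2.2.2.2.1⟩

/-- `Ω₁(Z(O₂(L)))`. -/
abbrev vOf (L : Subgroup G) : Subgroup G := omegaCenterOf (pCoreOf 2 L)

/-- `C_L(Ω₁(Z(O₂(L))))`. -/
abbrev cOf (L : Subgroup G) : Subgroup G := L ⊓ Subgroup.centralizer (vOf L : Set G)

variable [Finite G] {T T' L K K' : Subgroup G}

theorem le_normalizer_vOf (L : Subgroup G) : L ≤ Subgroup.normalizer (vOf L : Set G) :=
  (le_normalizer_pCoreOf L 2).trans (normalizer_le_normalizer_omegaCenterOf _)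

theorem le_normalizer_cOf (L : Subgroup G) : L ≤ Subgroup.normalizer (cOf L : Set G) :=
  Modules.normalizes_inf Subgroup.le_normalizer (Modules.normalizes_centralizer (le_normalizer_vOf L))

theorem pCoreOf_le_cOf (L : Subgroup G) : pCoreOf 2 L ≤ cOf L :=
  le_inf (Subgroup.map_subtype_le _)
    (Subgroup.le_centralizer_iff.1 ((omegaCenterOf_le _).trans inf_le_right))

theorem thompson_le_of_jOvergroup (hL : L ∈ jOvergroups T) : thompsonSubgroupOf 2 T ≤ L :=
  (thompsonOf_le T).trans hL.1.1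

theorem pCoreOf_le_normalizer_thompson (hL : L ∈ jOvergroups T) :
    pCoreOf 2 L ≤ Subgroup.normalizer (thompsonSubgroupOf 2 T : Set G) :=
  (pCoreOf_le_sylow hL.1).trans
    (Subgroup.le_normalizer.trans (Modules.normalizer_le_normalizer_thompsonSubgroupOf 2 T))

theorem cOf_le_normalizer_sylow (hz : ZNHyp G) (hL : L ∈ jOvergroups T) :
    cOf L ≤ Subgroup.normalizer (T : Set G) := centralizer_omega_le_normalizer hz.cent hL

/-- The 2-elements of `C_L(V)` lie in `O₂(L)`. -/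
theorem two_element_mem_core (hz : ZNHyp G) (hL : L ∈ jOvergroups T) {c : G} (hc : c ∈ cOf L)
    {n : ℕ} (hn : c ^ 2 ^ n = 1) : c ∈ pCoreOf 2 L := by
  have key : ∀ d ∈ cOf L, (∃ n : ℕ, d ^ 2 ^ n = 1) → d ∈ T := by
    rintro d hd ⟨m, hm⟩
    have hz' : IsPGroup 2 (Subgroup.zpowers d) := by
      obtain ⟨i, -, hi⟩ := (Nat.dvd_prime_pow Nat.prime_two).1 (orderOf_dvd_of_pow_eq_one hm)
      exact IsPGroup.of_card (n := i) (by rw [Nat.card_zpowers, hi])
    have h1 := hz'.to_sup_of_normal_right' hL.1.2.1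
      (Subgroup.zpowers_le.2 (cOf_le_normalizer_sylow hz hL hd))
    rw [← eq_of_sylowTwoIn hL.1 h1 le_sup_right (sup_le (Subgroup.zpowers_le.2 hd.1) hL.1.1)]
    exact Subgroup.mem_sup_left (Subgroup.mem_zpowers d)
  have hle : T ⊓ cOf L ≤ pCoreOf 2 L := by
    refine LocalP.le_pCoreOf (inf_le_left.trans hL.1.1) ?_ (hL.1.2.1.to_le inf_le_left)
    intro g hg
    rw [Subgroup.mem_normalizer_iff_map_conj_eq]
    refine Subgroup.eq_of_le_of_card_ge ?_
      (Subgroup.card_map_of_injective (f := (MulAut.conj g).toMonoidHom)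
        (MulAut.conj g).injective).ge
    rintro _ ⟨d, hd, rfl⟩
    have hd' : (MulAut.conj g).toMonoidHom d ∈ cOf L :=
      (Subgroup.mem_normalizer_iff.1 (le_normalizer_cOf L hg) d).1 hd.2
    obtain ⟨m, hm⟩ := hL.1.2.1 ⟨d, hd.1⟩
    refine ⟨key _ hd' ⟨m, ?_⟩, hd'⟩
    rw [← map_pow, show d ^ 2 ^ m = 1 by simpa using congrArg Subtype.val hm, map_one]
  exact hle ⟨key c hc ⟨n, hn⟩, hc⟩

theorem CompData.subnormal (hz : ZNHyp G) (hL : L ∈ jOvergroups T) (hK : CompData T L K) :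
    (K.subgroupOf L).IsSubnormal :=
  jComponent_isSubnormal hz.char2 hz.solv hz.cent hL hK.le hK.gen hK.comm

theorem CompData.core_le_normalizer (hL : L ∈ jOvergroups T) (hK : CompData T L K) :
    pCoreOf 2 L ≤ Subgroup.normalizer (K : Set G) :=
  normalizes_component (thompsonOf_isPGroup hL.1.2.1) hK.gen hK.comm
    ((sup_le hK.le (thompson_le_of_jOvergroup hL)).trans (le_normalizer_pCoreOf L 2))
    (pCoreOf_le_normalizer_thompson hL)

theorem CompData.cOf_le_normalizer (hz : ZNHyp G) (hL : L ∈ jOvergroups T)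
    (hK : CompData T L K) : cOf L ≤ Subgroup.normalizer (K : Set G) :=
  normalizes_component (thompsonOf_isPGroup hL.1.2.1) hK.gen hK.comm
    ((sup_le hK.le (thompson_le_of_jOvergroup hL)).trans (le_normalizer_cOf L))
    ((cOf_le_normalizer_sylow hz hL).trans (Modules.normalizer_le_normalizer_thompsonSubgroupOf 2 T))

/-- `O₂(K) ≤ O₂(L)` for a subnormal `K ≤ L`. -/
theorem pCoreOf_le_of_isSubnormal {p : ℕ} (hKL : K ≤ L) (hs : (K.subgroupOf L).IsSubnormal) :
    pCoreOf p K ≤ pCoreOf p L := by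
  set Q := pCoreOf p K with hQ
  have hQK : Q ≤ K := LocalP.pCoreOf_le K
  have hsn : (Q.subgroupOf L).IsSubnormal := by
    refine Subgroup.IsSubnormal.step _ _ (Subgroup.comap_mono hQK) hs ?_
    refine (Subgroup.normal_subgroupOf_iff_le_normalizer (Subgroup.comap_mono hQK)).2 ?_
    exact (Subgroup.comap_mono (le_normalizer_pCoreOf K p)).trans (Subgroup.le_normalizer_comap _)
  have h := Subgroup.map_mono (f := L.subtype)
    (Cores.le_pCore_of_isSubnormal hsn ((LocalP.pCoreOf_isPGroup K).comap_subtype (K := L)))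
  rwa [Subgroup.map_subgroupOf_eq_of_le (hQK.trans hKL)] at h

theorem CompData.core_le (hz : ZNHyp G) (hL : L ∈ jOvergroups T) (hK : CompData T L K) :
    pCoreOf 2 K ≤ pCoreOf 2 L := pCoreOf_le_of_isSubnormal hK.le (hK.subnormal hz hL)

theorem CompData.core_le_centralizer (hz : ZNHyp G) (hL : L ∈ jOvergroups T)
    (hK : CompData T L K) : pCoreOf 2 K ≤ Subgroup.centralizer (vOf L : Set G) :=
  (hK.core_le hz hL).trans ((pCoreOf_le_cOf L).trans inf_le_right)

/-- `O₂(L) ∩ K = O₂(K)`. -/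
theorem CompData.core_inf_le (hK : CompData T L K) : pCoreOf 2 L ⊓ K ≤ pCoreOf 2 K :=
  LocalP.le_pCoreOf inf_le_right
    (Modules.normalizes_inf (hK.le.trans (le_normalizer_pCoreOf L 2)) Subgroup.le_normalizer)
    ((LocalP.pCoreOf_isPGroup L).to_le inf_le_left)

theorem vOf_le_pCoreOf (L : Subgroup G) : vOf L ≤ pCoreOf 2 L :=
  (omegaCenterOf_le _).trans inf_le_left

/-- `O₂(L)` centralizes `W_K`. -/
theorem CompData.core_centralizes (hL : L ∈ jOvergroups T) (hK : CompData T L K) :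
    pCoreOf 2 L ≤ Subgroup.centralizer (wOf K : Set G) := by
  intro g hg
  obtain ⟨x, hx, hxQ⟩ := exists_not_mem_pCoreOf hK.idx
  obtain ⟨n, hn⟩ := LocalP.pCoreOf_isPGroup (p := 2) L ⟨g, hg⟩
  have hn' : g ^ 2 ^ n = 1 := by simpa using congrArg Subtype.val hn
  refine centralizes_wOf_of_two hK.idx hK.card hx hxQ
    (normalizer_le_normalizer_wOf K (hK.core_le_normalizer hL hg)) (n := n)
    (fun w _ => by rw [hn']; group) fun w hw => ?_
  have hq : g * x * g⁻¹ * x⁻¹ ∈ pCoreOf 2 K := by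
    refine hK.core_inf_le ⟨?_, K.mul_mem ?_ (K.inv_mem hx)⟩
    · have h1 := (Subgroup.mem_normalizer_iff.1
        (le_normalizer_pCoreOf L 2 (hK.le hx)) g⁻¹).1 (inv_mem hg)
      have h2 : g * x * g⁻¹ * x⁻¹ = g * (x * g⁻¹ * x⁻¹) := by group
      rw [h2]; exact mul_mem hg h1
    · exact (Subgroup.mem_normalizer_iff.1 (hK.core_le_normalizer hL hg) x).1 hx
  have hgw : x * (g * w * g⁻¹) * x⁻¹ ∈ wOf K :=
    (Subgroup.mem_normalizer_iff.1 (le_normalizer_wOf K hx) _).1
      ((Subgroup.mem_normalizer_iff.1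
        (normalizer_le_normalizer_wOf K (hK.core_le_normalizer hL hg)) w).1 hw)
  rw [← commute_wOf hq hgw]
  group

theorem CompData.wOf_le_vOf (hz : ZNHyp G) (hL : L ∈ jOvergroups T) (hK : CompData T L K) :
    wOf K ≤ vOf L := by
  intro w hw
  refine Modules.mem_omegaOne_of_pow ⟨hK.core_le hz hL (wOf_le_pCoreOf K hw), ?_⟩
    ((wOf_elemAb K).2 w hw)
  exact Subgroup.le_centralizer_iff.1 (hK.core_centralizes hL) hw

theorem CompData.fixed_mul (hz : ZNHyp G) (hL : L ∈ jOvergroups T) (hK : CompData T L K)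
    {y : G} (hy : y ∈ vOf L) :
    ∃ c ∈ vOf L, (∀ k ∈ K, k * c * k⁻¹ = c) ∧ ∃ u ∈ wOf K, y = c * u :=
  exists_fixed_mul hK.idx (omegaCenterOf_elemAb _) (hK.le.trans (le_normalizer_vOf L))
    ((vOf_le_pCoreOf L).trans (hK.core_le_normalizer hL)) (hK.core_le_centralizer hz hL)
    ((inf_le_inf_right _ (vOf_le_pCoreOf L)).trans hK.core_inf_le) hy

theorem CompData.coset (hz : ZNHyp G) (hL : L ∈ jOvergroups T) (hK : CompData T L K)
    {y x : G} (hy : y ∈ vOf L) (hx : x ∈ K) : y⁻¹ * (x * y * x⁻¹) ∈ wOf K :=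
  conj_mem_coset hK.idx (omegaCenterOf_elemAb _) (hK.le.trans (le_normalizer_vOf L))
    ((vOf_le_pCoreOf L).trans (hK.core_le_normalizer hL)) (hK.core_le_centralizer hz hL)
    ((inf_le_inf_right _ (vOf_le_pCoreOf L)).trans hK.core_inf_le) hy hx

/-- Components act on `V` as subgroups of `O₃(L / C_L(V))`. -/
theorem CompData.three_power (hz : ZNHyp G) (hL : L ∈ jOvergroups T) (hK : CompData T L K)
    (hL' : L ∈ jOvergroups T') (hK' : CompData T' L K') {e : G} (he : e ∈ K ⊔ K') :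
    ∃ n, e ^ 3 ^ n ∈ Subgroup.centralizer (vOf L : Set G) := by
  haveI : Fact (Nat.Prime 3) := ⟨Nat.prime_three⟩
  let C : Subgroup ↥L := (cOf L).subgroupOf L
  haveI hCn : C.Normal :=
    (Subgroup.normal_subgroupOf_iff_le_normalizer inf_le_left).2 (le_normalizer_cOf L)
  set π := QuotientGroup.mk' C with hπ
  have key : ∀ U M : Subgroup G, L ∈ jOvergroups U → CompData U L M →
      (M.subgroupOf L).map π ≤ pCore 3 (↥L ⧸ C) := by
    intro U M hL hM
    refine Cores.le_pCore_of_isSubnormal ((hM.subnormal hz hL).quotient) ?_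
    rintro ⟨_, ⟨m, hm, rfl⟩⟩
    refine ⟨1, Subtype.ext ?_⟩
    simp only [pow_one, Subgroup.coe_pow, Subgroup.coe_one]
    rw [← map_pow]
    refine (QuotientGroup.eq_one_iff _).2 ?_
    exact pCoreOf_le_cOf L (hM.core_le hz hL (pow_three_mem_pCoreOf hM.idx hm))
  have heL : e ∈ L := (sup_le hK.le hK'.le) he
  have h1 : π ⟨e, heL⟩ ∈ pCore 3 (↥L ⧸ C) := by
    have h2 : (K ⊔ K').subgroupOf L ≤ (pCore 3 (↥L ⧸ C)).comap π := by
      rw [Subgroup.subgroupOf_sup hK.le hK'.le]
      exact sup_le (Subgroup.map_le_iff_le_comap.1 (key T K hL hK))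
        (Subgroup.map_le_iff_le_comap.1 (key T' K' hL' hK'))
    exact h2 (show (⟨e, heL⟩ : ↥L) ∈ (K ⊔ K').subgroupOf L from he)
  obtain ⟨n, hn⟩ := Cores.pCore_isPGroup (p := 3) ⟨_, h1⟩
  refine ⟨n, ?_⟩
  have h3 : π (⟨e, heL⟩ ^ 3 ^ n) = 1 := by rw [map_pow]; exact congrArg Subtype.val hn
  exact ((QuotientGroup.eq_one_iff _).1 h3).2

/-- Two components with intersecting planes: same plane, and `K' ≤ K C_L(V)`. -/
theorem CompData.plane_unique (hz : ZNHyp G) (hL : L ∈ jOvergroups T) (hK : CompData T L K)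
    (hL' : L ∈ jOvergroups T') (hK' : CompData T' L K') {w : G} (hw : w ∈ wOf K) (hw' : w ∈ wOf K') (hw1 : w ≠ 1) :
    wOf K = wOf K' ∧ K' ≤ K ⊔ cOf L := by
  obtain ⟨x, hx, hxQ⟩ := exists_not_mem_pCoreOf hK.idx
  obtain ⟨x', hx', hxQ'⟩ := exists_not_mem_pCoreOf hK'.idx
  have hcl : Subgroup.closure {x, x'} ≤ K ⊔ K' := (Subgroup.closure_le _).2 (by
    rintro z (rfl | rfl)
    · exact Subgroup.mem_sup_left hx
    · exact Subgroup.mem_sup_right hx')
  have heq : wOf K = wOf K' := plane_eq (vOf L) (omegaCenterOf_elemAb _) hK.idx hK'.idx hK.card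
    hK'.card (hK.wOf_le_vOf hz hL) (hK'.wOf_le_vOf hz hL') hx hxQ hx' hxQ'
    (fun y hy => hK.coset hz hL hy hx) (fun y hy => hK'.coset hz hL' hy hx')
    (hcl.trans ((sup_le hK.le hK'.le).trans (le_normalizer_vOf L)))
    (fun e he => hK.three_power hz hL hL' hK' (hcl he)) hw hw' hw1
  refine ⟨heq, ?_⟩
  have main : ∀ e ∈ K, e ∉ pCoreOf 2 K → x' * w * x'⁻¹ = e * w * e⁻¹ →
      e⁻¹ * x' ∈ cOf L := by
    intro e he heQ hew
    refine ⟨L.mul_mem (L.inv_mem (hK.le he)) (hK'.le hx'), ?_⟩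
    refine plane_element hK.idx hK.card he heQ hw hw1 (hK.wOf_le_vOf hz hL)
      (fun y hy => hK.coset hz hL hy he) (fun y hy => heq ▸ hK'.coset hz hL' hy hx') ?_ ?_
      (le_normalizer_vOf L (hK.le he))
      (hK.three_power hz hL hL' hK'
        (mul_mem (Subgroup.mem_sup_left (inv_mem he)) (Subgroup.mem_sup_right hx'))) hew
    · exact fun v hv hv1 hfx => hv1 (wOf_fixed_eq_one hK'.idx hx' hxQ' (heq ▸ hv) hfx)
    · intro v hv
      have h := commute_wOf (pow_three_mem_pCoreOf hK'.idx hx') (heq ▸ hv : v ∈ wOf K')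
      conv_rhs => rw [← h]
      rw [pow_three x']; group
  have hx'C : x' ∈ K ⊔ cOf L := by
    have hx'w : x' * w * x'⁻¹ ∈ wOf K :=
      heq ▸ (Subgroup.mem_normalizer_iff.1 (le_normalizer_wOf K' hx') w).1 hw'
    rcases wOf_cases hK.idx hK.card hx hxQ hw hw1 hx'w with h | h | h | h
    · exact absurd (conj_eq_one_iff.1 h) hw1
    · exact absurd (wOf_fixed_eq_one hK'.idx hx' hxQ' hw' h) hw1
    · have := Subgroup.mul_mem_sup hx (main x hx hxQ h)
      rwa [mul_inv_cancel_left] at this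
    · have hxx : x * x ∉ pCoreOf 2 K := by
        intro h2
        apply hxQ
        have h3' := pow_three_mem_pCoreOf hK.idx hx
        have : x = (x * x)⁻¹ * x ^ 3 := by rw [pow_three x]; group
        rw [this]; exact mul_mem (inv_mem h2) h3'
      have := Subgroup.mul_mem_sup (mul_mem hx hx)
        (main (x * x) (mul_mem hx hx) hxx (by rw [h]; group))
      rwa [mul_inv_cancel_left] at this
  rw [← sup_zpowers_eq hK'.idx hx' hxQ', sup_le_iff]
  exact ⟨((hK'.core_le hz hL').trans (pCoreOf_le_cOf L)).trans le_sup_right,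
    Subgroup.zpowers_le.2 hx'C⟩

/-- A group generated by odd elements inside `K O₂(L)` lies in `K`. -/
theorem CompData.le_of_le_sup_core (hL : L ∈ jOvergroups T) (hK : CompData T L K)
    {U : Subgroup G} (hgen : Subgroup.closure {g : G | g ∈ U ∧ Odd (orderOf g)} = U)
    (hU : U ≤ K ⊔ pCoreOf 2 L) : U ≤ K := by
  rw [← hgen, Subgroup.closure_le]
  exact fun g hg => mem_of_odd_sup (LocalP.pCoreOf_isPGroup L) (hK.core_le_normalizer hL)
    (hU hg.1) hg.2

/-- `[C_L(V), J(T)] ≤ O₂(L)`. -/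
theorem cOf_commutator_core (hz : ZNHyp G) (hL : L ∈ jOvergroups T) {c j : G} (hc : c ∈ cOf L)
    (hjT : j ∈ T) : ⁅c, j⁆ ∈ pCoreOf 2 L := by
  have hC : ⁅c, j⁆ ∈ cOf L := by
    have h1 := (Subgroup.mem_normalizer_iff.1
      (le_normalizer_cOf L (hL.1.1 hjT)) c⁻¹).1 (inv_mem hc)
    have h2 : ⁅c, j⁆ = c * (j * c⁻¹ * j⁻¹) := by rw [commutatorElement_def]; group
    rw [h2]; exact mul_mem hc h1
  have hT' : ⁅c, j⁆ ∈ T := by
    rw [commutatorElement_def]
    exact T.mul_mem ((Subgroup.mem_normalizer_iff.1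
      (cOf_le_normalizer_sylow hz hL hc) j).1 hjT) (T.inv_mem hjT)
  obtain ⟨n, hn⟩ := hL.1.2.1 ⟨_, hT'⟩
  exact two_element_mem_core hz hL hC (n := n) (by simpa using congrArg Subtype.val hn)

/-- `[K C_L(V), J(T)] ≤ K O₂(L)`. -/
theorem CompData.commutator_le (hz : ZNHyp G) (hL : L ∈ jOvergroups T) (hK : CompData T L K) :
    ⁅K ⊔ cOf L, thompsonSubgroupOf 2 T⁆ ≤ K ⊔ pCoreOf 2 L := by
  set J := thompsonSubgroupOf 2 T
  set B := K ⊔ pCoreOf 2 L with hB
  have hn : K ⊔ cOf L ≤ Subgroup.normalizer (B : Set G) := by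
    intro g hg
    have hgK : g ∈ Subgroup.normalizer (K : Set G) :=
      (sup_le Subgroup.le_normalizer (hK.cOf_le_normalizer hz hL)) hg
    have hgQ : g ∈ Subgroup.normalizer (pCoreOf 2 L : Set G) :=
      le_normalizer_pCoreOf L 2 ((sup_le hK.le inf_le_left) hg)
    rw [Subgroup.mem_normalizer_iff_map_conj_eq]
    change B.map (MulAut.conj g).toMonoidHom = _
    rw [hB, Subgroup.map_sup, FF.map_conj_eq hgK, FF.map_conj_eq hgQ]
  rw [Subgroup.commutator_le]
  intro a ha j hj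
  rw [Subgroup.sup_eq_closure] at ha
  induction ha using Subgroup.closure_induction'' with
  | one => simp
  | mem a ha =>
    rcases ha with ha | ha
    · refine Subgroup.mem_sup_left ?_
      exact hK.comm ▸ Subgroup.commutator_mem_commutator ha hj
    · refine Subgroup.mem_sup_right ?_
      have hjT : j ∈ T := thompsonOf_le T hj
      have hC : ⁅a, j⁆ ∈ cOf L := by
        have h1 := (Subgroup.mem_normalizer_iff.1
          (le_normalizer_cOf L (hL.1.1 hjT)) a⁻¹).1 (inv_mem ha)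
        have h2 : ⁅a, j⁆ = a * (j * a⁻¹ * j⁻¹) := by rw [commutatorElement_def]; group
        rw [h2]; exact mul_mem ha h1
      have hT' : ⁅a, j⁆ ∈ T := by
        rw [commutatorElement_def]
        exact T.mul_mem ((Subgroup.mem_normalizer_iff.1
          (cOf_le_normalizer_sylow hz hL ha) j).1 hjT) (T.inv_mem hjT)
      obtain ⟨n, hn⟩ := hL.1.2.1 ⟨_, hT'⟩
      exact two_element_mem_core hz hL hC (n := n) (by simpa using congrArg Subtype.val hn)
  | inv_mem a ha =>
    rcases ha with ha | ha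
    · refine Subgroup.mem_sup_left ?_
      exact hK.comm ▸ Subgroup.commutator_mem_commutator (inv_mem ha) hj
    · refine Subgroup.mem_sup_right ?_
      have hjT : j ∈ T := thompsonOf_le T hj
      have ha' : a⁻¹ ∈ cOf L := inv_mem ha
      have hC : ⁅a⁻¹, j⁆ ∈ cOf L := by
        have h1 := (Subgroup.mem_normalizer_iff.1
          (le_normalizer_cOf L (hL.1.1 hjT)) a).1 ha
        have h2 : ⁅a⁻¹, j⁆ = a⁻¹ * (j * a * j⁻¹) := by rw [commutatorElement_def]; group
        rw [h2]; exact mul_mem ha' h1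
      have hT' : ⁅a⁻¹, j⁆ ∈ T := by
        rw [commutatorElement_def]
        exact T.mul_mem ((Subgroup.mem_normalizer_iff.1
          (cOf_le_normalizer_sylow hz hL ha') j).1 hjT) (T.inv_mem hjT)
      obtain ⟨n, hn⟩ := hL.1.2.1 ⟨_, hT'⟩
      exact two_element_mem_core hz hL hC (n := n) (by simpa using congrArg Subtype.val hn)
  | mul a b hca hcb iha ihb =>
    rw [Modules.commutatorElement_mul_left]
    rw [← Subgroup.sup_eq_closure] at hca
    exact mul_mem ((Subgroup.mem_normalizer_iff.1 (hn hca) _).1 ihb) iha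

/-- Two components with intersecting planes are equal. -/
theorem CompData.unique (hz : ZNHyp G) (hL : L ∈ jOvergroups T) (hK : CompData T L K)
    (hK' : CompData T L K') {w : G} (hw : w ∈ wOf K) (hw' : w ∈ wOf K') (hw1 : w ≠ 1) :
    K' = K := by
  have h : ∀ A B : Subgroup G, CompData T L A → CompData T L B → w ∈ wOf A → w ∈ wOf B →
      B ≤ A := by
    intro A B hA hB hwA hwB
    refine hA.le_of_le_sup_core hL hB.gen (hB.comm ▸ ?_)
    exact (Subgroup.commutator_mono (hA.plane_unique hz hL hL hB hwA hwB hw1).2 le_rfl).trans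
      (hA.commutator_le hz hL)
  exact le_antisymm (h K K' hK hK' hw hw') (h K' K hK' hK hw' hw)

theorem map_conj_oddGen {K : Subgroup G} (g : G)
    (h : Subgroup.closure {x : G | x ∈ K ∧ Odd (orderOf x)} = K) :
    Subgroup.closure {x : G | x ∈ K.map (MulAut.conj g).toMonoidHom ∧ Odd (orderOf x)} =
      K.map (MulAut.conj g).toMonoidHom := by
  conv_rhs => rw [← h, MonoidHom.map_closure]
  congr 1
  ext y
  simp only [Set.mem_image, Set.mem_setOf_eq, MulEquiv.coe_toMonoidHom, Subgroup.mem_map]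
  constructor
  · rintro ⟨⟨z, hz, rfl⟩, ho⟩
    exact ⟨z, ⟨hz, by rwa [MulEquiv.orderOf_eq] at ho⟩, rfl⟩
  · rintro ⟨z, ⟨hz, ho⟩, rfl⟩
    exact ⟨⟨z, hz, rfl⟩, by rwa [MulEquiv.orderOf_eq]⟩

theorem map_conj_pCoreOf {p : ℕ} (g : G) (H : Subgroup G) :
    (pCoreOf p H).map (MulAut.conj g).toMonoidHom =
      pCoreOf p (H.map (MulAut.conj g).toMonoidHom) := by
  have e := Cores.map_pCore_equiv (p := p) ((MulAut.conj g).subgroupMap H)
  rw [pCoreOf, pCoreOf, Subgroup.map_map]
  erw [← e]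
  erw [Subgroup.map_map]
  rfl

theorem CompData.conj (hK : CompData T L K) (g : G) :
    CompData (T.map (MulAut.conj g).toMonoidHom) (L.map (MulAut.conj g).toMonoidHom)
      (K.map (MulAut.conj g).toMonoidHom) := by
  refine ⟨Subgroup.map_mono hK.le, map_conj_oddGen g hK.gen, ?_, ?_, ?_⟩
  · rw [← Modules.conj_thompsonSubgroupOf, ← Subgroup.map_commutator, hK.comm]
  · rw [← map_conj_pCoreOf, Subgroup.relIndex_map_map_of_injective _ _ (MulAut.conj g).injective,
      hK.idx]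
  · rw [← map_conj_wOf, Subgroup.card_map_of_injective (MulAut.conj g).injective, hK.card]

/-- A component whose plane meets `Z(T)` is normalized by `T`. -/
theorem CompData.normalized_of_center (hz : ZNHyp G) (hL : L ∈ jOvergroups T)
    (hK : CompData T L K) (hZW : T ⊓ Subgroup.centralizer (T : Set G) ⊓ wOf K ≠ ⊥) :
    T ≤ Subgroup.normalizer (K : Set G) := by
  obtain ⟨w, hw, hw1⟩ : ∃ w ∈ T ⊓ Subgroup.centralizer (T : Set G) ⊓ wOf K, w ≠ 1 := by
    by_contra h
    push Not at h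
    exact hZW ((Subgroup.eq_bot_iff_forall _).2 h)
  intro t ht
  have hTt : T.map (MulAut.conj t).toMonoidHom = T := FF.map_conj_eq (Subgroup.le_normalizer ht)
  have hLt : L.map (MulAut.conj t).toMonoidHom = L :=
    FF.map_conj_eq (Subgroup.le_normalizer (hL.1.1 ht))
  have hK' := hK.conj t
  rw [hTt, hLt] at hK'
  have hw' : w ∈ wOf (K.map (MulAut.conj t).toMonoidHom) := by
    rw [← map_conj_wOf]
    refine ⟨w, hw.2, ?_⟩
    change t * w * t⁻¹ = w
    rw [Subgroup.mem_centralizer_iff.1 hw.1.2 t ht, mul_inv_cancel_right]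
  rw [Subgroup.mem_normalizer_iff_map_conj_eq]
  exact hK.unique hz hL hK' hw.2 hw' hw1

end Cfsg.Agent.LocalEven
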