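import Cfsg.Agent.LocalEven.OffenderOdd

/-!
Transvections and the odd part in the group induced by `J(G)` on a module (`p = 2`).
-/

set_option autoImplicit false

open Cfsg
open scoped commutatorElement

namespace Cfsg.Agent.LocalEven

theorem inv_mul_conj_eq_commutator {M : Type*} [Group M] (s t : M) :
    s⁻¹ * (t * s * t⁻¹) = ⁅s⁻¹, t⁆ := by rw [commutatorElement_def]; group

open Cfsg.Agent.FF

section

variable {G : Type*} [Group G] [Finite G] {V H : Subgroup G}

set_option maxHeartbeats 800000 in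
/-- The elements of odd order are products of elements of order three spanning invariant
subgroups. -/
theorem genHyp_odd_gen (h : GenHyp 2 V H) {a : G} (ha : a ∈ H) (hao : Odd (orderOf a)) :
    a ∈ Subgroup.closure {d : G | d ∈ H ∧ d ^ 3 = 1 ∧
      ∀ g ∈ H, g * d * g⁻¹ = d ∨ g * d * g⁻¹ = d⁻¹} := by
  let ι := {L : Subgroup G // IsLine 2 V H L}
  let E : ι → Subgroup G := fun L => eblock 2 H L
  let D : ι → Subgroup G := fun L => ⁅qcore 2 H, (L : Subgroup G)⁆
  let R := ⨆ L, D L
  have hDE : ∀ L : ι, D L ≤ E L := fun L => (eblock_commutator_le_inf L.2).trans inf_le_right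
  have hcard : ∀ L : ι, Nat.card ↥(D L) = 3 ∧ Nat.card ↥(E L) = 6 := fun L => by
    have h1 := (h.toHyp.card_commutator_qcore L.2).1
    have h2 := h.toHyp.card_eblock L.2
    simp only [E, D]
    omega
  have hDeq : ∀ L M : ι, E L = E M → D L = D M := by
    intro L M he
    refine Subgroup.eq_of_le_of_card_ge ?_ (by rw [(hcard M).1, (hcard L).1])
    intro x hx
    by_contra hxM
    have hsup : D L ⊔ D M ≤ qcore 2 H :=
      sup_le (commutator_qcore_le L.2) (commutator_qcore_le M.2)
    have hco : (Nat.card ↥(D L ⊔ D M)).Coprime 2 :=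
      Nat.Coprime.coprime_dvd_left (Subgroup.card_dvd_of_le hsup) qcore_coprime
    have hd6 : Nat.card ↥(D L ⊔ D M) ∣ 6 :=
      (hcard M).2 ▸ Subgroup.card_dvd_of_le (sup_le (he ▸ hDE L) (hDE M))
    have hd3 : Nat.card ↥(D L ⊔ D M) ∣ 3 := hco.dvd_of_dvd_mul_left (by simpa using hd6)
    exact hxM ((Subgroup.eq_of_le_of_card_ge (le_sup_right : D M ≤ D L ⊔ D M)
      ((Nat.le_of_dvd (by norm_num) hd3).trans (hcard M).1.ge)).ge (Subgroup.mem_sup_left hx))
  have hDn : ∀ L M : ι, E M ≤ Subgroup.normalizer (D L : Set G) := by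
    intro L M
    by_cases he : E L = E M
    · rw [hDeq L M he]; exact eblock_le_normalizer_commutator M.2
    · refine le_trans ?_ ((Subgroup.centralizer_le (SetLike.coe_subset_coe.2 (hDE L))).trans
        (Subgroup.centralizer_le_normalizer _))
      exact Subgroup.commutator_eq_bot_iff_le_centralizer.1
        (h.toHyp.eblock_commute M.2 L.2 (Ne.symm he))
  have hRn : ∀ M : ι, E M ≤ Subgroup.normalizer (R : Set G) := by
    intro M g hg
    rw [Subgroup.mem_normalizer_iff_map_conj_eq]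
    change R.map (MulAut.conj g).toMonoidHom = _
    simp only [R]
    rw [Subgroup.map_iSup]
    exact iSup_congr fun L => map_conj_eq (hDn L M hg)
  have habel : ∀ L M : ι, ∀ x ∈ D L, ∀ y ∈ D M, Commute x y := by
    intro L M x hx y hy
    by_cases he : E L = E M
    · have hp : Fact (Nat.Prime 3) := ⟨Nat.prime_three⟩
      have hc := isCyclic_of_prime_card (hcard M).1
      have := (IsCyclic.isMulCommutative (α := ↥(D M))).is_comm.comm ⟨x, hDeq L M he ▸ hx⟩ ⟨y, hy⟩
      exact congrArg Subtype.val this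
    · exact (Subgroup.mem_centralizer_iff.1
        (Subgroup.commutator_eq_bot_iff_le_centralizer.1
          (h.toHyp.eblock_commute L.2 M.2 he) (hDE L hx)) y (hDE M hy)).symm
  have hHsup : H ≤ ⨆ L, E L :=
    h.le_of_lines fun L hL => le_sup_right.trans (le_iSup E ⟨L, hL⟩)
  have hsq : ∀ L : ι, ∀ x ∈ E L, x * x ∈ R := by
    intro L x hx
    refine le_iSup D L ?_
    have hrel : (D L).relIndex (E L) = 2 := by
      have h1 := Subgroup.relIndex_mul_relIndex ⊥ (D L) (E L) bot_le (hDE L)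
      rw [Subgroup.relIndex_bot_left, Subgroup.relIndex_bot_left, (hcard L).1, (hcard L).2] at h1
      omega
    exact Subgroup.mul_self_mem_of_index_two (H := (D L).subgroupOf (E L)) hrel ⟨x, hx⟩
  have hcm : ∀ L M : ι, ∀ x ∈ E L, ∀ y ∈ E M, ⁅x, y⁆ ∈ R := by
    intro L M x hx y hy
    by_cases he : E L = E M
    · refine le_iSup D M ?_
      have hrel : ((D M).subgroupOf (E M)).index = 2 := by
        have h1 := Subgroup.relIndex_mul_relIndex ⊥ (D M) (E M) bot_le (hDE M)
        rw [Subgroup.relIndex_bot_left, Subgroup.relIndex_bot_left, (hcard M).1, (hcard M).2] at h1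
        change (D M).relIndex (E M) = 2
        omega
      have hxM : x ∈ E M := he ▸ hx
      exact commutatorElement_mem_of_relIndex_two hrel hxM hy
    · rw [commutatorElement_eq_one_iff_commute.2]
      · exact one_mem _
      · exact (Subgroup.mem_centralizer_iff.1
          (Subgroup.commutator_eq_bot_iff_le_centralizer.1
            (h.toHyp.eblock_commute L.2 M.2 he) hx) y hy).symm
  have hodd : ∀ x ∈ H, Odd (orderOf x) → x ∈ R := by
    intro x hx ho
    have h2 := sq_mem_of_pairwise E R hRn hcm hsq (hHsup hx)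
    obtain ⟨k, hk⟩ := ho
    have : x = ((x * x) ^ k)⁻¹ := by
      rw [eq_inv_iff_mul_eq_one, ← pow_two, ← pow_mul, ← pow_succ', ← hk, pow_orderOf_eq_one]
    rw [this]
    exact inv_mem (pow_mem h2 k)
  refine (iSup_le fun L => ?_ : R ≤ _) (hodd a ha hao)
  intro d hd
  refine Subgroup.subset_closure ⟨eblock_le_H L.2 (hDE L hd), ?_, fun g hg => ?_⟩
  · have h1 := pow_card_eq_one' (G := ↥(D L)) (x := ⟨d, hd⟩)
    rw [(hcard L).1] at h1
    simpa using congrArg Subtype.val h1
  · have hn : H ≤ Subgroup.normalizer (D L : Set G) := hHsup.trans (iSup_le fun M => hDn L M)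
    have hgd : g * d * g⁻¹ ∈ D L := (Subgroup.mem_normalizer_iff.1 (hn hg) d).1 hd
    by_cases hd1 : d = 1
    · left; rw [hd1]; group
    have h3 : Fact (Nat.Prime 3) := ⟨Nat.prime_three⟩
    have hz := zpowers_eq_of_card (p := 3) (hcard L).1 hd hd1
    rw [← hz] at hgd
    obtain ⟨i, hi⟩ := hgd
    have h3d : d ^ (3 : ℤ) = 1 := by
      have h1 := pow_card_eq_one' (G := ↥(D L)) (x := ⟨d, hd⟩)
      rw [(hcard L).1] at h1
      have h2 : d ^ 3 = 1 := by simpa using congrArg Subtype.val h1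
      exact_mod_cast h2
    have hi' : d ^ i = d ^ (i % 3) := by
      conv_lhs => rw [← Int.emod_add_mul_ediv i 3, zpow_add, zpow_mul, h3d, one_zpow, mul_one]
    obtain hc | hc | hc : i % 3 = 0 ∨ i % 3 = 1 ∨ i % 3 = 2 := by omega
    · exact absurd (conj_eq_one_iff.1 (hi.symm.trans (show d ^ i = 1 by rw [hi', hc, zpow_zero]))) hd1
    · left; rw [← hi]; show d ^ i = d; rw [hi', hc, zpow_one]
    · right
      rw [← hi]; show d ^ i = d⁻¹
      rw [hi', hc, eq_inv_iff_mul_eq_one, ← zpow_add_one, show (2 : ℤ) + 1 = 3 by norm_num, h3d]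

end

variable {p : ℕ} {G : Type*} [Group G]

/-- `J(G)` modulo `C_G(V)`: generated by transvections, and the odd part is generated by elements
of order three normalized by it. -/
theorem thompson_image [Finite G] (hp2 : p = 2) [hp : Fact p.Prime] (hsep : IsPSolvable p G)
    (V : Subgroup G) [V.Normal] (hV : IsElementaryAbelian p V)
    (hOp : pCore p (G ⧸ Subgroup.centralizer (V : Set G)) = ⊥) :
    (∀ A ∈ maxElementaryAbelianSubgroups p G, A ≤ Subgroup.closure
      {a : G | a ∈ A ∧ ∃ z : G, ∀ v ∈ V,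
        v⁻¹ * (a * v * a⁻¹) = 1 ∨ v⁻¹ * (a * v * a⁻¹) = z} ⊔
        Subgroup.centralizer (V : Set G)) ∧
    (∀ x ∈ (thompsonSubgroup p G).map (QuotientGroup.mk' (Subgroup.centralizer (V : Set G))),
      Odd (orderOf x) → x ∈ Subgroup.closure
        {d | d ∈ (thompsonSubgroup p G).map
            (QuotientGroup.mk' (Subgroup.centralizer (V : Set G))) ∧ d ^ 3 = 1 ∧
          ∀ g ∈ (thompsonSubgroup p G).map
            (QuotientGroup.mk' (Subgroup.centralizer (V : Set G))),
            g * d * g⁻¹ = d ∨ g * d * g⁻¹ = d⁻¹}) := by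
  set C := Subgroup.centralizer (V : Set G) with hC
  set π := QuotientGroup.mk' C
  set J := thompsonSubgroup p G with hJdef
  haveI hJn : J.Normal := by
    have := Modules.thompsonSubgroup_characteristic p G
    exact inferInstance
  let S := SemidirectProduct V (G ⧸ C) (quotAct V)
  let iV : V →* S := SemidirectProduct.inl
  let iQ : G ⧸ C →* S := SemidirectProduct.inr
  have hiV : Function.Injective iV := SemidirectProduct.inl_injective
  have hiQ : Function.Injective iQ := SemidirectProduct.inr_injective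
  haveI : Finite S := Finite.of_equiv _ SemidirectProduct.equivProd.symm
  set V' : Subgroup S := iV.range with hV'
  set H0 := J.map π with hH0
  set H : Subgroup S := H0.map iQ with hH
  haveI hH0n : H0.Normal := hJn.map _ (QuotientGroup.mk'_surjective C)
  have hconj : ∀ (g : G) (v : V), iQ (π g) * iV v * (iQ (π g))⁻¹ = iV (quotAct V (π g) v) :=
    fun g v => by rw [← map_inv]; exact (SemidirectProduct.inl_aut (φ := quotAct V) (π g) v).symm
  have hfixmem : ∀ (g : G) (v : V),
      iQ (π g) * iV v = iV v * iQ (π g) ↔ g * (v : G) = v * g := by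
    intro g v
    rw [← mul_inv_eq_iff_eq_mul, hconj, hiV.eq_iff, ← Subtype.coe_inj]
    rw [show (quotAct V (π g) v : G) = g * v * g⁻¹ from quotAct_mk V g v]
    exact mul_inv_eq_iff_eq_mul
  -- fixed points correspond
  have hfix : ∀ X : Subgroup G, Nat.card ↥(V' ⊓ Subgroup.centralizer ((X.map π).map iQ : Set S)) =
      Nat.card ↥(V ⊓ Subgroup.centralizer (X : Set G)) := by
    intro X
    have e : V' ⊓ Subgroup.centralizer ((X.map π).map iQ : Set S) =
        ((Subgroup.centralizer (X : Set G)).subgroupOf V).map iV := by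
      ext z
      constructor
      · intro hz
        obtain ⟨⟨v, rfl⟩, hz2⟩ := Subgroup.mem_inf.1 hz
        refine ⟨v, Subgroup.mem_centralizer_iff.2 fun x hx => ?_, rfl⟩
        exact (hfixmem x v).1 (Subgroup.mem_centralizer_iff.1 hz2 _ ⟨π x, ⟨x, hx, rfl⟩, rfl⟩)
      · rintro ⟨v, hv, rfl⟩
        refine Subgroup.mem_inf.2 ⟨⟨v, rfl⟩, Subgroup.mem_centralizer_iff.2 ?_⟩
        rintro _ ⟨_, ⟨x, hx, rfl⟩, rfl⟩
        exact (hfixmem x v).2 (Subgroup.mem_centralizer_iff.1 hv x hx)
    rw [e, Subgroup.card_map_of_injective hiV,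
      ← Subgroup.card_map_of_injective (f := V.subtype) V.subtype_injective,
      Subgroup.subgroupOf_map_subtype, inf_comm]
  have hV'e : IsElementaryAbelian p V' := by
    refine ⟨Modules.comm_iff.2 ?_, ?_⟩
    · rintro _ ⟨a, rfl⟩ _ ⟨b, rfl⟩
      rw [← map_mul, ← map_mul, show a * b = b * a from
        Subtype.ext (Modules.elemAb_comm hV a.2 b.2)]
    · rintro _ ⟨a, rfl⟩
      rw [← map_pow, show a ^ p = 1 from Subtype.ext (by simpa using hV.2 a a.2), map_one]
  have hnorm : H ≤ Subgroup.normalizer (V' : Set S) := by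
    rw [Subgroup.le_normalizer_iff]
    rintro _ ⟨_, ⟨g, -, rfl⟩, rfl⟩ _ ⟨v, rfl⟩
    exact ⟨_, (hconj g v).symm⟩
  have hfaith : H ⊓ Subgroup.centralizer (V' : Set S) = ⊥ := by
    rw [eq_bot_iff]
    intro z hz
    obtain ⟨⟨_, ⟨g, -, rfl⟩, rfl⟩, hz2⟩ := Subgroup.mem_inf.1 hz
    have hg : g ∈ C := Subgroup.mem_centralizer_iff.2 fun v hv =>
      ((hfixmem g ⟨v, hv⟩).1 (Subgroup.mem_centralizer_iff.1 hz2 _ ⟨⟨v, hv⟩, rfl⟩).symm).symm
    rw [Subgroup.mem_bot, show π g = 1 from (QuotientGroup.eq_one_iff g).2 hg, map_one]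
  have hself : Subgroup.centralizer (pPrimeCore p ↥H : Set ↥H) ≤ pPrimeCore p ↥H := by
    let e := H0.equivMapOfInjective iQ hiQ
    refine PSolv.centralizer_pPrimeCore_le (PSolv.isPSolvable_of_equiv e
      (PSolv.isPSolvable_subgroup (PSolv.isPSolvable_quotient hsep C) H0)) ?_
    have h1 : (pCore p H0).map H0.subtype ≤ ⊥ := hOp ▸ PSolv.map_pCore_subtype_le
    rw [le_bot_iff, Subgroup.map_eq_bot_iff_of_injective _ H0.subtype_injective] at h1
    rw [← PSolv.map_pCore_equiv e, h1, Subgroup.map_bot]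
  have hoff : ∀ A ∈ maxElementaryAbelianSubgroups p G,
      IsBestOffenderOn p V' ((A.map π).map iQ) := by
    intro A hA
    have hbest := Modules.maxElemAbIn_bestOffender (P := ⊤) (V := V)
      ⟨le_top, hA.1, fun B _ hB => hA.2 B hB⟩ hV le_top
    have hAe := Modules.elemAb_map iQ (Modules.elemAb_map π hA.1)
    refine ⟨fun B' hB' => ?_, ?_, fun a ha => ?_⟩
    · set B := A ⊓ (B'.comap (iQ.comp π)) with hB
      have hBmap : (B.map π).map iQ = B' := by
        refine le_antisymm ?_ fun z hz => ?_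
        · rw [Subgroup.map_map]
          exact (Subgroup.map_mono inf_le_right).trans (Subgroup.map_comap_le _ _)
        · obtain ⟨_, ⟨a, ha, rfl⟩, rfl⟩ := hB' hz
          exact ⟨π a, ⟨a, Subgroup.mem_inf.2 ⟨ha, hz⟩, rfl⟩, rfl⟩
      have key : ∀ X : Subgroup G,
          Nat.card ↥((X.map π).map iQ) * Nat.card ↥(X ⊓ C) = Nat.card X := by
        intro X
        rw [Subgroup.card_map_of_injective hiQ, PSolv.card_map_mk_eq_relIndex, mul_comm]
        conv_rhs => rw [card_eq_card_mul_relIndex (inf_le_left : X ⊓ C ≤ X),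
          Subgroup.inf_relIndex_left]
      have hint : B ⊓ C = A ⊓ C := by
        refine le_antisymm (inf_le_inf_right _ inf_le_left) fun x hx => ?_
        obtain ⟨hxA, hxC⟩ := Subgroup.mem_inf.1 hx
        refine Subgroup.mem_inf.2 ⟨Subgroup.mem_inf.2 ⟨hxA, ?_⟩, hxC⟩
        change iQ (π x) ∈ B'
        rw [show π x = 1 from (QuotientGroup.eq_one_iff x).2 hxC, map_one]
        exact one_mem _
      have h1 := hbest.1 B inf_le_left
      rw [← key B, ← key A, hint, ← hfix B, ← hfix A, hBmap] at h1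
      refine Nat.le_of_mul_le_mul_left ?_ (Nat.card_pos (α := ↥(A ⊓ C)))
      calc _ = _ := by ring
        _ ≤ _ := h1
        _ = _ := by ring
    · rw [Subgroup.commutator_eq_bot_iff_le_centralizer.2 (Modules.elemAb_le_centralizer hAe)]
      exact bot_le
    · rw [hAe.2 a ha]; exact one_mem _
  have hgen : H = ⨆ A : {A : Subgroup S // A ≤ H ∧ IsBestOffenderOn p V' A}, (A : Subgroup S) := by
    refine le_antisymm ?_ (iSup_le fun A => A.2.1)
    conv_lhs =>
      rw [hH, hH0, hJdef, thompsonSubgroup, sSup_eq_iSup, Subgroup.map_iSup, Subgroup.map_iSup]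
    refine iSup_le fun A => ?_
    rw [Subgroup.map_iSup, Subgroup.map_iSup]
    refine iSup_le fun hA => ?_
    refine le_iSup_of_le ⟨(A.map π).map iQ, ?_, hoff A hA⟩ le_rfl
    exact Subgroup.map_mono (Subgroup.map_mono (le_sSup hA))
  have h : GenHyp p V' H := ⟨⟨hV'e, hnorm, hfaith, hself⟩, hgen⟩
  subst hp2
  refine ⟨fun A hA => ?_, fun x hx hxo => ?_⟩
  · have hAH : (A.map π).map iQ ≤ H := Subgroup.map_mono (Subgroup.map_mono (le_sSup hA))
    have h1 := h.toHyp.le_iSup_lines _ hAH (hoff A hA)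
    set Tr := {a : G | a ∈ A ∧ ∃ z : G, ∀ v ∈ V,
        v⁻¹ * (a * v * a⁻¹) = 1 ∨ v⁻¹ * (a * v * a⁻¹) = z}
    have h2 : (A.map π).map iQ ≤ ((Subgroup.closure Tr).map π).map iQ := by
      refine h1.trans (iSup_le fun L l hl => ?_)
      obtain ⟨hLA, hLc, hLo⟩ := L.2
      obtain ⟨_, ⟨a, ha, rfl⟩, hal⟩ := hLA hl
      refine ⟨π a, ⟨a, Subgroup.subset_closure ⟨ha, ?_⟩, rfl⟩, hal⟩
      have hcard := (h.toHyp.line_data (hLA.trans hAH) hLo hLc).1
      obtain ⟨z, hz1, -, hz⟩ := exists_gen_of_card hcard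
      have hzV : z ∈ V' := (Hyp.commutator_le h.toHyp (hLA.trans hAH)) (hz ▸ Subgroup.mem_zpowers z)
      obtain ⟨z', hz'⟩ := hzV
      refine ⟨z', fun v hv => ?_⟩
      set u : V := (⟨v, hv⟩ : V)⁻¹ * quotAct V (π a) ⟨v, hv⟩ with hu
      have hmem : iV u ∈ ⁅V', (L : Subgroup S)⁆ := by
        have hc : ⁅(iV ⟨v, hv⟩)⁻¹, iQ (π a)⁆ ∈ ⁅V', (L : Subgroup S)⁆ :=
          Subgroup.commutator_mem_commutator (inv_mem ⟨_, rfl⟩) (hal ▸ hl)
        have e : iV u = ⁅(iV ⟨v, hv⟩)⁻¹, iQ (π a)⁆ := by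
          rw [hu, map_mul, map_inv, ← hconj]
          exact inv_mul_conj_eq_commutator _ _
        rw [e]; exact hc
      have hu2 : iV u = 1 ∨ iV u = z := by
        by_cases h0 : iV u = 1
        · exact Or.inl h0
        refine Or.inr ?_
        rw [← hz] at hmem
        obtain ⟨i, hi⟩ := hmem
        have hzsq : z ^ (2 : ℤ) = 1 := by
          have := pow_card_eq_one' (G := ↥⁅V', (L : Subgroup S)⁆)
            (x := ⟨z, hz ▸ Subgroup.mem_zpowers z⟩)
          rw [hcard] at this
          have h2 : z ^ 2 = 1 := by simpa using congrArg Subtype.val this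
          exact_mod_cast h2
        have hi' : z ^ i = z ^ (i % 2) := by
          conv_lhs => rw [← Int.emod_add_mul_ediv i 2, zpow_add, zpow_mul, hzsq, one_zpow, mul_one]
        have hi2 : z ^ i = iV u := hi
        obtain hc | hc : i % 2 = 0 ∨ i % 2 = 1 := by omega
        · exact absurd (by rw [← hi2, hi', hc, zpow_zero]) h0
        · rw [← hi2, hi', hc, zpow_one]
      have hval : (u : G) = v⁻¹ * (a * v * a⁻¹) := by
        rw [hu, Subgroup.coe_mul, InvMemClass.coe_inv]
        exact congrArg _ (quotAct_mk V a ⟨v, hv⟩)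
      rcases hu2 with h0 | h0
      · left; rw [← hval, show u = 1 from hiV (h0.trans (map_one iV).symm)]; rfl
      · right; rw [← hval, show u = z' from hiV (h0.trans hz'.symm)]
    intro x hx
    obtain ⟨_, ⟨y, hy, rfl⟩, hyx⟩ := h2 ⟨π x, ⟨x, hx, rfl⟩, rfl⟩
    have hc : y⁻¹ * x ∈ C := QuotientGroup.eq.1 (hiQ hyx)
    rw [← mul_inv_cancel_left y x]
    exact Subgroup.mul_mem_sup hy hc
  · have h1 := genHyp_odd_gen h (Subgroup.mem_map_of_mem iQ hx)
      (by rwa [orderOf_injective iQ hiQ])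
    set Sx := {d | d ∈ H0 ∧ d ^ 3 = 1 ∧ ∀ g ∈ H0, g * d * g⁻¹ = d ∨ g * d * g⁻¹ = d⁻¹}
    have h2 : iQ x ∈ (Subgroup.closure Sx).map iQ := by
      refine (Subgroup.closure_le _).2 ?_ h1
      rintro _ ⟨⟨d, hd, rfl⟩, hd3, hdn⟩
      refine ⟨d, Subgroup.subset_closure ⟨hd, ?_, fun g hg => ?_⟩, rfl⟩
      · exact hiQ (by rw [map_pow, map_one]; exact hd3)
      · rcases hdn _ ⟨g, hg, rfl⟩ with e | e
        · left; exact hiQ (by simpa using e)
        · right; exact hiQ (by simpa using e)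
    obtain ⟨y, hy, hyx⟩ := h2
    rwa [← hiQ hyx]

end Cfsg.Agent.LocalEven
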