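import Cfsg.Agent.LocalEven.JSplit
import Cfsg.Agent.LocalEven.OffenderLines

/-!
A transvection in `J(T)` on `V = Ω₁Z(O₂(L))` inverting a given component.
-/

set_option autoImplicit false

open Cfsg
open scoped commutatorElement

namespace Cfsg.Agent.LocalEven

variable {G : Type*} [Group G] [Finite G] {T L K : Subgroup G}

/-- `V` inside `↥L`. -/
theorem mem_centralizer_subgroupOf_iff {V L : Subgroup G} (hVL : V ≤ L) (c : ↥L) :
    c ∈ Subgroup.centralizer (V.subgroupOf L : Set ↥L) ↔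
      (c : G) ∈ Subgroup.centralizer (V : Set G) := by
  rw [Subgroup.mem_centralizer_iff, Subgroup.mem_centralizer_iff]
  exact ⟨fun h v hv => congrArg Subtype.val (h ⟨v, hVL hv⟩ hv),
    fun h v hv => Subtype.ext (h _ hv)⟩

theorem vOf_le (L : Subgroup G) : vOf L ≤ L :=
  (vOf_le_pCoreOf L).trans (LocalP.pCoreOf_le L)

/-- The conclusions of the failure-of-factorization lemma, inside an overgroup. -/
theorem overgroup_image (hz : ZNHyp G) (hL : L ∈ jOvergroups T)
    [((vOf L).subgroupOf L).Normal] :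
    (∀ A ∈ maxElementaryAbelianSubgroups 2 ↥L, A ≤ Subgroup.closure
      {a : ↥L | a ∈ A ∧ ∃ z : ↥L, ∀ v ∈ (vOf L).subgroupOf L,
        v⁻¹ * (a * v * a⁻¹) = 1 ∨ v⁻¹ * (a * v * a⁻¹) = z} ⊔
        Subgroup.centralizer ((vOf L).subgroupOf L : Set ↥L)) ∧
    (∀ x ∈ (thompsonSubgroup 2 ↥L).map
        (QuotientGroup.mk' (Subgroup.centralizer ((vOf L).subgroupOf L : Set ↥L))),
      Odd (orderOf x) → x ∈ Subgroup.closure
        {d | d ∈ (thompsonSubgroup 2 ↥L).map
            (QuotientGroup.mk' (Subgroup.centralizer ((vOf L).subgroupOf L : Set ↥L))) ∧ d ^ 3 = 1 ∧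
          ∀ g ∈ (thompsonSubgroup 2 ↥L).map
            (QuotientGroup.mk' (Subgroup.centralizer ((vOf L).subgroupOf L : Set ↥L))),
            g * d * g⁻¹ = d ∨ g * d * g⁻¹ = d⁻¹}) := by
  refine thompson_image rfl
    (PSolv.isPSolvable_of_isSolvable (isSolvable_of_jOvergroup hz.char2 hz.solv hL))
    ((vOf L).subgroupOf L) (Modules.elemAb_subgroupOf (omegaCenterOf_elemAb _))
    (pCore_quotient_eq_bot (sylowOfIn hL.1) _ ?_ ?_)
  · intro c hc
    have h1 := cOf_le_normalizer_sylow hz hL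
      (show (c : G) ∈ cOf L from ⟨c.2, (mem_centralizer_subgroupOf_iff (vOf_le L) c).1 hc⟩)
    rw [coe_sylowOfIn, Subgroup.mem_normalizer_iff]
    intro x
    exact Subgroup.mem_normalizer_iff.1 h1 (x : G)
  · intro q hq
    exact (mem_centralizer_subgroupOf_iff (vOf_le L) q).2
      (pCoreOf_le_cOf L (Subgroup.mem_map_of_mem L.subtype hq)).2

theorem vOf_subgroupOf_normal (L : Subgroup G) : ((vOf L).subgroupOf L).Normal :=
  (Subgroup.normal_subgroupOf_iff_le_normalizer (vOf_le L)).2 (le_normalizer_vOf L)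

/-- A largest elementary abelian subgroup of a Sylow subgroup is one of the whole group. -/
theorem subgroupOf_mem_max {A : Subgroup G} (h : IsSylowTwoIn T L)
    (hA : A ∈ Modules.maxElemAbIn 2 T) :
    A.subgroupOf L ∈ maxElementaryAbelianSubgroups 2 ↥L := by
  refine ⟨Modules.elemAb_subgroupOf hA.2.1, fun B hB => ?_⟩
  obtain ⟨P, hP⟩ := (Modules.elemAb_isPGroup hB).exists_le_sylow
  obtain ⟨m, hm⟩ := MulAction.exists_smul_eq ↥L P (sylowOfIn h)
  have hB' : B.map (MulAut.conj m).toMonoidHom ≤ T.subgroupOf L := by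
    rw [← coe_sylowOfIn h, ← hm, PSolv.coe_sylow_smul]
    exact Subgroup.map_mono hP
  have h1 := hA.2.2 ((B.map (MulAut.conj m).toMonoidHom).map L.subtype)
    ((Subgroup.map_mono hB').trans (by rw [Subgroup.subgroupOf_map_subtype]; exact inf_le_left))
    (Modules.elemAb_map _ (Modules.elemAb_map _ hB))
  rw [Subgroup.card_map_of_injective L.subtype_injective,
    Subgroup.card_map_of_injective (MulAut.conj m).injective] at h1
  refine h1.trans (le_of_eq ?_)
  rw [← Subgroup.card_map_of_injective L.subtype_injective,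
    Subgroup.map_subgroupOf_eq_of_le (hA.1.trans h.1)]

/-- An involution of `J(T)` acting on `V` as a transvection inside `W_K`. -/
theorem CompData.exists_transvection (hz : ZNHyp G) (hL : L ∈ jOvergroups T)
    (hK : CompData T L K) :
    ∃ b ∈ thompsonSubgroupOf 2 T, b * b = 1 ∧ b ∉ Subgroup.centralizer (wOf K : Set G) ∧
      ∀ v ∈ vOf L, v⁻¹ * (b * v * b⁻¹) ∈ wOf K := by
  haveI := vOf_subgroupOf_normal L
  obtain ⟨A, hA, a, haA, haW⟩ := exists_moving hK.comm hK.idx hK.card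
  have hAL : A ≤ L := hA.1.trans hL.1.1
  set Tr := {a : ↥L | a ∈ A.subgroupOf L ∧ ∃ z : ↥L, ∀ v ∈ (vOf L).subgroupOf L,
        v⁻¹ * (a * v * a⁻¹) = 1 ∨ v⁻¹ * (a * v * a⁻¹) = z}
  have hle := (overgroup_image hz hL).1 _ (subgroupOf_mem_max hL.1 hA)
  obtain ⟨b, hb, hbW⟩ : ∃ b ∈ Tr, (b : G) ∉ Subgroup.centralizer (wOf K : Set G) := by
    by_contra hcon
    push Not at hcon
    have h2 : Subgroup.closure Tr ⊔ Subgroup.centralizer ((vOf L).subgroupOf L : Set ↥L) ≤
        (Subgroup.centralizer (wOf K : Set G)).subgroupOf L := by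
      refine sup_le ((Subgroup.closure_le _).2 hcon) fun c hc => ?_
      exact Subgroup.centralizer_le (SetLike.coe_subset_coe.2 (hK.wOf_le_vOf hz hL))
        ((mem_centralizer_subgroupOf_iff (vOf_le L) c).1 hc)
    exact haW (h2 (hle (show (⟨a, hAL haA⟩ : ↥L) ∈ A.subgroupOf L from haA)))
  obtain ⟨hbA, z, hz'⟩ := hb
  have hb2 : (b : G) * b = 1 := by simpa [pow_two] using hA.2.1.2 b hbA
  refine ⟨b, Modules.le_thompsonSubgroupOf hA hbA, hb2, hbW, ?_⟩
  have hbK : (b : G) ∈ Subgroup.normalizer (K : Set G) :=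
    le_normalizer_of_commutator_le hK.comm.le (Modules.le_thompsonSubgroupOf hA hbA)
  have hdev : ∀ v ∈ vOf L,
      v⁻¹ * ((b : G) * v * (b : G)⁻¹) = 1 ∨ v⁻¹ * ((b : G) * v * (b : G)⁻¹) = z := by
    intro v hv
    rcases hz' ⟨v, vOf_le L hv⟩ hv with h | h
    · left; exact congrArg Subtype.val h
    · right; exact congrArg Subtype.val h
  obtain ⟨w, hw, hwb⟩ : ∃ w ∈ wOf K, (b : G) * w * (b : G)⁻¹ ≠ w := by
    by_contra h
    push Not at h
    exact hbW (Subgroup.mem_centralizer_iff.2 fun w hw => (mul_inv_eq_iff_eq_mul.1 (h w hw)).symm)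
  have hzW : (z : G) ∈ wOf K := by
    rcases hdev w (hK.wOf_le_vOf hz hL hw) with h | h
    · exact absurd (inv_mul_eq_one.1 h).symm hwb
    · rw [← h]
      exact mul_mem (inv_mem hw)
        ((Subgroup.mem_normalizer_iff.1 (normalizer_le_normalizer_wOf K hbK) w).1 hw)
  intro v hv
  rcases hdev v hv with h | h
  · rw [h]; exact one_mem _
  · rw [h]; exact hzW

/-- Such an element fixes the fixed points of `K`. -/
theorem CompData.transvection_fix (hK : CompData T L K) {b c : G}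
    (hbK : b ∈ Subgroup.normalizer (K : Set G)) (hdev : c⁻¹ * (b * c * b⁻¹) ∈ wOf K)
    (hfix : ∀ k ∈ K, k * c * k⁻¹ = c) : b * c * b⁻¹ = c := by
  obtain ⟨x, hx, hxQ⟩ := exists_not_mem_pCoreOf hK.idx
  have hbc : x * (b * c * b⁻¹) * x⁻¹ = b * c * b⁻¹ := by
    have hk : b⁻¹ * x * b ∈ K := by
      simpa using (Subgroup.mem_normalizer_iff.1 ((Subgroup.normalizer (K : Set G)).inv_mem hbK) x).1 hx
    calc x * (b * c * b⁻¹) * x⁻¹ = b * ((b⁻¹ * x * b) * c * (b⁻¹ * x * b)⁻¹) * b⁻¹ := by group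
      _ = _ := by rw [hfix _ hk]
  have hci : x * c⁻¹ * x⁻¹ = c⁻¹ := by
    conv_rhs => rw [← hfix x hx]
    group
  exact (inv_mul_eq_one.1 (wOf_fixed_eq_one hK.idx hx hxQ hdev
    (by rw [conj_mul_conj, hci, hbc]))).symm

end Cfsg.Agent.LocalEven
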