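import Cfsg.Agent.LocalEven.PMinimal
import Cfsg.Agent.LocalEven.SylowSubnormal
import Cfsg.Agent.LocalEven.CharP

/-!
Components of `p`-minimal groups with trivial `p`-core.
-/

open Subgroup
open scoped commutatorElement

namespace Cfsg.Agent.LocalEven.PMin

set_option linter.unusedSectionVars false

variable {P : Type*} [Group P] [Finite P] {p : ℕ} [Fact p.Prime]

/-- It suffices to check one Sylow subgroup. -/
theorem isPMinimal_of_sylow (T : Sylow p P) (hn : ¬ (T : Subgroup P).Normal)
    (hu : ∃! M : Subgroup P, IsCoatom M ∧ (T : Subgroup P) ≤ M) : Cfsg.IsPMinimal p P := by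
  intro R
  obtain ⟨g, rfl⟩ := MulAction.exists_smul_eq P T R
  refine ⟨fun h => ?_, ?_⟩
  · refine hn ?_
    have := @Sylow.smul_eq_of_normal p P _ g⁻¹ (g • T) h
    rw [inv_smul_smul] at this
    rwa [← this] at h
  · obtain ⟨M, ⟨hM, hTM⟩, huniq⟩ := hu
    set e := (MulAut.conj g).mapSubgroup with he
    have hsmul : ((g • T : Sylow p P) : Subgroup P) = e (T : Subgroup P) := rfl
    refine ⟨e M, ⟨(OrderIso.isCoatom_iff e M).2 hM, ?_⟩, fun N ⟨hN, hTN⟩ => ?_⟩
    · rw [hsmul]
      exact e.monotone hTM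
    · rw [← huniq (e.symm N) ⟨(OrderIso.isCoatom_iff e.symm N).2 hN, ?_⟩, OrderIso.apply_symm_apply]
      rw [hsmul] at hTN
      rw [← e.symm_apply_apply (T : Subgroup P)]
      exact e.symm.monotone hTN

variable (hP : Cfsg.IsPMinimal p P) (hOp : Cfsg.pCore p P = ⊥) (S : Sylow p P)
  {K : Subgroup P} (hK : Cfsg.IsComponent K) {M : Subgroup P} (hM : IsCoatom M)
  (hSM : (S : Subgroup P) ≤ M)

include hP hOp hK hM hSM

theorem component_not_le : ¬ K ≤ M := by
  intro hle
  have hKC := Wielandt.le_normalCore_of_isCoatom hM hK.1 hle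
  have hp' : ¬ p ∣ Nat.card M.normalCore := by
    obtain ⟨Q, hQ⟩ := SubnormalLib.exists_sylow_inf (Normal.isSubnormal
      (inferInstance : M.normalCore.Normal)) S
    intro hd
    have h1 := inf_le_pCore_of_normal hP S hM hSM (N := M.normalCore) M.normalCore_le
    rw [hOp, le_bot_iff] at h1
    have h2 : (Q : Subgroup M.normalCore) = ⊥ := by
      rw [hQ, subgroupOf_eq_bot, disjoint_iff, inf_comm]
      exact h1
    exact Q.ne_bot_of_dvd_card hd h2
  have hnil := isNilpotent_of_normal_pprime hP S hM hSM hp'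
  refine Components.quasisimple_not_solvable hK.2 ?_
  exact Group.isSolvable_of_isSolvable_injective (f := Subgroup.inclusion hKC)
    (Subgroup.inclusion_injective hKC)

/-- The join of the `S`-conjugates of `K`. -/
theorem closure_normal_and_le :
    (⨆ s : ↥(S : Subgroup P), K.map (MulAut.conj (s : P)).toMonoidHom).Normal ∧
    Cfsg.pResidual p P ≤ ⨆ s : ↥(S : Subgroup P), K.map (MulAut.conj (s : P)).toMonoidHom := by
  set L := ⨆ s : ↥(S : Subgroup P), K.map (MulAut.conj (s : P)).toMonoidHom with hL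
  have key : ∀ s ∈ (S : Subgroup P), L.map (MulAut.conj s).toMonoidHom ≤ L := by
    intro s hs
    rw [hL, Subgroup.map_iSup]
    refine iSup_le fun t => ?_
    rw [Subgroup.map_map]
    refine le_trans (le_of_eq ?_)
      (le_iSup (fun s : ↥(S : Subgroup P) => K.map (MulAut.conj (s : P)).toMonoidHom) ⟨s * t, mul_mem hs t.2⟩)
    congr 1
    ext x
    simp [mul_assoc]
  have hSL : (S : Subgroup P) ≤ normalizer (L : Set P) := fun s hs =>
    mem_normalizer_iff.2 fun x => ⟨fun hx => key s hs ⟨x, hx, rfl⟩, fun hx => by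
      have := key s⁻¹ (inv_mem hs) ⟨_, hx, rfl⟩
      simpa [mul_assoc] using this⟩
  have hKL : K ≤ L := by
    refine le_trans (le_of_eq ?_) (le_iSup _ (1 : ↥(S : Subgroup P)))
    ext x
    simp
  have hn : normalizer (L : Set P) = ⊤ := eq_top_of_not_le hP S hM hSM hSL fun h =>
    component_not_le hP hOp S hK hM hSM (hKL.trans (le_normalizer.trans h))
  have hLn : L.Normal := normalizer_eq_top_iff.1 hn
  refine ⟨hLn, ?_⟩
  rcases pResidual_le_or_le_core hP S hM hSM (N := L) with h | h
  · exact h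
  · exact absurd (hKL.trans (h.trans M.normalCore_le)) (component_not_le hP hOp S hK hM hSM)

omit hP hOp hK hM hSM in
theorem component_le_pResidual {C : Subgroup P} (hC : Cfsg.IsComponent C) :
    C ≤ Cfsg.pResidual p P := by
  set π := QuotientGroup.mk' (Cfsg.pResidual p P)
  have hq : IsPGroup p (P ⧸ Cfsg.pResidual p P) := Transfer.isPGroup_quotient_pResidual
  have := hq.isNilpotent
  have hperf : ⁅C.map π, C.map π⁆ = C.map π := by
    rw [← map_commutator, Components.quasisimple_commutator_self hC.2]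
  have := Components.eq_bot_of_perfect_solvable hperf
  rwa [Subgroup.map_eq_bot_iff, QuotientGroup.ker_mk'] at this

theorem structure_eq : Cfsg.pResidual p P = Cfsg.generalizedFittingSubgroup P ∧
    Cfsg.generalizedFittingSubgroup P = Cfsg.layer P ∧
    Cfsg.layer P = ⨆ s : ↥(S : Subgroup P), K.map (MulAut.conj (s : P)).toMonoidHom := by
  obtain ⟨-, hle⟩ := closure_normal_and_le hP hOp S hK hM hSM
  set L := ⨆ s : ↥(S : Subgroup P), K.map (MulAut.conj (s : P)).toMonoidHom with hL
  have h1 : L ≤ Cfsg.layer P := iSup_le fun s => le_sSup (Components.component_conj _ hK)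
  have h2 : Cfsg.layer P ≤ Cfsg.pResidual p P := sSup_le fun C hC => component_le_pResidual hC
  have e1 : Cfsg.layer P = L := le_antisymm (h2.trans hle) h1
  have e2 : Cfsg.pResidual p P = Cfsg.layer P := le_antisymm (hle.trans h1) h2
  have h3 : Cfsg.fittingSubgroup P ≤ Cfsg.layer P := by
    rw [Cores.fittingSubgroup_eq_iSup_pCore, ← e2]
    refine iSup_le fun q => ?_
    by_cases hq : (q : ℕ) = p
    · rw [hq, hOp]; exact bot_le
    · intro x hx
      refine Transfer.mem_pResidual_of_coprime ?_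
      have : Fact (q : ℕ).Prime := ⟨q.2⟩
      obtain ⟨k, hk⟩ := IsPGroup.iff_orderOf.1 (Cores.pCore_isPGroup (p := (q : ℕ)) (G := P)) ⟨x, hx⟩
      rw [Subgroup.orderOf_mk] at hk
      rw [hk]
      exact ((Nat.coprime_primes q.2 Fact.out).2 hq).pow_left k
  have e3 : Cfsg.generalizedFittingSubgroup P = Cfsg.layer P := sup_eq_left.2 h3
  exact ⟨e2.trans e3.symm, e3, e1⟩

theorem isPMinimal_component_normalizer :
    Cfsg.IsPMinimal p ↥(K ⊔ ((S : Subgroup P) ⊓ normalizer (K : Set P))) := by
  set SK := (S : Subgroup P) ⊓ normalizer (K : Set P) with hSK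
  set H := K ⊔ SK with hH
  have hKn : H ≤ normalizer (K : Set P) := sup_le le_normalizer inf_le_right
  -- `SK` is a Sylow subgroup of `H`
  have hinf : (S : Subgroup P) ⊓ K ≤ SK := inf_le_inf_left _ le_normalizer
  have hSKidx : ¬ p ∣ SK.relIndex H := by
    intro h
    have h1 := Modules.card_sup_mul_card_inf (B := SK) (V := K) inf_le_right
    have h2 := Modules.card_mul_relIndex_of_le (le_sup_right : SK ≤ H)
    have h3 := Modules.card_mul_relIndex_of_le (inf_le_right : (S : Subgroup P) ⊓ K ≤ K)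
    have e : SK ⊓ K = (S : Subgroup P) ⊓ K :=
      le_antisymm (inf_le_inf_right _ inf_le_left) (le_inf hinf inf_le_right)
    rw [sup_comm, ← hH, e, ← h2, ← h3] at h1
    have h4 : SK.relIndex H = ((S : Subgroup P) ⊓ K).relIndex K := by
      refine Nat.eq_of_mul_eq_mul_left (Nat.pos_of_ne_zero (Nat.mul_ne_zero
        (Nat.card_pos (α := ↥SK)).ne' (Nat.card_pos (α := ↥((S : Subgroup P) ⊓ K))).ne')) ?_
      linarith
    exact LocalEven.not_dvd_relIndex_sylow_inf_subnormal S hK.1 (h4 ▸ h)
  have hSKp : IsPGroup p ↥(SK.subgroupOf H) :=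
    (S.2.to_le inf_le_left).comap_of_injective H.subtype H.subtype_injective
  let T : Sylow p ↥H := hSKp.toSylow hSKidx
  have hT : (T : Subgroup ↥H) = SK.subgroupOf H := IsPGroup.toSylow_coe hSKp hSKidx
  have hKperf := Components.quasisimple_commutator_self hK.2
  -- proper subgroups of `H` containing `SK` lie in `M`
  have hkey : ∀ X : Subgroup P, SK ≤ X → X ≤ H → X ≠ H → X ≤ M := by
    intro X hSX hXH hne
    set Y := X ⊓ K with hY
    have hYne : ¬ K ≤ Y := fun h => hne (le_antisymm hXH (sup_le (h.trans inf_le_left) hSX))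
    set Ys := ⨆ s : ↥(S : Subgroup P), Y.map (MulAut.conj (s : P)).toMonoidHom with hYs
    have hSKY : SK ≤ normalizer (Y : Set P) := fun s hs =>
      inf_normalizer_le_normalizer_inf ⟨le_normalizer (hSX hs), hs.2⟩
    have hYs_le : Ys ≤ Y ⊔ centralizer (K : Set P) := by
      refine iSup_le fun s => ?_
      by_cases hsK : K = K.map (MulAut.conj (s : P)).toMonoidHom
      · refine le_sup_of_le_left ?_
        rintro _ ⟨y, hy, rfl⟩
        have hsN : (s : P) ∈ normalizer (K : Set P) := mem_normalizer_iff.2 fun x => by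
          constructor
          · intro hx
            rw [hsK]
            exact ⟨x, hx, rfl⟩
          · intro hx
            rw [hsK] at hx
            obtain ⟨x', hx', e⟩ := hx
            rwa [← (MulAut.conj (s : P)).injective e]
        exact (mem_normalizer_iff.1 (hSKY ⟨s.2, hsN⟩) y).1 hy
      · refine le_sup_of_le_right ((map_mono inf_le_right).trans ?_)
        rw [← commutator_eq_bot_iff_le_centralizer, commutator_comm]
        exact Components.component_commute hK (Components.component_conj _ hK) hsK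
    have hW : ¬ K ≤ Ys := by
      intro h
      refine hYne ?_
      have hcent : ∀ k ∈ K, ∃ y ∈ Y, y⁻¹ * k ∈ K ⊓ centralizer (K : Set P) := by
        intro k hk
        have hk' := h.trans hYs_le hk
        rw [← SetLike.mem_coe, coe_mul_of_left_le_normalizer_right _ _ (by
          exact (inf_le_right.trans le_normalizer).trans LocalEven.le_normalizer_centralizer)] at hk'
        obtain ⟨y, hy, c, hc, rfl⟩ := hk'
        exact ⟨y, hy, by
          have e : y⁻¹ * (y * c) = c := by group
          rw [e]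
          exact ⟨by simpa using K.mul_mem (K.inv_mem hy.2) hk, hc⟩⟩
      calc K = ⁅K, K⁆ := hKperf.symm
        _ ≤ Y := by
          rw [commutator_le]
          intro a ha b hb
          obtain ⟨y₁, hy₁, h₁⟩ := hcent a ha
          obtain ⟨y₂, hy₂, h₂⟩ := hcent b hb
          have c1 : ∀ k ∈ K, Commute k (y₁⁻¹ * a) := fun k hk => mem_centralizer_iff.1 h₁.2 k hk
          have c2 : ∀ k ∈ K, Commute k (y₂⁻¹ * b) := fun k hk => mem_centralizer_iff.1 h₂.2 k hk
          obtain ⟨u, hu, rfl⟩ : ∃ u, u = y₁⁻¹ * a ∧ a = y₁ * u := ⟨_, rfl, by group⟩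
          obtain ⟨v, hv, rfl⟩ : ∃ v, v = y₂⁻¹ * b ∧ b = y₂ * v := ⟨_, rfl, by group⟩
          rw [← hu] at c1 h₁
          rw [← hv] at c2 h₂
          have d1 := c1 (y₂ * v) hb
          have d2 := c2 y₁ hy₁.2
          have e : ⁅y₁ * u, y₂ * v⁆ = ⁅y₁, y₂⁆ := by
            calc ⁅y₁ * u, y₂ * v⁆ = y₁ * (u * (y₂ * v)) * u⁻¹ * y₁⁻¹ * (y₂ * v)⁻¹ := by
                  simp only [commutatorElement_def]; group
              _ = y₁ * y₂ * (v * y₁⁻¹) * v⁻¹ * y₂⁻¹ := by rw [← d1.eq]; group
              _ = ⁅y₁, y₂⁆ := by rw [← (d2.inv_left).eq, commutatorElement_def]; group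
          rw [e, commutatorElement_def]
          exact mul_mem (mul_mem (mul_mem hy₁ hy₂) (inv_mem hy₁)) (inv_mem hy₂)
    have key : ∀ s ∈ (S : Subgroup P), Ys.map (MulAut.conj s).toMonoidHom ≤ Ys := by
      intro s hs
      rw [hYs, Subgroup.map_iSup]
      refine iSup_le fun t => ?_
      rw [Subgroup.map_map]
      refine le_trans (le_of_eq ?_)
        (le_iSup (fun s : ↥(S : Subgroup P) => Y.map (MulAut.conj (s : P)).toMonoidHom) ⟨s * t, mul_mem hs t.2⟩)
      congr 1
      ext x
      simp [mul_assoc]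
    have hSYs : (S : Subgroup P) ≤ normalizer (Ys : Set P) := fun s hs =>
      mem_normalizer_iff.2 fun x => ⟨fun hx => key s hs ⟨x, hx, rfl⟩, fun hx => by
        have := key s⁻¹ (inv_mem hs) ⟨_, hx, rfl⟩
        simpa [mul_assoc] using this⟩
    have hne' : (S : Subgroup P) ⊔ Ys ≠ ⊤ := by
      intro h
      have hn : Ys.Normal :=
        normalizer_eq_top_iff.1 (top_le_iff.1 (h.symm.le.trans (sup_le hSYs le_normalizer)))
      refine hW ((component_le_pResidual (p := p) hK).trans ?_)
      refine Transfer.pResidual_le_of_isPGroup_quotient Ys ?_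
      refine S.2.of_surjective ((QuotientGroup.mk' Ys).comp (S : Subgroup P).subtype) ?_
      intro x
      obtain ⟨g, rfl⟩ := QuotientGroup.mk'_surjective Ys x
      obtain ⟨s, hs, n, hn', rfl⟩ := mem_sup_of_normal_right.1 (h.symm ▸ mem_top g)
      exact ⟨⟨s, hs⟩, by simp [(QuotientGroup.eq_one_iff n).2 hn']⟩
    have hYM : Y ≤ M := by
      refine le_trans ?_ (le_of_ne_top hP S hM hSM le_sup_left hne')
      refine le_trans (le_trans (le_of_eq ?_) (le_iSup _ (1 : ↥(S : Subgroup P)))) le_sup_right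
      ext x
      simp
    intro x hx
    have hx' := hXH hx
    rw [hH, sup_comm, ← SetLike.mem_coe, coe_mul_of_left_le_normalizer_right _ _ inf_le_right] at hx'
    obtain ⟨s, hs, k, hk, rfl⟩ := hx'
    have hkX : k ∈ X := by simpa using X.mul_mem (X.inv_mem (hSX hs)) hx
    exact mul_mem (hSM hs.1) (hYM ⟨hkX, hk⟩)
  have hM₀ : M.subgroupOf H ≠ ⊤ := by
    rw [Ne, subgroupOf_eq_top]
    exact fun h => component_not_le hP hOp S hK hM hSM (le_sup_left.trans h)
  have hall : ∀ X : Subgroup ↥H, SK.subgroupOf H ≤ X → X ≠ ⊤ → X ≤ M.subgroupOf H := by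
    intro X hX hne
    have h1 : SK ≤ X.map H.subtype := by
      rw [← map_subgroupOf_eq_of_le (le_sup_right : SK ≤ H)]
      exact map_mono hX
    have h2 : X.map H.subtype ≠ H := by
      intro he
      refine hne ?_
      rw [← map_subtype_inj, he, ← MonoidHom.range_eq_map, range_subtype]
    exact map_le_iff_le_comap.1 (hkey _ h1 (map_subtype_le _) h2)
  refine isPMinimal_of_sylow T ?_ ⟨M.subgroupOf H, ⟨⟨hM₀, fun X hX => ?_⟩, ?_⟩, ?_⟩
  · rw [hT]
    intro hn
    have hnorm := (normal_subgroupOf_iff_le_normalizer (le_sup_right : SK ≤ H)).1 hn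
    have hKn' : K ≤ normalizer (((S : Subgroup P) ⊓ K : Subgroup P) : Set P) := by
      intro k hk
      have e : SK ⊓ K = (S : Subgroup P) ⊓ K :=
        le_antisymm (inf_le_inf_right _ inf_le_left) (le_inf hinf inf_le_right)
      rw [← e]
      exact inf_normalizer_le_normalizer_inf ⟨hnorm ((le_sup_left : K ≤ H) hk), le_normalizer hk⟩
    have hsub : ((S : Subgroup P) ⊓ K).IsSubnormal :=
      IsSubnormal.trans inf_le_right
        (((normal_subgroupOf_iff_le_normalizer inf_le_right).2 hKn').isSubnormal) hK.1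
    have hbot : (S : Subgroup P) ⊓ K = ⊥ := by
      rw [eq_bot_iff, ← hOp]
      exact Cores.le_pCore_of_isSubnormal hsub (S.2.to_le inf_le_left)
    have hp' : ¬ p ∣ Nat.card K := by
      have := LocalEven.not_dvd_relIndex_sylow_inf_subnormal S hK.1
      rwa [hbot, relIndex_bot_left] at this
    have hKO : K ≤ Cfsg.pPrimeCore p P := Components.subnormal_le_pPrimeCore hK.1 (Cores.coprime_iff_not_dvd_prime Fact.out |>.2 hp')
    have hnil := isNilpotent_of_normal_pprime hP S hM hSM (N := Cfsg.pPrimeCore p P)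
      Cores.not_dvd_card_pPrimeCore
    exact Components.quasisimple_not_solvable hK.2
      (Group.isSolvable_of_isSolvable_injective (f := Subgroup.inclusion hKO)
        (Subgroup.inclusion_injective hKO))
  · by_contra hne
    refine hX.not_ge (hall X (le_trans ?_ hX.le) hne)
    exact comap_mono ((inf_le_left : SK ≤ _).trans hSM)
  · rw [hT]
    exact comap_mono ((inf_le_left : SK ≤ _).trans hSM)
  · intro N hN
    obtain ⟨hN1, hN2⟩ := hN
    rw [hT] at hN2
    exact ((le_iff_eq_or_lt.1 (hall N hN2 hN1.1)).resolve_right fun h => hM₀ (hN1.2 _ h))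

end Cfsg.Agent.LocalEven.PMin
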