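import Cfsg.Agent.LocalEven.JNormalizer

/-!
`W_K` is a four-group: failure of factorization on the module `W_K`.
-/

set_option autoImplicit false

open Cfsg
open scoped commutatorElement

namespace Cfsg.Agent.LocalEven

variable {G : Type*} [Group G] [Finite G] {T K : Subgroup G}

/-- The elements of `N(K)` centralizing `K / O₂(K)`. -/
def centOnQuot (K : Subgroup G) : Subgroup G where
  carrier := {g | g ∈ Subgroup.normalizer (K : Set G) ∧
    ∀ k ∈ K, g * k * g⁻¹ * k⁻¹ ∈ pCoreOf 2 K}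
  one_mem' := ⟨one_mem _, fun k _ => by simp⟩
  mul_mem' := by
    rintro g h ⟨hg, hg'⟩ ⟨hh, hh'⟩
    refine ⟨mul_mem hg hh, fun k hk => ?_⟩
    have e : g * h * k * (g * h)⁻¹ * k⁻¹ = g * (h * k * h⁻¹ * k⁻¹) * g⁻¹ * (g * k * g⁻¹ * k⁻¹) := by
      group
    rw [e]
    exact mul_mem ((Subgroup.mem_normalizer_iff.1
      (LocalP.normalizer_le_normalizer_pCoreOf K hg) _).1 (hh' k hk)) (hg' k hk)
  inv_mem' := by
    rintro g ⟨hg, hg'⟩
    refine ⟨inv_mem hg, fun k hk => ?_⟩
    have e : g⁻¹ * k * g⁻¹⁻¹ * k⁻¹ = g⁻¹ * (g * k * g⁻¹ * k⁻¹)⁻¹ * g⁻¹⁻¹ := by group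
    rw [e]
    exact (Subgroup.mem_normalizer_iff.1
      (LocalP.normalizer_le_normalizer_pCoreOf K (inv_mem hg)) _).1 (inv_mem (hg' k hk))

/-- The three cosets of `O₂(K)` in `K`. -/
theorem coset_cases (h3 : (pCoreOf 2 K).relIndex K = 3) {x : G} (hx : x ∈ K)
    (hxQ : x ∉ pCoreOf 2 K) {y : G} (hy : y ∈ K) :
    y ∈ pCoreOf 2 K ∨ y * x⁻¹ ∈ pCoreOf 2 K ∨ y * x ∈ pCoreOf 2 K := by
  have hmem : y ∈ pCoreOf 2 K ⊔ Subgroup.zpowers x := (sup_zpowers_eq h3 hx hxQ).ge hy
  rw [← SetLike.mem_coe, Subgroup.coe_mul_of_right_le_normalizer_left (pCoreOf 2 K)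
    (Subgroup.zpowers x) ((Subgroup.zpowers_le.2 hx).trans (le_normalizer_pCoreOf K 2))] at hmem
  obtain ⟨q, hq, r, ⟨i, rfl⟩, rfl⟩ := Set.mem_mul.1 hmem
  have h3' := pow_three_mem_pCoreOf h3 hx
  have hcube : ∀ j : ℤ, x ^ (3 * j) ∈ pCoreOf 2 K := fun j => by
    rw [zpow_mul]; exact zpow_mem (by exact_mod_cast h3') j
  obtain hc | hc | hc : i % 3 = 0 ∨ i % 3 = 1 ∨ i % 3 = 2 := by omega
  · left
    have e : q * x ^ i = q * x ^ (3 * (i / 3)) := by
      congr 2; omega
    rw [show (fun z => x ^ z) i = x ^ i from rfl, e]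
    exact mul_mem hq (hcube _)
  · right; left
    have e : q * x ^ i * x⁻¹ = q * x ^ (3 * (i / 3)) := by
      rw [mul_assoc, ← zpow_sub_one]; congr 2; omega
    rw [show (fun z => x ^ z) i = x ^ i from rfl, e]
    exact mul_mem hq (hcube _)
  · right; right
    have e : q * x ^ i * x = q * x ^ (3 * (i / 3 + 1)) := by
      rw [mul_assoc, ← zpow_add_one]; congr 2; omega
    rw [show (fun z => x ^ z) i = x ^ i from rfl, e]
    exact mul_mem hq (hcube _)

theorem mem_centOnQuot (h3 : (pCoreOf 2 K).relIndex K = 3) {x : G} (hx : x ∈ K)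
    (hxQ : x ∉ pCoreOf 2 K) {g : G} (hg : g ∈ Subgroup.normalizer (K : Set G))
    (h : g * x * g⁻¹ * x⁻¹ ∈ pCoreOf 2 K) : g ∈ centOnQuot K := by
  refine ⟨hg, fun k hk => ?_⟩
  have hgQ := LocalP.normalizer_le_normalizer_pCoreOf (p := 2) K hg
  have hQn := le_normalizer_pCoreOf K 2
  have conjQ : ∀ q ∈ pCoreOf 2 K, g * q * g⁻¹ ∈ pCoreOf 2 K := fun q hq =>
    (Subgroup.mem_normalizer_iff.1 hgQ q).1 hq
  have h3' := pow_three_mem_pCoreOf h3 hx
  rcases coset_cases h3 hx hxQ hk with hq | hq | hq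
  · exact mul_mem (conjQ k hq) (inv_mem hq)
  · set q := k * x⁻¹ with hqdef
    have e : g * k * g⁻¹ * k⁻¹ = (g * q * g⁻¹) * (g * x * g⁻¹ * x⁻¹) * q⁻¹ := by
      rw [hqdef]; group
    rw [e]
    exact mul_mem (mul_mem (conjQ q hq) h) (inv_mem hq)
  · set q := k * x with hqdef
    have h' : x⁻¹ * (g * x * g⁻¹ * x⁻¹)⁻¹ * x ∈ pCoreOf 2 K := by
      simpa using (Subgroup.mem_normalizer_iff.1 (hQn (inv_mem hx)) _).1 (inv_mem h)
    have e : g * k * g⁻¹ * k⁻¹ = (g * q * g⁻¹) * (x⁻¹ * (x * (g * x * g⁻¹)⁻¹) * x) * q⁻¹ := by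
      rw [hqdef]; group
    rw [e]
    refine mul_mem (mul_mem (conjQ q hq) ?_) (inv_mem hq)
    convert h' using 1
    group

/-- `W_K` has order four. -/
theorem wOf_card_eq_four (hKJ : ⁅K, thompsonSubgroupOf 2 T⁆ = K)
    (h3 : (pCoreOf 2 K).relIndex K = 3) (hT : IsPGroup 2 T)
    (hS : ∀ S : Subgroup G, IsSylowTwoIn S (K ⊔ thompsonSubgroupOf 2 T) →
      thompsonSubgroupOf 2 T ≤ S → thompsonSubgroupOf 2 S = thompsonSubgroupOf 2 T)
    (hne : wOf K ≠ ⊥) : Nat.card ↥(wOf K) = 4 := by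
  classical
  haveI : Fact (Nat.Prime 2) := ⟨Nat.prime_two⟩
  set J := thompsonSubgroupOf 2 T with hJdef
  set W := wOf K with hWdef
  set Q := pCoreOf 2 K with hQdef
  have hJ2 : IsPGroup 2 J := thompsonOf_isPGroup hT
  have hJK : J ≤ Subgroup.normalizer (K : Set G) := le_normalizer_of_commutator_le hKJ.le
  have hJW : J ≤ Subgroup.normalizer (W : Set G) := hJK.trans (normalizer_le_normalizer_wOf K)
  have hJQ : J ≤ Subgroup.normalizer (Q : Set G) :=
    hJK.trans (LocalP.normalizer_le_normalizer_pCoreOf K)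
  have hWsq : ∀ w ∈ W, w * w = 1 := fun w hw => by
    simpa [pow_two] using (wOf_elemAb K).2 w hw
  have hWc : ∀ u ∈ W, ∀ v ∈ W, u * v = v * u := fun u hu v hv =>
    Modules.elemAb_comm (wOf_elemAb K) hu hv
  obtain ⟨S, hSyl, hUS⟩ := exists_isSylowTwoIn
    (hJ2.to_sup_of_normal_right' (LocalP.pCoreOf_isPGroup K) hJQ)
    (sup_le le_sup_right ((LocalP.pCoreOf_le K).trans le_sup_left) : J ⊔ Q ≤ K ⊔ J)
  have hJS : J ≤ S := le_sup_left.trans hUS
  have hJS' := hS S hSyl hJS
  obtain ⟨x, hx, hxQ⟩ := exists_not_mem_pCoreOf h3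
  -- an element inverting `K / O₂(K)`
  obtain ⟨A, hA, a, haA, ha⟩ : ∃ A ∈ Modules.maxElemAbIn 2 T, ∃ a ∈ A, a ∉ centOnQuot K := by
    by_contra hcon
    push Not at hcon
    have hJC : J ≤ centOnQuot K := by
      rw [hJdef, Modules.thompsonSubgroupOf_eq_sSup]
      exact sSup_le fun A hA a ha => hcon A hA a ha
    have : ⁅K, J⁆ ≤ Q := by
      rw [Subgroup.commutator_le]
      intro k hk j hj
      have e : ⁅k, j⁆ = (j * k * j⁻¹ * k⁻¹)⁻¹ := by rw [commutatorElement_def]; group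
      rw [e]; exact inv_mem ((hJC hj).2 k hk)
    exact hxQ (this (hKJ.symm ▸ hx))
  have hAJ : A ≤ J := Modules.le_thompsonSubgroupOf hA
  have haN := hJK (hAJ haA)
  have haK : a * x * a⁻¹ ∈ K := (Subgroup.mem_normalizer_iff.1 haN x).1 hx
  have hax : a * x * a⁻¹ * x ∈ Q := by
    rcases coset_cases h3 hx hxQ haK with h | h | h
    · have h' := (Subgroup.mem_normalizer_iff.1 ((Subgroup.normalizer (Q : Set G)).inv_mem
        (hJQ (hAJ haA))) _).1 h
      have e : a⁻¹ * (a * x * a⁻¹) * a⁻¹⁻¹ = x := by group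
      rw [e] at h'
      exact absurd h' hxQ
    · exact absurd (mem_centOnQuot h3 hx hxQ haN h) ha
    · exact h
  have hWn : ∀ g, g ∈ Subgroup.normalizer (W : Set G) → ∀ w ∈ W, g * w * g⁻¹ ∈ W :=
    fun g hg w hw => (Subgroup.mem_normalizer_iff.1 hg w).1 hw
  have hxW := le_normalizer_wOf K hx
  have haW := hJW (hAJ haA)
  -- the relations on `W`
  have hinv : ∀ w ∈ W, a * (x * w * x⁻¹) * a⁻¹ = x⁻¹ * (a * w * a⁻¹) * x := by
    intro w hw
    have hm : x⁻¹ * (a * w * a⁻¹) * x ∈ W := by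
      simpa using hWn x⁻¹ (inv_mem hxW) _ (hWn a haW w hw)
    conv_rhs => rw [← commute_wOf hax hm]
    group
  have hcom : ∀ b ∈ centOnQuot K, ∀ w ∈ W,
      b * (x * w * x⁻¹) * b⁻¹ = x * (b * w * b⁻¹) * x⁻¹ := by
    intro b hb w hw
    have hm : x * (b * w * b⁻¹) * x⁻¹ ∈ W :=
      hWn x hxW _ (hWn b (normalizer_le_normalizer_wOf K hb.1) w hw)
    conv_rhs => rw [← commute_wOf (hb.2 x hx) hm]
    group
  -- `A = B ∪ aB`
  set B := A ⊓ centOnQuot K with hBdef
  have hcase : ∀ b ∈ A, b ∈ B ∨ a * b ∈ B := by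
    intro b hb
    have hbN := hJK (hAJ hb)
    have hbx : b * x * b⁻¹ ∈ K := (Subgroup.mem_normalizer_iff.1 hbN x).1 hx
    rcases coset_cases h3 hx hxQ hbx with h | h | h
    · have h' := (Subgroup.mem_normalizer_iff.1 ((Subgroup.normalizer (Q : Set G)).inv_mem
        (hJQ (hAJ hb))) _).1 h
      have e : b⁻¹ * (b * x * b⁻¹) * b⁻¹⁻¹ = x := by group
      rw [e] at h'
      exact absurd h' hxQ
    · exact Or.inl ⟨hb, mem_centOnQuot h3 hx hxQ hbN h⟩
    · refine Or.inr ⟨mul_mem haA hb, mem_centOnQuot h3 hx hxQ (mul_mem haN hbN) ?_⟩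
      have h1 := (Subgroup.mem_normalizer_iff.1 (hJQ (hAJ haA)) _).1 h
      have h2 := inv_mem hax
      have h2' := (Subgroup.mem_normalizer_iff.1 (le_normalizer_pCoreOf K 2 hx) _).1 h2
      have e : a * b * x * (a * b)⁻¹ * x⁻¹ =
          a * (b * x * b⁻¹ * x) * a⁻¹ * (x * (a * x * a⁻¹ * x)⁻¹ * x⁻¹) := by group
      rw [e]
      exact mul_mem h1 h2'
  have hBA : B ≤ A := inf_le_left
  have haa : a * a = 1 := by simpa [pow_two] using hA.2.1.2 a haA
  have hcardA : ∀ D : Subgroup G, D ≤ A → Nat.card D ≤ 2 * Nat.card ↥(D ⊓ B : Subgroup G) ∨ a ∉ D := by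
    intro D hD
    by_cases haD : a ∈ D
    · left
      have hsub : (D : Set G) ⊆ ((D ⊓ B : Subgroup G) : Set G) ∪
          (fun z => a * z) '' ((D ⊓ B : Subgroup G) : Set G) := by
        intro b hb
        rcases hcase b (hD hb) with h | h
        · exact Or.inl ⟨hb, h⟩
        · exact Or.inr ⟨a * b, ⟨mul_mem haD hb, h⟩, by simp [← mul_assoc, haa]⟩
      have e : ∀ H : Subgroup G, (H : Set G).ncard = Nat.card H := fun H =>
        (Nat.card_coe_set_eq _).symm
      calc Nat.card D = (D : Set G).ncard := (e D).symm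
        _ ≤ _ := Set.ncard_le_ncard hsub
        _ ≤ _ := Set.ncard_union_le _ _
        _ ≤ ((D ⊓ B : Subgroup G) : Set G).ncard + ((D ⊓ B : Subgroup G) : Set G).ncard :=
          Nat.add_le_add_left (Set.ncard_image_le) _
        _ = _ := by rw [e, two_mul]
    · exact Or.inr haD
  -- squaring: an invariant subgroup is the square of its `a`-fixed points
  set W₀ := W ⊓ Subgroup.centralizer {a} with hW₀def
  have hW₀W : W₀ ≤ W := inf_le_left
  have hfa : ∀ u, u ∈ W₀ ↔ u ∈ W ∧ a * u * a⁻¹ = u := fun u => by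
    rw [hW₀def, Subgroup.mem_inf, Subgroup.mem_centralizer_singleton_iff, mul_inv_eq_iff_eq_mul,
      eq_comm (a := a * u)]
  have hsum : ∀ v ∈ W, v * (x * v * x⁻¹) * (x * (x * v * x⁻¹) * x⁻¹) = 1 := by
    intro v hv
    have h1 := hWn x hxW v hv
    have h2 := hWn x hxW _ h1
    have h3v : x * (x * (x * v * x⁻¹) * x⁻¹) * x⁻¹ = v := by
      have h := commute_wOf (pow_three_mem_pCoreOf h3 hx) hv
      conv_rhs => rw [← h]
      rw [pow_three x]; group
    refine wOf_fixed_eq_one h3 hx hxQ (mul_mem (mul_mem hv h1) h2) ?_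
    rw [conj_mul_conj, conj_mul_conj, h3v, hWc _ (mul_mem h1 h2) v hv, ← mul_assoc]
  have hsquare : ∀ U : Subgroup G, U ≤ W → (∀ u ∈ U, x * u * x⁻¹ ∈ U) →
      (∀ u ∈ U, a * u * a⁻¹ ∈ U) →
      Nat.card U = Nat.card ↥(U ⊓ W₀ : Subgroup G) * Nat.card ↥(U ⊓ W₀ : Subgroup G) := by
    intro U hUW hUx hUa
    set U₀ := U ⊓ W₀ with hU₀
    rw [← Nat.card_prod]
    let Φ : ↥U₀ × ↥U₀ → ↥U := fun p =>
      ⟨(p.1 : G) * (x * (p.2 : G) * x⁻¹), mul_mem p.1.2.1 (hUx _ p.2.2.1)⟩
    refine (Nat.card_congr (Equiv.ofBijective Φ ⟨?_, ?_⟩)).symm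
    · rintro ⟨⟨u, hu⟩, ⟨v, hv⟩⟩ ⟨⟨u', hu'⟩, ⟨v', hv'⟩⟩ he
      have he' : u * (x * v * x⁻¹) = u' * (x * v' * x⁻¹) := congrArg Subtype.val he
      set d := v * v'⁻¹ with hd
      have hdU : d ∈ U₀ := mul_mem hv (inv_mem hv')
      have hxd : x * d * x⁻¹ = u⁻¹ * u' := by
        have h1 : x * d * x⁻¹ = u⁻¹ * (u * (x * v * x⁻¹)) * (x * v' * x⁻¹)⁻¹ := by rw [hd]; group
        rw [h1, he']; group
      have hW0 : x * d * x⁻¹ ∈ W₀ := hxd ▸ mul_mem (inv_mem hu.2) hu'.2
      have hfix := ((hfa _).1 hW0).2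
      rw [hinv d (hUW hdU.1), ((hfa d).1 hdU.2).2] at hfix
      have hx2 : x * (x * d * x⁻¹) * x⁻¹ = d := by
        conv_lhs => rw [← hfix]
        group
      have hd1 : d = 1 := by
        refine wOf_fixed_eq_one h3 (mul_mem hx hx) ?_ (hUW hdU.1) (by
          conv_rhs => rw [← hx2]
          group)
        intro h
        apply hxQ
        have e : x = (x * x)⁻¹ * x ^ 3 := by rw [pow_three x]; group
        rw [e]; exact mul_mem (inv_mem h) (pow_three_mem_pCoreOf h3 hx)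
      have hvv : v = v' := mul_inv_eq_one.1 hd1
      subst hvv
      have := mul_right_cancel he'
      subst this
      rfl
    · rintro ⟨w, hw⟩
      have haw := hUa w hw
      set v := w * (a * w * a⁻¹) with hv
      have hvU : v ∈ U := mul_mem hw haw
      have hav : a * v * a⁻¹ = v := by
        have e : a * (a * w * a⁻¹) * a⁻¹ = w := by
          calc a * (a * w * a⁻¹) * a⁻¹ = (a * a) * w * (a * a)⁻¹ := by group
            _ = w := by rw [haa]; group
        rw [hv, conj_mul_conj, e, hWc _ (hUW haw) w (hUW hw)]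
      have hv₀ : v ∈ U₀ := ⟨hvU, (hfa v).2 ⟨hUW hvU, hav⟩⟩
      set u := w * (x * v * x⁻¹) with hu
      have huU : u ∈ U := mul_mem hw (hUx v hvU)
      have hau : a * u * a⁻¹ = u := by
        rw [hu, conj_mul_conj, hinv v (hUW hvU), hav]
        -- `x⁻¹ v x = v (x v x⁻¹)`
        have h1 := hsum v (hUW hvU)
        have hxv2 : x⁻¹ * v * x = x * (x * v * x⁻¹) * x⁻¹ := by
          have h := commute_wOf (pow_three_mem_pCoreOf h3 hx) (hUW hvU)
          conv_lhs => rw [← h]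
          rw [pow_three x]; group
        have h2 : x * (x * v * x⁻¹) * x⁻¹ = v * (x * v * x⁻¹) := by
          rw [eq_inv_of_mul_eq_one_right h1]
          exact inv_eq_of_mul_eq_one_right (hWsq _ (mul_mem (hUW hvU) (hWn x hxW v (hUW hvU))))
        rw [hxv2, h2]
        have h3' : a * w * a⁻¹ * v = w := by
          rw [hv, ← mul_assoc, hWc _ (hUW haw) w (hUW hw), mul_assoc, hWsq _ (hUW haw), mul_one]
        rw [← mul_assoc, h3']
      refine ⟨(⟨u, huU, (hfa u).2 ⟨hUW huU, hau⟩⟩, ⟨v, hv₀⟩), Subtype.ext ?_⟩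
      change u * (x * v * x⁻¹) = w
      rw [hu, mul_assoc, hWsq _ (hUW (hUx v hvU)), mul_one]
  -- `a` and `B` generate `A`
  have hAW₀ : ∀ b ∈ A, ∀ u ∈ W₀, b * u * b⁻¹ ∈ W₀ := by
    intro b hb u hu
    refine (hfa _).2 ⟨hWn b (hJW (hAJ hb)) u (hW₀W hu), ?_⟩
    have hab := Modules.elemAb_comm hA.2.1 haA hb
    calc a * (b * u * b⁻¹) * a⁻¹ = (a * b) * u * (a * b)⁻¹ := by group
      _ = (b * a) * u * (b * a)⁻¹ := by rw [hab]
      _ = b * (a * u * a⁻¹) * b⁻¹ := by group
      _ = b * u * b⁻¹ := by rw [((hfa u).1 hu).2]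
  have hA_le : ∀ D : Subgroup G, D ≤ A → a ∈ D →
      W ⊓ Subgroup.centralizer (D : Set G) =
        W₀ ⊓ (W ⊓ Subgroup.centralizer ((D ⊓ B : Subgroup G) : Set G)) := by
    intro D hD haD
    refine le_antisymm ?_ ?_
    · intro u hu
      refine ⟨⟨hu.1, Subgroup.mem_centralizer_singleton_iff.2 ?_⟩, hu.1,
        Subgroup.centralizer_le (SetLike.coe_subset_coe.2 inf_le_left) hu.2⟩
      exact (Subgroup.mem_centralizer_iff.1 hu.2 a haD).symm
    · rintro u ⟨hu0, huW, huB⟩
      refine ⟨huW, Subgroup.mem_centralizer_iff.2 fun b hb => ?_⟩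
      have hua : a * u = u * a := mul_inv_eq_iff_eq_mul.1 ((hfa u).1 hu0).2
      rcases hcase b (hD hb) with h | h
      · exact Subgroup.mem_centralizer_iff.1 huB b ⟨hb, h⟩
      · have h2 : a * b * u = u * (a * b) :=
          Subgroup.mem_centralizer_iff.1 huB (a * b) ⟨mul_mem haD hb, h⟩
        have e : b = a * (a * b) := by rw [← mul_assoc, haa, one_mul]
        rw [e, mul_assoc, h2, ← mul_assoc, hua, mul_assoc]
  have hWinv : ∀ D : Subgroup G, D ≤ A → (∀ u ∈ W ⊓ Subgroup.centralizer ((D ⊓ B : Subgroup G) : Set G),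
      x * u * x⁻¹ ∈ W ⊓ Subgroup.centralizer ((D ⊓ B : Subgroup G) : Set G)) ∧
      (∀ u ∈ W ⊓ Subgroup.centralizer ((D ⊓ B : Subgroup G) : Set G),
      a * u * a⁻¹ ∈ W ⊓ Subgroup.centralizer ((D ⊓ B : Subgroup G) : Set G)) := by
    refine fun D hD => ⟨fun u hu => ⟨hWn x hxW u hu.1, Subgroup.mem_centralizer_iff.2 fun b hb => ?_⟩,
      fun u hu => ⟨hWn a haW u hu.1, Subgroup.mem_centralizer_iff.2 fun b hb => ?_⟩⟩
    · refine mul_inv_eq_iff_eq_mul.1 ?_
      rw [hcom b hb.2.2 u hu.1]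
      rw [show b * u * b⁻¹ = u from mul_inv_eq_iff_eq_mul.2
        (Subgroup.mem_centralizer_iff.1 hu.2 b hb)]
    · have hab := Modules.elemAb_comm hA.2.1 haA (hD hb.1)
      have hub := Subgroup.mem_centralizer_iff.1 hu.2 b hb
      calc b * (a * u * a⁻¹) = (b * a) * u * a⁻¹ := by group
        _ = (a * b) * u * a⁻¹ := by rw [hab]
        _ = a * (b * u) * a⁻¹ := by group
        _ = a * (u * b) * a⁻¹ := by rw [hub]
        _ = a * u * a⁻¹ * (a * b * a⁻¹) := by group
        _ = _ := by rw [hab, mul_inv_cancel_right]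
  have hsqC : ∀ D : Subgroup G, D ≤ A → a ∈ D →
      Nat.card ↥(W ⊓ Subgroup.centralizer ((D ⊓ B : Subgroup G) : Set G)) =
        Nat.card ↥(W ⊓ Subgroup.centralizer (D : Set G)) *
          Nat.card ↥(W ⊓ Subgroup.centralizer (D : Set G)) := by
    intro D hD haD
    rw [hsquare _ inf_le_left (hWinv D hD).1 (hWinv D hD).2, hA_le D hD haD, inf_comm W₀]
  -- maximality
  have hWS : W ≤ S := (wOf_le_pCoreOf K).trans (le_sup_right.trans hUS)
  have hAS : A ∈ Modules.maxElemAbIn 2 S := by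
    refine ⟨hAJ.trans hJS, hA.2.1, fun D hD hDe => ?_⟩
    obtain ⟨A', hA'⟩ := Modules.maxElemAbIn_nonempty 2 S
    exact (hA'.2.2 D hD hDe).trans
      (hA.2.2 A' ((Modules.le_thompsonSubgroupOf hA').trans (hJS'.le.trans (thompsonOf_le T)))
        hA'.2.1)
  have hmax := Modules.maxElemAbIn_weight_max hAS (wOf_elemAb K) hWS
  set F := W ⊓ Subgroup.centralizer (A : Set G) with hFdef
  have hAcard : Nat.card A ≤ 2 * Nat.card B := by
    rcases hcardA A le_rfl with h | h
    · rwa [inf_eq_right.2 hBA] at h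
    · exact absurd haA h
  have hF2 : Nat.card F ≤ 2 := by
    have h := hmax B hBA
    have h2 := hsqC A le_rfl haA
    rw [inf_eq_right.2 hBA] at h2
    simp only [Modules.offenderWeight] at h
    rw [h2] at h
    have h3' : Nat.card B * (Nat.card F * Nat.card F) ≤ (2 * Nat.card B) * Nat.card F :=
      h.trans (Nat.mul_le_mul_right _ hAcard)
    have hB0 : 0 < Nat.card B := Nat.card_pos
    have hF0 : 0 < Nat.card F := Nat.card_pos
    nlinarith [Nat.mul_pos hB0 hF0]
  -- replacement at `W₀`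
  have hAW : A ≤ Subgroup.normalizer (W : Set G) := hAJ.trans hJW
  have hcommA : ⁅A, A⁆ ≤ Subgroup.centralizer (W : Set G) := by
    rw [Subgroup.commutator_eq_bot_iff_le_centralizer.2 (Modules.elemAb_le_centralizer hA.2.1)]
    exact bot_le
  obtain ⟨hrep, hweight⟩ :=
    Modules.timmesfeld_replacement (wOf_elemAb K).1 hAW hcommA hmax (U := W₀) hW₀W
  set R := ⁅W₀, A⁆ with hRdef
  set A' := A ⊓ Subgroup.centralizer (R : Set G) with hA'def
  have hRW₀ : R ≤ W₀ := by
    rw [hRdef, Subgroup.commutator_le]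
    intro u hu b hb
    rw [commutatorElement_def, mul_assoc u b, mul_assoc u]
    exact mul_mem hu (hAW₀ b hb _ (inv_mem hu))
  have haA' : a ∈ A' := ⟨haA, Subgroup.mem_centralizer_iff.2 fun r hr => by
    exact (mul_inv_eq_iff_eq_mul.1 ((hfa r).1 (hRW₀ hr)).2).symm⟩
  have hR2 : Nat.card R ≤ 2 := by
    have hle : R ≤ W ⊓ Subgroup.centralizer (A' : Set G) := hrep ▸ le_sup_left
    refine (Subgroup.card_le_of_le hle).trans ?_
    have h := hmax (A' ⊓ B) (inf_le_left.trans inf_le_left)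
    simp only [Modules.offenderWeight] at h hweight
    rw [hsqC A' inf_le_left haA'] at h
    have hc : Nat.card A' ≤ 2 * Nat.card ↥(A' ⊓ B : Subgroup G) := by
      rcases hcardA A' inf_le_left with h' | h'
      · exact h'
      · exact absurd haA' h'
    set m := Nat.card ↥(W ⊓ Subgroup.centralizer (A' : Set G))
    have h0 : 0 < Nat.card ↥(A' ⊓ B : Subgroup G) := Nat.card_pos
    have hm0 : 0 < m := Nat.card_pos
    have h' : Nat.card ↥(A' ⊓ B : Subgroup G) * (m * m) ≤
        (2 * Nat.card ↥(A' ⊓ B : Subgroup G)) * m := by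
      refine h.trans ?_
      refine le_trans ?_ (Nat.mul_le_mul_right m hc)
      simp only [m]
      first
        | exact hweight
        | exact hweight.le
        | exact hweight.ge
    nlinarith [Nat.mul_pos h0 hm0]
  -- `F` is nontrivial, and `[W₀, A] ≤ F`
  have hW₀ne : W₀ ≠ ⊥ := by
    intro h
    have h1 := hsquare W le_rfl (fun u hu => hWn x hxW u hu) (fun u hu => hWn a haW u hu)
    rw [inf_eq_right.2 hW₀W, h, Subgroup.card_bot, one_mul] at h1
    exact hne (Subgroup.card_eq_one.1 h1)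
  have hW₀2 : IsPGroup 2 W₀ := (Modules.elemAb_isPGroup (wOf_elemAb K)).to_le hW₀W
  have hAW₀n : A ≤ Subgroup.normalizer (W₀ : Set G) := by
    intro b hb
    rw [Subgroup.mem_normalizer_iff_map_conj_eq]
    refine Subgroup.eq_of_le_of_card_ge ?_
      (Subgroup.card_map_of_injective (f := (MulAut.conj b).toMonoidHom)
        (MulAut.conj b).injective).ge
    rintro _ ⟨u, hu, rfl⟩
    exact hAW₀ b hb u hu
  have hRF : R ≤ F := by
    intro r hr
    refine ⟨hW₀W (hRW₀ hr), Subgroup.mem_centralizer_iff.2 fun b hb => ?_⟩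
    by_cases hr1 : r = 1
    · rw [hr1]; simp
    -- `R` has order at most two and is invariant under `A`
    have hRn : b * r * b⁻¹ ∈ R := (Subgroup.mem_normalizer_iff.1
      (Modules.normalizes_commutator hAW₀n hb) r).1 hr
    have hset : (R : Set G) = {1, r} := (Set.eq_of_subset_of_ncard_le (s := ({1, r} : Set G))
      (by rintro z (rfl | rfl); exacts [one_mem _, hr]) (by
        rw [← Nat.card_coe_set_eq, Set.ncard_pair (Ne.symm hr1)]; exact hR2)).symm
    rw [← SetLike.mem_coe, hset] at hRn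
    rcases hRn with h | h
    · exact absurd (conj_eq_one_iff.1 h) hr1
    · exact mul_inv_eq_iff_eq_mul.1 h
  have hFne : F ≠ ⊥ := by
    have h := Modules.inf_centralizer_ne_bot_of_isPGroup (p := 2) hW₀2 hW₀ne hAW₀n (fun b hb => by
      obtain ⟨k, hk⟩ := two_pow_pow_eq_one hT (thompsonOf_le T (hAJ hb))
      exact ⟨k, by rw [hk]; exact one_mem _⟩)
    exact ne_bot_of_le_ne_bot h (inf_le_inf_right _ hW₀W)
  have hFW₀ : F ≤ W₀ := fun u hu => (hfa u).2 ⟨hu.1,
    mul_inv_eq_iff_eq_mul.2 (Subgroup.mem_centralizer_iff.1 hu.2 a haA)⟩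
  have hFcard : Nat.card F = 2 := by
    haveI : Nontrivial F := (Subgroup.nontrivial_iff_ne_bot F).2 hFne
    have := Finite.one_lt_card (α := F)
    omega
  -- `|B : C_B(W₀)| ≤ |W₀| / 2`
  have hbound : ∀ s : Finset G, (∀ u ∈ s, u ∈ W₀) →
      Nat.card B * 2 ≤ Nat.card ↥(B ⊓ Subgroup.centralizer (s : Set G)) *
        Nat.card ↥(F ⊔ Subgroup.closure (s : Set G)) := by
    intro s
    induction s using Finset.induction_on with
    | empty =>
      intro _
      rw [Finset.coe_empty, Subgroup.closure_empty, sup_bot_eq, hFcard]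
      refine Nat.mul_le_mul_right 2 (Subgroup.card_le_of_le (le_inf le_rfl ?_))
      intro b _
      rw [Subgroup.mem_centralizer_iff]
      simp
    | insert v t hvt ih =>
      intro hst
      have hv : v ∈ W₀ := hst v (Finset.mem_insert_self v t)
      have ih' := ih fun u hu => hst u (Finset.mem_insert_of_mem hu)
      set C₁ := B ⊓ Subgroup.centralizer (t : Set G) with hC₁
      set U₁ := F ⊔ Subgroup.closure (t : Set G) with hU₁
      rw [Finset.coe_insert]
      set C₂ := B ⊓ Subgroup.centralizer (insert v (t : Set G)) with hC₂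
      set U₂ := F ⊔ Subgroup.closure (insert v (t : Set G)) with hU₂
      have hU12 : U₁ ≤ U₂ := sup_le le_sup_left
        ((Subgroup.closure_mono (Set.subset_insert _ _)).trans le_sup_right)
      have hC2mem : ∀ b ∈ C₁, b * v * b⁻¹ = v → b ∈ C₂ := fun b hb hbv => ⟨hb.1, by
        refine Subgroup.mem_centralizer_iff.2 ?_
        rintro u (rfl | hu)
        · exact (mul_inv_eq_iff_eq_mul.1 hbv).symm
        · exact Subgroup.mem_centralizer_iff.1 hb.2 u hu⟩
      have hC1U : ∀ b ∈ C₁, ∀ u ∈ U₁, b * u * b⁻¹ = u := by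
        intro b hb u hu
        have hle : U₁ ≤ Subgroup.centralizer {b} := sup_le
          (fun f hf => Subgroup.mem_centralizer_singleton_iff.2
            (Subgroup.mem_centralizer_iff.1 hf.2 b hb.1.1).symm)
          ((Subgroup.closure_le _).2 fun z hz => Subgroup.mem_centralizer_singleton_iff.2
            (Subgroup.mem_centralizer_iff.1 hb.2 z hz))
        exact mul_inv_eq_iff_eq_mul.2 (Subgroup.mem_centralizer_singleton_iff.1 (hle hu)).symm
      by_cases hvU : v ∈ U₁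
      · refine ih'.trans (Nat.mul_le_mul ?_ (Subgroup.card_le_of_le hU12))
        exact Subgroup.card_le_of_le fun b hb => hC2mem b hb (hC1U b hb v hvU)
      · obtain ⟨z, hzF, hz⟩ : ∃ z ∈ F, ∀ f ∈ F, f = 1 ∨ f = z := by
          obtain ⟨z, hz, hz1⟩ : ∃ z ∈ F, z ≠ 1 := by
            by_contra hh
            push Not at hh
            exact hFne ((Subgroup.eq_bot_iff_forall _).2 hh)
          refine ⟨z, hz, fun f hf => ?_⟩
          have hset : ({1, z} : Set G) = (F : Set G) := Set.eq_of_subset_of_ncard_le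
            (by rintro y (rfl | rfl); exacts [one_mem _, hz])
            (by rw [← Nat.card_coe_set_eq, Set.ncard_pair (Ne.symm hz1)]; exact hF2)
          rw [← SetLike.mem_coe, ← hset] at hf
          simpa using hf
        have hdev : ∀ b ∈ C₁, b * v * b⁻¹ = v ∨ b * v * b⁻¹ = v * z := by
          intro b hb
          have h1 : ⁅v, b⁆ ∈ F := hRF (Subgroup.commutator_mem_commutator hv hb.1.1)
          have e : b * v * b⁻¹ = ⁅v, b⁆⁻¹ * v := by rw [commutatorElement_def]; group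
          rcases hz _ (inv_mem h1) with hf | hf
          · left; rw [e, hf, one_mul]
          · right; rw [e, hf, hWc _ (hW₀W (hFW₀ hzF)) v (hW₀W hv)]
        have hC : Nat.card C₁ ≤ 2 * Nat.card C₂ := by
          by_cases hall : ∀ b ∈ C₁, b * v * b⁻¹ = v
          · exact (Subgroup.card_le_of_le fun b hb => hC2mem b hb (hall b hb)).trans
              (Nat.le_mul_of_pos_left _ (by norm_num))
          · push Not at hall
            obtain ⟨b₀, hb₀, hb₀v⟩ := hall
            have hb₀z := (hdev b₀ hb₀).resolve_left hb₀v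
            have hb₀f : b₀ * z * b₀⁻¹ = z :=
              mul_inv_eq_iff_eq_mul.2 (Subgroup.mem_centralizer_iff.1 hzF.2 b₀ hb₀.1.1)
            have hzz : z * z = 1 := hWsq z (hW₀W (hFW₀ hzF))
            have hsub : (C₁ : Set G) ⊆ (C₂ : Set G) ∪ (fun y => b₀⁻¹ * y) '' (C₂ : Set G) := by
              intro b hb
              rcases hdev b hb with hh | hh
              · exact Or.inl (hC2mem b hb hh)
              · refine Or.inr ⟨b₀ * b, hC2mem _ (mul_mem hb₀ hb) ?_, by simp⟩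
                calc b₀ * b * v * (b₀ * b)⁻¹ = b₀ * (b * v * b⁻¹) * b₀⁻¹ := by group
                  _ = v := by rw [hh, conj_mul_conj, hb₀z, hb₀f, mul_assoc, hzz, mul_one]
            have e : ∀ H : Subgroup G, (H : Set G).ncard = Nat.card H := fun H =>
              (Nat.card_coe_set_eq _).symm
            calc Nat.card C₁ = (C₁ : Set G).ncard := (e _).symm
              _ ≤ _ := Set.ncard_le_ncard hsub
              _ ≤ _ := Set.ncard_union_le _ _
              _ ≤ (C₂ : Set G).ncard + (C₂ : Set G).ncard :=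
                Nat.add_le_add_left (Set.ncard_image_le) _
              _ = _ := by rw [e, two_mul]
        have hU : 2 * Nat.card U₁ ≤ Nat.card U₂ := by
          have h1 := Subgroup.relIndex_mul_relIndex ⊥ U₁ U₂ bot_le hU12
          rw [Subgroup.relIndex_bot_left, Subgroup.relIndex_bot_left] at h1
          have hne1 : U₁.relIndex U₂ ≠ 1 := fun h => hvU (Subgroup.relIndex_eq_one.1 h
            (Subgroup.mem_sup_right (Subgroup.subset_closure (Set.mem_insert _ _))))
          have hne0 : U₁.relIndex U₂ ≠ 0 := fun h => by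
            rw [h, mul_zero] at h1; exact Nat.card_pos.ne h1
          rw [← h1, mul_comm]
          exact Nat.mul_le_mul_left _ (by omega)
        calc Nat.card B * 2 ≤ Nat.card C₁ * Nat.card U₁ := ih'
          _ ≤ 2 * Nat.card C₂ * Nat.card U₁ := Nat.mul_le_mul_right _ hC
          _ = Nat.card C₂ * (2 * Nat.card U₁) := by ring
          _ ≤ _ := Nat.mul_le_mul_left _ hU
  set B₀ := B ⊓ Subgroup.centralizer (W : Set G) with hB₀
  have hB : Nat.card B * 2 ≤ Nat.card B₀ * Nat.card W₀ := by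
    have h := hbound (Set.toFinite (W₀ : Set G)).toFinset (fun u hu => by simpa using hu)
    rw [Set.Finite.coe_toFinset, Subgroup.closure_eq, sup_eq_right.2 hFW₀] at h
    refine h.trans (Nat.mul_le_mul_right _ (Subgroup.card_le_of_le fun b hb => ⟨hb.1, ?_⟩))
    refine Subgroup.mem_centralizer_iff.2 ?_
    intro w hw
    have hinvW := hsquare W le_rfl (fun u hu => hWn x hxW u hu) (fun u hu => hWn a haW u hu)
    set D := W ⊓ Subgroup.centralizer ((Subgroup.zpowers b : Subgroup G) : Set G) with hD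
    have hbfix : ∀ u ∈ W, u ∈ D ↔ b * u * b⁻¹ = u := fun u hu => by
      constructor
      · intro h
        exact mul_inv_eq_iff_eq_mul.2
          (Subgroup.mem_centralizer_iff.1 h.2 b (Subgroup.mem_zpowers b))
      · intro h
        refine ⟨hu, ?_⟩
        rw [Modules.centralizer_zpowers_eq]
        exact Subgroup.mem_centralizer_singleton_iff.2 (mul_inv_eq_iff_eq_mul.1 h).symm
    have hb0 : W₀ ≤ D := fun u hu => (hbfix u (hW₀W hu)).2
      (mul_inv_eq_iff_eq_mul.2 (Subgroup.mem_centralizer_iff.1 hb.2 u hu).symm)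
    have hDx : ∀ u ∈ D, x * u * x⁻¹ ∈ D := fun u hu => (hbfix _ (hWn x hxW u hu.1)).2 (by
      rw [hcom b hb.1.2 u hu.1, (hbfix u hu.1).1 hu])
    have hDa : ∀ u ∈ D, a * u * a⁻¹ ∈ D := by
      intro u hu
      refine (hbfix _ (hWn a haW u hu.1)).2 ?_
      have hab := Modules.elemAb_comm hA.2.1 haA hb.1.1
      calc b * (a * u * a⁻¹) * b⁻¹ = (b * a) * u * (b * a)⁻¹ := by group
        _ = (a * b) * u * (a * b)⁻¹ := by rw [hab]
        _ = a * (b * u * b⁻¹) * a⁻¹ := by group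
        _ = a * u * a⁻¹ := by rw [(hbfix u hu.1).1 hu]
    have hDcard := hsquare D inf_le_left hDx hDa
    rw [inf_eq_right.2 hb0] at hDcard
    rw [inf_eq_right.2 hW₀W, ← hDcard] at hinvW
    have hDW : D = W := Subgroup.eq_of_le_of_card_ge inf_le_left hinvW.le
    exact (mul_inv_eq_iff_eq_mul.1 ((hbfix w hw).1 (hDW.symm ▸ hw))).symm
  have hfinal := hmax B₀ (inf_le_left.trans hBA)
  simp only [Modules.offenderWeight] at hfinal
  have hWB₀ : W ⊓ Subgroup.centralizer (B₀ : Set G) = W :=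
    inf_eq_left.2 (Subgroup.le_centralizer_iff.1 inf_le_right)
  have hsq := hsquare W le_rfl (fun u hu => hWn x hxW u hu) (fun u hu => hWn a haW u hu)
  rw [inf_eq_right.2 hW₀W] at hsq
  rw [hWB₀, hsq, ← hFdef, hFcard] at hfinal
  have h4 : Nat.card B₀ * (Nat.card W₀ * Nat.card W₀) ≤ 2 * (Nat.card B₀ * Nat.card W₀) := by
    calc _ ≤ Nat.card A * 2 := hfinal
      _ ≤ 2 * Nat.card B * 2 := Nat.mul_le_mul_right 2 hAcard
      _ = 2 * (Nat.card B * 2) := by ring
      _ ≤ _ := Nat.mul_le_mul_left 2 hB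
  have hB0 : 0 < Nat.card B₀ := Nat.card_pos
  have hW0 : 0 < Nat.card W₀ := Nat.card_pos
  have hle2 : Nat.card W₀ ≤ 2 := by nlinarith [Nat.mul_pos hB0 hW0]
  have hge2 : 2 ≤ Nat.card W₀ := hFcard ▸ Subgroup.card_le_of_le hFW₀
  have : Nat.card W₀ = 2 := le_antisymm hle2 hge2
  rw [hsq, this]

end Cfsg.Agent.LocalEven
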