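import Cfsg.Prelude.Def_SylowControl
import Mathlib.GroupTheory.Sylow

/-!
Control of Sylow intersections versus strong control of fusion.
-/

open Subgroup

namespace Cfsg.Agent.LocalEven.SylowControl

set_option linter.unusedSectionVars false

variable {G : Type*} [Group G] [Finite G] {p : ℕ} [Fact p.Prime]

omit [Finite G] in
theorem mem_conjRight {g u : G} {Y : Subgroup G} :
    u ∈ Cfsg.subgroupConjRight g Y ↔ g * u * g⁻¹ ∈ Y := by
  simp only [Cfsg.subgroupConjRight, mem_map, MulEquiv.coe_toMonoidHom, MulAut.conj_apply, inv_inv]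
  refine ⟨fun ⟨x, hx, e⟩ => ?_, fun h => ⟨_, h, by group⟩⟩
  have : g * u * g⁻¹ = x := by rw [← e]; group
  rwa [this]

omit [Finite G] in
theorem conjRight_conjRight (g h : G) (Y : Subgroup G) :
    Cfsg.subgroupConjRight h (Cfsg.subgroupConjRight g Y) = Cfsg.subgroupConjRight (g * h) Y := by
  ext u
  simp [mem_conjRight, mul_assoc]

omit [Finite G] in
theorem conjRight_of_mem {g : G} {Y : Subgroup G} (h : g ∈ Y) :
    Cfsg.subgroupConjRight g Y = Y := by
  ext u
  rw [mem_conjRight]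
  refine ⟨fun hu => ?_, fun hu => Y.mul_mem (Y.mul_mem h hu) (Y.inv_mem h)⟩
  have := Y.mul_mem (Y.mul_mem (Y.inv_mem h) hu) h
  simpa [mul_assoc] using this

omit [Finite G] in
theorem conjRight_one (Y : Subgroup G) : Cfsg.subgroupConjRight 1 Y = Y :=
  conjRight_of_mem Y.one_mem

omit [Finite G] in
theorem conjRight_mono {g : G} {Y Z : Subgroup G} (h : Y ≤ Z) :
    Cfsg.subgroupConjRight g Y ≤ Cfsg.subgroupConjRight g Z := map_mono h

omit [Finite G] in
theorem conjRight_inf (g : G) (Y Z : Subgroup G) :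
    Cfsg.subgroupConjRight g (Y ⊓ Z) = Cfsg.subgroupConjRight g Y ⊓ Cfsg.subgroupConjRight g Z :=
  map_inf _ _ _ (MulAut.conj g⁻¹).injective

omit [Finite G] in
theorem coe_smul_eq (g : G) (S : Sylow p G) :
    ((g • S : Sylow p G) : Subgroup G) = Cfsg.subgroupConjRight g⁻¹ (S : Subgroup G) := by
  rw [Cfsg.subgroupConjRight, inv_inv]
  rfl

theorem mem_sylowMembers_iff {𝓕 : Set (Subgroup G)} {S X : Subgroup G} :
    X ∈ Cfsg.sylowMembers p 𝓕 S ↔
      X ∈ 𝓕 ∧ Nat.card ↥(S ⊓ X) = p ^ (Nat.card X).factorization p := by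
  constructor
  · rintro ⟨hX, P, hP⟩
    refine ⟨hX, ?_⟩
    rw [← hP, card_map_of_injective X.subtype_injective, Sylow.card_eq_multiplicity P]
  · rintro ⟨hX, hcard⟩
    refine ⟨hX, Sylow.ofCard ((S ⊓ X).subgroupOf X) ?_, ?_⟩
    · rw [Nat.card_congr (subgroupOfEquivOfLe inf_le_right).toEquiv, hcard]
    · rw [Sylow.coe_ofCard, map_subgroupOf_eq_of_le inf_le_right]

theorem conjRight_mem_members {𝓕 : Set (Subgroup G)} (h𝓕 : Cfsg.IsNormalSet 𝓕) {S X : Subgroup G}
    (g : G) (hX : X ∈ Cfsg.sylowMembers p 𝓕 S) :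
    Cfsg.subgroupConjRight g X ∈ Cfsg.sylowMembers p 𝓕 (Cfsg.subgroupConjRight g S) := by
  rw [mem_sylowMembers_iff] at hX ⊢
  refine ⟨h𝓕 X hX.1 g, ?_⟩
  have hc : ∀ Y : Subgroup G, Nat.card ↥(Cfsg.subgroupConjRight g Y) = Nat.card Y := fun Y =>
    card_map_of_injective (MulAut.conj g⁻¹).injective
  rw [← conjRight_inf, hc, hc]
  exact hX.2

theorem members_of_smul {𝓕 : Set (Subgroup G)} (h𝓕 : Cfsg.IsNormalSet 𝓕) {S : Sylow p G} {g : G}
    {X : Subgroup G} (hX : X ∈ Cfsg.sylowMembers p 𝓕 ((g • S : Sylow p G) : Subgroup G)) :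
    Cfsg.subgroupConjRight g X ∈ Cfsg.sylowMembers p 𝓕 (S : Subgroup G) := by
  have := conjRight_mem_members h𝓕 g hX
  rwa [coe_smul_eq, conjRight_conjRight, inv_mul_cancel, conjRight_one] at this

omit [Finite G] in
theorem smul_eq_of_conjRight {S T : Sylow p G} {x : G}
    (h : Cfsg.subgroupConjRight x (T : Subgroup G) = (S : Subgroup G)) : x • S = T := by
  apply Sylow.ext
  rw [coe_smul_eq, ← h, conjRight_conjRight, mul_inv_cancel, conjRight_one]

omit [Fact p.Prime] [Finite G] in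
theorem prod_take_succ' {n : ℕ} (y : Fin n → G) (i : Fin n) :
    ((List.ofFn y).take (i.val + 1)).prod = ((List.ofFn y).take i.val).prod * y i := by
  rw [List.prod_take_succ _ _ (by simp)]
  simp

theorem stronglyControls_of_controls {𝓕 : Set (Subgroup G)} (h𝓕 : Cfsg.IsNormalSet 𝓕)
    (h : Cfsg.ControlsSylowIntersections p 𝓕) : Cfsg.FamilyStronglyControlsFusion p 𝓕 := by
  intro S A g hA ⟨a, haA, ha1⟩ hAg
  have hAT : ∀ u ∈ A, u ∈ ((g • S : Sylow p G) : Subgroup G) := fun u hu => by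
    rw [coe_smul_eq, mem_conjRight, inv_inv]
    exact hAg ⟨u, hu, rfl⟩
  by_cases hST : S = g • S
  · refine ⟨0, Fin.elim0, Fin.elim0, g, Sylow.smul_eq_iff_mem_normalizer.1 hST.symm,
      fun i => i.elim0, by simp, fun i => i.elim0⟩
  have hne : (S : Subgroup G) ⊓ ((g • S : Sylow p G) : Subgroup G) ≠ ⊥ := fun hb => ha1 (by
    have : a ∈ (S : Subgroup G) ⊓ ((g • S : Sylow p G) : Subgroup G) := ⟨hA haA, hAT a haA⟩
    rwa [hb, mem_bot] at this)
  obtain ⟨n, c, X, x, hc0, hcn, hstep⟩ := h S (g • S) hST hne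
  let w : ℕ → G := Nat.rec 1 fun k acc => if hk : k < n then x ⟨k, hk⟩ * acc else acc
  have hw0 : w 0 = 1 := rfl
  have hwS : ∀ i : Fin n, w (i.val + 1) = x i * w i.val := fun i => by
    change (if hk : i.val < n then x ⟨i.val, hk⟩ * w i.val else w i.val) = _
    rw [dif_pos i.isLt]
  have hc : ∀ k : Fin (n + 1), w k.val • S = c k := by
    intro k
    induction k using Fin.induction with
    | zero => rw [Fin.val_zero, hw0, one_smul, hc0]
    | succ i ih =>
      rw [Fin.val_succ, hwS, mul_smul]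
      rw [Fin.val_castSucc] at ih
      rw [ih]
      exact smul_eq_of_conjRight (hstep i).2.2.2.1
  let y : Fin n → G := fun i => (w i.val)⁻¹ * x i * w i.val
  have hw : ∀ k, k ≤ n → ((List.ofFn y).take k).prod = w k := by
    intro k
    induction k with
    | zero => simp [hw0]
    | succ k ih =>
      intro hk
      rw [prod_take_succ' y ⟨k, hk⟩, ih (by omega), hwS ⟨k, hk⟩]
      simp [y, mul_assoc]
  refine ⟨n, fun i => Cfsg.subgroupConjRight (w i.val) (X i), y, (w n)⁻¹ * g, ?_, fun i => ⟨?_, ?_⟩,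
    ?_, fun i => ?_⟩
  · refine Sylow.smul_eq_iff_mem_normalizer.1 ?_
    have e := hc (Fin.last n)
    rw [hcn, Fin.val_last] at e
    rw [mul_smul, ← e, inv_smul_smul]
  · refine members_of_smul h𝓕 (g := w i.val) ?_
    have := hc i.castSucc
    rw [Fin.val_castSucc] at this
    rw [this]
    exact (hstep i).1
  · rw [mem_conjRight]
    simpa [y, mul_assoc] using (hstep i).2.2.1
  · rw [← mul_inv_cancel_left (w n) g]
    congr 1
    · rw [← hw n le_rfl, List.take_of_length_le (by simp)]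
    · simp
  · rw [hw _ i.isLt]
    rintro _ ⟨u, hu, rfl⟩
    have h1 := (hstep i).2.2.2.2 ⟨hA hu, hAT u hu⟩
    have h2 := hc i.succ
    rw [Fin.val_succ] at h2
    rw [mem_inf, ← h2, coe_smul_eq, mem_conjRight, inv_inv] at h1
    refine ⟨h1.1, ?_⟩
    change (w (i.val + 1))⁻¹ * u * w (i.val + 1) ∈ Cfsg.subgroupConjRight (w i.val) (X i)
    rw [mem_conjRight, hwS i]
    have hx := (hstep i).2.2.1
    have := (X i).mul_mem ((X i).mul_mem ((X i).inv_mem hx) h1.2) hx
    simpa [mul_assoc] using this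

theorem controls_of_stronglyControls {𝓕 : Set (Subgroup G)} (h𝓕 : Cfsg.IsNormalSet 𝓕)
    (h : Cfsg.FamilyStronglyControlsFusion p 𝓕) : Cfsg.ControlsSylowIntersections p 𝓕 := by
  intro S T _ hne
  obtain ⟨g, rfl⟩ := MulAction.exists_smul_eq G S T
  obtain ⟨a, ha, ha1⟩ : ∃ a ∈ (S : Subgroup G) ⊓ ((g • S : Sylow p G) : Subgroup G), a ≠ 1 := by
    by_contra hcon
    push Not at hcon
    exact hne ((eq_bot_iff_forall _).2 hcon)
  obtain ⟨n, Y, y, y₀, hy₀, hY, hg, hsub⟩ := h S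
    (((S : Subgroup G) ⊓ ((g • S : Sylow p G) : Subgroup G) : Subgroup G) : Set G) g
    (fun u hu => hu.1) ⟨a, ha, ha1⟩ (by
      rintro _ ⟨u, hu, rfl⟩
      have h2 : u ∈ ((g • S : Sylow p G) : Subgroup G) := hu.2
      rw [coe_smul_eq, mem_conjRight, inv_inv] at h2
      exact h2)
  let w : ℕ → G := fun k => ((List.ofFn y).take k).prod
  have hwS : ∀ i : Fin n, w (i.val + 1) = w i.val * y i := fun i => prod_take_succ' y i
  have hwn : w n = (List.ofFn y).prod := by
    simp only [w]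
    rw [List.take_of_length_le (by simp)]
  refine ⟨n, fun k => w k.val • S, fun i => Cfsg.subgroupConjRight (w i.val)⁻¹ (Y i),
    fun i => w i.val * y i * (w i.val)⁻¹, ?_, ?_, fun i => ?_⟩
  · simp [w]
  · show w (Fin.last n).val • S = g • S
    rw [Fin.val_last, hwn, hg, mul_smul, Sylow.smul_eq_iff_mem_normalizer.2 hy₀]
  simp only [Fin.val_succ, Fin.val_castSucc]
  obtain ⟨hYm, hyY⟩ := hY i
  have e : Cfsg.subgroupConjRight (w i.val)⁻¹ (Y i) =
      Cfsg.subgroupConjRight (w (i.val + 1))⁻¹ (Y i) := by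
    rw [hwS, mul_inv_rev, ← conjRight_conjRight, conjRight_of_mem (inv_mem hyY)]
  refine ⟨?_, ?_, ?_, ?_, ?_⟩
  · rw [coe_smul_eq]
    exact conjRight_mem_members h𝓕 _ hYm
  · rw [e, coe_smul_eq]
    exact conjRight_mem_members h𝓕 _ hYm
  · rw [mem_conjRight]
    simpa [mul_assoc] using hyY
  · rw [coe_smul_eq, coe_smul_eq, conjRight_conjRight, hwS]
    congr 1
    group
  · intro u hu
    have h1 := hsub i ⟨u, hu, rfl⟩
    rw [e]
    refine Subgroup.mem_inf.2 ⟨?_, ?_⟩
    · rw [coe_smul_eq, mem_conjRight, inv_inv]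
      exact h1.1
    · rw [mem_conjRight, inv_inv]
      exact h1.2

theorem mem_of_chain {𝓕 : Set (Subgroup G)} (h𝓕 : Cfsg.IsNormalSet 𝓕) (S : Sylow p G)
    {H : Subgroup G} (hH : ∀ X ∈ Cfsg.sylowMembers p 𝓕 (S : Subgroup G), X ≤ H) {n : ℕ}
    {c : Fin (n + 1) → Sylow p G} {X : Fin n → Subgroup G} {x : Fin n → G}
    (hstep : ∀ i : Fin n, X i ∈ Cfsg.sylowMembers p 𝓕 (c i.castSucc : Subgroup G) ∧ x i ∈ X i ∧
      Cfsg.subgroupConjRight (x i) (c i.succ : Subgroup G) = (c i.castSucc : Subgroup G))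
    (h0 : ∃ h ∈ H, h • S = c 0) : ∃ h ∈ H, h • S = c (Fin.last n) := by
  suffices ∀ k : Fin (n + 1), ∃ h ∈ H, h • S = c k from this _
  intro k
  induction k using Fin.induction with
  | zero => exact h0
  | succ i ih =>
    obtain ⟨h, hh, he⟩ := ih
    obtain ⟨h1, h2, h3⟩ := hstep i
    rw [← he] at h1
    have hm := hH _ (members_of_smul h𝓕 h1)
    have hx : h⁻¹ * x i * h ∈ H := hm (mem_conjRight.2 (by simpa [mul_assoc] using h2))
    have : x i ∈ H := by
      have := mul_mem (mul_mem hh hx) (inv_mem hh)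
      simpa [mul_assoc] using this
    exact ⟨x i * h, mul_mem this hh, by rw [mul_smul, he]; exact smul_eq_of_conjRight h3⟩

end Cfsg.Agent.LocalEven.SylowControl
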